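import Cfsg.Agent.Lib.H11.MTS7

set_option autoImplicit false
set_option linter.unusedSectionVars false

namespace Cfsg.Agent.H11

open Cfsg Matrix Module

variable {F : Type*} [Field F] [Fintype F] {m : ℕ}

/-- stabilizers of `U₀` lie in `Ω` in characteristic 2. -/
lemma stab_mem_omega (hc : (2 : F) = 0) (hm : 1 ≤ m) (hq : Fintype.card F ≠ 2 ∨ m ≠ 2)
    (g : ↥(isometryGroup F (quadFormPlus m F)))
    (hU : ∀ x ∈ U0 m F, (g : GL (Fin m ⊕ Fin m) F).val *ᵥ x ∈ U0 m F) : g ∈ Omega F (quadFormPlus m F) := by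
  classical
  set P := (g : GL (Fin m ⊕ Fin m) F).val with hPdef
  have hP : ∀ x, plusForm m F (P *ᵥ x) = plusForm m F x := mem_isometryGroup_iff.1 g.2
  have hcol : ∀ (j k : Fin m ⊕ Fin m), (P *ᵥ Pi.single j (1 : F)) k = P k j := by
    intro j k
    simp
  have h22 : ∀ i j, P (Sum.inr i) (Sum.inl j) = 0 := by
    intro i j
    have := (mem_U0 _).1 (hU (Pi.single (Sum.inl j) 1) ((mem_U0 _).2 (fun i => by simp))) i
    rwa [hcol] at this
  have h21 : P.toBlocks₂₁ = 0 := by
    ext i j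
    exact h22 i j
  have hP' : P = Matrix.fromBlocks P.toBlocks₁₁ P.toBlocks₁₂ 0 P.toBlocks₂₂ := by
    conv_lhs => rw [← Matrix.fromBlocks_toBlocks P, h21]
  have hAD : P.toBlocks₁₁.transpose * P.toBlocks₂₂ = 1 := by
    ext i j
    have h1 := isom_polar (plusForm m F) P hP (Pi.single (Sum.inl i) 1) (Pi.single (Sum.inr j) 1)
    have e : ⇑(plusForm m F) = quadFormPlus m F := rfl
    rw [e, polar_plus', polar_plus'] at h1
    simp only [hcol, h22, mul_zero, add_zero] at h1
    change ∑ k, P (Sum.inl k) (Sum.inl i) * P (Sum.inr k) (Sum.inr j) = _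
    rw [h1, Matrix.one_apply]
    by_cases hij : i = j
    · subst hij
      simp [Pi.single_apply]
    · simp [Pi.single_apply, hij, Ne.symm hij]
  set A := P.toBlocks₁₁ with hA
  set B := P.toBlocks₁₂ with hB
  set D := P.toBlocks₂₂ with hD
  have hDA : D * A.transpose = 1 := mul_eq_one_comm.1 hAD
  have hADt : A * D.transpose = 1 := by
    have := congrArg Matrix.transpose hDA
    simpa [Matrix.transpose_mul] using this
  have hDtA : D.transpose * A = 1 := mul_eq_one_comm.1 hADt
  let A' : GL (Fin m) F := ⟨A, D.transpose, hADt, hDtA⟩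
  have hsq : IsSquare ((A' : Matrix (Fin m) (Fin m) F).det) := isSquare_char2 hc _
  have hlevi := levi_mem_of_isSquare hm hq A' hsq
  let w := (leviHom m F A')⁻¹ * g
  have hw : (w : GL (Fin m ⊕ Fin m) F).val = uM (D.transpose * B) := by
    change Matrix.fromBlocks (A'⁻¹).val 0 0 A'.val.transpose * P = _
    rw [hP']
    rw [Matrix.fromBlocks_multiply]
    have e1 : (A'⁻¹).val = D.transpose := rfl
    have e2 : A'.val = A := rfl
    rw [e1, e2]
    simp only [hDtA, hAD, mul_zero, zero_mul, zero_add, add_zero, uM]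
  have halt : AltM (D.transpose * B) := by
    intro y
    have h1 := mem_isometryGroup_iff.1 w.2 (Sum.elim 0 y)
    rw [hw] at h1
    rw [quadFormPlus_eq_dot, quadFormPlus_eq_dot] at h1
    simp only [uM, Matrix.fromBlocks_mulVec, Matrix.one_mulVec, Matrix.zero_mulVec, zero_add] at h1
    simpa [Sum.elim_comp_inl, Sum.elim_comp_inr] using h1
  obtain ⟨w', hw'1, hw'2⟩ := inOm_of_alt hc hq _ halt
  have hww : w = w' := isom_ext (hw.trans hw'2.symm)
  have hw3 : w ∈ Omega F (quadFormPlus m F) := by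
    rw [hww]; exact hw'1
  have hg : g = leviHom m F A' * w := by
    simp [w]
  rw [hg]
  exact Subgroup.mul_mem _ hlevi hw3

theorem even_iff_omega (hc : (2 : F) = 0) (hm : 1 ≤ m) (hq : Fintype.card F ≠ 2 ∨ m ≠ 2)
    (g : ↥(isometryGroup F (quadFormPlus m F))) :
    Even (m - finrank F (U0 m F ⊓ (U0 m F).map (Matrix.mulVecLin ((g : GL (Fin m ⊕ Fin m) F) : Matrix (Fin m ⊕ Fin m) (Fin m ⊕ Fin m) F)) :
        Submodule F (Fin m ⊕ Fin m → F))) ↔ g ∈ Omega F (quadFormPlus m F) := by
  classical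
  constructor
  · intro he
    obtain ⟨L, hL1, hL2, hL3⟩ := exists_decomp g
    rw [← hL2] at he
    obtain ⟨n, hn⟩ := he
    have hL1' : ∀ v ∈ L.reverse, plusForm m F v ≠ 0 := by simpa using hL1
    obtain ⟨h, hh1, hh2⟩ : ∃ h : ↥(isometryGroup F (quadFormPlus m F)), h ∈ Omega F (quadFormPlus m F) ∧
        (h : GL (Fin m ⊕ Fin m) F).val = prodM (plusForm m F) L.reverse :=
      exists_omega_of_even hc (plus_nondeg' m) (card_sum m) hq n L.reverse hL1' (by
        rw [List.length_reverse]; omega)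
    have h3 := stab_mem_omega hc hm hq (h * g) (by
      intro x hx
      have := hL3 x hx
      rwa [← hh2] at this)
    have h4 : g = h⁻¹ * (h * g) := by simp
    rw [h4]
    exact Subgroup.mul_mem _ (Subgroup.inv_mem _ hh1) h3
  · intro hg
    have h3 := dick_omega (card_sum m) (plus_nondeg' (F := F) m) (U0_mts m) hg
    have hle := (U0_mts (F := F) m).inf_le (W := imG (Q := plusForm m F) g (U0 m F))
    obtain ⟨n, hn⟩ := h3
    exact ⟨n - finrank F (U0 m F ⊓ imG (Q := plusForm m F) g (U0 m F) : Submodule F (Fin m ⊕ Fin m → F)), by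
      have : m - finrank F (U0 m F ⊓ (U0 m F).map (Matrix.mulVecLin ((g : GL (Fin m ⊕ Fin m) F) : Matrix (Fin m ⊕ Fin m) (Fin m ⊕ Fin m) F)) :
        Submodule F (Fin m ⊕ Fin m → F)) = m - finrank F (U0 m F ⊓ imG (Q := plusForm m F) g (U0 m F) : Submodule F (Fin m ⊕ Fin m → F)) := rfl
      rw [this]
      omega⟩

end Cfsg.Agent.H11
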