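import Cfsg.Agent.Lib.H11.A6Data

set_option autoImplicit false

namespace Cfsg.Agent.H11.A6Opp

open Equiv Equiv.Perm
open scoped Pointwise

/-- the explicit Sylow 2-subgroup as a subgroup of `S₆` -/
def PS : Subgroup S6 where
  carrier := {x | x ∈ pl}
  mul_mem' := fun {x y} hx hy => pl_mul x hx y hy
  one_mem' := pl_one
  inv_mem' := fun {x} hx => pl_inv x hx

lemma mem_PS {x : S6} : x ∈ PS ↔ x ∈ pl := Iff.rfl

lemma PS_le : PS ≤ alternatingGroup (Fin 6) := by
  intro x hx
  exact Equiv.Perm.mem_alternatingGroup.2 (pl_even x hx)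

lemma card_PS : Nat.card PS = 8 := by
  classical
  have h : (PS : Set S6) = (pl.toFinset : Set S6) := by
    ext x
    simp [mem_PS]
  rw [show Nat.card PS = Nat.card (PS : Set S6) from rfl, Nat.card_coe_set_eq, h,
    Set.ncard_coe_finset, List.toFinset_card_of_nodup pl_nodup, pl_length]

/-- the explicit Sylow 2-subgroup of `A₆` -/
def P0S : Subgroup A6 := PS.subgroupOf (alternatingGroup (Fin 6))

lemma mem_P0S {y : A6} : y ∈ P0S ↔ (y : S6) ∈ pl := Subgroup.mem_subgroupOf

lemma card_P0S : Nat.card P0S = 8 := by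
  rw [← card_PS]
  exact Nat.card_congr (Subgroup.subgroupOfEquivOfLe PS_le).toEquiv

lemma card_A6 : Nat.card A6 = 360 := by
  have h := two_mul_nat_card_alternatingGroup (α := Fin 6)
  have h2 : Nat.card (Perm (Fin 6)) = 720 := by
    rw [Nat.card_eq_fintype_card, Fintype.card_perm]
    decide
  have h3 : 2 * Nat.card (alternatingGroup (Fin 6)) = 720 := by
    rw [h, h2]
  change Nat.card (alternatingGroup (Fin 6)) = 360
  omega

lemma index_P0S : P0S.index = 45 := by
  have h := Subgroup.card_mul_index P0S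
  rw [card_P0S, card_A6] at h
  omega

/-- as a Sylow subgroup -/
noncomputable def P0 : Sylow 2 A6 :=
  IsPGroup.toSylow (p := 2) (P := P0S) (IsPGroup.of_card (n := 3) (by rw [card_P0S]; norm_num))
    (by rw [index_P0S]; norm_num)

lemma coe_P0 : (P0 : Subgroup A6) = P0S := rfl

lemma mem_P0 {y : A6} : y ∈ (P0 : Subgroup A6) ↔ (y : S6) ∈ pl := by
  rw [coe_P0, mem_P0S]

/-- lift of the representative -/
def tA (i : Fin 45) : A6 := ⟨t i, Equiv.Perm.mem_alternatingGroup.2 (t_even i)⟩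

/-- the conjugates -/
noncomputable def f (i : Fin 45) : Sylow 2 A6 := tA i • P0

lemma mem_f {i : Fin 45} {y : A6} :
    y ∈ (f i : Subgroup A6) ↔ ((t i)⁻¹ * (y : S6) * t i) ∈ pl := by
  rw [f, Sylow.coe_subgroup_smul, Subgroup.mem_pointwise_smul_iff_inv_smul_mem, MulAut.smul_def,
    ← map_inv, MulAut.conj_apply, inv_inv, mem_P0]
  rfl

/-- lift of a list element -/
def lif (x : S6) (hx : x ∈ pl) : A6 := ⟨x, PS_le hx⟩

/-- the conjugate of an element of the list -/
def conjL (i : Fin 45) (x : S6) (hx : x ∈ pl) : A6 := tA i * lif x hx * (tA i)⁻¹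

lemma conjL_coe (i : Fin 45) (x : S6) (hx : x ∈ pl) :
    ((conjL i x hx : A6) : S6) = t i * x * (t i)⁻¹ := rfl

lemma conjL_mem (i : Fin 45) (x : S6) (hx : x ∈ pl) : conjL i x hx ∈ (f i : Subgroup A6) := by
  rw [mem_f, conjL_coe]
  have : (t i)⁻¹ * (t i * x * (t i)⁻¹) * t i = x := by group
  rw [this]
  exact hx

lemma aux_zz {g : S6} (h1 : ∀ x ∈ pl, g * x * g⁻¹ ∈ pl) (h2 : ∀ x ∈ pl, g⁻¹ * x * g ∈ pl) :
    g * zz * g⁻¹ = zz := by
  apply zz_unique _ (h1 _ zz_mem)
  · intro h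
    have h3 : zz = g⁻¹ * (g * zz * g⁻¹) * g := by group
    rw [h] at h3
    apply zz_ne
    rw [h3]
    group
  · intro y hy
    have h3 := h2 y hy
    have h4 := zz_comm _ h3
    calc g * zz * g⁻¹ * y = g * (zz * (g⁻¹ * y * g)) * g⁻¹ := by group
      _ = g * ((g⁻¹ * y * g) * zz) * g⁻¹ := by rw [h4]
      _ = _ := by group

lemma f_inj : Function.Injective f := by
  intro i j hij
  apply t_zz_inj
  have H : ∀ (i j : Fin 45), f i = f j → ∀ x ∈ pl, ((t j)⁻¹ * t i) * x * ((t j)⁻¹ * t i)⁻¹ ∈ pl := by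
    intro i j hij x hx
    have h1 := conjL_mem i x hx
    rw [hij, mem_f, conjL_coe] at h1
    have : (t j)⁻¹ * t i * x * ((t j)⁻¹ * t i)⁻¹ = (t j)⁻¹ * (t i * x * (t i)⁻¹) * t j := by group
    rw [this]
    exact h1
  have h1 := aux_zz (g := (t j)⁻¹ * t i) (H i j hij) (by
    intro x hx
    have h2 := H j i hij.symm x hx
    have : ((t j)⁻¹ * t i)⁻¹ = (t i)⁻¹ * t j := by group
    rw [this]
    simpa using h2)
  calc t i * zz * (t i)⁻¹ = t j * (((t j)⁻¹ * t i) * zz * ((t j)⁻¹ * t i)⁻¹) * (t j)⁻¹ := by group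
    _ = _ := by rw [h1]

lemma card_sylow_ge : 45 ≤ Nat.card (Sylow 2 A6) := by
  have := Nat.card_le_card_of_injective f f_inj
  simpa using this

lemma normalizer_eq :
    Subgroup.normalizer ((P0 : Subgroup A6) : Set A6) = (P0 : Subgroup A6) ∧
      Nat.card (Sylow 2 A6) = 45 := by
  set N : Subgroup A6 := Subgroup.normalizer ((P0 : Subgroup A6) : Set A6) with hN
  have h1 : Nat.card (Sylow 2 A6) = N.index := Sylow.card_eq_index_normalizer (P0 : Sylow 2 A6)
  have h2 := Subgroup.card_mul_index N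
  rw [card_A6] at h2
  have h3 : (P0 : Subgroup A6) ≤ N := Subgroup.le_normalizer
  have h4 : Nat.card (P0 : Subgroup A6) = 8 := card_P0S
  have h5 := Subgroup.card_dvd_of_le h3
  rw [h4] at h5
  have h6 := card_sylow_ge
  rw [h1] at h6
  obtain ⟨m, hm⟩ := h5
  rw [hm] at h2
  have hm1 : m = 1 := by
    have hm0 : 0 < m := by
      rcases Nat.eq_zero_or_pos m with h | h
      · subst h
        simp at h2
      · exact h
    have h7 : m * N.index = 45 := by
      nlinarith
    by_contra hne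
    have h8 : 2 * 45 ≤ m * N.index := Nat.mul_le_mul (by omega) h6
    omega
  subst hm1
  refine ⟨?_, ?_⟩
  · symm
    apply Subgroup.eq_of_le_of_card_ge h3
    rw [hm, h4]
  · rw [h1]
    omega

lemma f_bij : Function.Bijective f := by
  apply Function.Injective.bijective_of_nat_card_le f_inj
  rw [normalizer_eq.2]
  simp

lemma hnorm (g : A6) (hg : g • P0 = P0) : g ∈ P0 := by
  have h := Sylow.smul_eq_iff_mem_normalizer.1 hg
  have h2 : g ∈ (P0 : Subgroup A6) := by
    rw [← normalizer_eq.1]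
    exact h
  exact h2

open OppSyl in
lemma rel_b (i : Fin 45) (hi : i.val < 16) : CommRel (P0) (f i) := by
  obtain ⟨x, hx, hx1, y, hy, hy1, hxy⟩ := c_b i hi
  refine ⟨lif x hx, mem_P0.2 hx, ?_, conjL i y hy, conjL_mem i y hy, ?_, ?_⟩
  · intro h
    exact hx1 (congrArg Subtype.val h)
  · intro h
    apply hy1
    have h2 := congrArg Subtype.val h
    rw [conjL_coe] at h2
    have h3 : y = (t i)⁻¹ * (t i * y * (t i)⁻¹) * t i := by group
    rw [h3, h2]
    simp
  · apply Subtype.ext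
    exact hxy

open OppSyl in
lemma rel_c (i : Fin 45) (h1 : 16 ≤ i.val) (h2 : i.val < 32) : ¬ CommRel (P0) (f i) := by
  rintro ⟨x, hx, hx1, y, hy, hy1, hxy⟩
  rw [mem_f] at hy
  refine c_c i h1 h2 x (mem_P0.1 hx) ?_ _ hy ?_ ?_
  · intro h
    exact hx1 (Subtype.ext h)
  · intro h
    apply hy1
    apply Subtype.ext
    have h3 : (y : S6) = t i * ((t i)⁻¹ * y * t i) * (t i)⁻¹ := by group
    rw [h3, h]
    simp
  · have h3 : t i * ((t i)⁻¹ * (y : S6) * t i) * (t i)⁻¹ = y := by group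
    rw [h3]
    exact congrArg Subtype.val hxy

lemma rel_a (i : Fin 45) (hi : 32 ≤ i.val) : (f i : Subgroup A6) ⊓ P0 ≠ ⊥ := by
  obtain ⟨x, hx, hx1, hx2⟩ := c_a i hi
  intro h
  have h3 : lif x hx ∈ (f i : Subgroup A6) ⊓ P0 := Subgroup.mem_inf.2 ⟨mem_f.2 hx2, mem_P0.2 hx⟩
  rw [h, Subgroup.mem_bot] at h3
  exact hx1 (congrArg Subtype.val h3)

open OppSyl in
lemma hcount (Q₂ : Sylow 2 A6) :
    Nat.card {Q : Sylow 2 A6 // (Q : Subgroup A6) ⊓ P0 = ⊥ ∧ (CommRel P0 Q ↔ CommRel P0 Q₂)} <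
      2 ^ 2 * Nat.card (P0 : Subgroup A6) := by
  classical
  have h4 : Nat.card (P0 : Subgroup A6) = 8 := card_P0S
  rw [h4]
  let fe := Equiv.ofBijective f f_bij
  have hfe : ∀ Q : Sylow 2 A6, f (fe.symm Q) = Q := fun Q => fe.apply_symm_apply Q
  by_cases hR : CommRel P0 Q₂
  · let g : {Q : Sylow 2 A6 // (Q : Subgroup A6) ⊓ P0 = ⊥ ∧ (CommRel P0 Q ↔ CommRel P0 Q₂)} →
        {i : Fin 45 // i.val < 16} := fun Q => ⟨fe.symm Q.1, by
      by_contra hlt
      have h5 := hfe Q.1
      by_cases h6 : (fe.symm Q.1).val < 32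
      · apply rel_c (fe.symm Q.1) (by omega) h6
        rw [h5]
        exact Q.2.2.2 hR
      · apply rel_a (fe.symm Q.1) (by omega)
        rw [h5]
        exact Q.2.1⟩
    have hg : Function.Injective g := by
      intro Q Q' h
      apply Subtype.ext
      have h5 : fe.symm Q.1 = fe.symm Q'.1 := congrArg Subtype.val h
      exact fe.symm.injective h5
    have h5 := Nat.card_le_card_of_injective g hg
    have h6 : Nat.card {i : Fin 45 // i.val < 16} = 16 := by
      rw [Nat.card_eq_fintype_card]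
      decide +kernel
    omega
  · let g : {Q : Sylow 2 A6 // (Q : Subgroup A6) ⊓ P0 = ⊥ ∧ (CommRel P0 Q ↔ CommRel P0 Q₂)} →
        {i : Fin 45 // 16 ≤ i.val ∧ i.val < 32} := fun Q => ⟨fe.symm Q.1, by
      have h5 := hfe Q.1
      have h7 : ¬ CommRel P0 Q.1 := fun h => hR (Q.2.2.1 h)
      refine ⟨?_, ?_⟩
      · by_contra hlt
        apply h7
        rw [← h5]
        exact rel_b (fe.symm Q.1) (by omega)
      · by_contra hlt
        apply rel_a (fe.symm Q.1) (by omega)
        rw [h5]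
        exact Q.2.1⟩
    have hg : Function.Injective g := by
      intro Q Q' h
      apply Subtype.ext
      have h5 : fe.symm Q.1 = fe.symm Q'.1 := congrArg Subtype.val h
      exact fe.symm.injective h5
    have h5 := Nat.card_le_card_of_injective g hg
    have h6 : Nat.card {i : Fin 45 // 16 ≤ i.val ∧ i.val < 32} = 16 := by
      rw [Nat.card_eq_fintype_card]
      decide +kernel
    omega

open OppSyl in
/-- the statement for a group with normal `A₆` of index 4 -/
theorem main_thm {G : Type*} [Group G] [Finite G] (N : Subgroup G) [N.Normal] (e : N ≃* A6)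
    (hidx : N.index = 2 ^ 2) (H₁ H₂ : Sylow 2 G) : (H₁ : Subgroup G) ⊓ H₂ ≠ ⊥ :=
  reduction' e hidx CommRel commRel_smul P0 hnorm hcount H₁ H₂

end Cfsg.Agent.H11.A6Opp
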