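import Mathlib

/-! Largest abelian subgroups of symmetric and alternating groups. -/

namespace Cfsg.Agent.H11.AbPerm

open Equiv MulAction

/-- Maximal product of a partition. -/
def f : ℕ → ℕ
  | 0 => 1
  | 1 => 1
  | 2 => 2
  | 3 => 3
  | 4 => 4
  | n + 5 => 3 * f (n + 2)

/-- Maximal product of a partition without parts equal to two (non-trivially). -/
def g : ℕ → ℕ
  | 0 => 1
  | 1 => 1
  | 2 => 1
  | 3 => 3
  | 4 => 4
  | 5 => 5
  | 6 => 9
  | 7 => 12
  | 8 => 16
  | n + 9 => 3 * g (n + 6)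

theorem f_succ (n : ℕ) : f (n + 5) = 3 * f (n + 2) := by
  rw [f]

theorem g_succ (n : ℕ) : g (n + 9) = 3 * g (n + 6) := by
  rw [g]

theorem f_three (n : ℕ) : 3 * f n ≤ f (n + 3) := by
  rcases n with _ | _ | n
  · decide
  · decide
  · have : n + 1 + 1 + 3 = n + 5 := by omega
    rw [this, f_succ]

theorem g_three (n : ℕ) : 3 * g n ≤ g (n + 3) := by
  rcases n with _ | _ | _ | _ | _ | _ | n
  · decide
  · decide
  · decide
  · decide
  · decide
  · decide
  · have : n + 1 + 1 + 1 + 1 + 1 + 1 + 3 = n + 9 := by omega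
    rw [this, g_succ]

theorem f_mul_aux' : ∀ a, a < 5 → ∀ b, b < 5 → f a * f b ≤ f (a + b) := by
  decide

theorem f_mul_aux (a b : ℕ) (ha : a < 5) (hb : b < 5) : f a * f b ≤ f (a + b) :=
  f_mul_aux' a ha b hb

theorem g_mul_aux' : ∀ a, a < 9 → ∀ b, b < 9 → g a * g b ≤ g (a + b) := by
  decide

theorem g_mul_aux (a b : ℕ) (ha : a < 9) (hb : b < 9) : g a * g b ≤ g (a + b) :=
  g_mul_aux' a ha b hb

theorem f_mul_left (a b : ℕ) (ha : a < 5) : f a * f b ≤ f (a + b) := by
  induction b using Nat.strong_induction_on with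
  | _ b ih =>
    by_cases hb : b < 5
    · exact f_mul_aux a b ha hb
    · obtain ⟨c, rfl⟩ : ∃ c, b = c + 5 := ⟨b - 5, by omega⟩
      rw [f_succ]
      have h1 := ih (c + 2) (by omega)
      have h2 := f_three (a + (c + 2))
      have : a + (c + 5) = a + (c + 2) + 3 := by omega
      rw [this]
      nlinarith

theorem f_mul (a b : ℕ) : f a * f b ≤ f (a + b) := by
  induction a using Nat.strong_induction_on with
  | _ a ih =>
    by_cases ha : a < 5
    · exact f_mul_left a b ha
    · obtain ⟨c, rfl⟩ : ∃ c, a = c + 5 := ⟨a - 5, by omega⟩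
      rw [f_succ]
      have h1 := ih (c + 2) (by omega)
      have h2 := f_three (c + 2 + b)
      have : c + 5 + b = c + 2 + b + 3 := by omega
      rw [this]
      nlinarith

theorem g_mul_left (a b : ℕ) (ha : a < 9) : g a * g b ≤ g (a + b) := by
  induction b using Nat.strong_induction_on with
  | _ b ih =>
    by_cases hb : b < 9
    · exact g_mul_aux a b ha hb
    · obtain ⟨c, rfl⟩ : ∃ c, b = c + 9 := ⟨b - 9, by omega⟩
      rw [g_succ]
      have h1 := ih (c + 6) (by omega)
      have h2 := g_three (a + (c + 6))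
      have : a + (c + 9) = a + (c + 6) + 3 := by omega
      rw [this]
      nlinarith

theorem g_mul (a b : ℕ) : g a * g b ≤ g (a + b) := by
  induction a using Nat.strong_induction_on with
  | _ a ih =>
    by_cases ha : a < 9
    · exact g_mul_left a b ha
    · obtain ⟨c, rfl⟩ : ∃ c, a = c + 9 := ⟨a - 9, by omega⟩
      rw [g_succ]
      have h1 := ih (c + 6) (by omega)
      have h2 := g_three (c + 6 + b)
      have : c + 9 + b = c + 6 + b + 3 := by omega
      rw [this]
      nlinarith

theorem le_f (a : ℕ) : a ≤ f a := by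
  induction a using Nat.strong_induction_on with
  | _ a ih =>
    by_cases ha : a < 5
    · interval_cases a <;> decide
    · obtain ⟨c, rfl⟩ : ∃ c, a = c + 5 := ⟨a - 5, by omega⟩
      rw [f_succ]
      have := ih (c + 2) (by omega)
      omega

theorem le_g (a : ℕ) (h2 : a ≠ 2) : a ≤ g a := by
  induction a using Nat.strong_induction_on with
  | _ a ih =>
    by_cases ha : a < 9
    · interval_cases a <;> first | decide | exact absurd rfl h2
    · obtain ⟨c, rfl⟩ : ∃ c, a = c + 9 := ⟨a - 9, by omega⟩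
      rw [g_succ]
      have := ih (c + 6) (by omega) (by omega)
      omega

theorem prod_le_f {ι : Type*} (s : Finset ι) (a : ι → ℕ) : ∏ i ∈ s, a i ≤ f (∑ i ∈ s, a i) := by
  classical
  induction s using Finset.induction_on with
  | empty => simp [f]
  | insert x s hx ih =>
    rw [Finset.prod_insert hx, Finset.sum_insert hx]
    calc a x * ∏ i ∈ s, a i ≤ f (a x) * f (∑ i ∈ s, a i) := Nat.mul_le_mul (le_f _) ih
      _ ≤ _ := f_mul _ _

theorem prod_le_g {ι : Type*} (s : Finset ι) (a : ι → ℕ) (h : ∀ i ∈ s, a i ≠ 2) :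
    ∏ i ∈ s, a i ≤ g (∑ i ∈ s, a i) := by
  classical
  induction s using Finset.induction_on with
  | empty => simp [g]
  | insert x s hx ih =>
    rw [Finset.prod_insert hx, Finset.sum_insert hx]
    have h1 := ih (fun i hi => h i (Finset.mem_insert_of_mem hi))
    calc a x * ∏ i ∈ s, a i ≤ g (a x) * g (∑ i ∈ s, a i) :=
          Nat.mul_le_mul (le_g _ (h x (Finset.mem_insert_self _ _))) h1
      _ ≤ _ := g_mul _ _

/-! closed forms -/

theorem f_three_mul (k : ℕ) : f (3 * k) = 3 ^ k := by
  induction k with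
  | zero => rfl
  | succ k ih =>
    rcases k with _ | k
    · rfl
    · have : 3 * (k + 1 + 1) = (3 * k + 1) + 5 := by ring
      rw [this, f_succ, show 3 * k + 1 + 2 = 3 * (k + 1) by ring, ih]
      ring

theorem f_three_mul_one (k : ℕ) : f (3 * (k + 1) + 1) = 4 * 3 ^ k := by
  induction k with
  | zero => rfl
  | succ k ih =>
    have : 3 * (k + 1 + 1) + 1 = (3 * k + 2) + 5 := by ring
    rw [this, f_succ, show 3 * k + 2 + 2 = 3 * (k + 1) + 1 by ring, ih]
    ring

theorem f_three_mul_two (k : ℕ) : f (3 * k + 2) = 2 * 3 ^ k := by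
  induction k with
  | zero => rfl
  | succ k ih =>
    have : 3 * (k + 1) + 2 = (3 * k) + 5 := by ring
    rw [this, f_succ, show 3 * k + 2 = 3 * k + 2 by rfl, ih]
    ring

theorem g_three_mul (k : ℕ) : g (3 * k) = 3 ^ k := by
  induction k with
  | zero => rfl
  | succ k ih =>
    rcases k with _ | _ | k
    · rfl
    · rfl
    · have : 3 * (k + 1 + 1 + 1) = (3 * k) + 9 := by ring
      rw [this, g_succ, show 3 * k + 6 = 3 * (k + 1 + 1) by ring, ih]
      ring

theorem g_three_mul_one (k : ℕ) : g (3 * (k + 1) + 1) = 4 * 3 ^ k := by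
  induction k with
  | zero => rfl
  | succ k ih =>
    rcases k with _ | k
    · rfl
    · have : 3 * (k + 1 + 1 + 1) + 1 = (3 * k + 1) + 9 := by ring
      rw [this, g_succ, show 3 * k + 1 + 6 = 3 * (k + 1 + 1) + 1 by ring, ih]
      ring

theorem g_three_mul_two (k : ℕ) : g (3 * (k + 2) + 2) = 16 * 3 ^ k := by
  induction k with
  | zero => rfl
  | succ k ih =>
    have : 3 * (k + 1 + 2) + 2 = (3 * k + 2) + 9 := by ring
    rw [this, g_succ, show 3 * k + 2 + 6 = 3 * (k + 2) + 2 by ring, ih]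
    ring

/-! upper bounds -/

variable {X : Type*} [Fintype X] [DecidableEq X]

/-- orbits of a subgroup of `Perm X` -/
abbrev Om (A : Subgroup (Perm X)) : Type _ := orbitRel.Quotient A X

theorem card_orbit_sum (A : Subgroup (Perm X)) [Fintype (Om A)] :
    ∑ ω : Om A, Nat.card (orbit A (Quotient.out ω)) = Fintype.card X := by
  classical
  have e := selfEquivSigmaOrbits A X
  rw [← Nat.card_eq_fintype_card (α := X), Nat.card_congr e, Nat.card_sigma]

theorem eq_on_orbit (A : Subgroup (Perm X)) (hA : IsMulCommutative A) (a b : A) (x : X)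
    (h : a • x = b • x) (y : X) (hy : y ∈ orbit A x) : a • y = b • y := by
  obtain ⟨c, rfl⟩ := hy
  simp only
  have h1 : a * c = c * a := hA.is_comm.comm a c
  have h2 : b * c = c * b := hA.is_comm.comm b c
  rw [← mul_smul, ← mul_smul, h1, h2, mul_smul, mul_smul, h]

theorem out_orbit (A : Subgroup (Perm X)) (y : X) :
    y ∈ orbit A (Quotient.out (Quotient.mk'' y : Om A)) := by
  have h : Quotient.out (Quotient.mk'' y : Om A) ∈ orbit A y := orbitRel_apply.1 (Quotient.mk_out (s := orbitRel A X) y)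
  rw [orbit_eq_iff.2 h]
  exact mem_orbit_self y

theorem card_le_prod (A : Subgroup (Perm X)) (hA : IsMulCommutative A) [Fintype (Om A)] :
    Nat.card A ≤ ∏ ω : Om A, Nat.card (orbit A (Quotient.out ω)) := by
  classical
  have hinj : Function.Injective (fun (a : A) (ω : Om A) =>
      (⟨a • Quotient.out ω, mem_orbit _ a⟩ : orbit A (Quotient.out ω))) := by
    intro a b h
    apply Subtype.ext
    ext y
    have h1 : a • Quotient.out (Quotient.mk'' y : Om A) = b • Quotient.out (Quotient.mk'' y : Om A) :=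
      congrArg Subtype.val (congrFun h (Quotient.mk'' y))
    exact eq_on_orbit A hA a b _ h1 y (out_orbit A y)
  have := Nat.card_le_card_of_injective _ hinj
  rwa [Nat.card_pi] at this

theorem card_le_prod_even (A : Subgroup (Perm X)) (hA : IsMulCommutative A)
    (hE : ∀ a ∈ A, Perm.sign a = 1) [Fintype (Om A)] [DecidableEq (Om A)] (ω₀ : Om A)
    (h2 : Nat.card (orbit A (Quotient.out ω₀)) = 2) :
    Nat.card A ≤ ∏ ω ∈ Finset.univ.erase ω₀, Nat.card (orbit A (Quotient.out ω)) := by
  classical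
  have hinj : Function.Injective (fun (a : A) (ω : {ω : Om A // ω ≠ ω₀}) =>
      (⟨a • Quotient.out ω.1, mem_orbit _ a⟩ : orbit A (Quotient.out ω.1))) := by
    intro a b h
    have hor : ∀ y : X, (Quotient.mk'' y : Om A) ≠ ω₀ → a • y = b • y := by
      intro y hy
      have h1 : a • Quotient.out (Quotient.mk'' y : Om A) = b • Quotient.out (Quotient.mk'' y : Om A) :=
        congrArg Subtype.val (congrFun h ⟨Quotient.mk'' y, hy⟩)
      exact eq_on_orbit A hA a b _ h1 y (out_orbit A y)
    set x := Quotient.out ω₀ with hx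
    by_cases hxx : a • x = b • x
    · apply Subtype.ext
      ext y
      by_cases hy : (Quotient.mk'' y : Om A) = ω₀
      · apply eq_on_orbit A hA a b x hxx y
        have := out_orbit A y
        rwa [hy] at this
      · exact hor y hy
    · exfalso
      -- the element `c = a⁻¹ b` is the transposition of the orbit of `x`
      set c : A := a⁻¹ * b with hc
      have hfix : ∀ y : X, (Quotient.mk'' y : Om A) ≠ ω₀ → c • y = y := by
        intro y hy
        rw [hc, mul_smul, ← hor y hy, inv_smul_smul]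
      have hcx : c • x ≠ x := by
        intro e
        apply hxx
        rw [hc, mul_smul, inv_smul_eq_iff] at e
        exact e.symm
      have hcxo : c • x ∈ orbit A x := mem_orbit _ c
      have hO : ∀ y ∈ orbit A x, y = x ∨ y = c • x := by
        have hcard : Nat.card (orbit A x) = 2 := h2
        intro y hy
        by_contra hcon
        push Not at hcon
        have h3 : 3 ≤ Nat.card (orbit A x) := by
          rw [Nat.card_eq_fintype_card]
          have : ({⟨x, mem_orbit_self x⟩, ⟨c • x, hcxo⟩, ⟨y, hy⟩} : Finset (orbit A x)).card = 3 := by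
            rw [Finset.card_insert_of_notMem, Finset.card_insert_of_notMem, Finset.card_singleton]
            · simp only [Finset.mem_singleton, Subtype.mk.injEq]
              exact fun e => hcon.2 e.symm
            · simp only [Finset.mem_insert, Finset.mem_singleton, Subtype.mk.injEq, not_or]
              exact ⟨fun e => hcx e.symm, fun e => hcon.1 e.symm⟩
          rw [← this]
          exact Finset.card_le_univ _
        omega
      have hcc : c • (c • x) = x := by
        have h4 : c • (c • x) ∈ orbit A x := by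
          rw [← smul_assoc]
          exact mem_orbit _ _
        rcases hO _ h4 with h5 | h5
        · exact h5
        · exact absurd (smul_left_cancel c h5) hcx
      have hperm : (c : Perm X) = swap x (c • x) := by
        ext y
        by_cases hy1 : y = x
        · subst hy1
          simp only [swap_apply_left]
          rfl
        by_cases hy2 : y = c • x
        · subst hy2
          simp only [swap_apply_right]
          exact hcc
        rw [swap_apply_of_ne_of_ne hy1 hy2]
        have hy3 : (Quotient.mk'' y : Om A) ≠ ω₀ := by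
          intro e
          have := out_orbit A y
          rw [e] at this
          rcases hO y this with h | h
          · exact hy1 h
          · exact hy2 h
        exact hfix y hy3
      have hs := hE c c.2
      rw [hperm, Perm.sign_swap (Ne.symm hcx)] at hs
      exact absurd hs (by decide)
  have := Nat.card_le_card_of_injective _ hinj
  rw [Nat.card_pi] at this
  refine this.trans (le_of_eq ?_)
  rw [Finset.prod_subtype (Finset.univ.erase ω₀) (p := fun ω => ω ≠ ω₀) (by simp)]

theorem bound_perm (A : Subgroup (Perm X)) (hA : IsMulCommutative A) :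
    Nat.card A ≤ f (Fintype.card X) := by
  classical
  letI : Fintype (Om A) := Fintype.ofFinite _
  refine (card_le_prod A hA).trans ?_
  rw [← card_orbit_sum A]
  exact prod_le_f _ _

theorem bound_even (A : Subgroup (Perm X)) (hA : IsMulCommutative A)
    (hE : ∀ a ∈ A, Perm.sign a = 1) (v : ℕ) (h1 : f (Fintype.card X - 2) ≤ v) (h2 : g (Fintype.card X) ≤ v) :
    Nat.card A ≤ v := by
  classical
  letI : Fintype (Om A) := Fintype.ofFinite _
  by_cases h : ∃ ω₀ : Om A, Nat.card (orbit A (Quotient.out ω₀)) = 2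
  · obtain ⟨ω₀, hω⟩ := h
    refine (card_le_prod_even A hA hE ω₀ hω).trans ?_
    refine (prod_le_f _ _).trans ?_
    have : ∑ ω ∈ Finset.univ.erase ω₀, Nat.card (orbit A (Quotient.out ω)) = Fintype.card X - 2 := by
      rw [← card_orbit_sum A, ← Finset.add_sum_erase _ _ (Finset.mem_univ ω₀), hω]
      omega
    rw [this]
    exact h1
  · push Not at h
    refine (card_le_prod A hA).trans ?_
    refine (prod_le_g _ _ (fun ω _ => h ω)).trans ?_
    rwa [card_orbit_sum A]

/-! constructions -/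

/-- A commutative subgroup of `Perm X` of order `c`, all of its elements even when `E` holds. -/
def Ach (E : Prop) (X : Type*) [Fintype X] [DecidableEq X] (c : ℕ) : Prop :=
  ∃ A : Subgroup (Perm X), IsMulCommutative A ∧ Nat.card A = c ∧ (E → ∀ a ∈ A, Perm.sign a = 1)

theorem Ach.sum {E : Prop} {X Y : Type*} [Fintype X] [DecidableEq X] [Fintype Y] [DecidableEq Y] {a b : ℕ}
    (hX : Ach E X a) (hY : Ach E Y b) : Ach E (X ⊕ Y) (a * b) := by
  obtain ⟨A, hA, hAc, hAE⟩ := hX
  obtain ⟨B, hB, hBc, hBE⟩ := hY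
  refine ⟨(A.prod B).map (Perm.sumCongrHom X Y), ⟨⟨?_⟩⟩, ?_, ?_⟩
  · rintro ⟨_, ⟨x, hx, rfl⟩⟩ ⟨_, ⟨y, hy, rfl⟩⟩
    apply Subtype.ext
    simp only [Subgroup.coe_mul]
    rw [← map_mul, ← map_mul]
    congr 1
    refine Prod.ext ?_ ?_
    · exact congrArg Subtype.val (hA.is_comm.comm ⟨x.1, hx.1⟩ ⟨y.1, hy.1⟩)
    · exact congrArg Subtype.val (hB.is_comm.comm ⟨x.2, hx.2⟩ ⟨y.2, hy.2⟩)
  · rw [Subgroup.card_map_of_injective Perm.sumCongrHom_injective, Nat.card_congr (Subgroup.prodEquiv A B).toEquiv, Nat.card_prod, hAc, hBc]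
  · rintro e _ ⟨x, hx, rfl⟩
    change Perm.sign (Perm.sumCongr x.1 x.2) = 1
    rw [Perm.sign_sumCongr, hAE e _ hx.1, hBE e _ hx.2, one_mul]

theorem Ach.congr {E : Prop} {X Y : Type*} [Fintype X] [DecidableEq X] [Fintype Y] [DecidableEq Y] {a : ℕ}
    (e : X ≃ Y) (hX : Ach E X a) : Ach E Y a := by
  obtain ⟨A, hA, hAc, hAE⟩ := hX
  refine ⟨A.map (Equiv.permCongrHom e).toMonoidHom, ⟨⟨?_⟩⟩, ?_, ?_⟩
  · rintro ⟨_, ⟨x, hx, rfl⟩⟩ ⟨_, ⟨y, hy, rfl⟩⟩
    apply Subtype.ext
    simp only [Subgroup.coe_mul]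
    rw [← map_mul, ← map_mul]
    congr 1
    exact congrArg Subtype.val (hA.is_comm.comm ⟨x, hx⟩ ⟨y, hy⟩)
  · rw [Subgroup.card_map_of_injective (Equiv.permCongrHom e).injective, hAc]
  · rintro h _ ⟨x, hx, rfl⟩
    change Perm.sign (e.permCongr x) = 1
    rw [Perm.sign_permCongr, hAE h _ hx]

theorem Ach.fin_add {E : Prop} {a b x y : ℕ} (hX : Ach E (Fin a) x) (hY : Ach E (Fin b) y) :
    Ach E (Fin (a + b)) (x * y) :=
  (hX.sum hY).congr finSumFinEquiv

theorem Ach.cast {E : Prop} {a b x y : ℕ} (h : Ach E (Fin a) x) (hab : a = b) (hxy : x = y) :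
    Ach E (Fin b) y := by
  subst hab hxy
  exact h

theorem Ach_zero (E : Prop) : Ach E (Fin 0) 1 := by
  refine ⟨⊤, ⟨⟨?_⟩⟩, ?_, ?_⟩
  · intro a b
    exact Subsingleton.elim _ _
  · simp
  · intro _ a _
    rw [Subsingleton.elim a 1, map_one]

/-- Subgroups from explicit finite sets. -/
def ofFinset {X : Type*} [DecidableEq X] [Fintype X] (S : Finset (Perm X)) (h1 : 1 ∈ S)
    (hm : ∀ x ∈ S, ∀ y ∈ S, x * y ∈ S) (hi : ∀ x ∈ S, x⁻¹ ∈ S) : Subgroup (Perm X) where
  carrier := {x | x ∈ S}
  mul_mem' := fun {a b} ha hb => hm a ha b hb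
  one_mem' := h1
  inv_mem' := fun {a} ha => hi a ha

theorem Ach_ofFinset {E : Prop} {X : Type*} [DecidableEq X] [Fintype X] (S : Finset (Perm X)) (h1 : 1 ∈ S)
    (hm : ∀ x ∈ S, ∀ y ∈ S, x * y ∈ S) (hi : ∀ x ∈ S, x⁻¹ ∈ S)
    (hc : ∀ x ∈ S, ∀ y ∈ S, x * y = y * x) (hE : ∀ x ∈ S, Perm.sign x = 1) :
    Ach E X S.card := by
  refine ⟨ofFinset S h1 hm hi, ⟨⟨?_⟩⟩, ?_, fun _ a ha => hE a ha⟩
  · rintro ⟨a, ha⟩ ⟨b, hb⟩
    exact Subtype.ext (hc a ha b hb)
  · have : Nat.card (ofFinset S h1 hm hi) = Nat.card (S : Set (Perm X)) := rfl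
    rw [this, Nat.card_coe_set_eq, Set.ncard_coe_finset]

/-- The two small even groups. -/
def c3 : Finset (Perm (Fin 3)) := {1, finRotate 3, (finRotate 3)⁻¹}

def v4 : Finset (Perm (Fin 4)) :=
  {1, swap 0 1 * swap 2 3, swap 0 2 * swap 1 3, swap 0 3 * swap 1 2}

theorem Ach_three (E : Prop) : Ach E (Fin 3) 3 := by
  have := Ach_ofFinset (E := E) c3 (by decide) (by decide) (by decide) (by decide) (by decide)
  exact this

theorem Ach_four (E : Prop) : Ach E (Fin 4) 4 := by
  have := Ach_ofFinset (E := E) v4 (by decide) (by decide) (by decide) (by decide) (by decide)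
  exact this

theorem Ach_two : Ach False (Fin 2) 2 := by
  refine ⟨⊤, ⟨⟨?_⟩⟩, ?_, fun h => h.elim⟩
  · intro a b
    apply Subtype.ext
    exact (by decide : ∀ a b : Perm (Fin 2), a * b = b * a) a.1 b.1
  · simp [Nat.card_eq_fintype_card, Fintype.card_perm]

theorem Ach_threes (E : Prop) (k : ℕ) : Ach E (Fin (3 * k)) (3 ^ k) := by
  induction k with
  | zero => exact Ach_zero E
  | succ k ih =>
    exact (ih.fin_add (Ach_three E)).cast (by ring) (by ring)

theorem Ach_three_one (E : Prop) (k : ℕ) : Ach E (Fin (3 * (k + 1) + 1)) (4 * 3 ^ k) :=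
  ((Ach_threes E k).fin_add (Ach_four E)).cast (by ring) (by ring)

theorem Ach_three_two (E : Prop) (k : ℕ) : Ach E (Fin (3 * (k + 2) + 2)) (16 * 3 ^ k) :=
  (((Ach_threes E k).fin_add (Ach_four E)).fin_add (Ach_four E)).cast (by ring) (by ring)

theorem Ach_three_two' (k : ℕ) : Ach False (Fin (3 * k + 2)) (2 * 3 ^ k) :=
  ((Ach_threes False k).fin_add Ach_two).cast (by ring) (by ring)

theorem ach_false {X : Type*} [DecidableEq X] [Fintype X] {c : ℕ} (h : Ach False X c) :
    c ∈ {c : ℕ | ∃ A : Subgroup (Perm X), IsMulCommutative A ∧ Nat.card A = c} := by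
  obtain ⟨A, h1, h2, -⟩ := h
  exact ⟨A, h1, h2⟩

theorem ach_true {X : Type*} [DecidableEq X] [Fintype X] {c : ℕ} (h : Ach True X c) :
    c ∈ {c : ℕ | ∃ A : Subgroup (alternatingGroup X), IsMulCommutative A ∧ Nat.card A = c} := by
  obtain ⟨A, h1, h2, h3⟩ := h
  have hle : A ≤ alternatingGroup X := fun a ha => Equiv.Perm.mem_alternatingGroup.2 (h3 trivial a ha)
  refine ⟨A.subgroupOf (alternatingGroup X), ⟨⟨?_⟩⟩, ?_⟩
  · rintro ⟨⟨a, ha1⟩, ha⟩ ⟨⟨b, hb1⟩, hb⟩
    apply Subtype.ext
    apply Subtype.ext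
    exact congrArg (fun z : A => (z : Perm X)) (h1.is_comm.comm ⟨a, Subgroup.mem_subgroupOf.1 ha⟩ ⟨b, Subgroup.mem_subgroupOf.1 hb⟩)
  · rw [← h2]
    exact Nat.card_congr (Subgroup.subgroupOfEquivOfLe hle).toEquiv

theorem bound_alt {X : Type*} [DecidableEq X] [Fintype X] (A : Subgroup (alternatingGroup X))
    (hA : IsMulCommutative A) (v : ℕ) (h1 : f (Fintype.card X - 2) ≤ v) (h2 : g (Fintype.card X) ≤ v) :
    Nat.card A ≤ v := by
  have hinj : Function.Injective (alternatingGroup X).subtype := Subgroup.subtype_injective _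
  have hc : Nat.card (A.map (alternatingGroup X).subtype) = Nat.card A :=
    Subgroup.card_map_of_injective hinj
  rw [← hc]
  refine bound_even _ ⟨⟨?_⟩⟩ ?_ v h1 h2
  · rintro ⟨_, ⟨x, hx, rfl⟩⟩ ⟨_, ⟨y, hy, rfl⟩⟩
    apply Subtype.ext
    simp only [Subgroup.coe_mul]
    rw [← map_mul, ← map_mul]
    congr 1
    exact congrArg Subtype.val (hA.is_comm.comm ⟨x, hx⟩ ⟨y, hy⟩)
  · rintro _ ⟨x, _, rfl⟩
    exact Equiv.Perm.mem_alternatingGroup.1 x.2

end Cfsg.Agent.H11.AbPerm
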