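import Mathlib
import Cfsg.Agent.Lib.H11.AbPerm

/-! Uniqueness of largest abelian subgroups of alternating groups: arithmetic and local lemmas. -/

namespace Cfsg.Agent.H11.AbPerm

open Equiv MulAction

theorem lt_g_self (a : ℕ) : 6 ≤ a → a < g a := by
  induction a using Nat.strong_induction_on with
  | _ a ih =>
    intro ha
    by_cases hlt : a < 9
    · interval_cases a <;> decide
    · obtain ⟨m, rfl⟩ := Nat.exists_eq_add_of_le' (not_lt.1 hlt)
      have := ih (m + 6) (by omega) (by omega)
      rw [g_succ]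
      omega

theorem g_pred_lt (n : ℕ) : 3 ≤ n → g (n - 1) < g n := by
  induction n using Nat.strong_induction_on with
  | _ n ih =>
    intro hn
    by_cases hlt : n < 10
    · interval_cases n <;> decide
    · obtain ⟨m, rfl⟩ := Nat.exists_eq_add_of_le' (not_lt.1 hlt)
      have := ih (m + 7) (by omega) (by omega)
      simp only [show m + 10 - 1 = m + 9 from rfl, show m + 7 - 1 = m + 6 from rfl] at *
      rw [g_succ, show m + 10 = (m + 1) + 9 by ring, g_succ]
      rw [show m + 1 + 6 = m + 7 by ring]
      omega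

theorem five_lt (n : ℕ) : 6 ≤ n → 5 * g (n - 5) < g n := by
  induction n using Nat.strong_induction_on with
  | _ n ih =>
    intro hn
    by_cases hlt : n < 14
    · interval_cases n <;> decide
    · obtain ⟨m, rfl⟩ := Nat.exists_eq_add_of_le' (not_lt.1 hlt)
      have := ih (m + 11) (by omega) (by omega)
      rw [show m + 14 - 5 = m + 9 by omega, g_succ, show m + 14 = (m + 5) + 9 by ring, g_succ,
        show m + 5 + 6 = m + 11 by ring]
      rw [show m + 11 - 5 = m + 6 by omega] at this
      omega

theorem f_lt_g (n : ℕ) : 3 ≤ n → f (n - 2) < g n := by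
  induction n using Nat.strong_induction_on with
  | _ n ih =>
    intro hn
    by_cases hlt : n < 11
    · interval_cases n <;> decide
    · obtain ⟨i, rfl⟩ := Nat.exists_eq_add_of_le' (not_lt.1 hlt)
      have := ih (i + 8) (by omega) (by omega)
      rw [show i + 8 - 2 = i + 6 by omega] at this
      rw [show i + 11 - 2 = (i + 4) + 5 by omega, f_succ, show i + 11 = (i + 2) + 9 by ring, g_succ,
        show i + 4 + 2 = i + 6 by ring, show i + 2 + 6 = i + 8 by ring]
      omega

theorem part_lt (n a : ℕ) (hn : 3 ≤ n) (hn5 : n ≠ 5) (han : a ≤ n) (ha : a = 1 ∨ 5 ≤ a) :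
    a * g (n - a) < g n := by
  rcases ha with rfl | ha
  · simpa using g_pred_lt n hn
  · rcases (by omega : a = 5 ∨ 6 ≤ a) with rfl | h6
    · exact five_lt n (by omega)
    · have h1 := lt_g_self a h6
      have h2 := g_mul a (n - a)
      rw [show a + (n - a) = n by omega] at h2
      have h3 : 0 < g (n - a) := by
        have := g_mul 0 (n - a)
        by_contra h0
        have h4 : g (n - a) = 0 := by omega
        have h5 : ∀ m, 0 < g m := by
          intro m
          induction m using Nat.strong_induction_on with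
          | _ m ihm =>
            by_cases hlt : m < 9
            · interval_cases m <;> decide
            · obtain ⟨k, rfl⟩ := Nat.exists_eq_add_of_le' (not_lt.1 hlt)
              rw [g_succ]
              have := ihm (k + 6) (by omega)
              omega
        exact absurd h4 (h5 _).ne'
      nlinarith

/-! finite checks -/

theorem uniq_fin3 : ∀ s t : Perm (Fin 3),
    ((∀ x, s x = x → ∀ y, s y = y) ∧ ∀ x, s (s x) = x ∨ s (s (s x)) = x) →
    ((∀ x, t x = x → ∀ y, t y = y) ∧ ∀ x, t (t x) = x ∨ t (t (t x)) = x) →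
    ∀ u, s u = t u → s = t := by decide +kernel

theorem uniq_fin4 : ∀ s t : Perm (Fin 4),
    ((∀ x, s x = x → ∀ y, s y = y) ∧ ∀ x, s (s x) = x ∨ s (s (s x)) = x) →
    ((∀ x, t x = x → ∀ y, t y = y) ∧ ∀ x, t (t x) = x ∨ t (t (t x)) = x) →
    ∀ u, s u = t u → s = t := by decide +kernel

theorem sign_fin3 : ∀ s : Perm (Fin 3), Perm.sign s = 1 → (∀ x, s x = x → ∀ y, s y = y) →
    ∀ x, s (s x) = x ∨ s (s (s x)) = x := by decide +kernel

theorem sign_fin4 : ∀ s : Perm (Fin 4), Perm.sign s = 1 → (∀ x, s x = x → ∀ y, s y = y) →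
    ∀ x, s (s x) = x ∨ s (s (s x)) = x := by decide +kernel

section trans
variable {Y : Type*} [Fintype Y] [DecidableEq Y]

theorem uniq_Y (hY : Fintype.card Y = 3 ∨ Fintype.card Y = 4) (s t : Perm Y)
    (hs : (∀ x, s x = x → ∀ y, s y = y) ∧ ∀ x, s (s x) = x ∨ s (s (s x)) = x)
    (ht : (∀ x, t x = x → ∀ y, t y = y) ∧ ∀ x, t (t x) = x ∨ t (t (t x)) = x)
    (u : Y) (h : s u = t u) : s = t := by
  have key : ∀ (k : ℕ) (e : Y ≃ Fin k),
      (∀ s t : Perm (Fin k),
        ((∀ x, s x = x → ∀ y, s y = y) ∧ ∀ x, s (s x) = x ∨ s (s (s x)) = x) →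
        ((∀ x, t x = x → ∀ y, t y = y) ∧ ∀ x, t (t x) = x ∨ t (t (t x)) = x) →
        ∀ u, s u = t u → s = t) → s = t := by
    intro k e H
    have tr : ∀ p : Perm Y, ((∀ x, p x = x → ∀ y, p y = y) ∧ ∀ x, p (p x) = x ∨ p (p (p x)) = x) →
        ((∀ x, e.permCongr p x = x → ∀ y, e.permCongr p y = y) ∧
          ∀ x, e.permCongr p (e.permCongr p x) = x ∨
            e.permCongr p (e.permCongr p (e.permCongr p x)) = x) := by
      rintro p ⟨h1, h2⟩
      refine ⟨?_, ?_⟩
      · intro x hx y
        simp only [Equiv.permCongr_apply] at hx ⊢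
        have : p (e.symm x) = e.symm x := by
          rw [← e.symm_apply_apply (p (e.symm x)), hx]
        rw [h1 _ this]
        simp
      · intro x
        simp only [Equiv.permCongr_apply, Equiv.symm_apply_apply]
        rcases h2 (e.symm x) with h3 | h3
        · left
          rw [h3]
          simp
        · right
          rw [h3]
          simp
    have := H _ _ (tr s hs) (tr t ht) (e u) (by simp [Equiv.permCongr_apply, h])
    exact e.permCongr.injective this
  rcases hY with h3 | h3
  · exact key 3 (Fintype.equivFinOfCardEq h3) uniq_fin3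
  · exact key 4 (Fintype.equivFinOfCardEq h3) uniq_fin4

theorem sign_Y (hY : Fintype.card Y = 3 ∨ Fintype.card Y = 4) (s : Perm Y) (hs : Perm.sign s = 1)
    (h1 : ∀ x, s x = x → ∀ y, s y = y) (x : Y) : s (s x) = x ∨ s (s (s x)) = x := by
  have key : ∀ (k : ℕ) (e : Y ≃ Fin k),
      (∀ s : Perm (Fin k), Perm.sign s = 1 → (∀ x, s x = x → ∀ y, s y = y) →
        ∀ x, s (s x) = x ∨ s (s (s x)) = x) → s (s x) = x ∨ s (s (s x)) = x := by
    intro k e H
    have h2 := H (e.permCongr s) (by rw [Perm.sign_permCongr]; exact hs) (by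
      intro x hx y
      simp only [Equiv.permCongr_apply] at hx ⊢
      have : s (e.symm x) = e.symm x := by
        rw [← e.symm_apply_apply (s (e.symm x)), hx]
      rw [h1 _ this]
      simp) (e x)
    simp only [Equiv.permCongr_apply, Equiv.symm_apply_apply] at h2
    rcases h2 with h3 | h3
    · left
      exact e.injective h3
    · right
      exact e.injective h3
  rcases hY with h3 | h3
  · exact key 3 (Fintype.equivFinOfCardEq h3) sign_fin3
  · exact key 4 (Fintype.equivFinOfCardEq h3) sign_fin4

end trans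

end Cfsg.Agent.H11.AbPerm
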