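import Mathlib
import Cfsg.Agent.Lib.H11.AbPermU1

/-! Saturated abelian permutation groups are determined by their orbit partition. -/

namespace Cfsg.Agent.H11.AbPerm

open Equiv MulAction

variable {X : Type*} [Fintype X] [DecidableEq X]

/-- the relation "same orbit" -/
def RR (A : Subgroup (Perm X)) (x y : X) : Prop := y ∈ orbit A x

theorem RR_equiv (A : Subgroup (Perm X)) : Equivalence (RR A) := by
  refine ⟨fun x => mem_orbit_self x, ?_, ?_⟩
  · intro x y h
    exact orbit_eq_iff.1 (orbit_eq_iff.2 h).symm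
  · intro x y z h1 h2
    have e : orbit A y = orbit A x := orbit_eq_iff.2 h1
    have h3 : z ∈ orbit A y := h2
    rw [e] at h3
    exact h3

/-- the permutations respecting the blocks, trivial or fixed point free on each one, with no
four-cycles -/
def SS (R : X → X → Prop) : Set (Perm X) :=
  {σ | (∀ x, R x (σ x)) ∧ (∀ x, σ x = x → ∀ y, R x y → σ y = y) ∧
    ∀ x, σ (σ x) = x ∨ σ (σ (σ x)) = x}

theorem SS_uniq (R : X → X → Prop) (hR : Equivalence R) (x : X)
    (hc : Nat.card {y // R x y} = 3 ∨ Nat.card {y // R x y} = 4)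
    (σ τ : Perm X) (hσ : σ ∈ SS R) (hτ : τ ∈ SS R) (h : σ x = τ x) (y : X) (hy : R x y) :
    σ y = τ y := by
  classical
  have key : ∀ ρ ∈ SS R, ∃ s : Perm {y // R x y}, (∀ u, (s u).1 = ρ u.1) ∧
      ((∀ a, s a = a → ∀ b, s b = b) ∧ ∀ a, s (s a) = a ∨ s (s (s a)) = a) := by
    intro ρ hρ
    have hcl : ∀ z, R x (ρ z) ↔ R x z := by
      intro z
      constructor
      · intro hz
        exact hR.trans hz (hR.symm (hρ.1 z))
      · intro hz
        exact hR.trans hz (hρ.1 z)
    have hs : ∀ u, (ρ.subtypePerm hcl u).1 = ρ u.1 := fun u => rfl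
    refine ⟨ρ.subtypePerm hcl, hs, ?_, ?_⟩
    · intro a ha b
      apply Subtype.ext
      rw [hs]
      have h1 : ρ a.1 = a.1 := by
        have := congrArg Subtype.val ha
        rwa [hs] at this
      exact hρ.2.1 a.1 h1 b.1 (hR.trans (hR.symm a.2) b.2)
    · intro a
      rcases hρ.2.2 a.1 with h1 | h1
      · left
        apply Subtype.ext
        rw [hs, hs]
        exact h1
      · right
        apply Subtype.ext
        rw [hs, hs, hs]
        exact h1
  obtain ⟨s, hs1, hs2⟩ := key σ hσ
  obtain ⟨t, ht1, ht2⟩ := key τ hτ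
  have heq := uniq_Y (by rw [← Nat.card_eq_fintype_card]; exact hc) s t hs2 ht2 ⟨x, hR.refl x⟩ (by
    apply Subtype.ext
    rw [hs1, ht1]
    exact h)
  have h1 := hs1 ⟨y, hy⟩
  rw [heq, ht1] at h1
  exact h1.symm

theorem SS_conj (R R' : X → X → Prop) (φ : Perm X) (hφ : ∀ x y, R x y ↔ R' (φ x) (φ y))
    (σ : Perm X) (hσ : σ ∈ SS R) : φ * σ * φ⁻¹ ∈ SS R' := by
  have hval : ∀ x, (φ * σ * φ⁻¹) x = φ (σ (φ⁻¹ x)) := fun x => rfl
  have hinv : ∀ x, φ (φ⁻¹ x) = x := fun x => by simp
  have hinv' : ∀ x, φ⁻¹ (φ x) = x := fun x => by simp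
  refine ⟨?_, ?_, ?_⟩
  · intro x
    rw [hval]
    have := (hφ _ _).1 (hσ.1 (φ⁻¹ x))
    rwa [hinv] at this
  · intro x hx y hy
    rw [hval] at hx ⊢
    have h1 : σ (φ⁻¹ x) = φ⁻¹ x := by
      apply φ.injective
      rw [hx, hinv]
    have h2 : R (φ⁻¹ x) (φ⁻¹ y) := by
      rw [hφ, hinv, hinv]
      exact hy
    rw [hσ.2.1 _ h1 _ h2, hinv]
  · intro x
    simp only [hval, hinv']
    rcases hσ.2.2 (φ⁻¹ x) with h1 | h1
    · left
      rw [h1, hinv]
    · right
      rw [h1, hinv]

/-! saturated groups -/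

/-- the map recording the images of orbit representatives -/
noncomputable def Phi (A : Subgroup (Perm X)) (a : A) (ω : Om A) : orbit A (Quotient.out ω) :=
  ⟨a • Quotient.out ω, mem_orbit _ a⟩

theorem Phi_inj (A : Subgroup (Perm X)) (hA : IsMulCommutative A) : Function.Injective (Phi A) := by
  intro a b h
  apply Subtype.ext
  ext y
  have h1 : a • Quotient.out (Quotient.mk'' y : Om A) = b • Quotient.out (Quotient.mk'' y : Om A) :=
    congrArg Subtype.val (congrFun h (Quotient.mk'' y))
  exact eq_on_orbit A hA a b _ h1 y (out_orbit A y)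

/-- saturated abelian permutation groups of even permutations -/
structure Sat (A : Subgroup (Perm X)) : Prop where
  comm : IsMulCommutative A
  even : ∀ a ∈ A, Perm.sign a = 1
  sz : ∀ x : X, Nat.card (orbit A x) = 3 ∨ Nat.card (orbit A x) = 4
  full : Nat.card (∀ ω : Om A, orbit A (Quotient.out ω : X)) ≤ Nat.card A

theorem Phi_surj {A : Subgroup (Perm X)} (hA : Sat A) : Function.Surjective (Phi A) := by
  have hinj := Phi_inj A hA.comm
  have hcard : Nat.card A = Nat.card (∀ ω : Om A, orbit A (Quotient.out ω : X)) :=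
    le_antisymm (Nat.card_le_card_of_injective _ hinj) hA.full
  exact ((Nat.bijective_iff_injective_and_card _).2 ⟨hinj, hcard⟩).2

theorem exists_local {A : Subgroup (Perm X)} (hA : Sat A) (c : A) (x : X) :
    ∃ a : A, (∀ y ∈ orbit A x, a • y = c • y) ∧ ∀ z, z ∉ orbit A x → a • z = z := by
  classical
  set ω₀ : Om A := Quotient.mk'' x with hω₀
  have hx₀ : x ∈ orbit A (Quotient.out ω₀) := out_orbit A x
  let t : ∀ ω : Om A, orbit A (Quotient.out ω) := fun ω =>
    if ω = ω₀ then ⟨c • Quotient.out ω, mem_orbit _ c⟩ else ⟨Quotient.out ω, mem_orbit_self _⟩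
  obtain ⟨a, ha⟩ := Phi_surj hA t
  refine ⟨a, ?_, ?_⟩
  · intro y hy
    have h1 : a • Quotient.out ω₀ = c • Quotient.out ω₀ := by
      have := congrArg Subtype.val (congrFun ha ω₀)
      simpa [t, Phi] using this
    refine eq_on_orbit A hA.comm a c _ h1 y ?_
    have e : orbit A x = orbit A (Quotient.out ω₀) := orbit_eq_iff.2 hx₀
    rwa [← e]
  · intro z hz
    have hne : (Quotient.mk'' z : Om A) ≠ ω₀ := by
      intro e
      have h1 := out_orbit A z
      rw [e] at h1
      have e2 : orbit A x = orbit A (Quotient.out ω₀) := orbit_eq_iff.2 hx₀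
      rw [← e2] at h1
      exact hz h1
    have h1 : a • Quotient.out (Quotient.mk'' z : Om A) = (1 : A) • Quotient.out (Quotient.mk'' z : Om A) := by
      have := congrArg Subtype.val (congrFun ha (Quotient.mk'' z))
      simpa [t, Phi, hne] using this
    have := eq_on_orbit A hA.comm a 1 _ h1 z (out_orbit A z)
    simpa using this

theorem card_block (A : Subgroup (Perm X)) (x : X) :
    Nat.card {y // RR A x y} = Nat.card (orbit A x) := rfl

theorem smul_eq_apply (A : Subgroup (Perm X)) (a : A) (x : X) : a • x = (a : Perm X) x := rfl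

theorem sat_subset {A : Subgroup (Perm X)} (hA : Sat A) (c : Perm X) (hc : c ∈ A) : c ∈ SS (RR A) := by
  classical
  refine ⟨fun x => ⟨⟨c, hc⟩, rfl⟩, ?_, ?_⟩
  · intro x hx y hy
    have := eq_on_orbit A hA.comm ⟨c, hc⟩ 1 x (by simpa [smul_eq_apply] using hx) y hy
    simpa [smul_eq_apply] using this
  · intro x
    obtain ⟨a, ha1, ha2⟩ := exists_local hA ⟨c, hc⟩ x
    have hcl : ∀ z, RR A x ((a : Perm X) z) ↔ RR A x z := by
      intro z
      have h1 : RR A z ((a : Perm X) z) := ⟨a, rfl⟩
      constructor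
      · intro hz
        exact (RR_equiv A).trans hz ((RR_equiv A).symm h1)
      · intro hz
        exact (RR_equiv A).trans hz h1
    have hs : ∀ u, ((a : Perm X).subtypePerm hcl u).1 = (a : Perm X) u.1 := fun u => rfl
    have hsign : Perm.sign ((a : Perm X).subtypePerm hcl) = 1 := by
      rw [Perm.sign_subtypePerm]
      · exact hA.even _ a.2
      · intro z hz
        by_contra h
        exact hz (ha2 z h)
    have h3 := sign_Y (by rw [← Nat.card_eq_fintype_card, card_block]; exact hA.sz x) _ hsign (by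
      intro u hu v
      apply Subtype.ext
      rw [hs]
      have h1 : (a : Perm X) u.1 = u.1 := by
        have := congrArg Subtype.val hu
        rwa [hs] at this
      have := eq_on_orbit A hA.comm a 1 u.1 (by simpa [smul_eq_apply] using h1) v.1
        ((RR_equiv A).trans ((RR_equiv A).symm u.2) v.2)
      simpa [smul_eq_apply] using this) ⟨x, (RR_equiv A).refl x⟩
    have hca : ∀ y, RR A x y → c y = (a : Perm X) y := fun y hy => (ha1 y hy).symm
    have hxx := (RR_equiv A).refl x
    have h4 : RR A x (c x) := ⟨⟨c, hc⟩, rfl⟩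
    have h5 : RR A x (c (c x)) := (RR_equiv A).trans h4 ⟨⟨c, hc⟩, rfl⟩
    rcases h3 with h3 | h3
    · left
      have := congrArg Subtype.val h3
      simp only [hs] at this
      rw [hca _ h4, hca _ hxx]
      exact this
    · right
      have := congrArg Subtype.val h3
      simp only [hs] at this
      rw [hca _ h5, hca _ h4, hca _ hxx]
      exact this

theorem SS_subset {A : Subgroup (Perm X)} (hA : Sat A) (σ : Perm X) (hσ : σ ∈ SS (RR A)) : σ ∈ A := by
  classical
  let t : ∀ ω : Om A, orbit A (Quotient.out ω) := fun ω => ⟨σ (Quotient.out ω), hσ.1 _⟩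
  obtain ⟨a, ha⟩ := Phi_surj hA t
  have h1 : (a : Perm X) ∈ SS (RR A) := sat_subset hA a a.2
  have h2 : σ = a := by
    ext y
    have hx := out_orbit A y
    set x := Quotient.out (Quotient.mk'' y : Om A) with hxdef
    have h3 : (a : Perm X) x = σ x := congrArg Subtype.val (congrFun ha (Quotient.mk'' y))
    exact SS_uniq (RR A) (RR_equiv A) x (by rw [card_block]; exact hA.sz x) σ a hσ h1 h3.symm y hx
  rw [h2]
  exact a.2

theorem mem_iff_SS {A : Subgroup (Perm X)} (hA : Sat A) (σ : Perm X) : σ ∈ A ↔ σ ∈ SS (RR A) :=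
  ⟨sat_subset hA σ, SS_subset hA σ⟩

end Cfsg.Agent.H11.AbPerm
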