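import Mathlib
import Cfsg.Agent.Lib.H11.AbPermU2

/-! Conjugacy of saturated abelian permutation groups, and saturation of largest ones. -/

namespace Cfsg.Agent.H11.AbPerm

open Equiv MulAction

theorem prod_three_four {I : Type*} [Fintype I] [DecidableEq I] (s : I → ℕ) (hs : ∀ i, s i = 3 ∨ s i = 4) :
    ∏ i, s i = 3 ^ Nat.card {i // s i = 3} * 4 ^ Nat.card {i // s i = 4} := by
  classical
  have h1 : ∀ i, s i = if s i = 3 then 3 else 4 := by
    intro i
    rcases hs i with h | h <;> simp [h]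
  calc ∏ i, s i = ∏ i, (if s i = 3 then 3 else 4) := Finset.prod_congr rfl (fun i _ => h1 i)
    _ = _ := by
      rw [Finset.prod_ite, Finset.prod_const, Finset.prod_const]
      congr 2
      · rw [Nat.card_eq_fintype_card, Fintype.card_subtype]
      · rw [Nat.card_eq_fintype_card, Fintype.card_subtype]
        congr 1
        ext i
        simp only [Finset.mem_filter, Finset.mem_univ, true_and]
        rcases hs i with h | h <;> simp [h]

theorem three_four_inj {a b c d : ℕ} (h : 3 ^ a * 4 ^ b = 3 ^ c * 4 ^ d) : a = c ∧ b = d := by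
  have key : ∀ {a b c d : ℕ}, 3 ^ a * 4 ^ b = 3 ^ c * 4 ^ d → a ≤ c := by
    intro a b c d h
    have h1 : 3 ^ a ∣ 3 ^ c * 4 ^ d := ⟨4 ^ b, h.symm⟩
    have hco : Nat.Coprime (3 ^ a) (4 ^ d) := Nat.Coprime.pow _ _ (by norm_num)
    have h2 := hco.dvd_of_dvd_mul_right h1
    exact (Nat.pow_dvd_pow_iff_le_right (by norm_num)).1 h2
  have hac : a = c := le_antisymm (key h) (key h.symm)
  subst hac
  refine ⟨rfl, ?_⟩
  have h3 : 4 ^ b = 4 ^ d := Nat.eq_of_mul_eq_mul_left (by positivity) h
  exact Nat.pow_right_injective (le_refl 2 |>.trans (by norm_num)) h3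

/-- bijection between finite types of the same cardinality -/
noncomputable def equivNatCard {α β : Type*} [Finite α] [Finite β] (h : Nat.card α = Nat.card β) : α ≃ β :=
  (Finite.equivFin α).trans ((finCongr h).trans (Finite.equivFin β).symm)

theorem exists_equiv_of_fibers {I J : Type*} [Finite I] [Finite J] (s : I → ℕ) (t : J → ℕ)
    (h : ∀ c, Nat.card {i // s i = c} = Nat.card {j // t j = c}) : ∃ e : I ≃ J, ∀ i, t (e i) = s i := by
  let E : ∀ c, {i // s i = c} ≃ {j // t j = c} := fun c => equivNatCard (h c)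
  exact ⟨Equiv.ofFiberEquiv E, fun i => Equiv.ofFiberEquiv_map E i⟩

variable {X : Type*} [Fintype X] [DecidableEq X]

theorem RR_iff_mk (A : Subgroup (Perm X)) (x y : X) :
    RR A x y ↔ (Quotient.mk'' x : Om A) = Quotient.mk'' y := by
  rw [Quotient.eq'']
  exact ⟨fun h => (RR_equiv A).symm h, fun h => (RR_equiv A).symm h⟩

theorem card_fiber (A : Subgroup (Perm X)) (c : Om A) :
    Nat.card {x : X // (Quotient.mk'' x : Om A) = c} = Nat.card (orbit A (Quotient.out c : X)) := by
  refine Nat.card_congr (Equiv.subtypeEquivRight ?_)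
  intro x
  have h1 : (Quotient.mk'' (Quotient.out c) : Om A) = c := Quotient.out_eq' c
  constructor
  · intro h
    have h2 : (Quotient.mk'' x : Om A) = Quotient.mk'' (Quotient.out c) := by rw [h, h1]
    exact (RR_equiv A).symm ((RR_iff_mk A x _).2 h2)
  · intro h
    have h2 := (RR_iff_mk A _ x).1 h
    rw [← h2, h1]

theorem card_orbit_out (A : Subgroup (Perm X)) (x : X) :
    Nat.card (orbit A (Quotient.out (Quotient.mk'' x : Om A) : X)) = Nat.card (orbit A x) := by
  rw [orbit_eq_iff.2 (out_orbit A x)]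

theorem conj_of_sat (A B : Subgroup (Perm X)) (hA : Sat A) (hB : Sat B) (hc : Nat.card A = Nat.card B) :
    ∃ φ : Perm X, Perm.sign φ = 1 ∧ ∀ σ, σ ∈ A ↔ φ * σ * φ⁻¹ ∈ B := by
  classical
  letI : Fintype (Om A) := Fintype.ofFinite _
  letI : Fintype (Om B) := Fintype.ofFinite _
  let sA : Om A → ℕ := fun ω => Nat.card (orbit A (Quotient.out ω : X))
  let sB : Om B → ℕ := fun ω => Nat.card (orbit B (Quotient.out ω : X))
  have hsA : ∀ ω, sA ω = 3 ∨ sA ω = 4 := fun ω => hA.sz _
  have hsB : ∀ ω, sB ω = 3 ∨ sB ω = 4 := fun ω => hB.sz _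
  have hcA : Nat.card A = ∏ ω, sA ω := by
    have h1 := Phi_inj A hA.comm
    have h2 : Nat.card A = Nat.card (∀ ω : Om A, orbit A (Quotient.out ω : X)) :=
      le_antisymm (Nat.card_le_card_of_injective _ h1) hA.full
    rw [h2, Nat.card_pi]
  have hcB : Nat.card B = ∏ ω, sB ω := by
    have h1 := Phi_inj B hB.comm
    have h2 : Nat.card B = Nat.card (∀ ω : Om B, orbit B (Quotient.out ω : X)) :=
      le_antisymm (Nat.card_le_card_of_injective _ h1) hB.full
    rw [h2, Nat.card_pi]
  have h34 : Nat.card {i // sA i = 3} = Nat.card {j // sB j = 3} ∧ Nat.card {i // sA i = 4} = Nat.card {j // sB j = 4} := three_four_inj (by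
    rw [← prod_three_four sA hsA, ← prod_three_four sB hsB, ← hcA, ← hcB, hc])
  obtain ⟨e, he⟩ := exists_equiv_of_fibers sA sB (by
    intro c
    by_cases h3 : c = 3
    · subst h3
      exact h34.1
    by_cases h4 : c = 4
    · subst h4
      exact h34.2
    haveI : IsEmpty {i // sA i = c} := ⟨fun i => by
      rcases hsA i.1 with h | h
      · exact h3 (i.2.symm.trans h)
      · exact h4 (i.2.symm.trans h)⟩
    haveI : IsEmpty {i // sB i = c} := ⟨fun i => by
      rcases hsB i.1 with h | h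
      · exact h3 (i.2.symm.trans h)
      · exact h4 (i.2.symm.trans h)⟩
    simp)
  -- the bijection of points
  let fA : X → Om A := fun x => Quotient.mk'' x
  let fB : X → Om A := fun x => e.symm (Quotient.mk'' x : Om B)
  have hfib : ∀ c : Om A, Nat.card {x // fA x = c} = Nat.card {x // fB x = c} := by
    intro c
    have h1 : Nat.card {x // fA x = c} = sA c := card_fiber A c
    have h2 : Nat.card {x // fB x = c} = sB (e c) := by
      have h3 := card_fiber B (e c)
      refine Eq.trans ?_ h3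
      refine Nat.card_congr (Equiv.subtypeEquivRight ?_)
      intro x
      simp only [fB]
      rw [Equiv.symm_apply_eq]
    rw [h1, h2, he]
  let E : ∀ c, {x // fA x = c} ≃ {x // fB x = c} := fun c => equivNatCard (hfib c)
  let φ₀ : Perm X := Equiv.ofFiberEquiv E
  have hφ₀ : ∀ x, fB (φ₀ x) = fA x := fun x => Equiv.ofFiberEquiv_map E x
  have hbr₀ : ∀ x y, RR A x y ↔ RR B (φ₀ x) (φ₀ y) := by
    intro x y
    rw [RR_iff_mk, RR_iff_mk]
    have h1 := hφ₀ x
    have h2 := hφ₀ y
    simp only [fA, fB] at h1 h2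
    rw [← h1, ← h2]
    exact e.symm.injective.eq_iff
  -- parity
  have hfix : ∃ φ : Perm X, Perm.sign φ = 1 ∧ ∀ x y, RR A x y ↔ RR B (φ x) (φ y) := by
    by_cases hs : Perm.sign φ₀ = 1
    · exact ⟨φ₀, hs, hbr₀⟩
    · have hφne : φ₀ ≠ 1 := by
        rintro h
        rw [h] at hs
        simp at hs
      obtain ⟨x₀, -⟩ : ∃ x₀, φ₀ x₀ ≠ x₀ := by
        by_contra hcon
        push Not at hcon
        exact hφne (Equiv.ext hcon)
      have hcard : 1 < Nat.card (orbit B x₀) := by
        rcases hB.sz x₀ with h | h <;> omega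
      haveI : Nontrivial (orbit B x₀) := (Finite.one_lt_card_iff_nontrivial).1 hcard
      obtain ⟨y, hy⟩ := exists_ne (⟨x₀, mem_orbit_self x₀⟩ : orbit B x₀)
      have hne : x₀ ≠ y.1 := fun h => hy (Subtype.ext h.symm)
      have hyR : RR B x₀ y.1 := y.2
      have hst : ∀ z, RR B z (swap x₀ y.1 z) := by
        intro z
        by_cases h1 : z = x₀
        · subst h1
          rw [swap_apply_left]
          exact hyR
        by_cases h2 : z = y.1
        · rw [h2, swap_apply_right]
          exact (RR_equiv B).symm hyR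
        rw [swap_apply_of_ne_of_ne h1 h2]
        exact (RR_equiv B).refl z
      refine ⟨swap x₀ y.1 * φ₀, ?_, ?_⟩
      · rw [map_mul, Perm.sign_swap hne]
        rcases Int.units_eq_one_or (Perm.sign φ₀) with h | h
        · exact absurd h hs
        · rw [h]
          rfl
      · intro a b
        rw [hbr₀]
        simp only [Perm.mul_apply]
        constructor
        · intro h
          exact (RR_equiv B).trans ((RR_equiv B).symm (hst _)) ((RR_equiv B).trans h (hst _))
        · intro h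
          exact (RR_equiv B).trans (hst _) ((RR_equiv B).trans h ((RR_equiv B).symm (hst _)))
  obtain ⟨φ, hφs, hφ⟩ := hfix
  refine ⟨φ, hφs, fun σ => ⟨fun hσ => ?_, fun hσ => ?_⟩⟩
  · exact SS_subset hB _ (SS_conj (RR A) (RR B) φ hφ σ (sat_subset hA σ hσ))
  · have hinv : ∀ x y, RR B x y ↔ RR A (φ⁻¹ x) (φ⁻¹ y) := by
      intro x y
      rw [hφ]
      simp
    have := SS_conj (RR B) (RR A) φ⁻¹ hinv _ (sat_subset hB _ hσ)
    have h2 : φ⁻¹ * (φ * σ * φ⁻¹) * φ⁻¹⁻¹ = σ := by group
    rw [h2] at this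
    exact SS_subset hA _ this

theorem sat_of_max (A : Subgroup (Perm X)) (hA : IsMulCommutative A) (hE : ∀ a ∈ A, Perm.sign a = 1)
    (hcard : Nat.card A = g (Fintype.card X)) (h3 : 3 ≤ Fintype.card X) (h5 : Fintype.card X ≠ 5) : Sat A := by
  classical
  letI : Fintype (Om A) := Fintype.ofFinite _
  let s : Om A → ℕ := fun ω => Nat.card (orbit A (Quotient.out ω : X))
  have hsum : ∑ ω, s ω = Fintype.card X := card_orbit_sum A
  have hle : Nat.card A ≤ ∏ ω, s ω := card_le_prod A hA
  have no2 : ∀ ω, s ω ≠ 2 := by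
    intro ω₀ hω
    have h1 := card_le_prod_even A hA hE ω₀ hω
    have h2 := prod_le_f (Finset.univ.erase ω₀) s
    have h4 : ∑ ω ∈ Finset.univ.erase ω₀, s ω = Fintype.card X - 2 := by
      rw [← hsum, ← Finset.add_sum_erase _ _ (Finset.mem_univ ω₀), hω]
      omega
    rw [h4] at h2
    have h6 := f_lt_g _ h3
    have h7 : Nat.card A ≤ f (Fintype.card X - 2) := h1.trans h2
    omega
  have hP : ∏ ω, s ω ≤ g (Fintype.card X) := by
    have := prod_le_g Finset.univ s (fun ω _ => no2 ω)
    rwa [hsum] at this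
  have hPeq : ∏ ω, s ω = g (Fintype.card X) := le_antisymm hP (hcard ▸ hle)
  have hsz : ∀ ω, s ω = 3 ∨ s ω = 4 := by
    intro ω₀
    by_contra hcon
    push Not at hcon
    have hne0 : s ω₀ ≠ 0 := by
      haveI : Nonempty (orbit A (Quotient.out ω₀ : X)) := ⟨⟨_, mem_orbit_self _⟩⟩
      have : 0 < Nat.card (orbit A (Quotient.out ω₀ : X)) := Nat.card_pos
      exact this.ne'
    have ha : s ω₀ = 1 ∨ 5 ≤ s ω₀ := by
      have := no2 ω₀
      omega
    have hle1 : s ω₀ ≤ Fintype.card X := by
      rw [← hsum]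
      exact Finset.single_le_sum (f := s) (fun _ _ => Nat.zero_le _) (Finset.mem_univ ω₀)
    have h1 := part_lt _ _ h3 h5 hle1 ha
    have h2 := prod_le_g (Finset.univ.erase ω₀) s (fun ω _ => no2 ω)
    have h4 : ∑ ω ∈ Finset.univ.erase ω₀, s ω = Fintype.card X - s ω₀ := by
      rw [← hsum, ← Finset.add_sum_erase _ _ (Finset.mem_univ ω₀)]
      omega
    rw [h4] at h2
    have h6 : ∏ ω, s ω = s ω₀ * ∏ ω ∈ Finset.univ.erase ω₀, s ω :=
      (Finset.mul_prod_erase _ _ (Finset.mem_univ ω₀)).symm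
    have h7 : s ω₀ * ∏ ω ∈ Finset.univ.erase ω₀, s ω ≤ s ω₀ * g (Fintype.card X - s ω₀) :=
      Nat.mul_le_mul_left _ h2
    omega
  refine ⟨hA, hE, ?_, ?_⟩
  · intro x
    rw [← card_orbit_out]
    exact hsz _
  · rw [Nat.card_pi, hcard]
    exact hP

end Cfsg.Agent.H11.AbPerm
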