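import Mathlib
import Cfsg.Agent.Lib.H11.AbPermU3

/-! Any two abelian subgroups of largest order of an alternating group are conjugate. -/

namespace Cfsg.Agent.H11.AbPerm

open Equiv MulAction
open scoped Pointwise

theorem ach_g (n : ℕ) (h3 : 3 ≤ n) (h5 : n ≠ 5) : Ach True (Fin n) (g n) := by
  have hm : n % 3 = 0 ∨ n % 3 = 1 ∨ n % 3 = 2 := by omega
  rcases hm with h | h | h
  · obtain ⟨k, rfl⟩ : ∃ k, n = 3 * k := ⟨n / 3, by omega⟩
    rw [g_three_mul]
    exact Ach_threes True k
  · obtain ⟨k, rfl⟩ : ∃ k, n = 3 * (k + 1) + 1 := ⟨n / 3 - 1, by omega⟩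
    rw [g_three_mul_one]
    exact Ach_three_one True k
  · obtain ⟨k, rfl⟩ : ∃ k, n = 3 * (k + 2) + 2 := ⟨n / 3 - 2, by omega⟩
    rw [g_three_mul_two]
    exact Ach_three_two True k

theorem map_comm {X : Type*} [Fintype X] [DecidableEq X] (A : Subgroup (alternatingGroup X))
    (hA : IsMulCommutative A) : IsMulCommutative (A.map (alternatingGroup X).subtype) := by
  refine ⟨⟨?_⟩⟩
  rintro ⟨_, ⟨x, hx, rfl⟩⟩ ⟨_, ⟨y, hy, rfl⟩⟩
  apply Subtype.ext
  simp only [Subgroup.coe_mul]
  rw [← map_mul, ← map_mul]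
  congr 1
  exact congrArg Subtype.val (hA.is_comm.comm ⟨x, hx⟩ ⟨y, hy⟩)

theorem map_even {X : Type*} [Fintype X] [DecidableEq X] (A : Subgroup (alternatingGroup X)) :
    ∀ a ∈ A.map (alternatingGroup X).subtype, Perm.sign a = 1 := by
  rintro _ ⟨x, _, rfl⟩
  exact Equiv.Perm.mem_alternatingGroup.1 x.2

theorem final_gen (n : ℕ) (h3 : 3 ≤ n) (h5 : n ≠ 5)
    (A B : Subgroup (alternatingGroup (Fin n))) (hA : IsMulCommutative A) (hB : IsMulCommutative B)
    (hAmax : ∀ C : Subgroup (alternatingGroup (Fin n)), IsMulCommutative C → Nat.card C ≤ Nat.card A)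
    (hBmax : ∀ C : Subgroup (alternatingGroup (Fin n)), IsMulCommutative C → Nat.card C ≤ Nat.card B) :
    ∃ g : alternatingGroup (Fin n), B = MulAut.conj g • A := by
  obtain ⟨c, hc1, hc2⟩ := ach_true (ach_g n h3 h5)
  have hbd : ∀ D : Subgroup (alternatingGroup (Fin n)), IsMulCommutative D → Nat.card D ≤ g n := by
    intro D hD
    refine bound_alt D hD (g n) ?_ ?_
    · rw [Fintype.card_fin]
      exact (f_lt_g n h3).le
    · rw [Fintype.card_fin]
  have hcA : Nat.card A = g n := le_antisymm (hbd A hA) (hc2 ▸ hAmax c hc1)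
  have hcB : Nat.card B = g n := le_antisymm (hbd B hB) (hc2 ▸ hBmax c hc1)
  have hinj : Function.Injective (alternatingGroup (Fin n)).subtype := Subgroup.subtype_injective _
  have hmA : Nat.card (A.map (alternatingGroup (Fin n)).subtype) = Nat.card A :=
    Subgroup.card_map_of_injective hinj
  have hmB : Nat.card (B.map (alternatingGroup (Fin n)).subtype) = Nat.card B :=
    Subgroup.card_map_of_injective hinj
  have hcardX : Fintype.card (Fin n) = n := Fintype.card_fin n
  have sA := sat_of_max (A.map (alternatingGroup (Fin n)).subtype) (map_comm A hA) (map_even A)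
    (by rw [hmA, hcA, hcardX]) (by rw [hcardX]; exact h3) (by rw [hcardX]; exact h5)
  have sB := sat_of_max (B.map (alternatingGroup (Fin n)).subtype) (map_comm B hB) (map_even B)
    (by rw [hmB, hcB, hcardX]) (by rw [hcardX]; exact h3) (by rw [hcardX]; exact h5)
  obtain ⟨φ, hφs, hφ⟩ := conj_of_sat _ _ sA sB (by rw [hmA, hmB, hcA, hcB])
  refine ⟨⟨φ, Equiv.Perm.mem_alternatingGroup.2 hφs⟩, ?_⟩
  ext b
  rw [Subgroup.mem_pointwise_smul_iff_inv_smul_mem, MulAut.smul_def, MulAut.conj_inv_apply]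
  set γ : alternatingGroup (Fin n) := ⟨φ, Equiv.Perm.mem_alternatingGroup.2 hφs⟩ with hγ
  have h1 := hφ ((γ⁻¹ * b * γ : alternatingGroup (Fin n)) : Perm (Fin n))
  have h2 : φ * ((γ⁻¹ * b * γ : alternatingGroup (Fin n)) : Perm (Fin n)) * φ⁻¹ = (b : Perm (Fin n)) := by
    have : φ = (γ : Perm (Fin n)) := rfl
    rw [this]
    simp only [Subgroup.coe_mul, Subgroup.coe_inv]
    group
  rw [h2] at h1
  have h3' : ∀ (D : Subgroup (alternatingGroup (Fin n))) (x : alternatingGroup (Fin n)),
      (x : Perm (Fin n)) ∈ D.map (alternatingGroup (Fin n)).subtype ↔ x ∈ D := fun D x =>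
    Subgroup.mem_map_iff_mem hinj
  rw [h3', h3'] at h1
  exact h1.symm

theorem final_small (n : ℕ) (hn : n ≤ 2)
    (A B : Subgroup (alternatingGroup (Fin n))) :
    ∃ g : alternatingGroup (Fin n), B = MulAut.conj g • A := by
  have key : ∀ a : alternatingGroup (Fin n), a = 1 := by
    have h0 : ∀ a : Perm (Fin n), Perm.sign a = 1 → a = 1 := by
      interval_cases n <;> decide
    intro a
    apply Subtype.ext
    exact h0 _ (Equiv.Perm.mem_alternatingGroup.1 a.2)
  refine ⟨1, ?_⟩
  rw [map_one, one_smul]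
  ext a
  rw [key a]
  simp only [one_mem]

theorem final_five (A B : Subgroup (alternatingGroup (Fin 5))) (hA : IsMulCommutative A) (hB : IsMulCommutative B)
    (hAmax : ∀ C : Subgroup (alternatingGroup (Fin 5)), IsMulCommutative C → Nat.card C ≤ Nat.card A)
    (hBmax : ∀ C : Subgroup (alternatingGroup (Fin 5)), IsMulCommutative C → Nat.card C ≤ Nat.card B) :
    ∃ g : alternatingGroup (Fin 5), B = MulAut.conj g • A := by
  haveI : Fact (Nat.Prime 5) := ⟨by norm_num⟩
  have hG : Nat.card (alternatingGroup (Fin 5)) = 60 := by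
    rw [nat_card_alternatingGroup]
    simp [Nat.factorial]
  obtain ⟨x, hx⟩ := exists_prime_orderOf_dvd_card' (G := alternatingGroup (Fin 5)) 5 (by rw [hG]; norm_num)
  have hz : IsMulCommutative (Subgroup.zpowers x) := inferInstance
  have hzc : Nat.card (Subgroup.zpowers x) = 5 := by rw [Nat.card_zpowers, hx]
  have hbd : ∀ D : Subgroup (alternatingGroup (Fin 5)), IsMulCommutative D → Nat.card D ≤ 5 := by
    intro D hD
    refine bound_alt D hD 5 ?_ ?_
    · rw [Fintype.card_fin]
      decide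
    · rw [Fintype.card_fin]
      decide
  have hcA : Nat.card A = 5 := le_antisymm (hbd A hA) (by have := hAmax _ hz; rwa [hzc] at this)
  have hcB : Nat.card B = 5 := le_antisymm (hbd B hB) (by have := hBmax _ hz; rwa [hzc] at this)
  have hfac : (Nat.card (alternatingGroup (Fin 5))).factorization 5 = 1 := by
    rw [hG, show (60 : ℕ) = 5 * 12 by norm_num, Nat.factorization_mul (by norm_num) (by norm_num)]
    simp only [Finsupp.add_apply]
    rw [Nat.Prime.factorization_self (by norm_num), Nat.factorization_eq_zero_of_not_dvd (by norm_num)]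
  let P : Sylow 5 (alternatingGroup (Fin 5)) := Sylow.ofCard A (by rw [hfac, hcA]; norm_num)
  let Q : Sylow 5 (alternatingGroup (Fin 5)) := Sylow.ofCard B (by rw [hfac, hcB]; norm_num)
  obtain ⟨g, hg⟩ := MulAction.exists_smul_eq (alternatingGroup (Fin 5)) P Q
  refine ⟨g, ?_⟩
  have h1 : ((g • P : Sylow 5 (alternatingGroup (Fin 5))) : Subgroup (alternatingGroup (Fin 5))) = B := by
    rw [hg]
    rfl
  rw [← h1, Sylow.smul_def, Sylow.pointwise_smul_def]
  rfl

theorem final (n : ℕ)
    (A B : Subgroup (alternatingGroup (Fin n))) (hA : IsMulCommutative A) (hB : IsMulCommutative B)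
    (hAmax : ∀ C : Subgroup (alternatingGroup (Fin n)), IsMulCommutative C → Nat.card C ≤ Nat.card A)
    (hBmax : ∀ C : Subgroup (alternatingGroup (Fin n)), IsMulCommutative C → Nat.card C ≤ Nat.card B) :
    ∃ g : alternatingGroup (Fin n), B = MulAut.conj g • A := by
  by_cases h2 : n ≤ 2
  · exact final_small n h2 A B
  by_cases h5 : n = 5
  · subst h5
    exact final_five A B hA hB hAmax hBmax
  · exact final_gen n (by omega) h5 A B hA hB hAmax hBmax

end Cfsg.Agent.H11.AbPerm
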