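import Cfsg.Agent.Lib.H11.PSpF

/-! The switched form `x, y ↦ β x (t y) - β (t x) y` on the moved part of an isometry of odd order. -/

set_option autoImplicit false
set_option linter.unusedSectionVars false
set_option linter.unusedVariables false

namespace Cfsg.Agent.H11.Bn

open Module Matrix Cfsg.Agent.H29 Cfsg.Agent.H11.PSpG

variable {F : Type*} [Field F] [Fintype F] {V : Type*} [AddCommGroup V] [Module F V] [FiniteDimensional F V]

/-- switched form -/
noncomputable def swF (β : V →ₗ[F] V →ₗ[F] F) (t : V →ₗ[F] V) : V →ₗ[F] V →ₗ[F] F :=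
  β.compl₂ t - β.comp t

@[simp] theorem swF_apply (β : V →ₗ[F] V →ₗ[F] F) (t : V →ₗ[F] V) (x y : V) :
    swF β t x y = β x (t y) - β (t x) y := by
  simp [swF]

/-- moved part -/
abbrev mv (t : V →ₗ[F] V) : Submodule F V := LinearMap.range (t - 1)

/-- switched form on the moved part -/
noncomputable def swW (β : V →ₗ[F] V →ₗ[F] F) (t : V →ₗ[F] V) : ↥(mv t) →ₗ[F] ↥(mv t) →ₗ[F] F :=
  (swF β t).domRestrict₁₂ (mv t) (mv t)

@[simp] theorem swW_apply (β : V →ₗ[F] V →ₗ[F] F) (t : V →ₗ[F] V) (x y : ↥(mv t)) :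
    swW β t x y = β x (t y) - β (t x) y := by
  rw [swW, LinearMap.domRestrict₁₂_apply, swF_apply]

theorem mv_inv (t c : V →ₗ[F] V) (h : t * c = c * t) (v : V) (hv : v ∈ mv t) : c v ∈ mv t :=
  range_inv t c h v hv

/-- restriction to the moved part -/
noncomputable def rW (t c : V →ₗ[F] V) (h : t * c = c * t) : ↥(mv t) →ₗ[F] ↥(mv t) :=
  c.restrict (fun v hv => mv_inv t c h v hv)

@[simp] theorem rW_coe (t c : V →ₗ[F] V) (h : t * c = c * t) (v : ↥(mv t)) : (rW t c h v : V) = c v := rfl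

theorem rW_pow_coe (t c : V →ₗ[F] V) (h : t * c = c * t) (m : ℕ) (v : ↥(mv t)) :
    (((rW t c h) ^ m) v : V) = (c ^ m) v :=
  pow_on (rW t c h) c (fun _ => rfl) m v

theorem rW_pow_eq_one (t c : V →ₗ[F] V) (h : t * c = c * t) (m : ℕ) :
    (rW t c h) ^ m = 1 ↔ ∀ v ∈ mv t, (c ^ m) v = v := by
  constructor
  · intro h1 v hv
    have := rW_pow_coe t c h m ⟨v, hv⟩
    rw [h1] at this
    exact this.symm
  · intro h1
    apply LinearMap.ext
    intro v
    apply Subtype.ext
    rw [rW_pow_coe]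
    exact h1 _ v.2

theorem rW_comm (t c : V →ₗ[F] V) (h : t * c = c * t) (c' : V →ₗ[F] V) (h' : t * c' = c' * t) (hcc : c * c' = c' * c) :
    rW t c h * rW t c' h' = rW t c' h' * rW t c h := by
  apply LinearMap.ext
  intro v
  apply Subtype.ext
  have := LinearMap.congr_fun hcc (v : V)
  simpa using this

theorem rW_mul (t c : V →ₗ[F] V) (h : t * c = c * t) (c' : V →ₗ[F] V) (h' : t * c' = c' * t) (hh : t * (c * c') = (c * c') * t) :
    rW t (c * c') hh = rW t c h * rW t c' h' := by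
  apply LinearMap.ext
  intro v
  apply Subtype.ext
  rfl

section main

variable (β : V →ₗ[F] V →ₗ[F] F) (t : V →ₗ[F] V)

/-- the left radical of the form restricted to the moved part -/
theorem mv_rad (hl : ∀ x, (∀ v, β x v = 0) → x = 0) (hiso : ∀ x y, β (t x) (t y) = β x y) (N : ℕ) (hN0 : 0 < N)
    (hN : (N : F) ≠ 0) (ht : t ^ N = 1) (x : V) (hx : x ∈ mv t) (h : ∀ w ∈ mv t, β x w = 0) : x = 0 := by
  have ht1 : ∀ z, t ((t ^ (N - 1)) z) = z := by
    intro z
    rw [← Module.End.mul_apply, ← pow_succ', Nat.sub_add_cancel hN0, ht]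
    rfl
  have h1 : ∀ v, β ((t ^ (N - 1)) x - x) v = 0 := by
    intro v
    have h2 := h ((t - 1) v) ⟨v, rfl⟩
    have h3 : β ((t ^ (N - 1)) x) v = β x (t v) := by
      rw [← hiso ((t ^ (N - 1)) x) v, ht1]
    rw [map_sub, LinearMap.sub_apply, h3]
    simp only [LinearMap.sub_apply, Module.End.one_apply, map_sub] at h2
    exact h2
  have h4 := hl _ h1
  have h5 : t x = x := by
    have h6 : (t ^ (N - 1)) x = x := sub_eq_zero.1 h4
    have h7 := ht1 x
    rw [h6] at h7
    exact h7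
  exact fix_inf_range t N hN ht x ((mem_fix t x).2 h5) hx

/-- `t - t⁻¹` on the moved part -/
theorem mv_surj (N : ℕ) (hodd : Odd N) (hN : (N : F) ≠ 0) (ht : t ^ N = 1) (w : V) (hw : w ∈ mv t) :
    ∃ y ∈ mv t, t y - (t ^ (N - 1)) y = w := by
  have hN0 : 0 < N := hodd.pos
  let S : V →ₗ[F] V := t - t ^ (N - 1)
  have hSc : t * S = S * t := by
    simp only [S, mul_sub, sub_mul, ← pow_succ, ← pow_succ']
  let R := rW t S hSc
  have hinj : Function.Injective R := by
    rw [← LinearMap.ker_eq_bot, LinearMap.ker_eq_bot']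
    intro v hv
    have hv0 : S (v : V) = 0 := by
      have := congrArg Subtype.val hv
      simpa [R] using this
    have h1 : t (v : V) = (t ^ (N - 1)) v := sub_eq_zero.1 hv0
    have h2 : (t ^ 2) (v : V) = v := by
      rw [pow_two, Module.End.mul_apply, h1, ← Module.End.mul_apply, ← pow_succ', Nat.sub_add_cancel hN0, ht]
      rfl
    obtain ⟨k, hk⟩ := hodd
    have h3 : ∀ i : ℕ, (t ^ (2 * i)) (v : V) = v := by
      intro i
      induction i with
      | zero => simp
      | succ i ih =>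
        rw [Nat.mul_succ, pow_add, Module.End.mul_apply, h2, ih]
    have h4 : t (v : V) = v := by
      have h5 := h3 (k + 1)
      have h6 : 2 * (k + 1) = N + 1 := by omega
      rw [h6, pow_succ', ht] at h5
      simpa using h5
    apply Subtype.ext
    exact fix_inf_range t N hN ht v ((mem_fix t v).2 h4) v.2
  have hsurj : Function.Surjective R := LinearMap.injective_iff_surjective.1 hinj
  obtain ⟨y, hy⟩ := hsurj ⟨w, hw⟩
  refine ⟨y, y.2, ?_⟩
  have := congrArg Subtype.val hy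
  simpa [R, S] using this

/-- nondegeneracy of the switched form -/
theorem swW_nd (hl : ∀ x, (∀ v, β x v = 0) → x = 0) (hiso : ∀ x y, β (t x) (t y) = β x y) (N : ℕ)
    (hodd : Odd N) (hN : (N : F) ≠ 0) (ht : t ^ N = 1) : NondegOn (swW β t) ⊤ := by
  intro x _ hx
  by_contra hcon
  push Not at hcon
  have hN0 : 0 < N := hodd.pos
  have ht1 : ∀ z, t ((t ^ (N - 1)) z) = z := by
    intro z
    rw [← Module.End.mul_apply, ← pow_succ', Nat.sub_add_cancel hN0, ht]
    rfl
  apply hx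
  apply Subtype.ext
  refine mv_rad β t hl hiso N hN0 hN ht x x.2 ?_
  intro w hw
  obtain ⟨y, hy, rfl⟩ := mv_surj t N hodd hN ht w hw
  have h1 := hcon ⟨y, hy⟩ Submodule.mem_top
  rw [swW_apply] at h1
  have h2 : β (t (x : V)) y = β x ((t ^ (N - 1)) y) := by
    conv_lhs => rw [← ht1 y, hiso]
  rw [h2] at h1
  rw [map_sub]
  exact h1

theorem swW_alt (hsym : ∀ x y, β x y = β y x) (x : ↥(mv t)) : swW β t x x = 0 := by
  rw [swW_apply, hsym (x : V), sub_self]

theorem swW_symm (halt : ∀ v, β v v = 0) (x y : ↥(mv t)) : swW β t x y = swW β t y x := by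
  rw [swW_apply, swW_apply, form_swap halt (x : V) (t y), form_swap halt (t (x : V)) (y : V)]
  ring

theorem swW_iso (hiso : ∀ x y, β (t x) (t y) = β x y) (c : V →ₗ[F] V) (h : t * c = c * t) (hc : ∀ x y, β (c x) (c y) = β x y)
    (x y : ↥(mv t)) : swW β t (rW t c h x) (rW t c h y) = swW β t x y := by
  have h1 : ∀ z, t (c z) = c (t z) := fun z => LinearMap.congr_fun h z
  simp only [swW_apply, rW_coe]
  rw [h1, h1, hc, hc]

theorem mv_even_sym (hl : ∀ x, (∀ v, β x v = 0) → x = 0) (hsym : ∀ x y, β x y = β y x)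
    (hiso : ∀ x y, β (t x) (t y) = β x y) (N : ℕ) (hodd : Odd N) (hN : (N : F) ≠ 0) (ht : t ^ N = 1) :
    Even (finrank F (mv t)) := by
  have h1 := even_finrank_of_nondegOn (swW_alt β t hsym) ⊤ (swW_nd β t hl hiso N hodd hN ht)
  rwa [finrank_top] at h1

theorem mv_even_alt (hl : ∀ x, (∀ v, β x v = 0) → x = 0) (halt : ∀ v, β v v = 0)
    (hiso : ∀ x y, β (t x) (t y) = β x y) (N : ℕ) (hodd : Odd N) (hN : (N : F) ≠ 0) (ht : t ^ N = 1) :
    Even (finrank F (mv t)) := by
  refine even_finrank_of_nondegOn halt (mv t) ?_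
  intro u hu hu0
  by_contra hcon
  push Not at hcon
  exact hu0 (mv_rad β t hl hiso N hodd.pos hN ht u hu hcon)

/-- a power of `c` trivial on the moved part and on the fixed part is trivial -/
theorem mv_sup_ker (N : ℕ) (hN : (N : F) ≠ 0) (ht : t ^ N = 1) :
    mv t ⊔ LinearMap.ker (t - 1) = ⊤ := by
  apply Submodule.eq_top_of_finrank_eq
  have h1 := Submodule.finrank_sup_add_finrank_inf_eq (mv t) (LinearMap.ker (t - 1))
  have h2 : mv t ⊓ LinearMap.ker (t - 1) = ⊥ := by
    rw [eq_bot_iff]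
    rintro v ⟨h3, h4⟩
    exact fix_inf_range t N hN ht v h4 h3
  rw [h2, finrank_bot, add_zero] at h1
  have h3 : finrank F ↥(mv t) + finrank F ↥(LinearMap.ker (t - 1)) = finrank F V :=
    LinearMap.finrank_range_add_finrank_ker (t - 1)
  omega

theorem rW_pow_t (N : ℕ) (hN : (N : F) ≠ 0) (ht : t ^ N = 1) (m : ℕ) (h : ∀ v ∈ mv t, (t ^ m) v = v) : t ^ m = 1 := by
  apply LinearMap.ext
  intro v
  have h1 := h ((t - 1) v) ⟨v, rfl⟩
  have hc : t ^ m * (t - 1) = (t - 1) * t ^ m := by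
    rw [mul_sub, sub_mul, ← pow_succ, ← pow_succ']
    simp
  have h2 := LinearMap.congr_fun hc v
  simp only [Module.End.mul_apply] at h2
  rw [h2] at h1
  have h3 : (t - 1) ((t ^ m) v - v) = 0 := by
    rw [map_sub, h1, sub_self]
  have h4 : (t ^ m) v - v ∈ mv t := by
    have h5 : t ^ m - 1 = (∑ i ∈ Finset.range m, t ^ i) * (t - 1) := by
      have := geom_sum_mul t m
      exact this.symm
    refine ⟨(∑ i ∈ Finset.range m, t ^ i) v, ?_⟩
    have h6 : (t ^ m - 1) v = ((t - 1) * ∑ i ∈ Finset.range m, t ^ i) v := by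
      rw [mul_geom_sum]
    simpa using h6.symm
  have h5 := fix_inf_range t N hN ht _ h3 h4
  simpa using sub_eq_zero.1 h5

end main

end Cfsg.Agent.H11.Bn
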