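import Cfsg.Agent.Lib.H11.Bn9

/-! Comparison of the prime graphs of `PΩ(2n+1,q)` and `PSp(2n,q)`. -/

set_option autoImplicit false
set_option linter.unusedSectionVars false
set_option linter.unusedVariables false

namespace Cfsg.Agent.H11.Bn

open Module Matrix QuadraticMap Cfsg Cfsg.Agent.H29 Cfsg.Agent.H11.PSpG

universe u v

variable {F : Type v} [Field F] [Fintype F]

theorem two_case (p : ℕ) [hp : Fact p.Prime] [hc : CharP F p] (hodd : Odd (Fintype.card F)) (n : ℕ) (hn : 3 ≤ n) (s : ℕ) (hs : s.Prime) (hs2 : s ≠ 2) :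
    (2 * s ∈ Set.range (orderOf : POmega F ⇑(oddForm n F) → ℕ)) ↔ (2 * s ∈ Set.range (orderOf : Cfsg.PSp n F → ℕ)) := by
  by_cases hsp : s = p
  · subst hsp
    exact ⟨fun _ => b1_psp s hodd n hn, fun _ => b1_om s hodd n hn⟩
  obtain ⟨η, hη⟩ := exists_eta (F := F) s
  rcases lt_trichotomy η n with h | h | h
  · exact ⟨fun _ => b2a_psp p hodd n hn s hs hs2 hsp η hη h, fun _ => b2a_om p hodd n hn s hs hs2 hsp η hη h⟩
  · subst h
    exact ⟨b2c_f p hodd η hn s hs hs2 hsp hη, b2c_b p hodd η hn s hs hs2 hsp hη⟩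
  · constructor
    · intro h1
      have := b2b_om p hodd n hn s hs hs2 hsp η hη h1
      omega
    · intro h1
      have := b2b_psp p hodd n hn s hs hs2 hsp η hη h1
      omega

theorem odd_case (p : ℕ) [hp : Fact p.Prime] [hc : CharP F p] (hodd : Odd (Fintype.card F)) (n : ℕ) (hn : 3 ≤ n) (r s : ℕ) (hr : r.Prime) (hs : s.Prime)
    (hr2 : r ≠ 2) (hs2 : s ≠ 2) (hrs : r ≠ s) :
    (r * s ∈ Set.range (orderOf : POmega F ⇑(oddForm n F) → ℕ)) ↔ (r * s ∈ Set.range (orderOf : Cfsg.PSp n F → ℕ)) := by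
  by_cases hsp : s = p
  · subst hsp
    exact ⟨a2_f s hodd n hn r hr hr2 hrs, a2_b s hodd n hn r hr hr2 hrs⟩
  by_cases hrp : r = p
  · subst hrp
    rw [mul_comm r s]
    exact ⟨a2_f r hodd n hn s hs hs2 hrs.symm, a2_b r hodd n hn s hs hs2 hrs.symm⟩
  exact ⟨a1_f p hodd n hn r s hr hs hr2 hs2 hrp hsp, a1_b p hodd n hn r s hr hs hr2 hs2 hrp hsp hrs⟩

theorem main (hodd : Odd (Fintype.card F)) (n : ℕ) (hn : 3 ≤ n) (r s : ℕ) (hr : r.Prime) (hs : s.Prime) (hrs : r ≠ s) :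
    (r * s ∈ Set.range (orderOf : POmega F (quadFormOdd n F) → ℕ)) ↔ (r * s ∈ Set.range (orderOf : Cfsg.PSp n F → ℕ)) := by
  rw [← oddForm_coe n]
  obtain ⟨p, hc⟩ := CharP.exists F
  haveI hp : Fact p.Prime := ⟨CharP.char_is_prime F p⟩
  by_cases hr2 : r = 2
  · subst hr2
    exact two_case p hodd n hn s hs hrs.symm
  by_cases hs2 : s = 2
  · subst hs2
    rw [mul_comm r 2]
    exact two_case p hodd n hn r hr hr2
  exact odd_case p hodd n hn r s hr hs hr2 hs2 hrs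

end Cfsg.Agent.H11.Bn
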