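import Cfsg.Agent.Lib.H11.Bn1
import Cfsg.Agent.Lib.H11.Spin7
import Cfsg.Agent.Lib.H11.QF2
import Cfsg.Agent.Lib.H11.QF4
import Cfsg.Agent.Lib.H03.OSpin
import Cfsg.Agent.Lib.H01.OmOddFinal

/-! Transport of a nondegenerate quadratic space of dimension `2n+1` to the standard odd form; membership in `Ω`. -/

set_option autoImplicit false
set_option linter.unusedSectionVars false
set_option linter.unusedVariables false

namespace Cfsg.Agent.H11.Bn

open Module Matrix QuadraticMap Cfsg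

universe u v

variable {F : Type v} [Field F]

/-- the standard coordinate space -/
abbrev V0 (n : ℕ) (F : Type v) : Type v := Unit ⊕ (Fin n ⊕ Fin n) → F

theorem nd_of_left {X : Type*} [AddCommGroup X] [Module F X] (Q : QuadraticForm F X)
    (h : ∀ x, (∀ y, polar Q x y = 0) → x = 0) : (polarBilin Q).Nondegenerate := by
  constructor
  · intro x hx
    exact h x hx
  · intro y hy
    apply h y
    intro x
    rw [polar_comm]
    exact hy x

theorem left_of_nd {X : Type*} [AddCommGroup X] [Module F X] (Q : QuadraticForm F X)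
    (h : (polarBilin Q).Nondegenerate) (x : X) (hx : ∀ y, polar Q x y = 0) : x = 0 :=
  h.1 x hx

theorem std_odd [Fintype F] {X : Type v} [AddCommGroup X] [Module F X] [FiniteDimensional F X] (h2 : (2 : F) ≠ 0) (n : ℕ)
    (hX : finrank F X = 2 * n + 1) (Q : QuadraticForm F X) (hQ : (polarBilin Q).Nondegenerate) :
    ∃ (d : F) (Λ : V0 n F ≃ₗ[F] X), d ≠ 0 ∧ ∀ v, Q (Λ v) = d * oddForm n F v := by
  classical
  obtain ⟨k, e, f, W, h1, h3, h4, h5, h6, h7, h8⟩ := qf_decomp (2 * n + 1) X Q hX hQ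
  have h9 := finrank_aniso_le_two Q W h6
  have hW1 : finrank F W = 1 := by omega
  obtain rfl : k = n := by omega
  obtain ⟨z, hz0, hz⟩ := finrank_eq_one_iff'.1 hW1
  set d := Q (z : X) with hd
  have hd0 : d ≠ 0 := by
    intro h0
    exact hz0 (Subtype.ext (h6 _ z.2 h0))
  let w : Unit ⊕ (Fin k ⊕ Fin k) → X := Sum.elim (fun _ => (z : X)) (Sum.elim e (fun i => d • f i))
  let bas := Pi.basisFun F (Unit ⊕ (Fin k ⊕ Fin k))
  let Λ₀ : V0 k F →ₗ[F] X := bas.constr F w
  have hΛ₀ : ∀ x, Λ₀ (bas x) = w x := fun x => bas.constr_basis F w x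
  have hP0 : ∀ x y, polar (oddForm k F) (bas x) (bas y) = polar Q (w x) (w y) / d := by
    have hc : ⇑(oddForm k F) = quadFormOdd k F := oddForm_coe k
    intro x y
    rw [hc, polar_odd']
    have hzz : polar Q (z : X) z = 2 * d := by
      rw [polar_self, hd]; simp
    have hze : ∀ i, polar Q (z : X) (e i) = 0 := fun i => by
      rw [polar_comm]; exact (h5 i _ z.2).1
    have hzf : ∀ i, polar Q (z : X) (f i) = 0 := fun i => by
      rw [polar_comm]; exact (h5 i _ z.2).2
    have hfs : ∀ (a b : X) (c : F), polar Q a (c • b) = c * polar Q a b := fun a b c => by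
      rw [polar_smul_right]; rfl
    have hfs' : ∀ (a b : X) (c : F), polar Q (c • a) b = c * polar Q a b := fun a b c => by
      rw [polar_smul_left]; rfl
    have hez : ∀ a, polar Q (e a) (z : X) = 0 := fun a => (h5 a _ z.2).1
    have hfz : ∀ a, polar Q (f a) (z : X) = 0 := fun a => (h5 a _ z.2).2
    have hee : ∀ a b, polar Q (e a) (e b) = 0 := fun a b => (h4 a b).1
    have hff : ∀ a b, polar Q (f a) (f b) = 0 := fun a b => (h4 a b).2
    have hfe : ∀ a b, polar Q (f a) (e b) = if b = a then 1 else 0 := fun a b => by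
      rw [polar_comm]; exact h3 b a
    rcases x with ⟨⟩ | a | a <;> rcases y with ⟨⟩ | b | b <;>
      simp only [w, Sum.elim_inl, Sum.elim_inr, hzz, hze, hzf, hfs, hfs', bas, Pi.basisFun_apply, Pi.single_apply,
        Sum.inl.injEq, Sum.inr.injEq, reduceCtorEq, ite_false, ite_true, mul_one, mul_zero, zero_mul, add_zero, zero_add,
        Finset.sum_const_zero, ite_mul, mul_ite, one_mul, Finset.sum_ite_eq, Finset.sum_ite_eq', Finset.mem_univ,
        Finset.sum_add_distrib, hez, hfz, hee, hff, hfe, h3]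
    all_goals first
      | simp [hd0]; done
      | (by_cases hab : a = b
         · simp [hab, hd0]
         · simp [hab, show ¬ b = a from fun h => hab h.symm, hd0])
  have hP : ∀ u v : V0 k F, polar Q (Λ₀ u) (Λ₀ v) = d * polar (oddForm k F) u v := by
    let B₁ : V0 k F →ₗ[F] V0 k F →ₗ[F] F := (polarBilin Q).compl₁₂ Λ₀ Λ₀
    let B₂ : V0 k F →ₗ[F] V0 k F →ₗ[F] F := d • polarBilin (oddForm k F)
    have hB : B₁ = B₂ := by
      refine bas.ext fun x => bas.ext fun y => ?_
      simp only [B₁, B₂, LinearMap.compl₁₂_apply, polarBilin_apply_apply, LinearMap.smul_apply, hΛ₀, smul_eq_mul, hP0]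
      field_simp
    intro u v
    have := LinearMap.congr_fun (LinearMap.congr_fun hB u) v
    simpa [B₁, B₂] using this
  have hinj : Function.Injective Λ₀ := by
    rw [← LinearMap.ker_eq_bot, LinearMap.ker_eq_bot']
    intro v hv
    apply left_of_nd _ (odd_nondeg h2 k)
    intro y
    have h10 := hP v y
    rw [hv, polar_zero_left] at h10
    exact (mul_eq_zero.1 h10.symm).resolve_left hd0
  have hdim : finrank F (V0 k F) = finrank F X := by
    rw [hX]
    simp [two_mul]
    omega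
  let Λ : V0 k F ≃ₗ[F] X := LinearMap.linearEquivOfInjective Λ₀ hinj hdim
  have hΛ : ∀ u, Λ u = Λ₀ u := fun u => LinearMap.linearEquivOfInjective_apply hinj hdim u
  refine ⟨d, Λ, hd0, fun v => ?_⟩
  rw [hΛ]
  have h10 := hP v v
  rw [polar_self, polar_self] at h10
  simp only [nsmul_eq_mul, Nat.cast_ofNat] at h10
  apply mul_left_cancel₀ h2
  rw [h10]
  ring

/-- from an isometry of the transported form to the isometry group of the standard form -/
theorem to_O [Fintype F] {X : Type*} [AddCommGroup X] [Module F X] (n : ℕ) (Q : QuadraticForm F X) (d : F)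
    (Λ : V0 n F ≃ₗ[F] X) (hd : d ≠ 0) (hΛ : ∀ v, Q (Λ v) = d * oddForm n F v) (f : X →ₗ[F] X)
    (hf : ∀ x, Q (f x) = Q x) (N : ℕ) (hN : 0 < N) (hfN : f ^ N = 1) :
    ∃ g : ↥(isometryGroup F ⇑(oddForm n F)), (∀ m : ℕ, g ^ m = 1 ↔ f ^ m = 1) ∧
      ∀ v, g.1.1 *ᵥ v = Λ.symm (f (Λ v)) := by
  classical
  let A : Matrix (Unit ⊕ (Fin n ⊕ Fin n)) (Unit ⊕ (Fin n ⊕ Fin n)) F :=
    LinearMap.toMatrix' (Λ.symm.toLinearMap ∘ₗ f ∘ₗ Λ.toLinearMap)
  have hA : ∀ u, A *ᵥ u = Λ.symm (f (Λ u)) := by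
    intro u
    rw [← Matrix.toLin'_apply, Matrix.toLin'_toMatrix']
    simp
  have hpow : ∀ (m : ℕ) (u : V0 n F), A ^ m *ᵥ u = Λ.symm ((f ^ m) (Λ u)) := by
    intro m
    induction m with
    | zero => intro u; simp
    | succ m ih =>
      intro u
      rw [pow_succ, ← Matrix.mulVec_mulVec, hA, ih, pow_succ, Module.End.mul_apply]
      simp
  have hA1 : ∀ m, A ^ m = 1 ↔ f ^ m = 1 := by
    intro m
    constructor
    · intro h
      apply LinearMap.ext
      intro v
      have h2 := hpow m (Λ.symm v)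
      rw [h, Matrix.one_mulVec, LinearEquiv.apply_symm_apply] at h2
      have h3 := congrArg Λ h2
      simp only [LinearEquiv.apply_symm_apply] at h3
      exact h3.symm
    · intro h
      apply Matrix.ext_of_mulVec_single
      intro u
      rw [hpow, h, Matrix.one_mulVec]
      simp
  have hAN : A ^ N = 1 := (hA1 N).2 hfN
  have hu1 : A * A ^ (N - 1) = 1 := by
    rw [← pow_succ', Nat.sub_add_cancel hN, hAN]
  have hu2 : A ^ (N - 1) * A = 1 := by
    rw [← pow_succ, Nat.sub_add_cancel hN, hAN]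
  let gl : Matrix.GeneralLinearGroup (Unit ⊕ (Fin n ⊕ Fin n)) F := ⟨A, A ^ (N - 1), hu1, hu2⟩
  have hmem : gl ∈ isometryGroup F ⇑(oddForm n F) := by
    rw [Cfsg.Agent.H11.mem_isometryGroup_iff]
    intro v
    change oddForm n F (A *ᵥ v) = _
    apply mul_left_cancel₀ hd
    rw [← hΛ, ← hΛ, hA, LinearEquiv.apply_symm_apply, hf]
  refine ⟨⟨gl, hmem⟩, fun m => ?_, hA⟩
  rw [← hA1]
  constructor
  · intro h
    have := congrArg (fun x : ↥(isometryGroup F ⇑(oddForm n F)) => x.1.1) h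
    simpa [gl] using this
  · intro h
    apply Subtype.ext
    apply Units.ext
    simpa [gl] using h

/-- linear map of an isometry -/
noncomputable def lin {n : ℕ} (g : ↥(isometryGroup F ⇑(oddForm n F))) : V0 n F →ₗ[F] V0 n F :=
  Matrix.mulVecLin g.1.1

theorem lin_apply {n : ℕ} (g : ↥(isometryGroup F ⇑(oddForm n F))) (v : V0 n F) :
    lin g v = g.1.1 *ᵥ v := rfl

theorem lin_mul {n : ℕ} (g h : ↥(isometryGroup F ⇑(oddForm n F))) : lin (g * h) = lin g * lin h := by
  apply LinearMap.ext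
  intro v
  simp [lin, Matrix.mulVec_mulVec]

theorem lin_one {n : ℕ} : lin (1 : ↥(isometryGroup F ⇑(oddForm n F))) = 1 := by
  apply LinearMap.ext
  intro v
  simp [lin]

theorem lin_pow {n : ℕ} (g : ↥(isometryGroup F ⇑(oddForm n F))) (m : ℕ) : lin (g ^ m) = lin g ^ m := by
  induction m with
  | zero => simp [lin_one]
  | succ m ih => rw [pow_succ, lin_mul, ih, pow_succ]

theorem lin_inj {n : ℕ} (g h : ↥(isometryGroup F ⇑(oddForm n F))) (hh : lin g = lin h) : g = h := by
  apply Subtype.ext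
  apply Units.ext
  apply Matrix.ext_of_mulVec_single
  intro v
  exact LinearMap.congr_fun hh _

theorem lin_pow_eq_one {n : ℕ} (g : ↥(isometryGroup F ⇑(oddForm n F))) (m : ℕ) : lin g ^ m = 1 ↔ g ^ m = 1 := by
  constructor
  · intro h
    apply lin_inj
    rw [lin_pow, h, lin_one]
  · intro h
    rw [← lin_pow, h, lin_one]

theorem lin_Q {n : ℕ} (g : ↥(isometryGroup F ⇑(oddForm n F))) (v : V0 n F) : oddForm n F (lin g v) = oddForm n F v :=
  Cfsg.Agent.H11.mem_isometryGroup_iff.1 g.2 v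

theorem lin_polar {n : ℕ} (g : ↥(isometryGroup F ⇑(oddForm n F))) (x y : V0 n F) :
    polar (oddForm n F) (lin g x) (lin g y) = polar (oddForm n F) x y := by
  simp only [polar, ← map_add, lin_Q]

/-- odd order elements lie in `Ω` -/
theorem odd_mem [Fintype F] (h2 : (2 : F) ≠ 0) {n : ℕ} (hn : 1 ≤ n) (g : ↥(isometryGroup F ⇑(oddForm n F))) (N : ℕ) (hN : Odd N) (hg : g ^ N = 1) :
    g ∈ Omega F ⇑(oddForm n F) := by
  classical
  have hcard : 2 ≤ Fintype.card (Unit ⊕ (Fin n ⊕ Fin n)) := by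
    simp
    omega
  obtain ⟨χ₁, χ₂, -, -, h3, -⟩ := Cfsg.Agent.H03.OSpin.odd_chars h2 hcard (oddForm n F) (odd_nondeg h2 n)
  have key : ∀ χ : ↥(isometryGroup F ⇑(oddForm n F)) →* ℤˣ, χ g = 1 := by
    intro χ
    have h4 : (χ g) ^ N = 1 := by rw [← map_pow, hg, map_one]
    rcases Int.units_eq_one_or (χ g) with h5 | h5
    · exact h5
    · rw [h5, hN.neg_one_pow] at h4
      exact absurd h4 (by decide)
  exact (h3 g).2 ⟨key _, key _⟩

/-- a list description of involutions -/
theorem omega_list [Fintype F] {ι : Type} [Fintype ι] [DecidableEq ι] (h2 : (2 : F) ≠ 0) (hn : 2 ≤ Fintype.card ι)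
    (Q : QuadraticForm F (ι → F)) (hQ : (polarBilin Q).Nondegenerate)
    (g : ↥(isometryGroup F ⇑Q)) (L : List (ι → F)) (hL : ∀ v ∈ L, Q v ≠ 0)
    (hP : L.Pairwise (fun u v => polar (⇑Q) u v = 0))
    (Y : Submodule F (ι → F)) (hspan : Submodule.span F {x | x ∈ L} ⊔ Y = ⊤)
    (hneg : ∀ x ∈ L, g.1.1 *ᵥ x = -x) (hfix : ∀ y ∈ Y, g.1.1 *ᵥ y = y) (horth : ∀ x ∈ L, ∀ y ∈ Y, polar (⇑Q) x y = 0) :
    g ∈ Omega F ⇑Q ↔ (Even L.length ∧ IsSquare (L.map (fun v => Q v)).prod) := by
  classical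
  refine spinor_criterion h2 hn Q hQ g L hL ?_
  set A := (L.map (fun v => reflectionMatrix (⇑Q) v)).prod with hA
  let E : Submodule F (ι → F) := LinearMap.eqLocus (Matrix.mulVecLin g.1.1) (Matrix.mulVecLin A)
  have h1 : Submodule.span F {x | x ∈ L} ≤ E := by
    rw [Submodule.span_le]
    intro x hx
    change g.1.1 *ᵥ x = A *ᵥ x
    rw [hneg x hx, prod_refl_neg Q L hL hP x hx]
  have h3 : Y ≤ E := by
    intro y hy
    change g.1.1 *ᵥ y = A *ᵥ y
    rw [hfix y hy, prod_refl_fix Q L y (fun u hu => horth u hu y hy)]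
  have h4 : E = ⊤ := by
    rw [eq_top_iff, ← hspan]
    exact sup_le h1 h3
  apply Matrix.ext_of_mulVec_single
  intro i
  have h5 : (Pi.single i 1 : ι → F) ∈ E := by
    rw [h4]; exact Submodule.mem_top
  exact h5

end Cfsg.Agent.H11.Bn
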