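import Cfsg.Agent.Lib.H11.Bn2

/-! Elements of `PΩ` from isometries of orthogonal sums. -/

set_option autoImplicit false
set_option linter.unusedSectionVars false
set_option linter.unusedVariables false

namespace Cfsg.Agent.H11.Bn

open Module Matrix QuadraticMap Cfsg

universe u v

variable {F : Type v} [Field F]

theorem two_ne [Fintype F] (hodd : Odd (Fintype.card F)) : (2 : F) ≠ 0 := by
  intro h
  have h1 : ringChar F = 2 := CharP.ringChar_of_prime_eq_zero Nat.prime_two (by exact_mod_cast h)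
  exact (Nat.not_even_iff_odd.2 hodd) (Nat.even_iff.2 (FiniteField.even_card_of_char_two h1))

theorem order_of_iff {G : Type*} [Monoid G] (g : G) (N : ℕ) (hg : ∀ m : ℕ, g ^ m = 1 ↔ N ∣ m) : orderOf g = N :=
  Nat.dvd_antisymm (orderOf_dvd_of_pow_eq_one ((hg N).2 dvd_rfl)) ((hg _).1 (pow_orderOf_eq_one g))

theorem iff_of_order {G : Type*} [Monoid G] (g : G) (N : ℕ) (hg : orderOf g = N) (m : ℕ) : g ^ m = 1 ↔ N ∣ m := by
  rw [← hg]; exact orderOf_dvd_iff_pow_eq_one.symm

/-- trivial centre -/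
theorem center_bot [Fintype F] (hodd : Odd (Fintype.card F)) (n : ℕ) (hn : 3 ≤ n) :
    Subgroup.center (Omega F ⇑(oddForm n F)) = ⊥ := by
  have h1 := (Cfsg.Agent.H01.Om.odd_struct (F := F) hodd hn).1
  rw [← oddForm_coe n] at h1
  have h2 := Subgroup.card_eq_card_quotient_mul_card_subgroup (Subgroup.center (Omega F ⇑(oddForm n F)))
  have hfin : Finite (Omega F ⇑(oddForm n F)) := inferInstance
  have h3 : 0 < Nat.card (Omega F ⇑(oddForm n F)) := Nat.card_pos
  rw [h1] at h2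
  have h4 : Nat.card (Subgroup.center (Omega F ⇑(oddForm n F))) = 1 := by
    have := Nat.eq_of_mul_eq_mul_left h3 (by rw [mul_one]; exact h2.symm.trans rfl : Nat.card (Omega F ⇑(oddForm n F)) * Nat.card (Subgroup.center (Omega F ⇑(oddForm n F))) = Nat.card (Omega F ⇑(oddForm n F)) * 1)
    exact this
  exact Subgroup.eq_bot_of_card_eq _ h4

theorem pom_order [Fintype F] (hodd : Odd (Fintype.card F)) (n : ℕ) (hn : 3 ≤ n) (g : ↥(Omega F ⇑(oddForm n F))) :
    orderOf (QuotientGroup.mk g : POmega F ⇑(oddForm n F)) = orderOf g := by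
  apply orderOf_injective (QuotientGroup.mk' (Subgroup.center (Omega F ⇑(oddForm n F))))
  intro x y hxy
  have h1 : x⁻¹ * y ∈ Subgroup.center (Omega F ⇑(oddForm n F)) := QuotientGroup.eq.1 hxy
  rw [center_bot hodd n hn, Subgroup.mem_bot] at h1
  exact (inv_mul_eq_one.1 h1)

theorem pom_iff [Fintype F] (hodd : Odd (Fintype.card F)) (n : ℕ) (hn : 3 ≤ n) (N : ℕ) :
    N ∈ Set.range (orderOf : POmega F ⇑(oddForm n F) → ℕ) ↔ ∃ g : ↥(Omega F ⇑(oddForm n F)), orderOf g = N := by
  constructor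
  · rintro ⟨x, rfl⟩
    obtain ⟨g, rfl⟩ := QuotientGroup.mk_surjective x
    exact ⟨g, (pom_order hodd n hn g).symm⟩
  · rintro ⟨g, rfl⟩
    exact ⟨_, pom_order hodd n hn g⟩

/-- orthogonal families are independent -/
theorem orth_li {U : Type*} [AddCommGroup U] [Module F U] (h2 : (2 : F) ≠ 0) (Q : QuadraticForm F U) {K : ℕ} (u : Fin K → U)
    (hu : ∀ i, Q (u i) ≠ 0) (ho : ∀ i j, i ≠ j → polar Q (u i) (u j) = 0) : LinearIndependent F u := by
  rw [Fintype.linearIndependent_iff]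
  intro c hc j
  have h1 : polarBilin Q (u j) (∑ i, c i • u i) = 0 := by
    rw [hc, map_zero]
  rw [map_sum, Finset.sum_eq_single j] at h1
  · simp only [map_smul, polarBilin_apply_apply, polar_self, smul_eq_mul, nsmul_eq_mul] at h1
    rcases mul_eq_zero.1 h1 with h3 | h3
    · exact h3
    · exfalso
      rcases mul_eq_zero.1 h3 with h4 | h4
      · exact h2 (by simpa using h4)
      · exact hu j h4
  · intro i _ hi
    simp only [map_smul, polarBilin_apply_apply, smul_eq_mul]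
    rw [ho j i hi.symm, mul_zero]
  · simp

/-- sum of two quadratic spaces is nondegenerate -/
theorem prod_nd {U Y : Type*} [AddCommGroup U] [Module F U] [AddCommGroup Y] [Module F Y] (Q₁ : QuadraticForm F U) (Q₂ : QuadraticForm F Y)
    (h₁ : (polarBilin Q₁).Nondegenerate) (h₂ : (polarBilin Q₂).Nondegenerate) : (polarBilin (Q₁.prod Q₂)).Nondegenerate := by
  apply nd_of_left
  rintro ⟨x₁, x₂⟩ hx
  have hp : ∀ (a b : U × Y), polar (Q₁.prod Q₂) a b = polar Q₁ a.1 b.1 + polar Q₂ a.2 b.2 := by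
    intro a b
    simp only [polar, QuadraticMap.prod_apply, Prod.fst_add, Prod.snd_add]
    ring
  have h3 : x₁ = 0 := left_of_nd Q₁ h₁ x₁ (fun y => by
    have := hx (y, 0)
    rw [hp] at this
    simpa using this)
  have h4 : x₂ = 0 := left_of_nd Q₂ h₂ x₂ (fun y => by
    have := hx (0, y)
    rw [hp] at this
    simpa using this)
  rw [h3, h4]
  rfl

theorem pm_pow {U Y : Type*} [AddCommGroup U] [Module F U] [AddCommGroup Y] [Module F Y] (f : U →ₗ[F] U) (h : Y →ₗ[F] Y) (m : ℕ) :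
    (LinearMap.prodMap f h) ^ m = LinearMap.prodMap (f ^ m) (h ^ m) := by
  induction m with
  | zero => ext <;> simp
  | succ m ih =>
    rw [pow_succ, ih, pow_succ, pow_succ]
    ext <;> simp

theorem pm_pow_eq_one {U Y : Type*} [AddCommGroup U] [Module F U] [AddCommGroup Y] [Module F Y] (f : U →ₗ[F] U) (h : Y →ₗ[F] Y) (m : ℕ) :
    (LinearMap.prodMap f h) ^ m = 1 ↔ f ^ m = 1 ∧ h ^ m = 1 := by
  rw [pm_pow]
  constructor
  · intro h1
    constructor
    · apply LinearMap.ext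
      intro v
      have := LinearMap.congr_fun h1 (v, 0)
      simpa using this
    · apply LinearMap.ext
      intro v
      have := LinearMap.congr_fun h1 (0, v)
      simpa using this
  · rintro ⟨h1, h2⟩
    rw [h1, h2]
    ext <;> simp

/-- producing an element of odd order -/
theorem make_odd [Fintype F] (hodd : Odd (Fintype.card F)) (n : ℕ) (hn : 3 ≤ n) {X : Type v} [AddCommGroup X] [Module F X] [FiniteDimensional F X]
    (hX : finrank F X = 2 * n + 1) (Q : QuadraticForm F X) (hQ : (polarBilin Q).Nondegenerate) (f : X →ₗ[F] X)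
    (hf : ∀ x, Q (f x) = Q x) (N : ℕ) (hN : Odd N) (hfN : ∀ m : ℕ, f ^ m = 1 ↔ N ∣ m) :
    N ∈ Set.range (orderOf : POmega F ⇑(oddForm n F) → ℕ) := by
  have h2 : (2 : F) ≠ 0 := two_ne hodd
  obtain ⟨d, Λ, hd, hΛ⟩ := std_odd h2 n hX Q hQ
  obtain ⟨g, hg, -⟩ := to_O n Q d Λ hd hΛ f hf N hN.pos ((hfN N).2 dvd_rfl)
  have hgN : g ^ N = 1 := (hg N).2 ((hfN N).2 dvd_rfl)
  rw [pom_iff hodd n hn]
  refine ⟨⟨g, odd_mem h2 (by omega) g N hN hgN⟩, ?_⟩
  rw [Subgroup.orderOf_mk]
  exact order_of_iff g N (fun m => (hg m).trans (hfN m))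

/-- producing an element of twice odd order -/
theorem make_even [Fintype F] (hodd : Odd (Fintype.card F)) (n : ℕ) (hn : 3 ≤ n) {U Y : Type v} [AddCommGroup U] [Module F U] [FiniteDimensional F U]
    [AddCommGroup Y] [Module F Y] [FiniteDimensional F Y]
    (hdim : finrank F U + finrank F Y = 2 * n + 1) (Q₁ : QuadraticForm F U) (Q₂ : QuadraticForm F Y)
    (h₁ : (polarBilin Q₁).Nondegenerate) (h₂ : (polarBilin Q₂).Nondegenerate)
    (K : ℕ) (hK : 0 < K) (hKe : Even K) (hKU : K = finrank F U) (u : Fin K → U) (hu : ∀ i, Q₁ (u i) ≠ 0) (ho : ∀ i j, i ≠ j → polar Q₁ (u i) (u j) = 0)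
    (hsq : IsSquare (∏ i, Q₁ (u i))) (b₀ : U →ₗ[F] U) (b₁ : Y →ₗ[F] Y) (hb₀ : ∀ x, Q₁ (b₀ x) = Q₁ x) (hb₁ : ∀ x, Q₂ (b₁ x) = Q₂ x)
    (N : ℕ) (hN : Odd N) (hfN : ∀ m : ℕ, (LinearMap.prodMap b₀ b₁) ^ m = 1 ↔ N ∣ m) :
    2 * N ∈ Set.range (orderOf : POmega F ⇑(oddForm n F) → ℕ) := by
  classical
  have h2 : (2 : F) ≠ 0 := two_ne hodd
  have hXdim : finrank F (U × Y) = 2 * n + 1 := by
    rw [Module.finrank_prod, hdim]
  obtain ⟨d, Λ, hd, hΛ⟩ := std_odd h2 n hXdim (Q₁.prod Q₂) (prod_nd Q₁ Q₂ h₁ h₂)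
  have hb : ∀ x, (Q₁.prod Q₂) ((LinearMap.prodMap b₀ b₁) x) = (Q₁.prod Q₂) x := by
    rintro ⟨x₁, x₂⟩
    simp [QuadraticMap.prod_apply, hb₀, hb₁]
  obtain ⟨g, hg, hg'⟩ := to_O n (Q₁.prod Q₂) d Λ hd hΛ _ hb N hN.pos ((hfN N).2 dvd_rfl)
  have hgN : g ^ N = 1 := (hg N).2 ((hfN N).2 dvd_rfl)
  let a' : (U × Y) →ₗ[F] (U × Y) := LinearMap.prodMap (-1) 1
  have ha'2 : a' ^ 2 = 1 := by
    ext <;> simp [a', pow_two]
  have ha' : ∀ x, (Q₁.prod Q₂) (a' x) = (Q₁.prod Q₂) x := by
    rintro ⟨x₁, x₂⟩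
    simp [QuadraticMap.prod_apply, a']
  obtain ⟨a, ha, ha''⟩ := to_O n (Q₁.prod Q₂) d Λ hd hΛ a' ha' 2 (by norm_num) ha'2
  have hQ0 : ∀ x : U × Y, (oddForm n F) (Λ.symm x) = (Q₁.prod Q₂) x / d := by
    intro x
    have := hΛ (Λ.symm x)
    rw [LinearEquiv.apply_symm_apply] at this
    rw [this]
    field_simp
  have hP0 : ∀ x y : U × Y, polar (⇑(oddForm n F)) (Λ.symm x) (Λ.symm y) = polar (Q₁.prod Q₂) x y / d := by
    intro x y
    simp only [polar, ← map_add, hQ0]
    ring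
  have hpp : ∀ (a b : U × Y), polar (Q₁.prod Q₂) a b = polar Q₁ a.1 b.1 + polar Q₂ a.2 b.2 := by
    intro a b
    simp only [polar, QuadraticMap.prod_apply, Prod.fst_add, Prod.snd_add]
    ring
  have hcard : 2 ≤ Fintype.card (Unit ⊕ (Fin n ⊕ Fin n)) := by
    simp
    omega
  -- the element `a` lies in `Ω`
  let w : Fin K → V0 n F := fun i => Λ.symm (u i, 0)
  let L : List (V0 n F) := List.ofFn w
  have hL : ∀ v ∈ L, (oddForm n F) v ≠ 0 := by
    intro v hv
    obtain ⟨i, rfl⟩ := (List.mem_ofFn' _ _).1 hv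
    simp only [w]
    rw [hQ0]
    simp [QuadraticMap.prod_apply, hu, hd]
  have hP : L.Pairwise (fun x y => polar (⇑(oddForm n F)) x y = 0) := by
    rw [List.pairwise_ofFn]
    intro i j hij
    simp only [w]
    rw [hP0, hpp]
    simp [ho i j hij.ne]
  let Y' : Submodule F (V0 n F) := (LinearMap.ker (LinearMap.fst F U Y)).map Λ.symm.toLinearMap
  have hspan : Submodule.span F {x | x ∈ L} ⊔ Y' = ⊤ := by
    rw [eq_top_iff]
    intro v _
    have hli := orth_li h2 Q₁ u hu ho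
    have hsp := hli.span_eq_top_of_card_eq_finrank' (by simpa using hKU)
    have h1 : (Λ v).1 ∈ Submodule.span F (Set.range u) := by
      rw [hsp]; exact Submodule.mem_top
    have h3 : ∀ p ∈ Submodule.span F (Set.range u), Λ.symm (p, (0 : Y)) ∈ Submodule.span F {x | x ∈ L} := by
      intro p hp
      induction hp using Submodule.span_induction with
      | mem x hx =>
        obtain ⟨i, rfl⟩ := hx
        apply Submodule.subset_span
        exact (List.mem_ofFn' _ _).2 ⟨i, rfl⟩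
      | zero =>
        have : ((0 : U), (0 : Y)) = 0 := rfl
        rw [this, map_zero]
        exact Submodule.zero_mem _
      | add x y _ _ hx hy =>
        have : (x + y, (0 : Y)) = (x, 0) + (y, 0) := by simp
        rw [this, map_add]
        exact Submodule.add_mem _ hx hy
      | smul c x _ hx =>
        have : (c • x, (0 : Y)) = c • (x, (0 : Y)) := by simp
        rw [this, map_smul]
        exact Submodule.smul_mem _ _ hx
    have h4 : v = Λ.symm ((Λ v).1, 0) + Λ.symm (0, (Λ v).2) := by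
      rw [← map_add]
      simp
    rw [h4]
    refine Submodule.add_mem_sup (h3 _ h1) ?_
    exact ⟨(0, (Λ v).2), by simp, rfl⟩
  have haΩ : a ∈ Omega F ⇑(oddForm n F) := by
    refine (omega_list h2 hcard (oddForm n F) (odd_nondeg h2 n) a L hL hP Y' hspan ?_ ?_ ?_).2 ⟨?_, ?_⟩
    · intro x hx
      obtain ⟨i, rfl⟩ := (List.mem_ofFn' _ _).1 hx
      rw [ha'']
      simp only [w, LinearEquiv.apply_symm_apply]
      have : a' (u i, (0 : Y)) = -(u i, 0) := by
        simp [a']
      rw [this, map_neg]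
    · rintro y ⟨⟨y₁, y₂⟩, hy, rfl⟩
      rw [ha'']
      have hy0 : y₁ = 0 := hy
      subst hy0
      simp [a']
    · intro x hx y hy
      obtain ⟨i, rfl⟩ := (List.mem_ofFn' _ _).1 hx
      obtain ⟨⟨y₁, y₂⟩, hy, rfl⟩ := hy
      have hy0 : y₁ = 0 := hy
      subst hy0
      simp only [w]
      change polar (⇑(oddForm n F)) (Λ.symm _) (Λ.symm _) = 0
      rw [hP0, hpp]
      simp
    · simpa [L, hKU] using hKe
    · have h5 : (L.map (fun v => (oddForm n F) v)).prod = (d⁻¹) ^ K * ∏ i, Q₁ (u i) := by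
        simp only [L, List.map_ofFn, List.prod_ofFn, Function.comp]
        have : ∀ i, (oddForm n F) (w i) = d⁻¹ * Q₁ (u i) := by
          intro i
          simp only [w]
          rw [hQ0]
          simp [QuadraticMap.prod_apply]
          field_simp
        simp only [this, Finset.prod_mul_distrib, Finset.prod_const, Finset.card_univ, Fintype.card_fin]
      rw [h5]
      obtain ⟨K', hK'⟩ := id hKe
      obtain ⟨r, hr⟩ := hsq
      refine ⟨(d⁻¹) ^ K' * r, ?_⟩
      have h6 : (d⁻¹) ^ K = (d⁻¹) ^ K' * (d⁻¹) ^ K' := by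
        rw [hK', pow_add]
      rw [h6, hr]
      ring
  have hgΩ : g ∈ Omega F ⇑(oddForm n F) := odd_mem h2 (by omega) g N hN hgN
  have hcomm : a * g = g * a := by
    apply lin_inj
    rw [lin_mul, lin_mul]
    apply LinearMap.ext
    intro v
    simp only [Module.End.mul_apply, lin_apply, ha'', hg', LinearEquiv.apply_symm_apply]
    congr 1
    simp [a']
  have hao : orderOf a = 2 := by
    apply order_of_iff
    intro m
    rw [ha]
    constructor
    · intro h
      by_contra hm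
      have hm' : Odd m := Nat.not_even_iff_odd.1 (fun hh => hm hh.two_dvd)
      have h3 : a' = 1 := by
        obtain ⟨k, hk⟩ := hm'
        rw [hk, pow_succ, pow_mul, ha'2, one_pow, one_mul] at h
        exact h
      have h4 := LinearMap.congr_fun h3 (u ⟨0, hK⟩, 0)
      simp only [a', LinearMap.prodMap_apply, Module.End.one_apply, LinearMap.neg_apply, Prod.mk.injEq, map_zero] at h4
      have h5 : (2 : F) • u ⟨0, hK⟩ = 0 := by
        rw [two_smul]
        nth_rewrite 1 [← h4.1]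
        simp
      have h6 : u ⟨0, hK⟩ = 0 := (smul_eq_zero.1 h5).resolve_left h2
      exact hu ⟨0, hK⟩ (by rw [h6, map_zero])
    · rintro ⟨k, rfl⟩
      rw [pow_mul, ha'2, one_pow]
  have hgo : orderOf g = N := order_of_iff g N (fun m => (hg m).trans (hfN m))
  rw [pom_iff hodd n hn]
  refine ⟨⟨a * g, Subgroup.mul_mem _ haΩ hgΩ⟩, ?_⟩
  rw [Subgroup.orderOf_mk, Commute.orderOf_mul_eq_mul_orderOf_of_coprime hcomm, hao, hgo]
  rw [hao, hgo]
  exact (Nat.coprime_two_left.2 hN)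

end Cfsg.Agent.H11.Bn
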