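import Cfsg.Agent.Lib.H11.Bn3
import Cfsg.Agent.Lib.H11.Spec16

/-! Odd cases of the comparison of `PΩ(2n+1,q)` and `PSp(2n,q)`. -/

set_option autoImplicit false
set_option linter.unusedSectionVars false
set_option linter.unusedVariables false

namespace Cfsg.Agent.H11.Bn

open Module Matrix QuadraticMap Cfsg Cfsg.Agent.H29 Cfsg.Agent.H11.PSpG

universe u v

variable {F : Type v} [Field F] [Fintype F]

/-- form on the moved part -/
noncomputable def Qsw {V : Type v} [AddCommGroup V] [Module F V] [FiniteDimensional F V] (ω : V →ₗ[F] V →ₗ[F] F) (t : V →ₗ[F] V) :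
    QuadraticForm F ↥(mv t) :=
  LinearMap.BilinMap.toQuadraticMap (swW ω t)

section
variable {V : Type v} [AddCommGroup V] [Module F V] [FiniteDimensional F V] (ω : V →ₗ[F] V →ₗ[F] F) (t : V →ₗ[F] V)

theorem Qsw_apply (x : ↥(mv t)) : Qsw ω t x = swW ω t x x := rfl

theorem Qsw_polar (halt : ∀ v, ω v v = 0) (x y : ↥(mv t)) : polar (Qsw ω t) x y = 2 * swW ω t x y := by
  simp only [polar, Qsw_apply, map_add, LinearMap.add_apply]
  rw [swW_symm ω t halt y x]
  ring

theorem Qsw_nd (h2 : (2 : F) ≠ 0) (halt : ∀ v, ω v v = 0) (hl : ∀ x, (∀ v, ω x v = 0) → x = 0) (hiso : ∀ x y, ω (t x) (t y) = ω x y) (N : ℕ)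
    (hodd : Odd N) (hN : (N : F) ≠ 0) (ht : t ^ N = 1) : (polarBilin (Qsw ω t)).Nondegenerate := by
  apply nd_of_left
  intro x hx
  by_contra h0
  obtain ⟨y, -, hy⟩ := swW_nd ω t hl hiso N hodd hN ht x Submodule.mem_top h0
  have h1 := hx y
  rw [Qsw_polar ω t halt] at h1
  exact hy ((mul_eq_zero.1 h1).resolve_left h2)

theorem Qsw_iso (hiso : ∀ x y, ω (t x) (t y) = ω x y) (c : V →ₗ[F] V) (h : t * c = c * t) (hc : ∀ x y, ω (c x) (c y) = ω x y)
    (x : ↥(mv t)) : Qsw ω t (rW t c h x) = Qsw ω t x := by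
  rw [Qsw_apply, Qsw_apply, swW_iso ω t hiso c h hc]

end

/-- the symplectic element as a linear map -/
noncomputable def spl {d : ℕ} (g : symplecticGroup (Fin d) F) : (Fin d ⊕ Fin d → F) →ₗ[F] (Fin d ⊕ Fin d → F) :=
  Matrix.mulVecLin g.1

theorem spl_apply {d : ℕ} (g : symplecticGroup (Fin d) F) (v : Fin d ⊕ Fin d → F) : spl g v = g.1 *ᵥ v := rfl

theorem spl_iso {d : ℕ} (g : symplecticGroup (Fin d) F) (x y : Fin d ⊕ Fin d → F) : lsf d F (spl g x) (spl g y) = lsf d F x y :=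
  Cfsg.Agent.Lead.sympForm_mulVec g.2 x y

theorem spl_mul {d : ℕ} (g h : symplecticGroup (Fin d) F) : spl (g * h) = spl g * spl h := by
  apply LinearMap.ext
  intro v
  simp [spl, Matrix.mulVec_mulVec]

theorem spl_one {d : ℕ} : spl (1 : symplecticGroup (Fin d) F) = 1 := by
  apply LinearMap.ext
  intro v
  simp [spl]

theorem spl_pow {d : ℕ} (g : symplecticGroup (Fin d) F) (m : ℕ) : spl (g ^ m) = spl g ^ m := by
  induction m with
  | zero => simp [spl_one]
  | succ m ih => rw [pow_succ, spl_mul, ih, pow_succ]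

theorem spl_inj {d : ℕ} (g h : symplecticGroup (Fin d) F) (hh : spl g = spl h) : g = h := by
  apply Subtype.ext
  apply Matrix.ext_of_mulVec_single
  intro v
  exact LinearMap.congr_fun hh _

theorem spl_pow_eq_one {d : ℕ} (g : symplecticGroup (Fin d) F) (m : ℕ) : spl g ^ m = 1 ↔ g ^ m = 1 := by
  constructor
  · intro h
    apply spl_inj
    rw [spl_pow, h, spl_one]
  · intro h
    rw [← spl_pow, h, spl_one]

theorem lsf_left (d : ℕ) (x : Fin d ⊕ Fin d → F) (h : ∀ v, lsf d F x v = 0) : x = 0 := by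
  by_contra h0
  obtain ⟨v, -, hv⟩ := lsf_nd (F := F) d x Submodule.mem_top h0
  exact hv (h v)

theorem odd_left (h2 : (2 : F) ≠ 0) (n : ℕ) (x : V0 n F) (h : ∀ v, polarBilin (oddForm n F) x v = 0) : x = 0 :=
  left_of_nd _ (odd_nondeg h2 n) x h

theorem odd_sym (n : ℕ) (x y : V0 n F) : polarBilin (oddForm n F) x y = polarBilin (oddForm n F) y x := by
  simp only [polarBilin_apply_apply]
  exact polar_comm _ _ _

theorem order_rs {G : Type*} [Monoid G] (g : G) (r s : ℕ) (hr : r.Prime) (hs : s.Prime) (hrs : r ≠ s)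
    (h1 : g ^ (r * s) = 1) (h2 : g ^ s ≠ 1) (h3 : g ^ r ≠ 1) (m : ℕ) : g ^ m = 1 ↔ r * s ∣ m := by
  have hco : Nat.Coprime r s := (Nat.coprime_primes hr hs).2 hrs
  have hd : orderOf g ∣ r * s := orderOf_dvd_of_pow_eq_one h1
  have hr' : r ∣ orderOf g := by
    by_contra hc
    have : Nat.Coprime (orderOf g) r := ((Nat.Prime.coprime_iff_not_dvd hr).2 hc).symm
    exact h2 (orderOf_dvd_iff_pow_eq_one.1 (this.dvd_of_dvd_mul_left hd))
  have hs' : s ∣ orderOf g := by
    by_contra hc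
    have : Nat.Coprime (orderOf g) s := ((Nat.Prime.coprime_iff_not_dvd hs).2 hc).symm
    exact h3 (orderOf_dvd_iff_pow_eq_one.1 (this.dvd_of_dvd_mul_right hd))
  have h4 : orderOf g = r * s := Nat.dvd_antisymm hd (hco.mul_dvd_of_dvd_of_dvd hr' hs')
  exact iff_of_order g _ h4 m

/-- the unipotent element of the odd form -/
theorem exists_unip (p : ℕ) [hp : Fact p.Prime] [CharP F p] (hp3 : p ≠ 2) (c : ℕ) (hc : 1 ≤ c) :
    ∃ τ : V0 c F →ₗ[F] V0 c F, (∀ x, oddForm c F (τ x) = oddForm c F x) ∧ ∀ m : ℕ, τ ^ m = 1 ↔ p ∣ m := by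
  classical
  have hpP : p.Prime := hp.out
  have h3 : 3 ≤ p := by
    have := hpP.two_le
    omega
  let i₀ : Fin c := ⟨0, hc⟩
  let e₀ : V0 c F := Pi.single (Sum.inl ()) 1
  let e₁ : V0 c F := Pi.single (Sum.inr (Sum.inl i₀)) 1
  let π₁ : V0 c F →ₗ[F] F := LinearMap.proj (Sum.inr (Sum.inr i₀))
  let π₀ : V0 c F →ₗ[F] F := LinearMap.proj (Sum.inl ())
  let A : V0 c F →ₗ[F] V0 c F := π₁.smulRight e₀ + ((-(2 : F)) • π₀ - π₁).smulRight e₁
  have hA : ∀ v, A v = v (Sum.inr (Sum.inr i₀)) • e₀ + (-2 * v (Sum.inl ()) - v (Sum.inr (Sum.inr i₀))) • e₁ := by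
    intro v
    simp [A, π₁, π₀]
  have hco : ∀ (a b : F), (a • e₀ + b • e₁) (Sum.inr (Sum.inr i₀)) = 0 := by
    intro a b
    simp [e₀, e₁]
  have hco0 : ∀ (a b : F), (a • e₀ + b • e₁) (Sum.inl ()) = a := by
    intro a b
    simp [e₀, e₁]
  have hA3 : A ^ 3 = 0 := by
    apply LinearMap.ext
    intro v
    have h1 : A (A (A v)) = 0 := by
      rw [hA (A (A v)), hA (A v), hA v]
      simp only [hco, hco0]
      simp [e₀, e₁]
    simpa [pow_succ] using h1
  let τ : V0 c F →ₗ[F] V0 c F := 1 + A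
  have hiso : ∀ x, oddForm c F (τ x) = oddForm c F x := by
    intro v
    have hform : ⇑(oddForm c F) = quadFormOdd c F := oddForm_coe c
    have h1 : τ v = v + A v := rfl
    rw [h1, hform]
    have h4 : quadFormOdd c F (v + A v) = quadFormOdd c F v + quadFormOdd c F (A v) + polar (quadFormOdd c F) v (A v) := by
      simp only [polar]
      ring
    have w0 : A v (Sum.inl ()) = v (Sum.inr (Sum.inr i₀)) := by
      rw [hA]; simp [e₀, e₁]
    have wx : ∀ i, A v (Sum.inr (Sum.inl i)) = if i = i₀ then (-2 * v (Sum.inl ()) - v (Sum.inr (Sum.inr i₀))) else 0 := by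
      intro i
      rw [hA]
      simp [e₀, e₁, Pi.single_apply]
    have wy : ∀ i, A v (Sum.inr (Sum.inr i)) = 0 := by
      intro i
      rw [hA]
      simp [e₀, e₁]
    rw [h4, polar_odd']
    simp only [quadFormOdd, w0, wx, wy]
    simp [ite_mul, Finset.sum_ite_eq]
    ring
  have hτ1 : τ ≠ 1 := by
    intro h
    have h1 : A = 0 := by
      have : (1 : V0 c F →ₗ[F] V0 c F) + A = 1 + 0 := by
        rw [add_zero]; exact h
      exact add_left_cancel this
    have h4 := LinearMap.congr_fun h1 (Pi.single (Sum.inr (Sum.inr i₀)) 1)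
    rw [hA] at h4
    have h5 := congrFun h4 (Sum.inl ())
    simp [e₀, e₁] at h5
  have hτp : τ ^ p = 1 := by
    haveI : CharP (Module.End F (V0 c F)) p := charP_of_injective_algebraMap (algebraMap F _).injective p
    have h4 : τ ^ p = 1 ^ p + A ^ p := add_pow_char_of_commute p (Commute.one_left A)
    have h5 : A ^ p = 0 := by
      obtain ⟨k, hk⟩ := Nat.exists_eq_add_of_le h3
      rw [hk, pow_add, hA3, zero_mul]
    rw [h4, h5, one_pow, add_zero]
  exact ⟨τ, hiso, fun m => iff_of_order τ p (orderOf_eq_prime hτp hτ1) m⟩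

end Cfsg.Agent.H11.Bn
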