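import Cfsg.Agent.Lib.H11.Bn4

/-! Odd cases of the comparison of `PΩ(2n+1,q)` and `PSp(2n,q)`: assembling. -/

set_option autoImplicit false
set_option linter.unusedSectionVars false
set_option linter.unusedVariables false

namespace Cfsg.Agent.H11.Bn

open Module Matrix QuadraticMap Cfsg Cfsg.Agent.H29 Cfsg.Agent.H11.PSpG

universe u v

variable {F : Type v} [Field F] [Fintype F]

theorem psp_of_blk {n N : ℕ} (hn : 1 ≤ n) (h : Blk F n N) (hN : Odd N) : N ∈ Set.range (orderOf : Cfsg.PSp n F → ℕ) := by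
  obtain ⟨g, hg⟩ := h
  exact ⟨_, psp_order hn g N hg (Or.inl hN)⟩

section
variable {V : Type v} [AddCommGroup V] [Module F V] [FiniteDimensional F V]

theorem rW_self_iff (t : V →ₗ[F] V) (N : ℕ) (hN : (N : F) ≠ 0) (ht : t ^ N = 1) (M : ℕ) (hM : ∀ m : ℕ, t ^ m = 1 ↔ M ∣ m) (m : ℕ) :
    (rW t t rfl) ^ m = 1 ↔ M ∣ m := by
  rw [rW_pow_eq_one, ← hM]
  constructor
  · intro h
    exact rW_pow_t t N hN ht m h
  · intro h v _
    rw [h]
    rfl

theorem sw_blk (β : V →ₗ[F] V →ₗ[F] F) (hl : ∀ x, (∀ v, β x v = 0) → x = 0) (hsym : ∀ x y, β x y = β y x) (t : V →ₗ[F] V)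
    (hiso : ∀ x y, β (t x) (t y) = β x y) (N : ℕ) (hodd : Odd N) (hN : (N : F) ≠ 0) (ht : t ^ N = 1) (c : V →ₗ[F] V)
    (h : t * c = c * t) (hc : ∀ x y, β (c x) (c y) = β x y) (M : ℕ) (hM : ∀ m : ℕ, (rW t c h) ^ m = 1 ↔ M ∣ m) (k : ℕ)
    (hk : finrank F (mv t) = 2 * k) : Blk F k M :=
  blk_of_form (swW β t) (swW_alt β t hsym) (swW_nd β t hl hiso N hodd hN ht) k hk (rW t c h) (swW_iso β t hiso c h hc) M hM

theorem sw_make_odd (hodd : Odd (Fintype.card F)) (n : ℕ) (hn : 3 ≤ n) (ω : V →ₗ[F] V →ₗ[F] F) (halt : ∀ v, ω v v = 0)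
    (hl : ∀ x, (∀ v, ω x v = 0) → x = 0) (t : V →ₗ[F] V) (hiso : ∀ x y, ω (t x) (t y) = ω x y) (M : ℕ) (hM : Odd M) (hMF : (M : F) ≠ 0)
    (ht : t ^ M = 1) (c : V →ₗ[F] V) (h : t * c = c * t) (hc : ∀ x y, ω (c x) (c y) = ω x y) (k : ℕ) (hk : finrank F (mv t) = 2 * k)
    (hkn : k ≤ n) (τ : V0 (n - k) F →ₗ[F] V0 (n - k) F) (hτ : ∀ x, oddForm (n - k) F (τ x) = oddForm (n - k) F x) (N : ℕ) (hN : Odd N)
    (hfN : ∀ m : ℕ, (LinearMap.prodMap (rW t c h) τ) ^ m = 1 ↔ N ∣ m) :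
    N ∈ Set.range (orderOf : POmega F ⇑(oddForm n F) → ℕ) := by
  have h2 := two_ne hodd
  refine make_odd hodd n hn (X := ↥(mv t) × V0 (n - k) F) ?_ ((Qsw ω t).prod (oddForm (n - k) F))
    (prod_nd _ _ (Qsw_nd ω t h2 halt hl hiso M hM hMF ht) (odd_nondeg h2 _)) _ ?_ N hN hfN
  · rw [Module.finrank_prod, hk]
    simp [two_mul]
    omega
  · rintro ⟨x₁, x₂⟩
    simp only [QuadraticMap.prod_apply, LinearMap.prodMap_apply, Qsw_iso ω t hiso c h hc, hτ]

/-- square form -/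
noncomputable def sqF (F : Type v) [Field F] : QuadraticForm F F := QuadraticMap.sq

theorem sqF_apply (x : F) : sqF F x = x * x := rfl

theorem polar_sq (x y : F) : polar (sqF F) x y = 2 * (x * y) := by
  simp only [polar, sqF_apply]
  ring

theorem sq_nd (h2 : (2 : F) ≠ 0) : (polarBilin (sqF F)).Nondegenerate := by
  apply nd_of_left
  intro x hx
  have := hx 1
  rw [polar_sq, mul_one] at this
  exact (mul_eq_zero.1 this).resolve_left h2

theorem two_plane (hodd : Odd (Fintype.card F)) (n : ℕ) (hn : 3 ≤ n) {Y : Type v} [AddCommGroup Y] [Module F Y] [FiniteDimensional F Y]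
    (hY : finrank F Y + 2 = 2 * n + 1) (Q₂ : QuadraticForm F Y) (h₂ : (polarBilin Q₂).Nondegenerate) (b : Y →ₗ[F] Y)
    (hb : ∀ x, Q₂ (b x) = Q₂ x) (N : ℕ) (hN : Odd N) (hfN : ∀ m : ℕ, b ^ m = 1 ↔ N ∣ m) :
    2 * N ∈ Set.range (orderOf : POmega F ⇑(oddForm n F) → ℕ) := by
  have h2 := two_ne hodd
  let Q₁ : QuadraticForm F (F × F) := (sqF F).prod (sqF F)
  have hpp : ∀ (a b : F × F), polar Q₁ a b = polar (sqF F) a.1 b.1 + polar (sqF F) a.2 b.2 := by
    intro a b
    simp only [polar, Q₁, QuadraticMap.prod_apply, Prod.fst_add, Prod.snd_add]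
    ring
  let u : Fin 2 → F × F := ![(1, 0), (0, 1)]
  refine make_even hodd n hn (U := F × F) (Y := Y) ?_ Q₁ Q₂ (prod_nd _ _ (sq_nd h2) (sq_nd h2)) h₂ 2 (by norm_num) (by decide) ?_ u ?_ ?_ ?_ 1 b ?_ hb N hN ?_
  · rw [Module.finrank_prod]
    simp
    omega
  · simp
  · intro i
    fin_cases i <;> simp [u, Q₁, QuadraticMap.prod_apply, sqF_apply]
  · intro i j hij
    fin_cases i <;> fin_cases j <;> simp_all [u, hpp, polar_sq]
  · simp [Fin.prod_univ_two, u, Q₁, QuadraticMap.prod_apply, sqF_apply]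
  · intro x
    rfl
  · intro m
    rw [pm_pow_eq_one, ← hfN]
    simp

end

variable (p : ℕ) [hp : Fact p.Prime] [hc : CharP F p]

theorem cast_ne (r : ℕ) (hr : r.Prime) (hrp : r ≠ p) : (r : F) ≠ 0 := not_dvd_card (F := F) p r hr hrp

theorem odd_rs (r s : ℕ) (hr : r.Prime) (hs : s.Prime) (hr2 : r ≠ 2) (hs2 : s ≠ 2) : Odd (r * s) :=
  (hr.odd_of_ne_two hr2).mul (hs.odd_of_ne_two hs2)

theorem p_ne_two (hodd : Odd (Fintype.card F)) : p ≠ 2 := by
  rintro rfl
  exact two_ne hodd (by exact_mod_cast CharP.cast_eq_zero F 2)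

theorem card_V0 (n : ℕ) : finrank F (V0 n F) = 2 * n + 1 := by
  simp [two_mul]
  omega

/-- odd primes, forward -/
theorem a1_f (hodd : Odd (Fintype.card F)) (n : ℕ) (hn : 3 ≤ n) (r s : ℕ) (hr : r.Prime) (hs : s.Prime) (hr2 : r ≠ 2) (hs2 : s ≠ 2)
    (hrp : r ≠ p) (hsp : s ≠ p) (h : r * s ∈ Set.range (orderOf : POmega F ⇑(oddForm n F) → ℕ)) :
    r * s ∈ Set.range (orderOf : Cfsg.PSp n F → ℕ) := by
  have h2 := two_ne hodd
  rw [pom_iff hodd n hn] at h
  obtain ⟨g, hg⟩ := h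
  rw [← Subgroup.orderOf_coe] at hg
  set g₀ := (g : ↥(isometryGroup F ⇑(oddForm n F))) with hg₀
  set t := lin g₀ with ht
  have hN := odd_rs r s hr hs hr2 hs2
  have hNF : ((r * s : ℕ) : F) ≠ 0 := by
    push_cast
    exact mul_ne_zero (cast_ne p r hr hrp) (cast_ne p s hs hsp)
  have htm : ∀ m : ℕ, t ^ m = 1 ↔ r * s ∣ m := fun m => by
    rw [ht, lin_pow_eq_one]
    exact iff_of_order g₀ _ hg m
  have htN := (htm _).2 dvd_rfl
  have hiso : ∀ x y, polarBilin (oddForm n F) (t x) (t y) = polarBilin (oddForm n F) x y := fun x y => lin_polar g₀ x y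
  obtain ⟨k, hk⟩ := mv_even_sym _ t (odd_left h2 n) (odd_sym n) hiso _ hN hNF htN
  have hk' : finrank F (mv t) = 2 * k := by omega
  have hkn : k ≤ n := by
    have := Submodule.finrank_le (mv t)
    rw [card_V0] at this
    omega
  have hB := sw_blk _ (odd_left h2 n) (odd_sym n) t hiso _ hN hNF htN t rfl hiso _ (rW_self_iff t _ hNF htN _ htm) k hk'
  exact psp_of_blk (by omega) (blk_mono hB hkn) hN

/-- odd primes, backward -/
theorem a1_b (hodd : Odd (Fintype.card F)) (n : ℕ) (hn : 3 ≤ n) (r s : ℕ) (hr : r.Prime) (hs : s.Prime) (hr2 : r ≠ 2) (hs2 : s ≠ 2)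
    (hrp : r ≠ p) (hsp : s ≠ p) (hrs : r ≠ s) (h : r * s ∈ Set.range (orderOf : Cfsg.PSp n F → ℕ)) :
    r * s ∈ Set.range (orderOf : POmega F ⇑(oddForm n F) → ℕ) := by
  have h2 := two_ne hodd
  obtain ⟨x, hx⟩ := h
  obtain ⟨Y, h1, h3, h4⟩ := lift_two (by omega) x r s hr hs hr2 hs2 hx
  set t := spl Y with ht
  have hN := odd_rs r s hr hs hr2 hs2
  have hNF : ((r * s : ℕ) : F) ≠ 0 := by
    push_cast
    exact mul_ne_zero (cast_ne p r hr hrp) (cast_ne p s hs hsp)
  have htm : ∀ m : ℕ, t ^ m = 1 ↔ r * s ∣ m := fun m => by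
    rw [ht, spl_pow_eq_one]
    exact order_rs Y r s hr hs hrs h1 h3 h4 m
  have htN := (htm _).2 dvd_rfl
  have hiso : ∀ x y, lsf n F (t x) (t y) = lsf n F x y := spl_iso Y
  obtain ⟨k, hk⟩ := mv_even_alt _ t (lsf_left n) (lsf_alt n) hiso _ hN hNF htN
  have hk' : finrank F (mv t) = 2 * k := by omega
  have hkn : k ≤ n := by
    have := Submodule.finrank_le (mv t)
    rw [finrank_std] at this
    omega
  refine sw_make_odd hodd n hn (lsf n F) (lsf_alt n) (lsf_left n) t hiso _ hN hNF htN t rfl hiso k hk' hkn 1 (fun x => rfl) _ hN ?_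
  intro m
  rw [pm_pow_eq_one, rW_self_iff t _ hNF htN _ htm]
  simp

/-- existence of `η` -/
theorem exists_eta (r : ℕ) : ∃ η, (Odd (orderOf ((Fintype.card F : ℕ) : ZMod r)) ∧ η = orderOf ((Fintype.card F : ℕ) : ZMod r)) ∨
      (Even (orderOf ((Fintype.card F : ℕ) : ZMod r)) ∧ 2 * η = orderOf ((Fintype.card F : ℕ) : ZMod r)) := by
  rcases Nat.even_or_odd (orderOf ((Fintype.card F : ℕ) : ZMod r)) with h3 | h3
  · obtain ⟨a, ha⟩ := id h3
    exact ⟨a, Or.inr ⟨h3, by omega⟩⟩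
  · exact ⟨_, Or.inl ⟨h3, rfl⟩⟩

/-- one prime is the characteristic, forward -/
theorem a2_f (hodd : Odd (Fintype.card F)) (n : ℕ) (hn : 3 ≤ n) (r : ℕ) (hr : r.Prime) (hr2 : r ≠ 2)
    (hrp : r ≠ p) (h : r * p ∈ Set.range (orderOf : POmega F ⇑(oddForm n F) → ℕ)) :
    r * p ∈ Set.range (orderOf : Cfsg.PSp n F → ℕ) := by
  have h2 := two_ne hodd
  have hpP : p.Prime := hp.out
  have hp2 := p_ne_two (F := F) p hodd
  rw [pom_iff hodd n hn] at h
  obtain ⟨g, hg⟩ := h
  rw [← Subgroup.orderOf_coe] at hg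
  set g₀ := (g : ↥(isometryGroup F ⇑(oddForm n F))) with hg₀
  haveI : Fact r.Prime := ⟨hr⟩
  have hgm := iff_of_order g₀ _ hg
  have hrF := cast_ne (F := F) p r hr hrp
  have hq0 := Cfsg.Agent.H29.natCast_q_ne_zero (F := F) (p := p) (r := r) (q := Fintype.card F) rfl hrp
  obtain ⟨η, hη⟩ := exists_eta (F := F) r
  have key : η + 1 ≤ n := by
    set t := lin (g₀ ^ p) with ht
    set u := lin (g₀ ^ r) with hu
    have hβ : ∀ (a : ↥(isometryGroup F ⇑(oddForm n F))) x y, polarBilin (oddForm n F) (lin a x) (lin a y) = polarBilin (oddForm n F) x y :=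
      fun a x y => lin_polar a x y
    have hcomm : t * u = u * t := by
      rw [ht, hu, ← lin_mul, ← lin_mul, ← pow_add, ← pow_add, add_comm]
    have htr : t ^ r = 1 := by
      rw [ht, lin_pow_eq_one, ← pow_mul, mul_comm, (hgm _).2 dvd_rfl]
    have hup : u ^ p = 1 := by
      rw [hu, lin_pow_eq_one, ← pow_mul, (hgm _).2 dvd_rfl]
    have ht1 : t ≠ 1 := by
      intro h
      have h3 : g₀ ^ p = 1 := by
        have := (lin_pow_eq_one (g₀ ^ p) 1).1 (by rw [pow_one]; exact h)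
        simpa using this
      have h4 := (hgm p).1 h3
      have h5 := Nat.le_of_dvd hpP.pos h4
      have := hr.two_le
      have := hpP.pos
      nlinarith
    have hu1 : u ≠ 1 := by
      intro h
      have h3 : g₀ ^ r = 1 := by
        have := (lin_pow_eq_one (g₀ ^ r) 1).1 (by rw [pow_one]; exact h)
        simpa using this
      have h4 := (hgm r).1 h3
      have h5 := Nat.le_of_dvd hr.pos h4
      have := hpP.two_le
      have := hr.pos
      nlinarith
    have htm : ∀ m : ℕ, t ^ m = 1 ↔ r ∣ m := iff_of_order t r (orderOf_eq_prime htr ht1)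
    have hodr := hr.odd_of_ne_two hr2
    obtain ⟨k, hk⟩ := mv_even_sym _ t (odd_left h2 n) (odd_sym n) (hβ _) r hodr hrF htr
    have hk' : finrank F (mv t) = 2 * k := by omega
    have hkn : 2 * k ≤ 2 * n + 1 := by
      have := Submodule.finrank_le (mv t)
      rw [card_V0] at this
      omega
    have hrt := rW_self_iff t r hrF htr r htm
    have hrt1 : rW t t rfl ≠ 1 := by
      intro h
      have := (hrt 1).1 (by rw [pow_one]; exact h)
      have := Nat.le_of_dvd one_pos this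
      have := hr.two_le
      omega
    have hB := swW_alt (polarBilin (oddForm n F)) t (odd_sym n)
    have hnd := swW_nd (polarBilin (oddForm n F)) t (odd_left h2 n) (hβ _) r hodr hrF htr
    by_cases hU : rW t u hcomm = 1
    · have h3 := eta_le (swW (polarBilin (oddForm n F)) t) hB hnd k hk' (rW t t rfl) (swW_iso _ t (hβ _) t rfl (hβ _)) r hrF hq0
        ((rW_self_iff t r hrF htr r htm r).2 dvd_rfl) hrt1 η hη
      have hkn' : k ≠ n := by
        rintro rfl
        apply hu1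
        have hUW : ∀ v ∈ mv t, u v = v := fun v hv => by
          have := LinearMap.congr_fun hU ⟨v, hv⟩
          exact congrArg Subtype.val this
        have hC1 : finrank F (LinearMap.ker (t - 1)) = 1 := by
          have h4 : finrank F ↥(mv t) + finrank F ↥(LinearMap.ker (t - 1)) = finrank F (V0 k F) :=
            LinearMap.finrank_range_add_finrank_ker (t - 1)
          rw [card_V0] at h4
          omega
        obtain ⟨z, hz0, hz⟩ := finrank_eq_one_iff'.1 hC1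
        have huz : u z ∈ LinearMap.ker (t - 1) := fix_inv t u hcomm z z.2
        obtain ⟨c, hc⟩ := hz ⟨u z, huz⟩
        have hc' : u z = c • (z : V0 k F) := (congrArg Subtype.val hc).symm
        have hpow : ∀ i : ℕ, (u ^ i) (z : V0 k F) = c ^ i • (z : V0 k F) := by
          intro i
          induction i with
          | zero => simp
          | succ i ih =>
            rw [pow_succ, Module.End.mul_apply, hc', map_smul, ih, smul_smul, pow_succ, mul_comm]
        have h5 := hpow p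
        rw [hup] at h5
        have hz0' : (z : V0 k F) ≠ 0 := fun h => hz0 (Subtype.ext h)
        have hcp : c ^ p = 1 := by
          have h6 : (c ^ p - 1) • (z : V0 k F) = 0 := by
            rw [sub_smul, one_smul, ← h5]
            simp
          exact sub_eq_zero.1 ((smul_eq_zero.1 h6).resolve_right hz0')
        have hc1 : c = 1 := by
          have : frobenius F p c = frobenius F p 1 := by
            rw [frobenius_def, frobenius_def, hcp, one_pow]
          exact frobenius_inj F p this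
        have hUC : ∀ v ∈ LinearMap.ker (t - 1), u v = v := by
          intro v hv
          obtain ⟨a, ha⟩ := hz ⟨v, hv⟩
          have h6 : v = a • (z : V0 k F) := (congrArg Subtype.val ha).symm
          rw [h6, map_smul, hc', hc1, one_smul]
        have hsup := mv_sup_ker t r hrF htr
        apply LinearMap.ext
        intro v
        have hv : v ∈ mv t ⊔ LinearMap.ker (t - 1) := by
          rw [hsup]; exact Submodule.mem_top
        obtain ⟨a, ha, b, hb, rfl⟩ := Submodule.mem_sup.1 hv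
        rw [map_add, hUW a ha, hUC b hb]
        rfl
      omega
    · have h3 := core_rp p (swW (polarBilin (oddForm n F)) t) hB hnd k hk' (rW t t rfl) (rW t u hcomm) (swW_iso _ t (hβ _) t rfl (hβ _))
        (swW_iso _ t (hβ _) u hcomm (hβ _)) r hr2 hrF hq0 ((rW_self_iff t r hrF htr r htm r).2 dvd_rfl) hrt1
        ((rW_pow_eq_one t u hcomm p).2 (fun v _ => by rw [hup]; rfl)) hU (rW_comm t t rfl u hcomm hcomm) η hη
      omega
  have h3 := psp_rp (F := F) p n (by omega) r hr hr2 hrp η hη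
  by_contra hcon
  have := h3.1 hcon
  omega

/-- one prime is the characteristic, backward -/
theorem a2_b (hodd : Odd (Fintype.card F)) (n : ℕ) (hn : 3 ≤ n) (r : ℕ) (hr : r.Prime) (hr2 : r ≠ 2)
    (hrp : r ≠ p) (h : r * p ∈ Set.range (orderOf : Cfsg.PSp n F → ℕ)) :
    r * p ∈ Set.range (orderOf : POmega F ⇑(oddForm n F) → ℕ) := by
  have h2 := two_ne hodd
  have hpP : p.Prime := hp.out
  have hp2 := p_ne_two (F := F) p hodd
  haveI : Fact r.Prime := ⟨hr⟩
  have hrF := cast_ne (F := F) p r hr hrp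
  obtain ⟨η, hη⟩ := exists_eta (F := F) r
  have h3 := psp_rp (F := F) p n (by omega) r hr hr2 hrp η hη
  have hle : ¬ (n - 1 < η) := fun hlt => h3.2 hlt h
  obtain ⟨g₀, hg₀⟩ := blk_eta (F := F) p r hrp η hη
  set t := spl g₀ with ht
  have htm : ∀ m : ℕ, t ^ m = 1 ↔ r ∣ m := fun m => by
    rw [ht, spl_pow_eq_one]
    exact hg₀ m
  have htr := (htm r).2 dvd_rfl
  have hodr := hr.odd_of_ne_two hr2
  have hiso : ∀ x y, lsf η F (t x) (t y) = lsf η F x y := spl_iso g₀
  obtain ⟨k, hk⟩ := mv_even_alt _ t (lsf_left η) (lsf_alt η) hiso r hodr hrF htr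
  have hk' : finrank F (mv t) = 2 * k := by omega
  have hkn : k ≤ η := by
    have := Submodule.finrank_le (mv t)
    rw [finrank_std] at this
    omega
  obtain ⟨τ, hτ, hτm⟩ := exists_unip (F := F) p hp2 (n - k) (by omega)
  refine sw_make_odd hodd n hn (lsf η F) (lsf_alt η) (lsf_left η) t hiso r hodr hrF htr t rfl hiso k hk' (by omega) τ hτ _
    (hodr.mul (hpP.odd_of_ne_two hp2)) ?_
  intro m
  rw [pm_pow_eq_one, rW_self_iff t r hrF htr r htm, hτm]
  constructor
  · rintro ⟨h4, h5⟩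
    exact ((Nat.coprime_primes hr hpP).2 hrp).mul_dvd_of_dvd_of_dvd h4 h5
  · intro h4
    exact ⟨(dvd_mul_right _ _).trans h4, (dvd_mul_left _ _).trans h4⟩

theorem b1_psp (hodd : Odd (Fintype.card F)) (n : ℕ) (hn : 3 ≤ n) : 2 * p ∈ Set.range (orderOf : Cfsg.PSp n F → ℕ) := by
  have h2 := two_ne hodd
  have hpP : p.Prime := hp.out
  have hp2 := p_ne_two (F := F) p hodd
  have h3 := blk_two (F := F) h2 (blk_char (F := F) p) (blk_one (F := F) (n - 1)) le_rfl (by omega) (hpP.odd_of_ne_two hp2) odd_one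
    (Nat.coprime_one_right _)
  have h4 : 1 + (n - 1) = n := by omega
  rw [h4, mul_one] at h3
  obtain ⟨x, hx⟩ := h3
  exact ⟨x, hx⟩

theorem b1_om (hodd : Odd (Fintype.card F)) (n : ℕ) (hn : 3 ≤ n) : 2 * p ∈ Set.range (orderOf : POmega F ⇑(oddForm n F) → ℕ) := by
  have h2 := two_ne hodd
  have hpP : p.Prime := hp.out
  have hp2 := p_ne_two (F := F) p hodd
  obtain ⟨τ, hτ, hτm⟩ := exists_unip (F := F) p hp2 (n - 1) (by omega)
  exact two_plane hodd n hn (Y := V0 (n - 1) F) (by rw [card_V0]; omega) (oddForm (n - 1) F) (odd_nondeg h2 _) τ hτ p (hpP.odd_of_ne_two hp2) hτm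

theorem b2a_om (hodd : Odd (Fintype.card F)) (n : ℕ) (hn : 3 ≤ n) (s : ℕ) (hs : s.Prime) (hs2 : s ≠ 2) (hsp : s ≠ p) (η : ℕ)
    (hη : (Odd (orderOf ((Fintype.card F : ℕ) : ZMod s)) ∧ η = orderOf ((Fintype.card F : ℕ) : ZMod s)) ∨
      (Even (orderOf ((Fintype.card F : ℕ) : ZMod s)) ∧ 2 * η = orderOf ((Fintype.card F : ℕ) : ZMod s))) (hle : η + 1 ≤ n) :
    2 * s ∈ Set.range (orderOf : POmega F ⇑(oddForm n F) → ℕ) := by
  have h2 := two_ne hodd
  haveI : Fact s.Prime := ⟨hs⟩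
  have hsF := cast_ne (F := F) p s hs hsp
  obtain ⟨g₀, hg₀⟩ := blk_eta (F := F) p s hsp η hη
  set t := spl g₀ with ht
  have htm : ∀ m : ℕ, t ^ m = 1 ↔ s ∣ m := fun m => by
    rw [ht, spl_pow_eq_one]
    exact hg₀ m
  have hts := (htm s).2 dvd_rfl
  have hods := hs.odd_of_ne_two hs2
  have hiso : ∀ x y, lsf η F (t x) (t y) = lsf η F x y := spl_iso g₀
  obtain ⟨k, hk⟩ := mv_even_alt _ t (lsf_left η) (lsf_alt η) hiso s hods hsF hts
  have hk' : finrank F (mv t) = 2 * k := by omega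
  have hkn : k ≤ η := by
    have := Submodule.finrank_le (mv t)
    rw [finrank_std] at this
    omega
  refine two_plane hodd n hn (Y := ↥(mv t) × V0 (n - 1 - k) F) ?_ ((Qsw (lsf η F) t).prod (oddForm (n - 1 - k) F))
    (prod_nd _ _ (Qsw_nd (lsf η F) t h2 (lsf_alt η) (lsf_left η) hiso s hods hsF hts) (odd_nondeg h2 _))
    (LinearMap.prodMap (rW t t rfl) 1) ?_ s hods ?_
  · rw [Module.finrank_prod, hk', card_V0]
    omega
  · rintro ⟨x₁, x₂⟩
    simp only [QuadraticMap.prod_apply, LinearMap.prodMap_apply, Qsw_iso (lsf η F) t hiso t rfl hiso]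
    rfl
  · intro m
    rw [pm_pow_eq_one, rW_self_iff t s hsF hts s htm]
    simp

theorem eta_pos (s : ℕ) (hs : s.Prime) (hsp : s ≠ p) (η : ℕ)
    (hη : (Odd (orderOf ((Fintype.card F : ℕ) : ZMod s)) ∧ η = orderOf ((Fintype.card F : ℕ) : ZMod s)) ∨
      (Even (orderOf ((Fintype.card F : ℕ) : ZMod s)) ∧ 2 * η = orderOf ((Fintype.card F : ℕ) : ZMod s))) : 1 ≤ η := by
  haveI : Fact s.Prime := ⟨hs⟩
  have hk0 := Cfsg.Agent.H29.orderOf_q_pos (F := F) (p := p) (r := s) (q := Fintype.card F) rfl hsp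
  rcases hη with ⟨-, h⟩ | ⟨-, h⟩ <;> omega

theorem b2a_psp (hodd : Odd (Fintype.card F)) (n : ℕ) (hn : 3 ≤ n) (s : ℕ) (hs : s.Prime) (hs2 : s ≠ 2) (hsp : s ≠ p) (η : ℕ)
    (hη : (Odd (orderOf ((Fintype.card F : ℕ) : ZMod s)) ∧ η = orderOf ((Fintype.card F : ℕ) : ZMod s)) ∨
      (Even (orderOf ((Fintype.card F : ℕ) : ZMod s)) ∧ 2 * η = orderOf ((Fintype.card F : ℕ) : ZMod s))) (hle : η + 1 ≤ n) :
    2 * s ∈ Set.range (orderOf : Cfsg.PSp n F → ℕ) := by
  have h2 := two_ne hodd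
  haveI : Fact s.Prime := ⟨hs⟩
  have h1 := eta_pos (F := F) p s hs hsp η hη
  have h3 := blk_two (F := F) h2 (blk_eta (F := F) p s hsp η hη) (blk_one (F := F) (n - η)) h1 (by omega) (hs.odd_of_ne_two hs2) odd_one
    (Nat.coprime_one_right _)
  have h4 : η + (n - η) = n := by omega
  rw [h4, mul_one] at h3
  obtain ⟨x, hx⟩ := h3
  exact ⟨x, hx⟩

theorem b2b_om (hodd : Odd (Fintype.card F)) (n : ℕ) (hn : 3 ≤ n) (s : ℕ) (hs : s.Prime) (hs2 : s ≠ 2) (hsp : s ≠ p) (η : ℕ)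
    (hη : (Odd (orderOf ((Fintype.card F : ℕ) : ZMod s)) ∧ η = orderOf ((Fintype.card F : ℕ) : ZMod s)) ∨
      (Even (orderOf ((Fintype.card F : ℕ) : ZMod s)) ∧ 2 * η = orderOf ((Fintype.card F : ℕ) : ZMod s)))
    (h : 2 * s ∈ Set.range (orderOf : POmega F ⇑(oddForm n F) → ℕ)) : η ≤ n := by
  have h2 := two_ne hodd
  haveI : Fact s.Prime := ⟨hs⟩
  have hsF := cast_ne (F := F) p s hs hsp
  have hq0 := Cfsg.Agent.H29.natCast_q_ne_zero (F := F) (p := p) (r := s) (q := Fintype.card F) rfl hsp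
  rw [pom_iff hodd n hn] at h
  obtain ⟨g, hg⟩ := h
  rw [← Subgroup.orderOf_coe] at hg
  set g₀ := (g : ↥(isometryGroup F ⇑(oddForm n F))) with hg₀'
  have hgm := iff_of_order g₀ _ hg
  set t := lin (g₀ ^ 2) with ht
  have hts : t ^ s = 1 := by
    rw [ht, lin_pow_eq_one, ← pow_mul, (hgm _).2 dvd_rfl]
  have ht1 : t ≠ 1 := by
    intro h
    have h3 : g₀ ^ 2 = 1 := by
      have := (lin_pow_eq_one (g₀ ^ 2) 1).1 (by rw [pow_one]; exact h)
      simpa using this
    have h4 := (hgm 2).1 h3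
    have h5 := Nat.le_of_dvd (by norm_num) h4
    have := hs.two_le
    omega
  have hβ : ∀ x y, polarBilin (oddForm n F) (t x) (t y) = polarBilin (oddForm n F) x y := fun x y => lin_polar _ x y
  have htm : ∀ m : ℕ, t ^ m = 1 ↔ s ∣ m := iff_of_order t s (orderOf_eq_prime hts ht1)
  have hods := hs.odd_of_ne_two hs2
  obtain ⟨k, hk⟩ := mv_even_sym _ t (odd_left h2 n) (odd_sym n) hβ s hods hsF hts
  have hk' : finrank F (mv t) = 2 * k := by omega
  have hkn : 2 * k ≤ 2 * n + 1 := by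
    have := Submodule.finrank_le (mv t)
    rw [card_V0] at this
    omega
  have hrt := rW_self_iff t s hsF hts s htm
  have hrt1 : rW t t rfl ≠ 1 := by
    intro h
    have := (hrt 1).1 (by rw [pow_one]; exact h)
    have := Nat.le_of_dvd one_pos this
    have := hs.two_le
    omega
  have h3 := eta_le (swW (polarBilin (oddForm n F)) t) (swW_alt _ t (odd_sym n)) (swW_nd _ t (odd_left h2 n) hβ s hods hsF hts) k hk' (rW t t rfl)
    (swW_iso _ t hβ t rfl hβ) s hsF hq0 ((hrt s).2 dvd_rfl) hrt1 η hη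
  omega

theorem b2b_psp (hodd : Odd (Fintype.card F)) (n : ℕ) (hn : 3 ≤ n) (s : ℕ) (hs : s.Prime) (hs2 : s ≠ 2) (hsp : s ≠ p) (η : ℕ)
    (hη : (Odd (orderOf ((Fintype.card F : ℕ) : ZMod s)) ∧ η = orderOf ((Fintype.card F : ℕ) : ZMod s)) ∨
      (Even (orderOf ((Fintype.card F : ℕ) : ZMod s)) ∧ 2 * η = orderOf ((Fintype.card F : ℕ) : ZMod s)))
    (h : 2 * s ∈ Set.range (orderOf : Cfsg.PSp n F → ℕ)) : η ≤ n := by
  have h2 := two_ne hodd
  haveI : Fact s.Prime := ⟨hs⟩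
  have hsF := cast_ne (F := F) p s hs hsp
  have hq0 := Cfsg.Agent.H29.natCast_q_ne_zero (F := F) (p := p) (r := s) (q := Fintype.card F) rfl hsp
  obtain ⟨x, hx⟩ := h
  have hx2 : orderOf (x ^ 2) = s := by
    rw [orderOf_pow' x (by norm_num), hx]
    simp
  obtain ⟨Y, h3, h4⟩ := lift_one (by omega) (x ^ 2) s hs hs2 hx2
  refine eta_le (lsf n F) (lsf_alt n) (lsf_nd n) n (finrank_std n) (spl Y) (spl_iso Y) s hsF hq0 ?_ ?_ η hη
  · rw [spl_pow_eq_one]; exact h3
  · intro h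
    apply h4
    have := (spl_pow_eq_one Y 1).1 (by rw [pow_one]; exact h)
    simpa using this

end Cfsg.Agent.H11.Bn
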