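import Cfsg.Agent.Lib.H11.Bn5
import Cfsg.Agent.Lib.H11.Disc

/-! Discriminants and alternating matrices. -/

set_option autoImplicit false
set_option linter.unusedSectionVars false
set_option linter.unusedVariables false

namespace Cfsg.Agent.H11.Bn

open Module Matrix QuadraticMap Cfsg Cfsg.Agent.H29 Cfsg.Agent.H11.PSpG

universe u v

variable {F : Type v} [Field F] [Fintype F]

/-- the determinant of an invertible alternating matrix is a square -/
theorem alt_det_square {ι : Type*} [Fintype ι] [DecidableEq ι] (G : Matrix ι ι F) (halt : ∀ x : ι → F, x ⬝ᵥ G *ᵥ x = 0) : IsSquare G.det := by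
  classical
  by_cases hdet : G.det = 0
  · rw [hdet]; exact ⟨0, by simp⟩
  let ω : (ι → F) →ₗ[F] (ι → F) →ₗ[F] F := Matrix.toLinearMap₂' F G
  have hω : ∀ x y, ω x y = x ⬝ᵥ G *ᵥ y := fun x y => Matrix.toLinearMap₂'_apply' G x y
  have hω0 : ∀ v, ω v v = 0 := fun v => by rw [hω, halt]
  have hnd : NondegOn ω ⊤ := by
    intro u _ hu
    by_contra hcon
    push Not at hcon
    apply hu
    have h1 : u ᵥ* G = 0 := by
      funext j
      have := hcon (Pi.single j 1) Submodule.mem_top
      rw [hω, Matrix.dotProduct_mulVec] at this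
      simpa using this
    exact Matrix.eq_zero_of_vecMul_eq_zero hdet h1
  have hev := even_finrank_of_nondegOn hω0 ⊤ hnd
  rw [finrank_top] at hev
  obtain ⟨d, hd⟩ := hev
  obtain ⟨Λ, hΛ⟩ := darboux ω hω0 hnd d (by omega)
  let b : Module.Basis (Fin d ⊕ Fin d) F (ι → F) := (Pi.basisFun F (Fin d ⊕ Fin d)).map Λ
  obtain ⟨c, hc0, hc⟩ := det_gram_eq G b
  have h1 : (Matrix.of (fun i j : Fin d ⊕ Fin d => (b i) ⬝ᵥ (G *ᵥ (b j)))) = Matrix.J (Fin d) F := by
    ext i j
    simp only [Matrix.of_apply, b, Module.Basis.map_apply, Pi.basisFun_apply]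
    rw [← hω, hΛ]
    simp [Cfsg.Agent.Lead.sympForm]
  rw [h1] at hc
  have h3 : (Matrix.J (Fin d) F).det = 1 := SymplecticGroup.det_eq_one (SymplecticGroup.J_mem _ _)
  rw [h3] at hc
  refine ⟨c⁻¹, ?_⟩
  field_simp
  have : G.det * c ^ 2 = 1 := by rw [hc]; ring
  exact this

/-- a determinant of an isometry of an alternating form -/
theorem det_of_iso {V : Type*} [AddCommGroup V] [Module F V] [FiniteDimensional F V] (ω : V →ₗ[F] V →ₗ[F] F) (halt : ∀ v, ω v v = 0)
    (hnd : NondegOn ω ⊤) (d : ℕ) (hd : finrank F V = 2 * d) (τ : V →ₗ[F] V) (hiso : ∀ x y, ω (τ x) (τ y) = ω x y) : LinearMap.det τ = 1 := by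
  classical
  obtain ⟨Λ, hΛ⟩ := darboux ω halt hnd d hd
  let A : Matrix (Fin d ⊕ Fin d) (Fin d ⊕ Fin d) F :=
    LinearMap.toMatrix' (Λ.symm.toLinearMap ∘ₗ τ ∘ₗ Λ.toLinearMap)
  have hA : ∀ u, A *ᵥ u = Λ.symm (τ (Λ u)) := by
    intro u
    rw [← Matrix.toLin'_apply, Matrix.toLin'_toMatrix']
    simp
  have hmem : A ∈ symplecticGroup (Fin d) F := by
    apply mem_of_form
    intro u v
    rw [hA, hA, ← hΛ, ← hΛ u v]
    simp [hiso]
  have h1 : A.det = 1 := SymplecticGroup.det_eq_one hmem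
  have h2 : A.det = LinearMap.det (Λ.symm.toLinearMap ∘ₗ τ ∘ₗ Λ.toLinearMap) := LinearMap.det_toMatrix' _
  rw [h2] at h1
  rw [← LinearMap.det_conj τ Λ.symm]
  exact h1

/-- the discriminant criterion -/
theorem disc_sq {U : Type*} [AddCommGroup U] [Module F U] [FiniteDimensional F U] (h2 : (2 : F) ≠ 0) (Q : QuadraticForm F U)
    (K : ℕ) (hKe : Even K) (hKU : K = finrank F U) (u : Fin K → U) (hu : ∀ i, Q (u i) ≠ 0) (ho : ∀ i j, i ≠ j → polar Q (u i) (u j) = 0)
    (T : U →ₗ[F] U) (hT : ∀ x, polar Q x (T x) = 0) : IsSquare ((∏ i, Q (u i)) * LinearMap.det T) := by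
  classical
  have hli := orth_li h2 Q u hu ho
  let bas : Module.Basis (Fin K) F U := basisOfLinearIndependentOfCardEqFinrank' u hli (by simpa using hKU)
  have hbas : ∀ i, bas i = u i := fun i => congrFun (coe_basisOfLinearIndependentOfCardEqFinrank' u hli _) i
  let M : Matrix (Fin K) (Fin K) F := LinearMap.toMatrix bas bas T
  let G : Matrix (Fin K) (Fin K) F := Matrix.of fun i j => polar Q (u i) (T (u j))
  have hTu : ∀ j, T (u j) = ∑ k, M k j • u k := by
    intro j
    have h1 := bas.sum_repr (T (u j))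
    simp only [hbas] at h1
    rw [← h1]
    refine Finset.sum_congr rfl fun k _ => ?_
    congr 1
    simp only [M, LinearMap.toMatrix_apply, hbas]
  have hG : G = Matrix.diagonal (fun i => 2 * Q (u i)) * M := by
    ext i j
    simp only [G, Matrix.of_apply, Matrix.diagonal_mul]
    rw [hTu j]
    have h1 := map_sum (polarBilin Q (u i)) (fun k => M k j • u k) Finset.univ
    simp only [polarBilin_apply_apply, map_smul, smul_eq_mul] at h1
    rw [h1, Finset.sum_eq_single i]
    · rw [polar_self]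
      simp
      ring
    · intro k _ hk
      rw [ho i k hk.symm, mul_zero]
    · simp
  have hGalt : ∀ x : Fin K → F, x ⬝ᵥ G *ᵥ x = 0 := by
    intro x
    have h1 := hT (∑ i, x i • u i)
    let B : U →ₗ[F] U →ₗ[F] F := (polarBilin Q).compl₂ T
    have h3 : B (∑ i, x i • u i) (∑ j, x j • u j) = x ⬝ᵥ G *ᵥ x := by
      simp only [map_sum, LinearMap.sum_apply, map_smul, LinearMap.smul_apply, smul_eq_mul, dotProduct, Matrix.mulVec, Finset.mul_sum]
      rw [Finset.sum_comm]
      refine Finset.sum_congr rfl fun i _ => Finset.sum_congr rfl fun j _ => ?_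
      simp only [B, G, LinearMap.compl₂_apply, polarBilin_apply_apply, Matrix.of_apply]
      ring
    rw [← h3]
    exact h1
  have h3 := alt_det_square G hGalt
  rw [hG, Matrix.det_mul, Matrix.det_diagonal, LinearMap.det_toMatrix, Finset.prod_mul_distrib] at h3
  simp only [Finset.prod_const, Finset.card_univ, Fintype.card_fin] at h3
  obtain ⟨K', hK'⟩ := id hKe
  obtain ⟨r, hr⟩ := h3
  have h20 : (2 : F) ^ K' ≠ 0 := pow_ne_zero _ h2
  refine ⟨r / 2 ^ K', ?_⟩
  have h4 : (2 : F) ^ K = 2 ^ K' * 2 ^ K' := by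
    rw [hK', pow_add]
  rw [h4] at hr
  field_simp
  rw [mul_comm, ← pow_two] at hr
  linear_combination hr

end Cfsg.Agent.H11.Bn
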