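import Cfsg.Agent.Lib.H11.Bn6

/-! From `PSp` to `PΩ` when `η = n`. -/

set_option autoImplicit false
set_option linter.unusedSectionVars false
set_option linter.unusedVariables false

namespace Cfsg.Agent.H11.Bn

open Module Matrix QuadraticMap Cfsg Cfsg.Agent.H29 Cfsg.Agent.H11.PSpG

universe u v

variable {F : Type v} [Field F] [Fintype F]

theorem orth_basis (h2 : (2 : F) ≠ 0) {U : Type v} [AddCommGroup U] [Module F U] [FiniteDimensional F U] (Q : QuadraticForm F U)
    (hQ : (polarBilin Q).Nondegenerate) (K : ℕ) (hK : K = finrank F U) (hK0 : 0 < K) :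
    ∃ u : Fin K → U, (∀ i, Q (u i) ≠ 0) ∧ ∀ i j, i ≠ j → polar Q (u i) (u j) = 0 := by
  obtain ⟨k, rfl⟩ : ∃ k, K = k + 1 := ⟨K - 1, by omega⟩
  obtain ⟨v, z, h1, h3, h4, h5⟩ := exists_orth_family h2 k U Q hK.symm hQ
  refine ⟨Fin.cons z v, ?_, ?_⟩
  · intro i
    refine Fin.cases ?_ (fun j => ?_) i
    · simpa using h5
    · simp [h1]
  · intro i j
    refine Fin.cases ?_ (fun i' => ?_) i <;> refine Fin.cases ?_ (fun j' => ?_) j
    · intro h; exact absurd rfl h
    · intro _
      simp only [Fin.cons_zero, Fin.cons_succ]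
      rw [polar_comm]
      exact h4 j'
    · intro _
      simp only [Fin.cons_zero, Fin.cons_succ]
      exact h4 i'
    · intro h
      simp only [Fin.cons_succ]
      exact h3 i' j' (fun h' => h (by rw [h']))

section
variable {V : Type*} [AddCommGroup V] [Module F V] [FiniteDimensional F V]

/-- restricted alternating form -/
theorem fix_bound (ω : V →ₗ[F] V →ₗ[F] F) (halt : ∀ v, ω v v = 0) (hnd : NondegOn ω ⊤) (n : ℕ) (hdim : finrank F V = 2 * n)
    (h2 : (2 : F) ≠ 0) (c : V →ₗ[F] V) (hc : ∀ x y, ω (c x) (c y) = ω x y) (hc2 : c ^ 2 = 1) (hc1 : c ≠ 1) (b : V →ₗ[F] V)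
    (hb : ∀ x y, ω (b x) (b y) = ω x y) (hcb : c * b = b * c) (s : ℕ) [hs : Fact s.Prime] (hsF : (s : F) ≠ 0)
    (hqs : ((Fintype.card F : ℕ) : ZMod s) ≠ 0) (hbs : b ^ s = 1)
    (hη : (Odd (orderOf ((Fintype.card F : ℕ) : ZMod s)) ∧ n = orderOf ((Fintype.card F : ℕ) : ZMod s)) ∨
      (Even (orderOf ((Fintype.card F : ℕ) : ZMod s)) ∧ 2 * n = orderOf ((Fintype.card F : ℕ) : ZMod s))) (v : V)
    (hv : v ∈ LinearMap.ker (c - 1)) : b v = v := by
  have hN : ((2 : ℕ) : F) ≠ 0 := by exact_mod_cast h2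
  have hP := nondeg_fix ω ⊤ hnd c hc (fun _ _ => Submodule.mem_top) 2 hN (fun v _ => by rw [hc2]; rfl)
  rw [top_inf_eq] at hP
  set P := LinearMap.ker (c - 1) with hPd
  have hev := even_finrank_of_nondegOn halt P hP
  obtain ⟨d, hd⟩ := hev
  have hd' : finrank F P = 2 * d := by omega
  have hdn : d < n := by
    have h3 := Submodule.finrank_le P
    have h4 : finrank F P ≠ 2 * n := by
      intro h5
      apply hc1
      have h6 : P = ⊤ := Submodule.eq_top_of_finrank_eq (by rw [h5, hdim])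
      exact sub_eq_zero.1 (LinearMap.ker_eq_top.1 h6)
    omega
  let ωP : ↥P →ₗ[F] ↥P →ₗ[F] F := ω.domRestrict₁₂ P P
  have hωP : ∀ x y : ↥P, ωP x y = ω x y := fun x y => rfl
  have hndP : NondegOn ωP ⊤ := by
    intro x _ hx
    obtain ⟨w, hw, hne⟩ := hP x x.2 (fun h => hx (Subtype.ext h))
    exact ⟨⟨w, hw⟩, Submodule.mem_top, hne⟩
  let bP : ↥P →ₗ[F] ↥P := b.restrict (fun x hx => fix_inv c b hcb x hx)
  by_cases hbP : bP = 1
  · have := LinearMap.congr_fun hbP ⟨v, hv⟩
    exact congrArg Subtype.val this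
  · exfalso
    have hpow : bP ^ s = 1 := by
      apply LinearMap.ext
      intro x
      apply Subtype.ext
      rw [pow_on bP b (fun _ => rfl) s x, hbs]
      rfl
    have h5 := eta_le ωP (fun x => halt _) hndP d hd' bP (fun x y => hb x y) s hsF hqs hpow hbP n hη
    omega

end

theorem om_restr {V : Type*} [AddCommGroup V] [Module F V] [FiniteDimensional F V] (ω : V →ₗ[F] V →ₗ[F] F) (hl : ∀ x, (∀ v, ω x v = 0) → x = 0)
    (t : V →ₗ[F] V) (hiso : ∀ x y, ω (t x) (t y) = ω x y) (N : ℕ) (hN0 : 0 < N) (hN : (N : F) ≠ 0) (ht : t ^ N = 1) :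
    NondegOn (ω.domRestrict₁₂ (mv t) (mv t)) ⊤ := by
  intro x _ hx
  by_contra hcon
  push Not at hcon
  apply hx
  apply Subtype.ext
  exact mv_rad ω t hl hiso N hN0 hN ht x x.2 (fun w hw => hcon ⟨w, hw⟩ Submodule.mem_top)

variable (p : ℕ) [hp : Fact p.Prime] [hc : CharP F p]

theorem b2c_b (hodd : Odd (Fintype.card F)) (n : ℕ) (hn : 3 ≤ n) (s : ℕ) (hs : s.Prime) (hs2 : s ≠ 2) (hsp : s ≠ p)
    (hη : (Odd (orderOf ((Fintype.card F : ℕ) : ZMod s)) ∧ n = orderOf ((Fintype.card F : ℕ) : ZMod s)) ∨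
      (Even (orderOf ((Fintype.card F : ℕ) : ZMod s)) ∧ 2 * n = orderOf ((Fintype.card F : ℕ) : ZMod s)))
    (h : 2 * s ∈ Set.range (orderOf : Cfsg.PSp n F → ℕ)) :
    2 * s ∈ Set.range (orderOf : POmega F ⇑(oddForm n F) → ℕ) := by
  classical
  have h2 := two_ne hodd
  haveI : Fact s.Prime := ⟨hs⟩
  have hsF := cast_ne (F := F) p s hs hsp
  have hq0 := Cfsg.Agent.H29.natCast_q_ne_zero (F := F) (p := p) (r := s) (q := Fintype.card F) rfl hsp
  have hods := hs.odd_of_ne_two hs2
  have hs3 : 3 ≤ s := by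
    have := hs.two_le
    omega
  obtain ⟨x, hx⟩ := h
  obtain ⟨Y, rfl⟩ := QuotientGroup.mk_surjective x
  have hcen := lift_center (by omega) Y _ hx
  have hcen' : Y ^ (2 * s) ∈ Subgroup.center (symplecticGroup (Fin n) F) := by
    rw [← QuotientGroup.eq_one_iff, QuotientGroup.mk_pow, ← hx]
    exact pow_orderOf_eq_one _
  obtain ⟨c₀, hc₀, hc₁⟩ := center_sq (by omega) _ hcen'
  have hc₀' : c₀ = 1 ∨ c₀ = -1 := by
    have h3 : (c₀ - 1) * (c₀ + 1) = 0 := by linear_combination hc₀
    rcases mul_eq_zero.1 h3 with h4 | h4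
    · left; exact sub_eq_zero.1 h4
    · right; exact eq_neg_of_add_eq_zero_left h4
  set b := Y ^ 4 with hb
  set J := Y ^ s with hJ
  have hbs : b ^ s = 1 := by
    rw [hb, ← pow_mul]
    have h3 : 4 * s = (2 * s) * 2 := by ring
    rw [h3, pow_mul, hcen]
  have hb1 : b ≠ 1 := by
    intro h
    have h3 := lift_pow Y _ hx 4 h
    have h5 := Nat.le_of_dvd (by norm_num) h3
    omega
  set t := spl b with ht
  set c := spl J with hcd
  have htc : t * c = c * t := by
    rw [ht, hcd, ← spl_mul, ← spl_mul, hb, hJ, ← pow_add, ← pow_add, add_comm]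
  have hts : t ^ s = 1 := (spl_pow_eq_one b s).2 hbs
  have ht1 : t ≠ 1 := by
    intro h
    apply hb1
    have := (spl_pow_eq_one b 1).1 (by rw [pow_one]; exact h)
    simpa using this
  have hc2v : ∀ v, c (c v) = c₀ • v := by
    intro v
    have h3 : c (c v) = ((Y ^ (2 * s) : symplecticGroup (Fin n) F) : Matrix _ _ F) *ᵥ v := by
      have h4 : Y ^ (2 * s) = J * J := by
        rw [hJ, ← pow_add]
        congr 1
        ring
      rw [h4]
      change _ = (J.1 * J.1) *ᵥ v
      rw [← Matrix.mulVec_mulVec]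
      rfl
    rw [h3, hc₁, Matrix.smul_mulVec, Matrix.one_mulVec]
  have hJnot : J ∉ Subgroup.center (symplecticGroup (Fin n) F) := by
    intro h
    have h3 : (QuotientGroup.mk Y : Cfsg.PSp n F) ^ s = 1 := by
      rw [← QuotientGroup.mk_pow]
      exact (QuotientGroup.eq_one_iff _).2 h
    have h4 := orderOf_dvd_of_pow_eq_one h3
    rw [hx] at h4
    have h5 := Nat.le_of_dvd hs.pos h4
    omega
  have hc1 : c ≠ 1 := by
    intro h
    apply hJnot
    have h3 : J = 1 := spl_inj _ _ (by rw [← hcd, h, spl_one])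
    rw [h3]
    exact Subgroup.one_mem _
  have hcn1 : c ≠ -1 := by
    intro h
    apply hJnot
    rw [Subgroup.mem_center_iff]
    intro g
    apply spl_inj
    rw [spl_mul, spl_mul, ← hcd, h]
    apply LinearMap.ext
    intro v
    simp [Module.End.mul_apply]
  have hiso_t : ∀ x y, lsf n F (t x) (t y) = lsf n F x y := spl_iso b
  have hiso_c : ∀ x y, lsf n F (c x) (c y) = lsf n F x y := spl_iso J
  rcases hc₀' with h1 | h1
  · -- an involution: impossible
    exfalso
    subst h1
    have hcc : c ^ 2 = 1 := by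
      apply LinearMap.ext
      intro v
      rw [pow_two, Module.End.mul_apply, hc2v]
      simp
    have hA := fix_bound (lsf n F) (lsf_alt n) (lsf_nd n) n (finrank_std n) h2 c hiso_c hcc hc1 t hiso_t htc.symm s hsF hq0 hts hη
    have hB := fix_bound (lsf n F) (lsf_alt n) (lsf_nd n) n (finrank_std n) h2 (-c) (fun x y => by rw [LinearMap.neg_apply, LinearMap.neg_apply, map_neg, map_neg, LinearMap.neg_apply, neg_neg, hiso_c])
      (by
        apply LinearMap.ext
        intro v
        rw [pow_two, Module.End.mul_apply]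
        simp [hc2v])
      (fun h => hcn1 (by rw [← h, neg_neg])) t hiso_t
      (by
        apply LinearMap.ext
        intro v
        have h4 : t (c v) = c (t v) := LinearMap.congr_fun htc v
        simp [Module.End.mul_apply, h4]) s hsF hq0 hts hη
    apply ht1
    apply LinearMap.ext
    intro v
    have h3 : v = (2 : F)⁻¹ • (v + c v) + (2 : F)⁻¹ • (v - c v) := by
      rw [← smul_add]
      have : v + c v + (v - c v) = (2 : F) • v := by
        rw [two_smul]
        abel
      rw [this, smul_smul, inv_mul_cancel₀ h2, one_smul]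
    have h4 : (2 : F)⁻¹ • (v + c v) ∈ LinearMap.ker (c - 1) := by
      rw [mem_fix, map_smul, map_add, hc2v, one_smul, add_comm]
    have h5 : (2 : F)⁻¹ • (v - c v) ∈ LinearMap.ker (-c - 1) := by
      rw [mem_fix, map_smul]
      simp only [LinearMap.neg_apply, map_sub, hc2v, one_smul]
      congr 1
      abel
    have h6 := hA _ h4
    have h7 := hB _ h5
    rw [Module.End.one_apply]
    conv_lhs => rw [h3, map_add, h6, h7]
    exact h3.symm
  · subst h1
    have hodd' := hods
    obtain ⟨k, hk⟩ := mv_even_alt _ t (lsf_left n) (lsf_alt n) hiso_t s hods hsF hts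
    have hk' : finrank F (mv t) = 2 * k := by omega
    have hkn : k ≤ n := by
      have := Submodule.finrank_le (mv t)
      rw [finrank_std] at this
      omega
    have htm : ∀ m : ℕ, t ^ m = 1 ↔ s ∣ m := iff_of_order t s (orderOf_eq_prime hts ht1)
    have hrt := rW_self_iff t s hsF hts s htm
    have hrt1 : rW t t rfl ≠ 1 := by
      intro h
      have := (hrt 1).1 (by rw [pow_one]; exact h)
      have := Nat.le_of_dvd one_pos this
      omega
    have hndU := om_restr (lsf n F) (lsf_left n) t hiso_t s hs.pos hsF hts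
    have haltU : ∀ x : ↥(mv t), (lsf n F).domRestrict₁₂ (mv t) (mv t) x x = 0 := fun x => lsf_alt n _
    have h3 := eta_le ((lsf n F).domRestrict₁₂ (mv t) (mv t)) haltU hndU k hk' (rW t t rfl) (fun x y => hiso_t x y) s hsF hq0
      ((hrt s).2 dvd_rfl) hrt1 n hη
    have hkk : k = n := by omega
    subst hkk
    have hQ₁ := Qsw_nd (lsf k F) t h2 (lsf_alt k) (lsf_left k) hiso_t s hods hsF hts
    obtain ⟨u, hu, ho⟩ := orth_basis h2 (Qsw (lsf k F) t) hQ₁ (2 * k) hk'.symm (by omega)
    have hT : ∀ x, polar (Qsw (lsf k F) t) x (rW t c htc x) = 0 := by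
      intro x
      rw [Qsw_polar _ _ (lsf_alt k), swW_apply, rW_coe]
      have e1 : lsf k F (t x) (c x) = lsf k F x (t (c x)) := by
        have h4 : t (c (x : Fin k ⊕ Fin k → F)) = c (t x) := LinearMap.congr_fun htc _
        rw [← hiso_c (t x) (c x), hc2v, h4, map_smul, neg_smul, one_smul, form_swap (lsf_alt k) (c (t x)) x, neg_neg]
      rw [e1, sub_self, mul_zero]
    have hdet : LinearMap.det (rW t c htc) = 1 :=
      det_of_iso ((lsf k F).domRestrict₁₂ (mv t) (mv t)) haltU hndU k hk' _ (fun x y => hiso_c x y)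
    have hsq := disc_sq h2 (Qsw (lsf k F) t) (2 * k) (even_two_mul k) hk'.symm u hu ho (rW t c htc) hT
    rw [hdet, mul_one] at hsq
    refine make_even hodd k hn (U := ↥(mv t)) (Y := V0 0 F) ?_ (Qsw (lsf k F) t) (oddForm 0 F) hQ₁ (odd_nondeg h2 0) (2 * k) (by omega)
      (even_two_mul k) hk'.symm u hu ho hsq (rW t t rfl) 1 (Qsw_iso _ t hiso_t t rfl hiso_t) (fun _ => rfl) s hods ?_
    · rw [hk', card_V0]
    · intro m
      rw [pm_pow_eq_one, hrt]
      simp

end Cfsg.Agent.H11.Bn
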