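import Cfsg.Agent.Lib.H11.Bn7
import Cfsg.Agent.Lib.H11.Spec18

/-! Arithmetic of the determinant of `b - b⁻¹`. -/

set_option autoImplicit false
set_option linter.unusedSectionVars false
set_option linter.unusedVariables false

namespace Cfsg.Agent.H11.Bn

open Module Matrix QuadraticMap Cfsg Cfsg.Agent.H29 Cfsg.Agent.H11.PSpG Polynomial

open Cfsg.Agent.H11.Spec

universe u v

variable {F : Type v} [Field F] [Fintype F]

variable (p : ℕ) [hp : Fact p.Prime] [hc : CharP F p]

/-- a root of an irreducible factor -/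
theorem fac_deg (s : ℕ) (hs : s.Prime) (hsp : s ≠ p) {f : F[X]} (hf : Irreducible f) (hfs : f ∣ X ^ s - 1) (hf1 : f.eval 1 ≠ 0) :
    orderOf ((Fintype.card F : ℕ) : ZMod s) ∣ f.natDegree := by
  classical
  haveI : Fact s.Prime := ⟨hs⟩
  haveI : Fact (Irreducible f) := ⟨hf⟩
  let pb := AdjoinRoot.powerBasis hf.ne_zero
  haveI : Module.Finite F (AdjoinRoot f) := pb.finite
  have hfin : Module.finrank F (AdjoinRoot f) = f.natDegree := by
    rw [pb.finrank]
    exact AdjoinRoot.powerBasis_dim hf.ne_zero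
  haveI : Finite (AdjoinRoot f) := Module.finite_of_finite F
  letI : Fintype (AdjoinRoot f) := Fintype.ofFinite _
  set θ := AdjoinRoot.root f with hθ
  have h1 : θ ^ s = 1 := by
    have h2 : AdjoinRoot.mk f (X ^ s - 1) = 0 := AdjoinRoot.mk_eq_zero.2 hfs
    rw [map_sub, map_pow, map_one, AdjoinRoot.mk_X] at h2
    exact sub_eq_zero.1 h2
  have h3 : θ ≠ 1 := by
    intro h
    apply hf1
    have h4 : aeval θ f = 0 := by
      rw [hθ, AdjoinRoot.aeval_eq, AdjoinRoot.mk_self]
    rw [h] at h4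
    have h5 : (1 : AdjoinRoot f) = algebraMap F (AdjoinRoot f) 1 := (map_one _).symm
    rw [h5, aeval_algebraMap_apply, Polynomial.coe_aeval_eq_eval] at h4
    exact (algebraMap F (AdjoinRoot f)).injective (by rw [h4, map_zero])
  have h4 : orderOf θ = s := orderOf_eq_prime h1 h3
  have hθ0 : θ ≠ 0 := by
    intro h
    rw [h, zero_pow hs.ne_zero] at h1
    exact zero_ne_one h1
  have h5 : θ ^ (Fintype.card (AdjoinRoot f) - 1) = 1 := FiniteField.pow_card_sub_one_eq_one θ hθ0
  have h6 : s ∣ Fintype.card (AdjoinRoot f) - 1 := h4 ▸ orderOf_dvd_of_pow_eq_one h5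
  have h7 : Fintype.card (AdjoinRoot f) = Fintype.card F ^ f.natDegree := by
    rw [← hfin, Module.card_eq_pow_finrank (K := F) (V := AdjoinRoot f)]
  rw [h7] at h6
  apply orderOf_dvd_of_pow_eq_one
  have h8 : 1 ≤ Fintype.card F ^ f.natDegree := Nat.one_le_pow _ _ Fintype.card_pos
  have h9 := (ZMod.natCast_eq_zero_iff _ s).2 h6
  rw [Nat.cast_sub h8] at h9
  push_cast at h9
  exact sub_eq_zero.1 h9

include hp hc in
/-- the norm computation -/
theorem norm_part (hodd : Odd (Fintype.card F)) (n : ℕ) (hn : 1 ≤ n) (s : ℕ) (hs : s.Prime) (hs2 : s ≠ 2) {P : F[X]} (hP : Irreducible P) (hm : P.Monic)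
    (hd : P.natDegree = 2 * n) (hPs : P ∣ X ^ s - 1) (h1 : P.eval 1 ≠ 0) (hsq : IsSquare (P.eval 1 * P.eval (-1)))
    (hdvd : s ∣ Fintype.card F ^ n + 1) : 4 ∣ Fintype.card F ^ n + 1 := by
  classical
  have h2F := two_ne hodd
  haveI : Fact s.Prime := ⟨hs⟩
  haveI : Fact (Irreducible P) := ⟨hP⟩
  let pb := AdjoinRoot.powerBasis hP.ne_zero
  haveI : Module.Finite F (AdjoinRoot P) := pb.finite
  have hfin : Module.finrank F (AdjoinRoot P) = P.natDegree := by
    rw [pb.finrank]
    exact AdjoinRoot.powerBasis_dim hP.ne_zero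
  haveI : Finite (AdjoinRoot P) := Module.finite_of_finite F
  letI : Fintype (AdjoinRoot P) := Fintype.ofFinite _
  haveI : CharP (AdjoinRoot P) p := charP_of_injective_algebraMap (algebraMap F (AdjoinRoot P)).injective p
  set θ := AdjoinRoot.root P with hθ
  have hs1 : θ ^ s = 1 := by
    have h2 : AdjoinRoot.mk P (X ^ s - 1) = 0 := AdjoinRoot.mk_eq_zero.2 hPs
    rw [map_sub, map_pow, map_one, AdjoinRoot.mk_X] at h2
    exact sub_eq_zero.1 h2
  have hθ1 : θ ≠ 1 := by
    intro h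
    apply h1
    have h4 : aeval θ P = 0 := by
      rw [hθ, AdjoinRoot.aeval_eq, AdjoinRoot.mk_self]
    rw [h] at h4
    have h5 : (1 : AdjoinRoot P) = algebraMap F (AdjoinRoot P) 1 := (map_one _).symm
    rw [h5, aeval_algebraMap_apply, Polynomial.coe_aeval_eq_eval] at h4
    exact (algebraMap F (AdjoinRoot P)).injective (by rw [h4, map_zero])
  have hord : orderOf θ = s := orderOf_eq_prime hs1 hθ1
  have hs3 : 3 ≤ s := by
    have := hs.two_le
    omega
  have hθ2 : θ ^ 2 ≠ 1 := by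
    intro h
    have := orderOf_dvd_of_pow_eq_one h
    rw [hord] at this
    have := Nat.le_of_dvd (by norm_num) this
    omega
  have hNP : ∀ c : F, Algebra.norm F (algebraMap F (AdjoinRoot P) c - θ) = P.eval c := by
    intro c
    rw [Algebra.norm_eq_matrix_det pb.basis, map_sub, AlgHom.commutes]
    have h3 : θ = pb.gen := (AdjoinRoot.powerBasis_gen hP.ne_zero).symm
    rw [h3]
    have h4 := charpoly_leftMulMatrix pb
    have h5 : minpoly F pb.gen = P := by
      rw [← h3, hθ, AdjoinRoot.minpoly_root hP.ne_zero, hm.leadingCoeff]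
      simp
    rw [h5] at h4
    have h7 : (Algebra.leftMulMatrix pb.basis pb.gen).charpoly.eval c = P.eval c := by rw [h4]
    rw [← h7, Matrix.eval_charpoly]
    rfl
  set x := θ ^ 2 - 1 with hx
  have hx0 : x ≠ 0 := sub_ne_zero.2 hθ2
  have hNx : Algebra.norm F x = P.eval 1 * P.eval (-1) := by
    rw [← hNP, ← hNP, ← map_mul]
    congr 1
    simp only [map_one, map_neg, hx]
    ring
  set q := Fintype.card F with hq
  set m := q ^ n with hmd
  have hmodd : Odd m := hodd.pow
  obtain ⟨A, hA⟩ : ∃ A, m + 1 = 2 * A := by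
    obtain ⟨e, he⟩ := hmodd
    exact ⟨e + 1, by omega⟩
  obtain ⟨c, hc'⟩ : ∃ c, q - 1 = 2 * c := by
    obtain ⟨e, he⟩ := hodd
    exact ⟨e, by omega⟩
  have hq1 : 1 ≤ q := hodd.pos
  have hq2 : 2 ≤ q := by
    have := hodd.pos
    by_contra hlt
    have h3 : q = 1 := by omega
    have := Fintype.one_lt_card (α := F)
    omega
  have hm1 : 1 ≤ m := Nat.one_le_pow _ _ hq1
  have hcardE : Nat.card (AdjoinRoot P) = m * m := by
    rw [Nat.card_eq_fintype_card, Module.card_eq_pow_finrank (K := F) (V := AdjoinRoot P), hfin, hd, ← hq, two_mul, pow_add]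
  have hpow := FiniteField.algebraMap_norm_eq_pow (K := F) (K' := AdjoinRoot P) (x := x)
  rw [hcardE, Nat.card_eq_fintype_card, ← hq, hNx] at hpow
  obtain ⟨K₁, hK₁⟩ : q - 1 ∣ m * m - 1 := by
    have h3 := Nat.sub_dvd_pow_sub_pow q 1 (2 * n)
    rw [one_pow, two_mul, pow_add, ← hmd] at h3
    exact h3
  have hqpos : 0 < q - 1 := by omega
  rw [hK₁, Nat.mul_div_cancel_left _ hqpos] at hpow
  obtain ⟨r, hr⟩ := hsq
  have hne : P.eval 1 * P.eval (-1) ≠ 0 := by
    rw [← hNx]
    exact (Algebra.norm_ne_zero_iff).2 hx0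
  have hr0 : r ≠ 0 := by
    rintro rfl
    exact hne (by rw [hr, mul_zero])
  have hNc : (P.eval 1 * P.eval (-1)) ^ c = 1 := by
    rw [hr, ← pow_two, ← pow_mul, ← hc', hq]
    exact FiniteField.pow_card_sub_one_eq_one r hr0
  have hxpow : x ^ (K₁ * c) = 1 := by
    rw [pow_mul, ← hpow, ← map_pow, hNc, map_one]
  have hKc : K₁ * c = (m - 1) * A := by
    have h3 : (q - 1) * K₁ = (m - 1) * (2 * A) := by
      rw [← hK₁, ← hA]
      zify [hm1, Nat.one_le_iff_ne_zero.2 (by positivity : m * m ≠ 0)]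
      ring
    rw [hc'] at h3
    have h4 : 2 * (K₁ * c) = 2 * ((m - 1) * A) := by
      calc 2 * (K₁ * c) = 2 * c * K₁ := by ring
        _ = (m - 1) * (2 * A) := h3
        _ = 2 * ((m - 1) * A) := by ring
    omega
  rw [hKc] at hxpow
  obtain ⟨a, ha⟩ : ∃ a, q = p ^ a := by
    obtain ⟨a, -, ha⟩ := FiniteField.card F p
    exact ⟨a, ha⟩
  have hmp : m = p ^ (a * n) := by
    rw [hmd, ha, pow_mul]
  have hfrob : ∀ y z : AdjoinRoot P, (y - z) ^ m = y ^ m - z ^ m := by
    intro y z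
    rw [hmp, ← iterateFrobenius_def, ← iterateFrobenius_def, ← iterateFrobenius_def]
    exact map_sub _ y z
  have hθm : θ ^ (m + 1) = 1 := by
    obtain ⟨e, he⟩ := hdvd
    rw [he, pow_mul, hs1, one_pow]
  have hkey : θ ^ 2 * x ^ m = -x := by
    rw [hx, hfrob, one_pow]
    have h3 : (θ ^ 2) ^ m * θ ^ 2 = 1 := by
      rw [← pow_mul, ← pow_add]
      have : 2 * m + 2 = (m + 1) * 2 := by ring
      rw [this, pow_mul, hθm, one_pow]
    linear_combination h3
  have hkey2 : θ ^ 2 * x ^ (m - 1) = -1 := by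
    have h3 : x ^ m = x ^ (m - 1) * x := by
      rw [← pow_succ, Nat.sub_add_cancel hm1]
    rw [h3, ← mul_assoc] at hkey
    have h4 : (θ ^ 2 * x ^ (m - 1) + 1) * x = 0 := by
      linear_combination hkey
    have h5 := (mul_eq_zero.1 h4).resolve_right hx0
    linear_combination h5
  have hfin2 : (-1 : AdjoinRoot P) ^ A = 1 := by
    rw [← hkey2, mul_pow, ← pow_mul, ← pow_mul, hxpow, mul_one, ← hA, hθm]
  have h2E : (2 : AdjoinRoot P) ≠ 0 := by
    intro h
    exact h2F ((map_eq_zero (algebraMap F (AdjoinRoot P))).1 (by rw [map_ofNat]; exact h))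
  have hAe : Even A := by
    by_contra hc2
    have hAo : Odd A := Nat.not_even_iff_odd.1 hc2
    rw [hAo.neg_one_pow] at hfin2
    apply h2E
    linear_combination -hfin2
  obtain ⟨e, he⟩ := hAe
  exact ⟨e, by omega⟩

theorem exists_monic_irr (P : F[X]) (h : P.natDegree ≠ 0) : ∃ f, Irreducible f ∧ f.Monic ∧ f ∣ P := by
  obtain ⟨g, hg, hgP⟩ := Polynomial.exists_irreducible_of_natDegree_ne_zero h
  have hu : IsUnit (C g.leadingCoeff⁻¹) := isUnit_C.2 (isUnit_iff_ne_zero.2 (inv_ne_zero (leadingCoeff_ne_zero.2 hg.ne_zero)))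
  refine ⟨g * C g.leadingCoeff⁻¹, (associated_mul_unit_right g _ hu).irreducible hg, monic_mul_leadingCoeff_inv hg.ne_zero, ?_⟩
  exact ((associated_mul_unit_right g _ hu).symm.dvd).trans hgP

include hp hc in
theorem odd_part (hodd : Odd (Fintype.card F)) (n : ℕ) (hnodd : Odd n) (s : ℕ) (hs : s.Prime) (hs2 : s ≠ 2) (hsp : s ≠ p) {P : F[X]} (hm : P.Monic)
    (hd : P.natDegree = 2 * n) (hP0 : P.coeff 0 ≠ 0) (hdag : dag (RingHom.id F) P = P) (hPs : ∀ f : F[X], Irreducible f → f ∣ P → f ∣ X ^ s - 1)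
    (h1 : P.eval 1 ≠ 0) (h1' : P.eval (-1) ≠ 0) (hsq : IsSquare (P.eval 1 * P.eval (-1)))
    (he : n = orderOf ((Fintype.card F : ℕ) : ZMod s)) : 4 ∣ Fintype.card F ^ n - 1 := by
  classical
  haveI : Fact s.Prime := ⟨hs⟩
  have hρ : ∀ x : F, (RingHom.id F) ((RingHom.id F) x) = x := fun x => rfl
  have hn0 : 1 ≤ n := hnodd.pos
  have hgP : GoodP P := ⟨hm, hP0⟩
  obtain ⟨f, hf, hfm, hfP⟩ := exists_monic_irr P (by omega)
  have hf1 : f.eval 1 ≠ 0 := by
    intro h
    obtain ⟨g, rfl⟩ := hfP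
    exact h1 (by rw [eval_mul, h, zero_mul])
  have hf1' : f.eval (-1) ≠ 0 := by
    intro h
    obtain ⟨g, rfl⟩ := hfP
    exact h1' (by rw [eval_mul, h, zero_mul])
  have h3 := fac_deg p s hs hsp hf (hPs f hf hfP) hf1
  rw [← he] at h3
  have hq1 : 1 ≤ Fintype.card F := Fintype.card_pos
  have hsdvd : s ∣ Fintype.card F ^ n - 1 := by
    apply dvd_of_order s _ n hq1
    rw [he]
    exact pow_orderOf_eq_one _
  have h4 : f.natDegree ∣ n := by
    apply hf.natDegree_dvd_of_dvd_X_pow_card_pow_sub_X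
    rw [Nat.card_eq_fintype_card]
    have h5 : (X ^ s - 1 : F[X]) ∣ X ^ (Fintype.card F ^ n - 1) - 1 := by
      obtain ⟨k, hk⟩ := hsdvd
      rw [hk, pow_mul]
      have := sub_dvd_pow_sub_pow (X ^ s : F[X]) 1 k
      rwa [one_pow] at this
    have h6 : (X ^ (Fintype.card F ^ n) - X : F[X]) = X * (X ^ (Fintype.card F ^ n - 1) - 1) := by
      have h7 : 1 ≤ Fintype.card F ^ n := Nat.one_le_pow _ _ hq1
      rw [mul_sub, mul_one, ← pow_succ', Nat.sub_add_cancel h7]
    rw [h6]
    exact Dvd.dvd.mul_left ((hPs f hf hfP).trans h5) X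
  have hfd : f.natDegree = n := Nat.dvd_antisymm h4 h3
  obtain ⟨g, hg⟩ := hfP
  have hgm : g.Monic := by
    rw [hg] at hm
    exact hfm.of_mul_monic_left hm
  have hgd : g.natDegree = n := by
    have := hfm.natDegree_mul hgm
    rw [← hg, hd, hfd] at this
    omega
  have hgf : GoodP f := good_of_dvd hgP hfm ⟨g, hg⟩
  have hgg : GoodP g := good_of_dvd hgP hgm ⟨f, by rw [hg, mul_comm]⟩
  have hdf : (dag (RingHom.id F) f).natDegree = n := by rw [dag_natDegree hgf, hfd]
  have hdg : (dag (RingHom.id F) g).natDegree = n := by rw [dag_natDegree hgg, hgd]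
  have hdvd : f ∣ dag (RingHom.id F) f * dag (RingHom.id F) g := by
    rw [← dag_mul, ← hg, hdag]
    exact ⟨g, hg⟩
  have hgdag : g = dag (RingHom.id F) f := by
    rcases hf.prime.2.2 _ _ hdvd with h5 | h5
    · exfalso
      have h6 : dag (RingHom.id F) f = f := eq_of_monic_of_dvd_of_natDegree_le hfm (dag_monic hgf) h5 (by rw [hdf, hfd])
      obtain ⟨d, -, hd2, -⟩ := selfdual_sp hf hgf h6 (by
        rintro rfl
        exact hf1 (by simp)) (by
        rintro rfl
        exact hf1' (by simp))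
      rw [hfd] at hd2
      rw [Nat.odd_iff] at hnodd
      omega
    · have h6 : dag (RingHom.id F) g = f := eq_of_monic_of_dvd_of_natDegree_le hfm (dag_monic hgg) h5 (by rw [hdg, hfd])
      rw [← h6, dag_dag hρ hgg]
  have hev : ∀ c : F, c * c = 1 → (dag (RingHom.id F) f).eval c = (f.coeff 0)⁻¹ * (c ^ n * f.eval c) := by
    intro c hc2
    have h5 := aeval_reverse c c hc2 hc2 f
    simp only [Polynomial.coe_aeval_eq_eval] at h5
    simp only [dag, Polynomial.map_id, eval_mul, eval_C, RingHom.id_apply]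
    rw [h5, hfd]
  have hP1 : P.eval 1 = f.eval 1 * ((f.coeff 0)⁻¹ * f.eval 1) := by
    rw [hg, eval_mul, hgdag, hev 1 (by ring)]
    simp
  have hP2 : P.eval (-1) = - (f.eval (-1) * ((f.coeff 0)⁻¹ * f.eval (-1))) := by
    rw [hg, eval_mul, hgdag, hev (-1) (by ring), hnodd.neg_one_pow]
    ring
  obtain ⟨r, hr⟩ := hsq
  set y := f.eval 1 * f.eval (-1) * (f.coeff 0)⁻¹ with hy
  have hy0 : y ≠ 0 := mul_ne_zero (mul_ne_zero hf1 hf1') (inv_ne_zero hgf.2)
  have h5 : r * r = - (y * y) := by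
    rw [← hr, hP1, hP2, hy]
    ring
  have h6 : IsSquare (-1 : F) := by
    refine ⟨r / y, ?_⟩
    field_simp
    linear_combination -h5
  have hq4 : Fintype.card F % 4 ≠ 3 := (FiniteField.isSquare_neg_one_iff).1 h6
  have hq41 : Fintype.card F % 4 = 1 := by
    rw [Nat.odd_iff] at hodd
    omega
  have h7 : Fintype.card F ^ n % 4 = 1 := by
    rw [Nat.pow_mod, hq41]
    simp
  omega

theorem det_ne_of_inj {U : Type*} [AddCommGroup U] [Module F U] [FiniteDimensional F U] (f : U →ₗ[F] U) (h : ∀ v, f v = 0 → v = 0) :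
    LinearMap.det f ≠ 0 := by
  intro h0
  have h1 := LinearMap.bot_lt_ker_of_det_eq_zero h0
  rw [LinearMap.ker_eq_bot'.2 h] at h1
  exact lt_irrefl _ h1

/-- the characteristic polynomial of an isometry of an alternating form is self-reciprocal -/
theorem charpoly_self_dual {U : Type*} [AddCommGroup U] [Module F U] [FiniteDimensional F U] (ω : U →ₗ[F] U →ₗ[F] F) (halt : ∀ v, ω v v = 0)
    (hnd : NondegOn ω ⊤) (d : ℕ) (B : Module.Basis (Fin d) F U) (b : U →ₗ[F] U) (hiso : ∀ x y, ω (b x) (b y) = ω x y) (M : Matrix (Fin d) (Fin d) F)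
    (hMd : M = LinearMap.toMatrix B B b) (hu : IsUnit M) : dag (RingHom.id F) M.charpoly = M.charpoly := by
  classical
  let G : Matrix (Fin d) (Fin d) F := LinearMap.toMatrix₂ B B ω
  have hG : Mᵀ * G * M = G := by
    have h1 := LinearMap.toMatrix₂_compl₁₂ B B B B ω b b
    have h2 : ω.compl₁₂ b b = ω := by
      apply LinearMap.ext
      intro x
      apply LinearMap.ext
      intro y
      simp [hiso]
    rw [h2] at h1
    rw [hMd]
    exact h1.symm
  have hGd : G.det ≠ 0 := by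
    intro h0
    obtain ⟨v, hv0, hv⟩ : ∃ v : Fin d → F, v ≠ 0 ∧ G *ᵥ v = 0 := Matrix.exists_mulVec_eq_zero_iff.2 h0
    let y : U := B.equivFun.symm v
    have hy0 : y ≠ 0 := by
      intro h
      exact hv0 ((B.equivFun.symm.map_eq_zero_iff).1 h)
    have h1 : ω.flip y = 0 := by
      apply B.ext
      intro i
      calc ω.flip y (B i) = ω (B i) y := rfl
        _ = ∑ j, v j * ω (B i) (B j) := by
          simp only [y, Module.Basis.equivFun_symm_apply, map_sum, map_smul, smul_eq_mul]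
        _ = (G *ᵥ v) i := by
          simp only [Matrix.mulVec, dotProduct, G, LinearMap.toMatrix₂_apply]
          exact Finset.sum_congr rfl (fun j _ => mul_comm _ _)
        _ = 0 := by rw [hv]; rfl
    obtain ⟨w, -, hw⟩ := hnd y Submodule.mem_top hy0
    apply hw
    rw [form_swap halt y w]
    have h3 := LinearMap.congr_fun h1 w
    simp only [LinearMap.flip_apply, LinearMap.zero_apply] at h3
    rw [h3, neg_zero]
  let W : (Matrix (Fin d) (Fin d) F)ˣ := Matrix.nonsingInvUnit G (isUnit_iff_ne_zero.2 hGd)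
  have hW : (W : Matrix (Fin d) (Fin d) F) = G := rfl
  have hρ : ∀ x : F, (RingHom.id F) ((RingHom.id F) x) = x := fun x => rfl
  have h4 := charpoly_dag (RingHom.id F) hρ M hu
  have h5 : Cfsg.Agent.H11.GUC.dg (RingHom.id F) M = Mᵀ := by
    ext i j
    rfl
  rw [h5] at h4
  rw [← h4]
  have h6 : (Mᵀ)⁻¹ = (W : Matrix (Fin d) (Fin d) F) * M * ((W⁻¹ : (Matrix (Fin d) (Fin d) F)ˣ) : Matrix (Fin d) (Fin d) F) := by
    apply Matrix.inv_eq_right_inv
    rw [hW, ← mul_assoc, ← mul_assoc, hG, ← hW]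
    exact W.mul_inv
  rw [h6]
  exact Matrix.charpoly_units_conj W M

include hp hc in
theorem arith_sq {U : Type*} [AddCommGroup U] [Module F U] [FiniteDimensional F U] (hodd : Odd (Fintype.card F)) (n : ℕ) (hn : 3 ≤ n)
    (ω : U →ₗ[F] U →ₗ[F] F) (halt : ∀ v, ω v v = 0) (hnd : NondegOn ω ⊤) (hdim : finrank F U = 2 * n) (s : ℕ) (hs : s.Prime) (hs2 : s ≠ 2) (hsp : s ≠ p)
    (hη : (Odd (orderOf ((Fintype.card F : ℕ) : ZMod s)) ∧ n = orderOf ((Fintype.card F : ℕ) : ZMod s)) ∨
      (Even (orderOf ((Fintype.card F : ℕ) : ZMod s)) ∧ 2 * n = orderOf ((Fintype.card F : ℕ) : ZMod s)))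
    (b : U →ₗ[F] U) (hiso : ∀ x y, ω (b x) (b y) = ω x y) (hb : b ^ s = 1) (hfix : ∀ v, b v = v → v = 0)
    (hsq : IsSquare (LinearMap.det (b - b ^ (s - 1)))) : 2 * s ∈ Set.range (orderOf : Cfsg.PSp n F → ℕ) := by
  classical
  haveI : Fact s.Prime := ⟨hs⟩
  have h2F := two_ne hodd
  have hsF := cast_ne (F := F) p s hs hsp
  have hq0 := Cfsg.Agent.H29.natCast_q_ne_zero (F := F) (p := p) (r := s) (q := Fintype.card F) rfl hsp
  have hq1 : 1 ≤ Fintype.card F := Fintype.card_pos
  have hods := hs.odd_of_ne_two hs2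
  let B := Module.finBasisOfFinrankEq F U hdim
  let φ := LinearMap.toMatrixAlgEquiv B
  set M := φ b with hM
  have hMs : M ^ s = 1 := by rw [hM, ← map_pow, hb, map_one]
  have hdet : ∀ f : U →ₗ[F] U, (φ f).det = LinearMap.det f := fun f => LinearMap.det_toMatrix B f
  have hdetb : LinearMap.det b = 1 := det_of_iso ω halt hnd n hdim b hiso
  have hMdet : M.det = 1 := by rw [hM, hdet, hdetb]
  have hMu : IsUnit M := (Matrix.isUnit_iff_isUnit_det M).2 (by rw [hMdet]; exact isUnit_one)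
  set P := M.charpoly with hP
  have hev : ∀ c : F, P.eval c = LinearMap.det (b - c • 1) := by
    intro c
    rw [hP, Matrix.eval_charpoly, ← hdet]
    have h3 : Matrix.scalar (Fin (2 * n)) c - M = -(φ (b - c • 1)) := by
      rw [map_sub, map_smul, map_one, neg_sub, hM]
      congr 1
      ext i j
      simp [Matrix.scalar_apply, Matrix.diagonal_apply, Matrix.one_apply]
    rw [h3, Matrix.det_neg]
    simp
  have hd1 : P.eval 1 ≠ 0 := by
    rw [hev]
    apply det_ne_of_inj
    intro v hv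
    apply hfix
    simpa [sub_eq_zero] using hv
  have hd2 : P.eval (-1) ≠ 0 := by
    rw [hev]
    apply det_ne_of_inj
    intro v hv
    have h3 : b v = -v := by
      simpa [sub_eq_zero, add_eq_zero_iff_eq_neg] using hv
    have h4 : ∀ i : ℕ, (b ^ i) v = (-1 : F) ^ i • v := by
      intro i
      induction i with
      | zero => simp
      | succ i ih =>
        rw [pow_succ', Module.End.mul_apply, ih, map_smul, h3, pow_succ']
        simp
    have h5 := h4 s
    rw [hb, hods.neg_one_pow] at h5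
    have h6 : v = -v := by simpa using h5
    have h7 : (2 : F) • v = 0 := by
      rw [two_smul]
      nth_rewrite 1 [h6]
      simp
    exact (smul_eq_zero.1 h7).resolve_left h2F
  have hsq' : IsSquare (P.eval 1 * P.eval (-1)) := by
    have h3 : b - b ^ (s - 1) = b ^ (s - 1) * ((b - (1 : F) • 1) * (b - (-1 : F) • 1)) := by
      apply LinearMap.ext
      intro v
      have h4 : (b ^ (s - 1)) (b (b v)) = b v := by
        rw [← Module.End.mul_apply, ← pow_succ, Nat.sub_add_cancel hs.pos, hb]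
        rfl
      simp [Module.End.mul_apply, h4]
      abel
    rw [h3, map_mul, map_mul, map_pow, hdetb, one_pow, one_mul, ← hev, ← hev] at hsq
    exact hsq
  have hPm : P.Monic := Matrix.charpoly_monic M
  have hPd : P.natDegree = 2 * n := by
    rw [hP, Matrix.charpoly_natDegree_eq_dim]
    simp
  have hP0 : P.coeff 0 ≠ 0 := by
    intro h0
    have h3 := Matrix.det_eq_sign_charpoly_coeff M
    rw [hMdet, ← hP, h0, mul_zero] at h3
    exact one_ne_zero h3
  have hss : Module.End.IsSemisimple (Matrix.toLin' M) := by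
    have e : ∀ A : Matrix (Fin (2 * n)) (Fin (2 * n)) F, Matrix.toLin' A = (Matrix.toLinAlgEquiv' (R := F) (n := Fin (2 * n))) A :=
      fun A => LinearMap.ext fun v => by rw [Matrix.toLinAlgEquiv'_apply, Matrix.toLin'_apply]
    have hsqf : Squarefree (X ^ s - 1 : F[X]) := by
      have := (separable_X_pow_sub_C (1 : F) hsF one_ne_zero).squarefree
      simpa using this
    apply Module.End.isSemisimple_of_squarefree_aeval_eq_zero hsqf
    rw [e]
    have h3 := Polynomial.aeval_algHom_apply (Matrix.toLinAlgEquiv' (R := F) (n := Fin (2 * n))).toAlgHom M (X ^ s - 1 : F[X])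
    have h4 : aeval M (X ^ s - 1 : F[X]) = 0 := by
      simp [hMs]
    rw [h4, map_zero] at h3
    exact h3
  have hmin : minpoly F M ∣ X ^ s - 1 := minpoly.dvd F M (by simp [hMs])
  have hPs : ∀ f : F[X], Irreducible f → f ∣ P → f ∣ X ^ s - 1 := fun f hf hfP => (irr_dvd_minpoly M hss hf hfP).trans hmin
  have hdag : dag (RingHom.id F) P = P := charpoly_self_dual ω halt hnd _ B b hiso M rfl hMu
  have hn1 : 1 ≤ n := by omega
  have hco4 : Nat.Coprime 4 s := by
    have : Nat.Coprime (2 ^ 2) s := Nat.Coprime.pow_left 2 (Nat.coprime_two_left.2 hods)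
    simpa using this
  rcases hη with ⟨he0, he⟩ | ⟨he0, he⟩
  · -- the odd case
    have hnodd : Odd n := by
      rw [he]
      exact he0
    have h4 := odd_part p hodd n hnodd s hs hs2 hsp hPm hPd hP0 hdag hPs hd1 hd2 hsq' he
    have hsdvd : s ∣ Fintype.card F ^ n - 1 := by
      apply dvd_of_order s _ n hq1
      rw [he]
      exact pow_orderOf_eq_one _
    obtain ⟨g, hg1, hg2⟩ := blk_sub2 (F := F) n hn1 (4 * s) (hco4.mul_dvd_of_dvd_of_dvd h4 hsdvd)
    exact ⟨_, psp_order_half hn1 g (4 * s) (2 * s) hg1 (by ring) (hg2 _ (by ring))⟩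
  · -- the even case
    obtain ⟨f, hf, hfm, hfP⟩ := exists_monic_irr P (by omega)
    have hf1 : f.eval 1 ≠ 0 := by
      intro h
      obtain ⟨g, hg⟩ := hfP
      exact hd1 (by rw [hg, eval_mul, h, zero_mul])
    have h3 := fac_deg p s hs hsp hf (hPs f hf hfP) hf1
    rw [← he] at h3
    have hfdeg : 0 < f.natDegree := hf.natDegree_pos
    have hle : f.natDegree ≤ P.natDegree := natDegree_le_of_dvd hfP hPm.ne_zero
    have hfd : f.natDegree = 2 * n := by
      have := Nat.le_of_dvd hfdeg h3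
      omega
    have hPf : P = f := eq_of_monic_of_dvd_of_natDegree_le hfm hPm hfP (by rw [hPd, hfd])
    have hPirr : Irreducible P := hPf ▸ hf
    have hsdvd : s ∣ Fintype.card F ^ n + 1 := by
      apply dvd_of_half s _ n
      exact q_half s _ n hq0 he (by omega)
    have h4 := norm_part p hodd n hn1 s hs hs2 hPirr hPm hPd (hPs P hPirr dvd_rfl) hd1 hsq' hsdvd
    obtain ⟨g, hg1, hg2⟩ := blk_add2 (F := F) n hn1 (4 * s) (hco4.mul_dvd_of_dvd_of_dvd h4 hsdvd)
    exact ⟨_, psp_order_half hn1 g (4 * s) (2 * s) hg1 (by ring) (hg2 _ (by ring))⟩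

end Cfsg.Agent.H11.Bn
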