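import Cfsg.Agent.Lib.H11.Bn8

/-! From `PΩ` to `PSp` when `η = n`. -/

set_option autoImplicit false
set_option linter.unusedSectionVars false
set_option linter.unusedVariables false

namespace Cfsg.Agent.H11.Bn

open Module Matrix QuadraticMap Cfsg Cfsg.Agent.H29 Cfsg.Agent.H11.PSpG

universe u v

variable {F : Type v} [Field F] [Fintype F]

theorem psp_two_s (hodd : Odd (Fintype.card F)) (n : ℕ) (hn : 1 ≤ n) (s : ℕ) (hs : s.Prime) (hs2 : s ≠ 2) (y : symplecticGroup (Fin n) F)
    (hy : ∀ m : ℕ, y ^ m = 1 ↔ 2 * s ∣ m) (h1 : ((y ^ s : symplecticGroup (Fin n) F) : Matrix (Fin n ⊕ Fin n) (Fin n ⊕ Fin n) F) ≠ -1)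
    (h3 : ((y ^ 2 : symplecticGroup (Fin n) F) : Matrix (Fin n ⊕ Fin n) (Fin n ⊕ Fin n) F) ≠ -1) :
    2 * s ∈ Set.range (orderOf : Cfsg.PSp n F → ℕ) := by
  have hs3 : 3 ≤ s := by
    have := hs.two_le
    omega
  have key : ∀ M : ℕ, ¬ (2 * s ∣ M) → ((y ^ M : symplecticGroup (Fin n) F) : Matrix (Fin n ⊕ Fin n) (Fin n ⊕ Fin n) F) ≠ -1 →
      (QuotientGroup.mk y : Cfsg.PSp n F) ^ M ≠ 1 := by
    intro M hM hne h
    rw [← QuotientGroup.mk_pow, QuotientGroup.eq_one_iff] at h
    obtain ⟨c, hc1, hc2⟩ := center_sq hn _ h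
    have h4 : (c - 1) * (c + 1) = 0 := by linear_combination hc1
    rcases mul_eq_zero.1 h4 with h5 | h5
    · have h6 : c = 1 := sub_eq_zero.1 h5
      apply hM
      rw [← hy]
      apply Subtype.ext
      rw [hc2, h6, one_smul]
      rfl
    · have h6 : c = -1 := eq_neg_of_add_eq_zero_left h5
      apply hne
      rw [hc2, h6]
      simp
  have h5 : (QuotientGroup.mk y : Cfsg.PSp n F) ^ (2 * s) = 1 := by
    rw [← QuotientGroup.mk_pow, (hy _).2 dvd_rfl]
    rfl
  have h6 := key s (fun h => by
    have := Nat.le_of_dvd hs.pos h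
    omega) h1
  have h7 := key 2 (fun h => by
    have := Nat.le_of_dvd (by norm_num) h
    omega) h3
  exact ⟨_, order_of_iff _ _ (order_rs _ 2 s Nat.prime_two hs (Ne.symm hs2) h5 h6 h7)⟩

variable (p : ℕ) [hp : Fact p.Prime] [hc : CharP F p]

theorem b2c_f (hodd : Odd (Fintype.card F)) (n : ℕ) (hn : 3 ≤ n) (s : ℕ) (hs : s.Prime) (hs2 : s ≠ 2) (hsp : s ≠ p)
    (hη : (Odd (orderOf ((Fintype.card F : ℕ) : ZMod s)) ∧ n = orderOf ((Fintype.card F : ℕ) : ZMod s)) ∨
      (Even (orderOf ((Fintype.card F : ℕ) : ZMod s)) ∧ 2 * n = orderOf ((Fintype.card F : ℕ) : ZMod s)))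
    (h : 2 * s ∈ Set.range (orderOf : POmega F ⇑(oddForm n F) → ℕ)) :
    2 * s ∈ Set.range (orderOf : Cfsg.PSp n F → ℕ) := by
  classical
  have h2 := two_ne hodd
  haveI : Fact s.Prime := ⟨hs⟩
  have hsF := cast_ne (F := F) p s hs hsp
  have hq0 := Cfsg.Agent.H29.natCast_q_ne_zero (F := F) (p := p) (r := s) (q := Fintype.card F) rfl hsp
  have hods := hs.odd_of_ne_two hs2
  have hs3 : 3 ≤ s := by
    have := hs.two_le
    omega
  rw [pom_iff hodd n hn] at h
  obtain ⟨g, hg⟩ := h
  have hgcoe := hg
  rw [← Subgroup.orderOf_coe] at hgcoe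
  set g₀ := (g : ↥(isometryGroup F ⇑(oddForm n F))) with hg₀'
  have hgm := iff_of_order g₀ _ hgcoe
  set t := lin (g₀ ^ 2) with ht
  set a := lin (g₀ ^ s) with ha
  have hβ : ∀ (c : ↥(isometryGroup F ⇑(oddForm n F))) x y, polarBilin (oddForm n F) (lin c x) (lin c y) = polarBilin (oddForm n F) x y :=
    fun c x y => lin_polar c x y
  have hta : t * a = a * t := by
    rw [ht, ha, ← lin_mul, ← lin_mul, ← pow_add, ← pow_add, add_comm]
  have hts : t ^ s = 1 := by
    rw [ht, lin_pow_eq_one, ← pow_mul, (hgm _).2 dvd_rfl]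
  have ha2 : a ^ 2 = 1 := by
    rw [ha, lin_pow_eq_one, ← pow_mul, mul_comm, (hgm _).2 dvd_rfl]
  have hgs1 : g₀ ^ s ≠ 1 := by
    intro h3
    have h4 := (hgm s).1 h3
    have := Nat.le_of_dvd hs.pos h4
    omega
  have ht1 : t ≠ 1 := by
    intro h
    have h3 : g₀ ^ 2 = 1 := by
      have := (lin_pow_eq_one (g₀ ^ 2) 1).1 (by rw [pow_one]; exact h)
      simpa using this
    have h4 := (hgm 2).1 h3
    have h5 := Nat.le_of_dvd (by norm_num) h4
    omega
  have ha1 : a ≠ 1 := by
    intro h
    apply hgs1
    have := (lin_pow_eq_one (g₀ ^ s) 1).1 (by rw [pow_one]; exact h)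
    simpa using this
  have htm : ∀ m : ℕ, t ^ m = 1 ↔ s ∣ m := iff_of_order t s (orderOf_eq_prime hts ht1)
  obtain ⟨k, hk⟩ := mv_even_sym _ t (odd_left h2 n) (odd_sym n) (hβ _) s hods hsF hts
  have hk' : finrank F (mv t) = 2 * k := by omega
  have hkn : 2 * k ≤ 2 * n + 1 := by
    have := Submodule.finrank_le (mv t)
    rw [card_V0] at this
    omega
  have hrt := rW_self_iff t s hsF hts s htm
  have hrt1 : rW t t rfl ≠ 1 := by
    intro h
    have := (hrt 1).1 (by rw [pow_one]; exact h)
    have := Nat.le_of_dvd one_pos this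
    omega
  have hB := swW_alt (polarBilin (oddForm n F)) t (odd_sym n)
  have hnd := swW_nd (polarBilin (oddForm n F)) t (odd_left h2 n) (hβ _) s hods hsF hts
  have hkk := eta_le (swW (polarBilin (oddForm n F)) t) hB hnd k hk' (rW t t rfl) (swW_iso _ t (hβ _) t rfl (hβ _)) s hsF hq0
    ((hrt s).2 dvd_rfl) hrt1 n hη
  obtain rfl : k = n := by omega
  set aW := rW t a hta with haW
  set tW := rW t t rfl with htW
  have haW2 : aW ^ 2 = 1 := (rW_pow_eq_one t a hta 2).2 (fun v _ => by rw [ha2]; rfl)
  have hatW : aW * tW = tW * aW := rW_comm t a hta t rfl hta.symm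
  have hWne : ∃ v : ↥(mv t), v ≠ 0 := by
    by_contra hcon
    push Not at hcon
    apply hrt1
    apply LinearMap.ext
    intro v
    rw [hcon v]
    simp
  have hcard : 2 ≤ Fintype.card (Unit ⊕ (Fin k ⊕ Fin k)) := by
    simp
    omega
  have hΩ : g₀ ^ s ∈ Omega F ⇑(oddForm k F) := Subgroup.pow_mem _ g.2 s
  -- the fixed line
  have hC1 : finrank F (LinearMap.ker (t - 1)) = 1 := by
    have h4 : finrank F ↥(mv t) + finrank F ↥(LinearMap.ker (t - 1)) = finrank F (V0 k F) :=
      LinearMap.finrank_range_add_finrank_ker (t - 1)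
    rw [card_V0] at h4
    omega
  obtain ⟨z₀, hz0, hz⟩ := finrank_eq_one_iff'.1 hC1
  set z : V0 k F := (z₀ : V0 k F) with hzdef
  have hzC : z ∈ LinearMap.ker (t - 1) := z₀.2
  have hz0' : z ≠ 0 := fun h => hz0 (Subtype.ext h)
  have hCz : ∀ x ∈ LinearMap.ker (t - 1), ∃ c : F, x = c • z := by
    intro x hx
    obtain ⟨c, hc⟩ := hz ⟨x, hx⟩
    exact ⟨c, (congrArg Subtype.val hc).symm⟩
  obtain ⟨lam, hlam⟩ := hCz (a z) (fix_inv t a hta z hzC)
  have hlam2 : lam = 1 ∨ lam = -1 := by
    have h3 : a (a z) = z := by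
      rw [← Module.End.mul_apply, ← pow_two, ha2]
      rfl
    rw [hlam, map_smul, hlam, smul_smul] at h3
    have h4 : (lam * lam - 1) • z = 0 := by
      rw [sub_smul, one_smul, h3, sub_self]
    have h5 := (smul_eq_zero.1 h4).resolve_right hz0'
    have h6 : (lam - 1) * (lam + 1) = 0 := by linear_combination h5
    rcases mul_eq_zero.1 h6 with h7 | h7
    · left; exact sub_eq_zero.1 h7
    · right; exact eq_neg_of_add_eq_zero_left h7
  have hsup := mv_sup_ker t s hsF hts
  have hperp : ∀ c ∈ LinearMap.ker (t - 1), ∀ y ∈ mv t, polar (oddForm k F) c y = 0 := by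
    rintro c hc _ ⟨v, rfl⟩
    have h3 : t c = c := (mem_fix t c).1 hc
    have h4 : polarBilin (oddForm k F) c (t v) = polarBilin (oddForm k F) c v := by
      have h5 := hβ (g₀ ^ 2) c v
      rwa [show lin (g₀ ^ 2) c = c from h3] at h5
    change polarBilin (oddForm k F) c ((t - 1) v) = 0
    rw [LinearMap.sub_apply, map_sub, h4]
    simp
  have hQz : oddForm k F z ≠ 0 := by
    intro h0
    apply hz0'
    refine left_of_nd _ (odd_nondeg h2 k) z (fun y => ?_)
    have hy : y ∈ mv t ⊔ LinearMap.ker (t - 1) := by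
      rw [hsup]; exact Submodule.mem_top
    obtain ⟨w, hw, c, hc, rfl⟩ := Submodule.mem_sup.1 hy
    obtain ⟨e, rfl⟩ := hCz c hc
    have h3 : polarBilin (oddForm k F) z (w + e • z) = polar (oddForm k F) z w + e * polar (oddForm k F) z z := by
      simp
    change polarBilin (oddForm k F) z (w + e • z) = 0
    rw [h3, hperp z hzC w hw, polar_self, h0]
    simp
  have hsupv : ∀ (f : V0 k F →ₗ[F] V0 k F) (e : F), (∀ v ∈ mv t, f v = e • v) → (∀ v ∈ LinearMap.ker (t - 1), f v = e • v) → f = e • 1 := by
    intro f e h3 h4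
    apply LinearMap.ext
    intro v
    have hy : v ∈ mv t ⊔ LinearMap.ker (t - 1) := by
      rw [hsup]; exact Submodule.mem_top
    obtain ⟨w, hw, c, hc, rfl⟩ := Submodule.mem_sup.1 hy
    rw [map_add, h3 w hw, h4 c hc]
    simp
  by_cases hA1 : aW = 1
  · exfalso
    have hfW : ∀ v ∈ mv t, a v = v := fun v hv => by
      have := LinearMap.congr_fun hA1 ⟨v, hv⟩
      exact congrArg Subtype.val this
    rcases hlam2 with h1 | h1
    · apply ha1
      have h3 := hsupv a 1 (fun v hv => by rw [one_smul]; exact hfW v hv) (fun v hv => by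
        obtain ⟨e, rfl⟩ := hCz v hv
        rw [map_smul, hlam, h1]
        simp)
      rw [h3, one_smul]
    · have h3 := (omega_list h2 hcard (oddForm k F) (odd_nondeg h2 k) (g₀ ^ s) [z] (by simpa using hQz) (by simp) (mv t) ?_ ?_ ?_ ?_).1 hΩ
      · exact absurd h3.1 (by simp)
      · rw [eq_top_iff, ← hsup, sup_comm]
        refine sup_le_sup ?_ le_rfl
        intro x hx
        obtain ⟨e, rfl⟩ := hCz x hx
        exact Submodule.smul_mem _ _ (Submodule.subset_span (by simp))
      · intro x hx
        rw [List.mem_singleton] at hx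
        subst hx
        change a z = -z
        rw [hlam, h1]
        simp
      · intro y hy
        exact hfW y hy
      · intro x hx y hy
        rw [List.mem_singleton] at hx
        subst hx
        exact hperp _ hzC y hy
  by_cases hA2 : aW = -1
  · have hnW : ∀ v ∈ mv t, a v = -v := fun v hv => by
      have := LinearMap.congr_fun hA2 ⟨v, hv⟩
      exact congrArg Subtype.val this
    rcases hlam2 with h1 | h1
    · -- the main case
      let QW : QuadraticForm F ↥(mv t) := (oddForm k F).comp (mv t).subtype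
      have hpW : ∀ x y : ↥(mv t), polar QW x y = polar (oddForm k F) x y := by
        intro x y
        simp [QW, polar]
      have hndW : (polarBilin QW).Nondegenerate := by
        apply nd_of_left
        intro x hx
        apply Subtype.ext
        refine mv_rad (polarBilin (oddForm k F)) t (odd_left h2 k) (hβ _) s hs.pos hsF hts x x.2 (fun w hw => ?_)
        have := hx ⟨w, hw⟩
        rw [hpW] at this
        exact this
      obtain ⟨u, hu, ho⟩ := orth_basis h2 QW hndW (2 * k) hk'.symm (by omega)
      let L : List (V0 k F) := List.ofFn (fun i => (u i : V0 k F))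
      have hli := orth_li h2 QW u hu ho
      have hspn := hli.span_eq_top_of_card_eq_finrank' (by simpa using hk'.symm)
      have hWL : mv t ≤ Submodule.span F {x | x ∈ L} := by
        intro w hw
        have h3 : (⟨w, hw⟩ : ↥(mv t)) ∈ Submodule.span F (Set.range u) := by
          rw [hspn]; exact Submodule.mem_top
        have h4 : ∀ x ∈ Submodule.span F (Set.range u), (x : V0 k F) ∈ Submodule.span F {x | x ∈ L} := by
          intro x hx
          induction hx using Submodule.span_induction with
          | mem x hx =>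
            obtain ⟨i, rfl⟩ := hx
            apply Submodule.subset_span
            exact (List.mem_ofFn' _ _).2 ⟨i, rfl⟩
          | zero => exact Submodule.zero_mem _
          | add x y _ _ hx hy => exact Submodule.add_mem _ hx hy
          | smul c x _ hx => exact Submodule.smul_mem _ _ hx
        exact h4 _ h3
      have hsq := (omega_list h2 hcard (oddForm k F) (odd_nondeg h2 k) (g₀ ^ s) L ?_ ?_ (LinearMap.ker (t - 1)) ?_ ?_ ?_ ?_).1 hΩ
      · have hprod : (L.map (fun v => oddForm k F v)).prod = ∏ i, QW (u i) := by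
          simp only [L, List.map_ofFn, List.prod_ofFn, Function.comp]
          rfl
        have hsq2 := hsq.2
        rw [hprod] at hsq2
        let S : V0 k F →ₗ[F] V0 k F := t - t ^ (s - 1)
        have hSc : t * S = S * t := by
          simp only [S, mul_sub, sub_mul, ← pow_succ, ← pow_succ']
        have hT : ∀ x, polar QW x (rW t S hSc x) = 0 := by
          intro x
          rw [hpW, rW_coe]
          change polarBilin (oddForm k F) x (S x) = 0
          have e1 : polarBilin (oddForm k F) x ((t ^ (s - 1)) x) = polarBilin (oddForm k F) (t x) x := by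
            have h5 := hβ (g₀ ^ 2) x ((t ^ (s - 1)) x)
            have h6 : lin (g₀ ^ 2) ((t ^ (s - 1)) (x : V0 k F)) = x := by
              change t ((t ^ (s - 1)) (x : V0 k F)) = x
              rw [← Module.End.mul_apply, ← pow_succ', Nat.sub_add_cancel hs.pos, hts]
              rfl
            rw [h6] at h5
            exact h5.symm
          simp only [S, LinearMap.sub_apply, map_sub, e1]
          rw [odd_sym k (x : V0 k F) (t x), sub_self]
        have hd := disc_sq h2 QW (2 * k) (even_two_mul k) hk'.symm u hu ho _ hT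
        have hprodne : ∏ i, QW (u i) ≠ 0 := Finset.prod_ne_zero_iff.2 (fun i _ => hu i)
        have hS : IsSquare (LinearMap.det (rW t S hSc)) := by
          obtain ⟨r, hr⟩ := hsq2
          obtain ⟨r', hr'⟩ := hd
          have hr0 : r ≠ 0 := by
            rintro rfl
            apply hprodne
            rw [hr, mul_zero]
          refine ⟨r' / r, ?_⟩
          rw [hr] at hr'
          field_simp
          linear_combination hr'
        have hEq : rW t S hSc = tW - tW ^ (s - 1) := by
          apply LinearMap.ext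
          intro x
          apply Subtype.ext
          rw [LinearMap.sub_apply, Submodule.coe_sub, pow_on tW t (fun _ => rfl) (s - 1) x]
          rfl
        rw [hEq] at hS
        refine arith_sq p hodd k hn (swW (polarBilin (oddForm k F)) t) hB hnd hk' s hs hs2 hsp hη tW (swW_iso _ t (hβ _) t rfl (hβ _))
          ((hrt s).2 dvd_rfl) ?_ hS
        intro v hv
        apply Subtype.ext
        exact fix_inf_range t s hsF hts v ((mem_fix t v).2 (congrArg Subtype.val hv)) v.2
      · intro v hv
        obtain ⟨i, rfl⟩ := (List.mem_ofFn' _ _).1 hv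
        exact hu i
      · rw [List.pairwise_ofFn]
        intro i j hij
        have := ho i j hij.ne
        rw [hpW] at this
        exact this
      · rw [eq_top_iff, ← hsup]
        exact sup_le_sup hWL le_rfl
      · intro x hx
        obtain ⟨i, rfl⟩ := (List.mem_ofFn' _ _).1 hx
        exact hnW _ (u i).2
      · intro y hy
        obtain ⟨e, rfl⟩ := hCz y hy
        change a (e • z) = e • z
        rw [map_smul, hlam, h1, one_smul]
      · intro x hx y hy
        obtain ⟨i, rfl⟩ := (List.mem_ofFn' _ _).1 hx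
        rw [polar_comm]
        exact hperp y hy _ (u i).2
    · -- minus the identity: central
      exfalso
      have h3 := hsupv a (-1) (fun v hv => by rw [hnW v hv]; simp) (fun v hv => by
        obtain ⟨e, rfl⟩ := hCz v hv
        rw [map_smul, hlam, h1]
        simp [smul_smul])
      have h4 : g ^ s ∈ Subgroup.center (Omega F ⇑(oddForm k F)) := by
        rw [Subgroup.mem_center_iff]
        intro h'
        apply Subtype.ext
        apply lin_inj
        simp only [Subgroup.coe_mul, Subgroup.coe_pow, lin_mul, ← hg₀', ← ha, h3]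
        apply LinearMap.ext
        intro v
        simp [Module.End.mul_apply]
      rw [center_bot hodd k hn, Subgroup.mem_bot] at h4
      apply hgs1
      have := congrArg Subtype.val h4
      simpa using this
  · -- a genuine element of order `2s`
    have hao : orderOf aW = 2 := orderOf_eq_prime haW2 hA1
    have hto : orderOf tW = s := orderOf_eq_prime ((hrt s).2 dvd_rfl) hrt1
    have hτo : orderOf (aW * tW) = 2 * s := by
      rw [Commute.orderOf_mul_eq_mul_orderOf_of_coprime hatW, hao, hto]
      rw [hao, hto]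
      exact Nat.coprime_two_left.2 hods
    obtain ⟨y, hy1, hy2⟩ := blk_of_form2 (swW (polarBilin (oddForm k F)) t) hB hnd k hk' (aW * tW)
      (fun x y => by
        simp only [Module.End.mul_apply]
        rw [swW_iso _ t (hβ _) a hta (hβ _), swW_iso _ t (hβ _) t rfl (hβ _)]) (2 * s) (iff_of_order _ _ hτo)
    have hτs : (aW * tW) ^ s = aW := by
      rw [(show Commute aW tW from hatW).mul_pow, (hrt s).2 dvd_rfl, mul_one]
      obtain ⟨e, he⟩ := hods
      rw [he, pow_succ, pow_mul, haW2, one_pow, one_mul]
    have hτ2 : (aW * tW) ^ 2 = tW ^ 2 := by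
      rw [(show Commute aW tW from hatW).mul_pow, haW2, one_mul]
    refine psp_two_s hodd k (by omega) s hs hs2 y hy1 ?_ ?_
    · rw [Ne, hy2, hτs]
      exact hA2
    · rw [Ne, hy2, hτ2]
      intro h3
      obtain ⟨v, hv⟩ := hWne
      have h4 : ∀ (e : ℕ) (x : ↥(mv t)), ((tW ^ 2) ^ e) x = (-1 : F) ^ e • x := by
        intro e
        induction e with
        | zero => intro x; simp
        | succ e ih =>
          intro x
          have h7 : (tW ^ 2) x = -x := by
            rw [h3]
            rfl
          rw [pow_succ, Module.End.mul_apply, h7, map_neg, ih, pow_succ, mul_neg_one]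
          exact Subtype.ext (by simp)
      have h5 := h4 s v
      rw [← pow_mul, (hrt (2 * s)).2 (dvd_mul_left _ _), hods.neg_one_pow] at h5
      have h8 : v = -v := Subtype.ext (by
        have h10 := congrArg Subtype.val h5
        simpa using h10)
      have h6 : (2 : F) • v = 0 := by
        rw [two_smul]
        nth_rewrite 1 [h8]
        simp
      exact hv ((smul_eq_zero.1 h6).resolve_left h2)

end Cfsg.Agent.H11.Bn
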