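import Mathlib

set_option autoImplicit false
open Module

namespace Cfsg.Agent.H11.Gow

variable {K V : Type*} [Field K] [AddCommGroup V] [Module K V]

/-- A vector space is not a union of few proper subspaces. -/
lemma avoid (T : Finset K) : ∀ (l : List (Submodule K V)), l.length ≤ T.card →
    (∀ S ∈ l, S ≠ ⊤) → ∃ v, ∀ S ∈ l, v ∉ S := by
  classical
  intro l
  induction l with
  | nil => intro _ _; exact ⟨0, by simp⟩
  | cons S l ih =>
    intro hlen hne
    simp only [List.length_cons] at hlen
    obtain ⟨v, hv⟩ := ih (by omega) (fun S' h => hne S' (List.mem_cons_of_mem _ h))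
    by_cases hvS : v ∈ S
    · obtain ⟨w, hw⟩ : ∃ w, w ∉ S := by
        by_contra h
        push_neg at h
        exact hne S List.mem_cons_self (by ext a; simp [h a])
      by_contra hcon
      push_neg at hcon
      have h1 : ∀ t ∈ T, ∃ S' ∈ l, w + t • v ∈ S' := by
        intro t _
        obtain ⟨S', hS', hm⟩ := hcon (w + t • v)
        rcases List.mem_cons.mp hS' with rfl | h
        · exact absurd ((Submodule.add_mem_iff_left _ (S'.smul_mem t hvS)).1 hm) hw
        · exact ⟨S', h, hm⟩
      choose! φ hφ1 hφ2 using h1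
      have hlt : l.toFinset.card < T.card :=
        lt_of_le_of_lt (List.toFinset_card_le l) (by omega)
      obtain ⟨t, ht, t', ht', hne', heq⟩ :=
        Finset.exists_ne_map_eq_of_card_lt_of_maps_to hlt (f := φ)
          (fun t ht => List.mem_toFinset.mpr (hφ1 t ht))
      apply hv (φ t) (hφ1 t ht)
      have h2 := Submodule.sub_mem _ (hφ2 t ht) (by rw [heq]; exact hφ2 t' ht')
      have h3 : (w + t • v) - (w + t' • v) = (t - t') • v := by rw [sub_smul]; abel
      rw [h3] at h2
      exact (Submodule.smul_mem_iff _ (sub_ne_zero.mpr hne')).1 h2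
    · refine ⟨v, fun S' hS' => ?_⟩
      rcases List.mem_cons.mp hS' with rfl | h
      · exact hvS
      · exact hv S' h

/-- Dual form of avoidance. -/
lemma dual_avoid (T : Finset K) (w : V) (L : List V) (hlen : L.length ≤ T.card)
    (hL : ∀ z ∈ L, z ∉ K ∙ w) : ∃ g : Dual K V, g w = 0 ∧ ∀ z ∈ L, g z ≠ 0 := by
  let W : Submodule K (Dual K V) := LinearMap.ker (Dual.eval K V w)
  let S : V → Submodule K W := fun z => LinearMap.ker ((Dual.eval K V z) ∘ₗ W.subtype)
  have hS : ∀ z ∈ L, S z ≠ ⊤ := by
    intro z hz htop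
    obtain ⟨g, hg1, hg2⟩ := Submodule.exists_dual_map_eq_bot_of_notMem (hL z hz) inferInstance
    have hgw : g w = 0 := by
      have : g w ∈ (K ∙ w).map g := ⟨w, Submodule.mem_span_singleton_self w, rfl⟩
      rw [hg2] at this
      simpa using this
    have hmem : (⟨g, by simpa [W, Dual.eval] using hgw⟩ : W) ∈ S z := by rw [htop]; trivial
    exact hg1 (by simpa [S, Dual.eval] using hmem)
  obtain ⟨g, hg⟩ := avoid (V := W) T (L.map S) (by simpa using hlen) (by
    intro S' hS'
    obtain ⟨z, hz, rfl⟩ := List.mem_map.mp hS'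
    exact hS z hz)
  refine ⟨g.1, by have := g.2; simpa [W, Dual.eval] using this, fun z hz h => ?_⟩
  exact hg (S z) (List.mem_map_of_mem hz) (by simpa [S, Dual.eval] using h)

/-- Compression of `A` to the hyperplane `ker f`. -/
noncomputable def cmp (A : Module.End K V) (e : V) (f : Dual K V) (h : f (A e) = 1) :
    Module.End K (LinearMap.ker f) :=
  LinearMap.codRestrict (LinearMap.ker f)
    ((A - (f ∘ₗ A).smulRight (A e)) ∘ₗ (LinearMap.ker f).subtype) (by
      intro v
      simp [h, LinearMap.mem_ker])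

@[simp] lemma cmp_coe (A : Module.End K V) (e : V) (f : Dual K V) (h : f (A e) = 1)
    (v : LinearMap.ker f) : ((cmp A e f h v : LinearMap.ker f) : V) = A v - f (A v) • A e := rfl

/-- Projection to the hyperplane. -/
noncomputable def pj (e : V) (f : Dual K V) (he : f e = 1) : V →ₗ[K] LinearMap.ker f :=
  LinearMap.codRestrict (LinearMap.ker f) (LinearMap.id - f.smulRight e) (by
    intro v
    simp [he, LinearMap.mem_ker])

@[simp] lemma pj_coe (e : V) (f : Dual K V) (he : f e = 1) (v : V) :
    ((pj e f he v : LinearMap.ker f) : V) = v - f v • e := rfl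

lemma pj_of_mem (e : V) (f : Dual K V) (he : f e = 1) (h : LinearMap.ker f) :
    pj e f he h = h := by
  apply Subtype.ext
  have : f (h : V) = 0 := h.2
  simp [this]

lemma pj_self (e : V) (f : Dual K V) (he : f e = 1) : pj e f he e = 0 := by
  apply Subtype.ext
  simp [he]

lemma decomp (e : V) (f : Dual K V) (he : f e = 1) (v : V) :
    v = f v • e + (pj e f he v : V) := by
  simp

lemma det_cmp [FiniteDimensional K V] (A : Module.End K V) (e : V) (f : Dual K V) (he : f e = 1)
    (h : f (A e) = 1) : LinearMap.det (cmp A e f h) = LinearMap.det A := by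
  let S : Module.End K V := f.smulRight e + A - (f ∘ₗ A).smulRight (A e)
  have hSv : ∀ v, S v = f v • e + A v - f (A v) • A e := fun v => rfl
  let ψ : Dual K V := f ∘ₗ (A - 1)
  have hψ : ∀ v, ψ v = f (A v) - f v := fun v => by simp [ψ]
  have hfw : f (A e - e) = 0 := by simp [h, he]
  have hψe : ψ e = 0 := by rw [hψ, h, he, sub_self]
  have hfact : A = LinearMap.transvection f (A e - e) * S * LinearMap.transvection ψ e := by
    ext v
    simp only [Module.End.mul_apply, LinearMap.transvection.apply, hSv, hψ]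
    simp only [map_add, map_sub, map_smul, smul_eq_mul, he, h, mul_one, hfw, LinearMap.add_apply,
      LinearMap.sub_apply]
    have e1 : f v + (f (A v) - f v) = f (A v) := by ring
    simp only [e1]
    module
  have hS : LinearMap.ker f ≤ (LinearMap.ker f).comap S := by
    intro v hv
    have hv' : f v = 0 := hv
    simp only [Submodule.mem_comap, LinearMap.mem_ker, hSv, map_sub, map_add, map_smul, smul_eq_mul,
      hv', he, h]
    ring
  have h1 : S.restrict hS = cmp A e f h := by
    ext v
    have hv' : f (v : V) = 0 := v.2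
    simp [LinearMap.restrict_coe_apply, hSv, hv']
  have h2 : (LinearMap.ker f).mapQ (LinearMap.ker f) S hS = LinearMap.id := by
    apply Submodule.linearMap_qext
    ext v
    simp only [LinearMap.coe_comp, Function.comp_apply, Submodule.mkQ_apply, Submodule.mapQ_apply,
      LinearMap.id_apply]
    rw [Submodule.Quotient.eq]
    simp only [LinearMap.mem_ker, map_sub, hSv, map_add, map_smul, smul_eq_mul, he, h]
    ring
  have h3 := LinearMap.det_eq_det_mul_det (LinearMap.ker f) S hS
  rw [h1, h2, LinearMap.det_id, mul_one] at h3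
  conv_rhs => rw [hfact]
  rw [map_mul, map_mul, LinearMap.transvection.det, LinearMap.transvection.det, hfw, hψe, h3]
  simp

/-- Kernel of dimension at most one. -/
def K1 (T : Module.End K V) : Prop := ∀ a b, T a = 0 → T b = 0 → a ≠ 0 → ∃ c : K, b = c • a

/-- Regular factorization with side conditions. -/
def RF (A : Module.End K V) (x : V) (y : Dual K V) : Prop :=
  ∃ L U : Module.End K V, A = L * U ∧ IsNilpotent (L - 1) ∧ IsNilpotent (U - 1) ∧
    K1 (L - 1) ∧ K1 (U - 1) ∧ x ∉ LinearMap.range (L - 1) ∧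
    ∀ v, (U - 1) v = 0 → v ≠ 0 → y v ≠ 0

/-- One step of the recursion. -/
lemma rf_step (A : Module.End K V) (e : V) (f : Dual K V) (he : f e = 1) (hA : f (A e) = 1)
    (x : V) (y : Dual K V) (hx : f x ≠ 0) (hy : y e ≠ 0)
    (hrf : RF (cmp A e f hA) (⟨A e - e, by simp [LinearMap.mem_ker, hA, he]⟩ : LinearMap.ker f)
      (f ∘ₗ A ∘ₗ (LinearMap.ker f).subtype)) : RF A x y := by
  obtain ⟨L₁, U₁, hLU, hN₁, hN₂, hK₁, hK₂, hx₁, hy₁⟩ := hrf
  let x₁ : LinearMap.ker f := ⟨A e - e, by simp [LinearMap.mem_ker, hA, he]⟩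
  let β : Dual K (LinearMap.ker f) := f ∘ₗ A ∘ₗ (LinearMap.ker f).subtype
  have hx₁def : ((x₁ : LinearMap.ker f) : V) = A e - e := rfl
  have hfH : ∀ h : LinearMap.ker f, f (h : V) = 0 := fun h => h.2
  let p := pj e f he
  let L : Module.End K V := f.smulRight (A e) + (LinearMap.ker f).subtype ∘ₗ L₁ ∘ₗ p
  let U : Module.End K V := (f + β ∘ₗ p).smulRight e + (LinearMap.ker f).subtype ∘ₗ U₁ ∘ₗ p
  have hL : ∀ v, L v = f v • A e + (L₁ (p v) : V) := fun v => rfl
  have hU : ∀ v, U v = (f v + β (p v)) • e + (U₁ (p v) : V) := fun v => rfl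
  have hpv : ∀ v, v = f v • e + (p v : V) := decomp e f he
  have hpH : ∀ h : LinearMap.ker f, p h = h := pj_of_mem e f he
  have hpe : p e = 0 := pj_self e f he
  -- nilpotent parts
  have hpc : ∀ v, ((p v : LinearMap.ker f) : V) = v - f v • e := fun v => rfl
  have hNL : ∀ v, (L - 1) v = f v • (A e - e) + (((L₁ - 1) (p v) : LinearMap.ker f) : V) := by
    intro v
    simp only [LinearMap.sub_apply, Module.End.one_apply, hL, Submodule.coe_sub, hpc]
    module
  have hNU : ∀ v, (U - 1) v = β (p v) • e + (((U₁ - 1) (p v) : LinearMap.ker f) : V) := by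
    intro v
    simp only [LinearMap.sub_apply, Module.End.one_apply, hU, Submodule.coe_sub, hpc]
    module
  have hfw : f (A e - e) = 0 := by simp [hA, he]
  have hfNL : ∀ v, f ((L - 1) v) = 0 := by
    intro v
    rw [hNL, map_add, map_smul, hfw, hfH]
    simp
  have hfNU : ∀ v, f ((U - 1) v) = β (p v) := by
    intro v
    rw [hNU, map_add, map_smul, he, hfH]
    simp
  have hpNU : ∀ v, p ((U - 1) v) = (U₁ - 1) (p v) := by
    intro v
    rw [hNU, map_add, map_smul, hpe, smul_zero, zero_add, hpH]
  refine ⟨L, U, ?_, ?_, ?_, ?_, ?_, ?_, ?_⟩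
  · -- factorization
    ext v
    have h2 : ((cmp A e f hA (p v) : LinearMap.ker f) : V) = A (p v) - f (A (p v)) • A e := rfl
    have h3 : f (U v) = f v + β (p v) := by
      rw [hU, map_add, map_smul, he, hfH]
      simp
    have h4 : p (U v) = U₁ (p v) := by
      rw [hU, map_add, map_smul, hpe, smul_zero, zero_add, hpH]
    have h5 : β (p v) = f (A (p v)) := rfl
    rw [Module.End.mul_apply, hL, h3, h4]
    have h6 : ((L₁ (U₁ (p v)) : LinearMap.ker f) : V) = ((cmp A e f hA (p v) : LinearMap.ker f) : V) := by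
      rw [hLU]; rfl
    rw [h6, h2, ← h5]
    have h7 : A v = f v • A e + A (p v) := by
      conv_lhs => rw [hpv v]
      simp
    rw [h7]
    module
  · -- L - 1 nilpotent
    obtain ⟨m, hm⟩ := hN₁
    have hk : ∀ k : ℕ, ∀ h : LinearMap.ker f, ((L - 1) ^ k) (h : V) = ((((L₁ - 1) ^ k) h : LinearMap.ker f) : V) := by
      intro k
      induction k with
      | zero => intro h; simp
      | succ k ih =>
        intro h
        rw [pow_succ, pow_succ, Module.End.mul_apply, Module.End.mul_apply, hNL, hfH, zero_smul,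
          zero_add, hpH, ih]
    refine ⟨m + 1, ?_⟩
    ext v
    rw [pow_succ, Module.End.mul_apply]
    have := hk m ⟨(L - 1) v, hfNL v⟩
    simp only at this
    rw [this, hm]
    simp
  · -- U - 1 nilpotent
    obtain ⟨m, hm⟩ := hN₂
    have hk : ∀ k : ℕ, ∀ v, p (((U - 1) ^ k) v) = ((U₁ - 1) ^ k) (p v) := by
      intro k
      induction k with
      | zero => intro v; simp
      | succ k ih =>
        intro v
        rw [pow_succ', pow_succ', Module.End.mul_apply, Module.End.mul_apply, hpNU, ih]
    refine ⟨m + 1, ?_⟩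
    ext v
    rw [pow_succ', Module.End.mul_apply]
    have h1 := hk m v
    rw [hm] at h1
    have h2 := hpv (((U - 1) ^ m) v)
    rw [h1] at h2
    simp only [LinearMap.zero_apply, ZeroMemClass.coe_zero, add_zero] at h2
    rw [h2, map_smul, hNU, hpe]
    simp
  · -- kernel of L - 1
    have key : ∀ a, (L - 1) a = 0 → f a = 0 ∧ (L₁ - 1) (p a) = 0 := by
      intro a ha
      rw [hNL] at ha
      have h1 : f a • x₁ + (L₁ - 1) (p a) = 0 := by
        apply Subtype.ext
        simpa [hx₁def] using ha
      have h2 : f a = 0 := by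
        by_contra hne
        apply hx₁
        refine ⟨-(f a)⁻¹ • p a, ?_⟩
        rw [map_smul, neg_smul]
        have h3 : (L₁ - 1) (p a) = -(f a • x₁) := by
          rw [eq_neg_iff_add_eq_zero, add_comm]; exact h1
        rw [h3, smul_neg, neg_neg, smul_smul, inv_mul_cancel₀ hne, one_smul]
      rw [h2, zero_smul, zero_add] at h1
      exact ⟨h2, h1⟩
    intro a b ha hb ha0
    obtain ⟨h1, h2⟩ := key a ha
    obtain ⟨h3, h4⟩ := key b hb
    have h5 : p a ≠ 0 := by
      intro h
      apply ha0
      rw [hpv a, h1, h]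
      simp
    obtain ⟨c, hc⟩ := hK₁ _ _ h2 h4 h5
    refine ⟨c, ?_⟩
    rw [hpv a, hpv b, h1, h3, hc]
    simp
  · -- kernel of U - 1
    have key : ∀ a, (U - 1) a = 0 → a = f a • e := by
      intro a ha
      have h1 : β (p a) = 0 := by rw [← hfNU, ha, map_zero]
      have h2 : (U₁ - 1) (p a) = 0 := by rw [← hpNU, ha, map_zero]
      have h3 : p a = 0 := by
        by_contra hne
        exact hy₁ _ h2 hne h1
      conv_lhs => rw [hpv a, h3]
      simp
    intro a b ha hb ha0
    have h1 := key a ha
    have h2 := key b hb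
    have h3 : f a ≠ 0 := by
      intro h
      apply ha0
      rw [h1, h, zero_smul]
    refine ⟨f b * (f a)⁻¹, ?_⟩
    calc b = f b • e := h2
      _ = (f b * (f a)⁻¹) • (f a • e) := by rw [smul_smul, mul_assoc, inv_mul_cancel₀ h3, mul_one]
      _ = (f b * (f a)⁻¹) • a := by rw [← h1]
  · rintro ⟨v, hv⟩
    apply hx
    rw [← hv]
    exact hfNL v
  · intro v hv hv0
    have h1 : β (p v) = 0 := by rw [← hfNU, hv, map_zero]
    have h2 : (U₁ - 1) (p v) = 0 := by rw [← hpNU, hv, map_zero]
    have h3 : p v = 0 := by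
      by_contra hne
      exact hy₁ _ h2 hne h1
    have h4 : v = f v • e := by
      conv_lhs => rw [hpv v, h3]
      simp
    have h5 : f v ≠ 0 := by
      intro h
      apply hv0
      rw [h4, h, zero_smul]
    rw [h4, map_smul, smul_eq_mul]
    exact mul_ne_zero (by simpa [smul_eq_mul, he] using h5) hy

/-- Dimension one. -/
lemma rf_base [FiniteDimensional K V] (hn : finrank K V = 1) (A : Module.End K V)
    (hdet : LinearMap.det A = 1) (x : V) (y : Dual K V) (hx : x ≠ 0) (hy : y ≠ 0) : RF A x y := by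
  obtain ⟨v₀, hv₀, hspan⟩ := finrank_eq_one_iff'.mp hn
  obtain ⟨c, hc⟩ := hspan (A v₀)
  have hAc : A = c • 1 := by
    ext w
    obtain ⟨s, rfl⟩ := hspan w
    simp only [map_smul, LinearMap.smul_apply, Module.End.one_apply, ← hc]
  have hc1 : c = 1 := by
    rw [hAc, LinearMap.det_smul, hn, pow_one, map_one, mul_one] at hdet
    exact hdet
  subst hc1
  have hA1 : A = 1 := by rw [hAc, one_smul]
  have hy' : ∀ v, v ≠ 0 → y v ≠ 0 := by
    intro v hv h
    apply hy
    ext w
    obtain ⟨s, rfl⟩ := hspan w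
    obtain ⟨t, rfl⟩ := hspan v
    have ht : t ≠ 0 := by
      rintro rfl
      exact hv (zero_smul _ _)
    rw [map_smul, smul_eq_mul] at h
    have := (mul_eq_zero.mp h).resolve_left ht
    simp [this]
  refine ⟨1, 1, by rw [hA1, one_mul], by simp, by simp, ?_, ?_, ?_, ?_⟩
  · intro a b _ _ ha
    obtain ⟨s, rfl⟩ := hspan a
    obtain ⟨t, rfl⟩ := hspan b
    have hs : s ≠ 0 := by
      rintro rfl
      exact ha (zero_smul _ _)
    exact ⟨t * s⁻¹, by rw [smul_smul, mul_assoc, inv_mul_cancel₀ hs, mul_one]⟩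
  · intro a b _ _ ha
    obtain ⟨s, rfl⟩ := hspan a
    obtain ⟨t, rfl⟩ := hspan b
    have hs : s ≠ 0 := by
      rintro rfl
      exact ha (zero_smul _ _)
    exact ⟨t * s⁻¹, by rw [smul_smul, mul_assoc, inv_mul_cancel₀ hs, mul_one]⟩
  · rintro ⟨v, hv⟩
    apply hx
    rw [← hv]
    simp
  · intro v _ hv0
    exact hy' v hv0

end Cfsg.Agent.H11.Gow
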