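import Cfsg.Agent.Lib.H11.Gow1

set_option autoImplicit false
open Module

namespace Cfsg.Agent.H11.Gow

variable {K V : Type*} [Field K] [AddCommGroup V] [Module K V]

/-- Neither scalar nor a transvection. -/
def Good (A : Module.End K V) : Prop :=
  (∀ c : K, A ≠ c • 1) ∧ 2 ≤ finrank K (LinearMap.range (A - 1))

/-- Small rank of `A - c`. -/
def Big (A : Module.End K V) (c : K) : Prop := finrank K (LinearMap.range (A - c • (1 : Module.End K V))) ≤ 2

lemma finrank_single_le (z : V) : finrank K (K ∙ z) ≤ 1 := by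
  by_cases hz : z = 0
  · subst hz
    rw [Submodule.span_zero_singleton, finrank_bot]
    omega
  · rw [finrank_span_singleton hz]

variable [FiniteDimensional K V]

lemma ker_ne_top (A : Module.End K V) (hns : ∀ c : K, A ≠ c • 1) (c : K) :
    LinearMap.ker (A - c • (1 : Module.End K V)) ≠ ⊤ := by
  intro h
  apply hns c
  ext v
  have : v ∈ LinearMap.ker (A - c • (1 : Module.End K V)) := by rw [h]; trivial
  have h2 : (A - c • (1 : Module.End K V)) v = 0 := this
  simpa [sub_eq_zero] using h2

lemma range_ne_top (A : Module.End K V) (c : K) (h : ¬ Function.Injective (A - c • (1 : Module.End K V))) :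
    LinearMap.range (A - c • (1 : Module.End K V)) ≠ ⊤ := by
  intro h2
  apply h
  rw [LinearMap.injective_iff_surjective]
  exact LinearMap.range_eq_top.mp h2

lemma not_inj_of_big (h4 : 3 ≤ finrank K V) (A : Module.End K V) (c : K) (h : Big A c) :
    ¬ Function.Injective (A - c • (1 : Module.End K V)) := by
  intro h2
  have h3 := LinearMap.range_eq_top.mpr (LinearMap.injective_iff_surjective.mp h2)
  unfold Big at h
  rw [h3, finrank_top] at h
  omega

lemma noneig_of (A : Module.End K V) (c₀ : K) (v : V)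
    (h₃ : v ∉ LinearMap.ker (A - c₀ • (1 : Module.End K V))) (h₄ : v ∉ LinearMap.range (A - c₀ • (1 : Module.End K V))) (c : K) :
    A v ≠ c • v := by
  intro hc
  by_cases hcc : c = c₀
  · subst hcc
    apply h₃
    simp [LinearMap.mem_ker, hc]
  · apply h₄
    refine ⟨(c - c₀)⁻¹ • v, ?_⟩
    have h1 : (c - c₀) ≠ 0 := sub_ne_zero.mpr hcc
    simp only [LinearMap.sub_apply, LinearMap.smul_apply, Module.End.one_apply, map_smul, hc]
    rw [← sub_smul, smul_smul, inv_mul_cancel₀ h1, one_smul]

lemma big_excl (h4 : 4 ≤ finrank K V) (A : Module.End K V) {c₀ c : K} (h₀ : Big A c₀)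
    (h : Big A c) (hne : c ≠ c₀) {v : V} (hv : v ∈ LinearMap.range (A - c • (1 : Module.End K V))) :
    (A - c₀ • (1 : Module.End K V)) v = 0 := by
  have hle : LinearMap.ker (A - c₀ • (1 : Module.End K V)) ≤ LinearMap.range (A - c • (1 : Module.End K V)) := by
    intro u hu
    have hu' : A u = c₀ • u := by
      have : (A - c₀ • (1 : Module.End K V)) u = 0 := hu
      simpa [sub_eq_zero] using this
    refine ⟨(c₀ - c)⁻¹ • u, ?_⟩
    have h1 : (c₀ - c) ≠ 0 := sub_ne_zero.mpr (Ne.symm hne)
    simp only [LinearMap.sub_apply, LinearMap.smul_apply, Module.End.one_apply, map_smul, hu']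
    rw [← sub_smul, smul_smul, inv_mul_cancel₀ h1, one_smul]
  have hrn := LinearMap.finrank_range_add_finrank_ker (A - c₀ • (1 : Module.End K V))
  unfold Big at h₀ h
  have h5 : finrank K (LinearMap.ker (A - c₀ • (1 : Module.End K V))) ≤ finrank K (LinearMap.range (A - c • (1 : Module.End K V))) :=
    Submodule.finrank_mono hle
  have h6 : LinearMap.ker (A - c₀ • (1 : Module.End K V)) = LinearMap.range (A - c • (1 : Module.End K V)) :=
    Submodule.eq_of_le_of_finrank_le hle (by omega)
  rw [← h6] at hv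
  exact hv

lemma eig_pair (h1 : 1 ≤ finrank K V) (A : Module.End K V) (hns : ∀ c : K, A ≠ c • 1) :
    ∃ S₃ S₄ : Submodule K V, S₃ ≠ ⊤ ∧ S₄ ≠ ⊤ ∧ ∀ v, v ∉ S₃ → v ∉ S₄ →
      (∀ c : K, A v ≠ c • v) ∧ (4 ≤ finrank K V → ∀ c, Big A c → v ∉ LinearMap.range (A - c • (1 : Module.End K V))) := by
  classical
  by_cases hb : ∃ c₀ : K, ¬ Function.Injective (A - c₀ • (1 : Module.End K V)) ∧ Big A c₀
  · obtain ⟨c₀, hni, hbig⟩ := hb
    refine ⟨_, _, ker_ne_top A hns c₀, range_ne_top A c₀ hni, fun v h₃ h₄ =>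
      ⟨noneig_of A c₀ v h₃ h₄, ?_⟩⟩
    intro h4 c hc hv
    by_cases hcc : c = c₀
    · subst hcc; exact h₄ hv
    · exact h₃ (big_excl h4 A hbig hc hcc hv)
  · by_cases he : ∃ c₀ : K, ¬ Function.Injective (A - c₀ • (1 : Module.End K V))
    · obtain ⟨c₀, hni⟩ := he
      refine ⟨_, _, ker_ne_top A hns c₀, range_ne_top A c₀ hni, fun v h₃ h₄ =>
        ⟨noneig_of A c₀ v h₃ h₄, ?_⟩⟩
      intro h4 c hc
      exact absurd ⟨c, not_inj_of_big (by omega) A c hc, hc⟩ hb
    · have hbot : (⊥ : Submodule K V) ≠ ⊤ := by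
        intro h
        have h2 : finrank K (⊥ : Submodule K V) = finrank K (⊤ : Submodule K V) := by rw [h]
        rw [finrank_bot, finrank_top] at h2
        omega
      refine ⟨⊥, ⊥, hbot, hbot, fun v h₃ _ => ⟨?_, ?_⟩⟩
      · intro c hc
        apply he
        refine ⟨c, fun hinj => h₃ ?_⟩
        have : (A - c • (1 : Module.End K V)) v = (A - c • (1 : Module.End K V)) 0 := by simp [hc]
        simpa using hinj this
      · intro h4 c hc
        exact absurd ⟨c, not_inj_of_big (by omega) A c hc⟩ he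

omit [FiniteDimensional K V] in
lemma notMem_swap {x z : V} (hx : x ≠ 0) (h : z ∉ K ∙ x) : x ∉ K ∙ z := by
  intro hm
  obtain ⟨s, hs⟩ := Submodule.mem_span_singleton.mp hm
  have hs0 : s ≠ 0 := by
    rintro rfl
    exact hx (by rw [← hs, zero_smul])
  apply h
  refine Submodule.mem_span_singleton.mpr ⟨s⁻¹, ?_⟩
  rw [← hs, smul_smul, inv_mul_cancel₀ hs0, one_smul]

lemma comap_ne_top (B : Module.End K V) (hr : 2 ≤ finrank K (LinearMap.range B)) (z : V) :
    (K ∙ z).comap B ≠ ⊤ := by
  intro h
  have hle : LinearMap.range B ≤ K ∙ z := by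
    rintro _ ⟨v, rfl⟩
    have : v ∈ (K ∙ z).comap B := by rw [h]; trivial
    exact this
  have := Submodule.finrank_mono hle
  have h2 := finrank_single_le (K := K) z
  omega

lemma exists_notMem_line (B : Module.End K V) (hr : 2 ≤ finrank K (LinearMap.range B)) (z : V) :
    ∃ v, B v ∉ K ∙ z := by
  by_contra h
  push_neg at h
  exact comap_ne_top B hr z (by ext v; simpa using h v)

omit [FiniteDimensional K V] in
/-- Construction of the functional. -/
lemma exists_f_of (T : Finset K) (A : Module.End K V) (e : V) (hne : ∀ c : K, A e ≠ c • e)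
    (L : List V) (hlen : L.length + 1 ≤ T.card) (hL : ∀ z ∈ L, z ∉ K ∙ (A e - e)) :
    ∃ f : Dual K V, f e = 1 ∧ f (A e) = 1 ∧ ∀ z ∈ L, f z ≠ 0 := by
  have he0 : e ≠ 0 := by
    rintro rfl
    exact hne 0 (by simp)
  have hew : e ∉ K ∙ (A e - e) := by
    intro hm
    obtain ⟨s, hs⟩ := Submodule.mem_span_singleton.mp hm
    have hs0 : s ≠ 0 := by
      rintro rfl
      exact he0 (by rw [← hs, zero_smul])
    apply hne (1 + s⁻¹)
    have h1 : A e - e = s⁻¹ • e := by
      conv_rhs => rw [← hs]
      rw [smul_smul, inv_mul_cancel₀ hs0, one_smul]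
    rw [add_smul, one_smul, ← h1]
    abel
  obtain ⟨g, hg1, hg2⟩ := dual_avoid T (A e - e) (e :: L) (by simpa using hlen) (by
    intro z hz
    rcases List.mem_cons.mp hz with rfl | h
    · exact hew
    · exact hL z h)
  have hge : g e ≠ 0 := hg2 e List.mem_cons_self
  refine ⟨(g e)⁻¹ • g, ?_, ?_, ?_⟩
  · simp [hge]
  · have : g (A e) = g e := by
      rw [map_sub, sub_eq_zero] at hg1
      exact hg1
    simp [this, hge]
  · intro z hz
    simp only [LinearMap.smul_apply, smul_eq_mul]
    exact mul_ne_zero (inv_ne_zero hge) (hg2 z (List.mem_cons_of_mem _ hz))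

omit [FiniteDimensional K V] in
lemma exists_h_of (A : Module.End K V) (e : V) (f : Dual K V) (he : f e = 1) (hA : f (A e) = 1)
    (v₀ : V) (hv : f ((A - 1) v₀) ≠ 0) : ∃ h, f h = 0 ∧ f (A h) ≠ 0 := by
  refine ⟨v₀ - f v₀ • e, by simp [he], ?_⟩
  have : f (A (v₀ - f v₀ • e)) = f ((A - 1) v₀) := by
    simp [hA]
  rw [this]
  exact hv

omit [FiniteDimensional K V] in
/-- Scalar compression gives an operator identity. -/
lemma scal_eq (A : Module.End K V) (e : V) (f : Dual K V) (he : f e = 1) (hA : f (A e) = 1)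
    (c : K) (hc : cmp A e f hA = c • 1) (v : V) :
    A v - c • v = f (A v) • A e - (c * f v) • e := by
  have h1 : ((cmp A e f hA (pj e f he v) : LinearMap.ker f) : V) = c • ((pj e f he v : LinearMap.ker f) : V) := by
    rw [hc]; rfl
  rw [cmp_coe, pj_coe] at h1
  simp only [map_sub, map_smul, smul_eq_mul, hA, mul_one] at h1
  rw [sub_smul, smul_sub, smul_smul] at h1
  linear_combination (norm := module) h1

lemma scal_pow (A : Module.End K V) (e : V) (f : Dual K V) (he : f e = 1) (hA : f (A e) = 1)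
    (hdet : LinearMap.det A = 1) (c : K) (hc : cmp A e f hA = c • 1) :
    c ^ finrank K (LinearMap.ker f) = 1 := by
  have h1 := det_cmp A e f he hA
  rw [hc, hdet, LinearMap.det_smul, map_one, mul_one] at h1
  exact h1

lemma finrank_ker_f (e : V) (f : Dual K V) (he : f e = 1) :
    finrank K (LinearMap.ker f) + 1 = finrank K V := by
  have hf : f ≠ 0 := by
    rintro rfl
    simp at he
  exact Module.Dual.finrank_ker_add_one_of_ne_zero hf

lemma scal_big (A : Module.End K V) (e : V) (f : Dual K V) (he : f e = 1) (hA : f (A e) = 1)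
    (c : K) (hc : cmp A e f hA = c • 1) : Big A c := by
  have hle : LinearMap.range (A - c • (1 : Module.End K V)) ≤ (K ∙ e) ⊔ (K ∙ A e) := by
    rintro _ ⟨v, rfl⟩
    have h1 : (A - c • (1 : Module.End K V)) v = f (A v) • A e - (c * f v) • e := by
      rw [← scal_eq A e f he hA c hc v]
      simp
    rw [h1]
    exact Submodule.sub_mem _
      (Submodule.smul_mem _ _ (Submodule.mem_sup_right (Submodule.mem_span_singleton_self _)))
      (Submodule.smul_mem _ _ (Submodule.mem_sup_left (Submodule.mem_span_singleton_self _)))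
  have h2 := Submodule.finrank_mono hle
  have h3 := Submodule.finrank_add_le_finrank_add_finrank (K ∙ e) (K ∙ A e)
  have h4 := finrank_single_le (K := K) e
  have h5 := finrank_single_le (K := K) (A e)
  unfold Big
  omega

omit [FiniteDimensional K V] in
lemma scal_mem (A : Module.End K V) (e : V) (f : Dual K V) (he : f e = 1) (hA : f (A e) = 1)
    (c : K) (hc : cmp A e f hA = c • 1) (hc0 : c ≠ 0) (h6 : ∃ h, f h = 0 ∧ f (A h) ≠ 0) :
    e ∈ LinearMap.range (A - c • (1 : Module.End K V)) := by
  obtain ⟨h, hf, hfA⟩ := h6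
  let v := e - (f (A h))⁻¹ • h
  have h1 : f v = 1 := by simp [v, he, hf]
  have h2 : f (A v) = 0 := by simp [v, hA, hfA]
  have h3 := scal_eq A e f he hA c hc v
  rw [h1, h2, zero_smul, zero_sub, mul_one] at h3
  refine ⟨-c⁻¹ • v, ?_⟩
  have h5 : (A - c • (1 : Module.End K V)) v = -(c • e) := by
    rw [← h3]
    simp
  rw [map_smul, h5, smul_neg, neg_smul, neg_neg, smul_smul, inv_mul_cancel₀ hc0, one_smul]

omit [FiniteDimensional K V] in
lemma cmp_fix (A : Module.End K V) (e : V) (f : Dual K V) (hA : f (A e) = 1)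
    (h : LinearMap.ker f) (hfix : (cmp A e f hA - 1) h = 0) :
    (A - 1) (h : V) = f (A h) • A e := by
  have h1 : ((cmp A e f hA h : LinearMap.ker f) : V) = (h : V) := by
    have h2 : cmp A e f hA h - h = 0 := hfix
    rw [sub_eq_zero.mp h2]
  rw [cmp_coe] at h1
  simp only [LinearMap.sub_apply, Module.End.one_apply]
  calc A (h : V) - (h : V) = A (h : V) - (A (h : V) - f (A (h : V)) • A e) := by rw [h1]
    _ = f (A (h : V)) • A e := by abel

/-- Rank bound for the compression from a bound on its fixed points. -/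
lemma good_rank (A : Module.End K V) (e : V) (f : Dual K V) (hA : f (A e) = 1)
    (D : Submodule K V) (hD : ∀ h : LinearMap.ker f, (cmp A e f hA - 1) h = 0 → (h : V) ∈ D)
    (hdim : finrank K D + 2 ≤ finrank K (LinearMap.ker f)) :
    2 ≤ finrank K (LinearMap.range (cmp A e f hA - 1)) := by
  let T : Module.End K (LinearMap.ker f) := cmp A e f hA - 1
  let φ : LinearMap.ker T →ₗ[K] D :=
    LinearMap.codRestrict D ((LinearMap.ker f).subtype ∘ₗ (LinearMap.ker T).subtype) (fun h => hD _ h.2)
  have hφ : Function.Injective φ := by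
    intro a b hab
    apply Subtype.ext
    apply Subtype.ext
    have h3 := congrArg (fun z : D => (z : V)) hab
    exact h3
  have h1 := LinearMap.finrank_le_finrank_of_injective hφ
  have h2 := LinearMap.finrank_range_add_finrank_ker T
  change finrank K (LinearMap.range T) ≥ 2
  omega

omit [FiniteDimensional K V] in
lemma indep_of_noneig (A : Module.End K V) (e : V) (hne : ∀ c : K, A e ≠ c • e) (s t : K)
    (h : s • A e + t • e = 0) : s = 0 ∧ t = 0 := by
  have he0 : e ≠ 0 := by
    rintro rfl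
    exact hne 0 (by simp)
  have hs : s = 0 := by
    by_contra hs
    apply hne (-t * s⁻¹)
    have h1 : s • A e = -(t • e) := eq_neg_of_add_eq_zero_left h
    calc A e = s⁻¹ • (s • A e) := by rw [smul_smul, inv_mul_cancel₀ hs, one_smul]
      _ = (-t * s⁻¹) • e := by rw [h1, smul_neg, smul_smul, neg_mul, neg_smul, mul_comm]
  rw [hs, zero_smul, zero_add] at h
  exact ⟨hs, (smul_eq_zero.mp h).resolve_right he0⟩

end Cfsg.Agent.H11.Gow
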