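import Cfsg.Agent.Lib.H11.Gow2

set_option autoImplicit false
open Module

namespace Cfsg.Agent.H11.Gow

variable {K V : Type*} [Field K] [AddCommGroup V] [Module K V] [FiniteDimensional K V]

/-- What one recursion step needs. -/
def EF (A : Module.End K V) (x : V) (y : Dual K V) : Prop :=
  ∃ (e : V) (f : Dual K V) (he : f e = 1) (hA : f (A e) = 1), f x ≠ 0 ∧ y e ≠ 0 ∧ A e ≠ e ∧
    (∃ h, f h = 0 ∧ f (A h) ≠ 0) ∧ (3 ≤ finrank K V → Good (cmp A e f hA))

lemma scal_ne_one (A : Module.End K V) (e : V) (f : Dual K V) (hA : f (A e) = 1)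
    (hr : 2 ≤ finrank K (LinearMap.range (cmp A e f hA - 1))) (c : K) (hc : cmp A e f hA = c • 1) :
    c ≠ 1 := by
  rintro rfl
  rw [hc, one_smul, sub_self, LinearMap.range_zero, finrank_bot] at hr
  omega

lemma scal_ne_zero (A : Module.End K V) (e : V) (f : Dual K V) (he : f e = 1) (hA : f (A e) = 1)
    (hdet : LinearMap.det A = 1) (hn : 2 ≤ finrank K V) (c : K) (hc : cmp A e f hA = c • 1) :
    c ≠ 0 := by
  rintro rfl
  have h1 := scal_pow A e f he hA hdet 0 hc
  have h2 := finrank_ker_f e f he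
  rw [zero_pow (by omega)] at h1
  exact zero_ne_one h1

/-- `B` invertible, `n ≠ 3`. -/
lemma case_I_ne3 (T : Finset K) (hT : 4 ≤ T.card) (hn : 2 ≤ finrank K V) (hn3 : finrank K V ≠ 3)
    (A : Module.End K V) (hdet : LinearMap.det A = 1) (hG : Good A)
    (hinj : Function.Injective (A - 1 : Module.End K V)) (x : V) (y : Dual K V) (hx : x ≠ 0) (hy : y ≠ 0) :
    EF A x y := by
  obtain ⟨hns, hr⟩ := hG
  have hsurj : Function.Surjective (A - 1 : Module.End K V) := LinearMap.injective_iff_surjective.mp hinj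
  obtain ⟨S₃, S₄, h3, h4, hS⟩ := eig_pair (by omega) A hns
  obtain ⟨e, he⟩ := avoid T [LinearMap.ker y, (K ∙ x).comap (A - 1), S₃, S₄] (by simpa using hT) (by
    intro S hS'
    simp only [List.mem_cons, List.not_mem_nil, or_false] at hS'
    rcases hS' with rfl | rfl | rfl | rfl
    · exact fun h => hy (LinearMap.ker_eq_top.mp h)
    · exact comap_ne_top _ hr x
    · exact h3
    · exact h4)
  have he1 : y e ≠ 0 := fun h => he (LinearMap.ker y) (by simp) h
  have he2 : (A - 1) e ∉ K ∙ x := fun h => he ((K ∙ x).comap (A - 1)) (by simp) h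
  have he3 : e ∉ S₃ := he S₃ (by simp)
  have he4 : e ∉ S₄ := he S₄ (by simp)
  obtain ⟨hne, hbig⟩ := hS e he3 he4
  have hw : x ∉ K ∙ (A e - e) := by
    have h1 := notMem_swap hx he2
    simpa using h1
  obtain ⟨f, hfe, hfA, hfL⟩ := exists_f_of T A e hne [x] (by simp; omega) (by simpa using hw)
  have h6 : ∃ h, f h = 0 ∧ f (A h) ≠ 0 := by
    obtain ⟨v₁, hv₁⟩ := hsurj e
    exact exists_h_of A e f hfe hfA v₁ (by rw [hv₁, hfe]; exact one_ne_zero)
  refine ⟨e, f, hfe, hfA, hfL x (by simp), he1, ?_, h6, ?_⟩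
  · have := hne 1
    rwa [one_smul] at this
  · intro h3'
    have h4' : 4 ≤ finrank K V := by omega
    obtain ⟨z₀, hz₀⟩ := hsurj (A e)
    have hf1 := finrank_ker_f e f hfe
    have hrank : 2 ≤ finrank K (LinearMap.range (cmp A e f hfA - 1)) := by
      apply good_rank A e f hfA (K ∙ z₀) _ (by have := finrank_single_le (K := K) z₀; omega)
      intro h hh
      have h1 := cmp_fix A e f hfA h hh
      have h2 : (A - 1) (h : V) = (A - 1) (f (A h) • z₀) := by rw [map_smul, hz₀, h1]
      rw [hinj h2]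
      exact Submodule.smul_mem _ _ (Submodule.mem_span_singleton_self _)
    refine ⟨?_, hrank⟩
    intro c hc
    have hc0 := scal_ne_zero A e f hfe hfA hdet hn c hc
    exact hbig h4' c (scal_big A e f hfe hfA c hc) (scal_mem A e f hfe hfA c hc hc0 h6)

/-- `B` singular of rank at least 3. -/
lemma case_S_big (T : Finset K) (hT : 4 ≤ T.card) (A : Module.End K V)
    (hdet : LinearMap.det A = 1) (hns : ∀ c : K, A ≠ c • 1)
    (hr : 3 ≤ finrank K (LinearMap.range (A - 1))) (hinj : ¬ Function.Injective (A - 1 : Module.End K V))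
    (x : V) (y : Dual K V) (hx : x ≠ 0) (hy : y ≠ 0) : EF A x y := by
  classical
  have hr2 : 2 ≤ finrank K (LinearMap.range (A - 1)) := by omega
  have hBne : LinearMap.range (A - 1) ≠ ⊤ := by
    have := range_ne_top A 1 (by simpa using hinj)
    simpa using this
  have hn4 : 4 ≤ finrank K V := by
    have h1 : finrank K (LinearMap.range (A - 1)) < finrank K V := by
      have := Submodule.finrank_lt hBne
      exact this
    omega
  -- the extra subspace
  obtain ⟨S₄, hS₄, hS₄'⟩ : ∃ S₄ : Submodule K V, S₄ ≠ ⊤ ∧ ∀ v, v ∉ S₄ → ∀ c, Big A c → c ≠ 1 →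
      (∀ c : K, A v ≠ c • v) → v ∉ LinearMap.range (A - c • (1 : Module.End K V)) := by
    by_cases hb : ∃ c₀ : K, Big A c₀
    · obtain ⟨c₀, hc₀⟩ := hb
      refine ⟨LinearMap.range (A - c₀ • (1 : Module.End K V)),
        range_ne_top A c₀ (not_inj_of_big (by omega) A c₀ hc₀), ?_⟩
      intro v hv c hc _ hne hm
      by_cases hcc : c = c₀
      · subst hcc; exact hv hm
      · have := big_excl hn4 A hc₀ hc hcc hm
        apply hne c₀
        simpa [sub_eq_zero] using this
    · refine ⟨⊥, ?_, ?_⟩
      · intro h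
        have h2 : finrank K (⊥ : Submodule K V) = finrank K (⊤ : Submodule K V) := by rw [h]
        rw [finrank_bot, finrank_top] at h2
        omega
      · intro v _ c hc
        exact absurd ⟨c, hc⟩ hb
  obtain ⟨e, he⟩ := avoid T [LinearMap.ker y, (K ∙ x).comap (A - 1), LinearMap.range (A - 1), S₄]
      (by simpa using hT) (by
    intro S hS'
    simp only [List.mem_cons, List.not_mem_nil, or_false] at hS'
    rcases hS' with rfl | rfl | rfl | rfl
    · exact fun h => hy (LinearMap.ker_eq_top.mp h)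
    · exact comap_ne_top _ hr2 x
    · exact hBne
    · exact hS₄)
  have he1 : y e ≠ 0 := fun h => he (LinearMap.ker y) (by simp) h
  have he2 : (A - 1) e ∉ K ∙ x := fun h => he ((K ∙ x).comap (A - 1)) (by simp) h
  have he3 : e ∉ LinearMap.range (A - 1) := he _ (by simp)
  have he4 : e ∉ S₄ := he S₄ (by simp)
  have hne : ∀ c : K, A e ≠ c • e := by
    intro c hc
    by_cases hc1 : c = 1
    · subst hc1
      apply he2
      have : (A - 1) e = 0 := by simp [hc]
      rw [this]
      exact Submodule.zero_mem _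
    · apply he3
      refine ⟨(c - 1)⁻¹ • e, ?_⟩
      have h1 : c - 1 ≠ 0 := sub_ne_zero.mpr hc1
      rw [map_smul]
      have : (A - 1) e = (c - 1) • e := by simp [hc, sub_smul]
      rw [this, smul_smul, inv_mul_cancel₀ h1, one_smul]
  have hw : x ∉ K ∙ (A e - e) := by
    have h1 := notMem_swap hx he2
    simpa using h1
  obtain ⟨v₀, hv₀⟩ := exists_notMem_line (A - 1) hr2 (A e - e)
  obtain ⟨f, hfe, hfA, hfL⟩ := exists_f_of T A e hne [x, (A - 1) v₀] (by simp; omega) (by
    intro z hz
    simp only [List.mem_cons, List.not_mem_nil, or_false] at hz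
    rcases hz with rfl | rfl
    · exact hw
    · exact hv₀)
  have h6 : ∃ h, f h = 0 ∧ f (A h) ≠ 0 :=
    exists_h_of A e f hfe hfA v₀ (hfL _ (by simp))
  refine ⟨e, f, hfe, hfA, hfL x (by simp), he1, ?_, h6, ?_⟩
  · have := hne 1
    rwa [one_smul] at this
  · intro _
    have hf1 := finrank_ker_f e f hfe
    have hker := LinearMap.finrank_range_add_finrank_ker (A - 1)
    have hrank : 2 ≤ finrank K (LinearMap.range (cmp A e f hfA - 1)) := by
      apply good_rank A e f hfA (LinearMap.ker (A - 1)) _ (by omega)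
      intro h hh
      have h1 := cmp_fix A e f hfA h hh
      by_cases h0 : f (A h) = 0
      · rw [h0, zero_smul] at h1
        exact h1
      · exfalso
        apply he3
        have h2 : A e = (A - 1) ((f (A h))⁻¹ • (h : V)) := by
          rw [map_smul, h1, smul_smul, inv_mul_cancel₀ h0, one_smul]
        refine ⟨(f (A h))⁻¹ • (h : V) - e, ?_⟩
        rw [map_sub, ← h2]
        simp
    refine ⟨?_, hrank⟩
    intro c hc
    have hc0 := scal_ne_zero A e f hfe hfA hdet (by omega) c hc
    have hc1 := scal_ne_one A e f hfA hrank c hc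
    exact hS₄' e he4 c (scal_big A e f hfe hfA c hc) hc1 hne (scal_mem A e f hfe hfA c hc hc0 h6)

/-- Core of the rank two case. -/
lemma case_S2_core (T : Finset K) (hT : 4 ≤ T.card) (hn : 3 ≤ finrank K V) (A : Module.End K V)
    (hdet : LinearMap.det A = 1)
    (hr : finrank K (LinearMap.range (A - 1)) = 2)
    (x : V) (y : Dual K V) (hx : x ≠ 0) (u : V) (hu0 : u ≠ 0) (hu : (A - 1) u = 0)
    (e : V) (he1 : y e ≠ 0) (he2 : (A - 1) e ∉ K ∙ x) (he3 : e ∉ LinearMap.range (A - 1))
    (he5 : (A - 1) e ∉ K ∙ u)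
    (he6 : finrank K V = 3 → (-1 : K) ≠ 1 → Big A (-1) →
      e ∉ LinearMap.range (A - (-1 : K) • (1 : Module.End K V))) : EF A x y := by
  have hr2 : 2 ≤ finrank K (LinearMap.range (A - 1)) := by omega
  have hne : ∀ c : K, A e ≠ c • e := by
    intro c hc
    by_cases hc1 : c = 1
    · subst hc1
      apply he2
      have : (A - 1) e = 0 := by simp [hc]
      rw [this]
      exact Submodule.zero_mem _
    · apply he3
      refine ⟨(c - 1)⁻¹ • e, ?_⟩
      have h1 : c - 1 ≠ 0 := sub_ne_zero.mpr hc1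
      rw [map_smul]
      have : (A - 1) e = (c - 1) • e := by simp [hc, sub_smul]
      rw [this, smul_smul, inv_mul_cancel₀ h1, one_smul]
  have hw : x ∉ K ∙ (A e - e) := by
    have h1 := notMem_swap hx he2
    simpa using h1
  have hw2 : u ∉ K ∙ (A e - e) := by
    have h1 := notMem_swap hu0 he5
    simpa using h1
  obtain ⟨v₀, hv₀⟩ := exists_notMem_line (A - 1) hr2 (A e - e)
  obtain ⟨f, hfe, hfA, hfL⟩ := exists_f_of T A e hne [x, (A - 1) v₀, u] (by simp; omega) (by
    intro z hz
    simp only [List.mem_cons, List.not_mem_nil, or_false] at hz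
    rcases hz with rfl | rfl | rfl
    · exact hw
    · exact hv₀
    · exact hw2)
  have h6 : ∃ h, f h = 0 ∧ f (A h) ≠ 0 :=
    exists_h_of A e f hfe hfA v₀ (hfL _ (by simp))
  have hfu : f u ≠ 0 := hfL u (by simp)
  refine ⟨e, f, hfe, hfA, hfL x (by simp), he1, ?_, h6, ?_⟩
  · have := hne 1
    rwa [one_smul] at this
  · intro _
    have hf1 := finrank_ker_f e f hfe
    have hker := LinearMap.finrank_range_add_finrank_ker (A - 1)
    have hlt : finrank K (LinearMap.ker (A - 1) ⊓ LinearMap.ker f : Submodule K V) <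
        finrank K (LinearMap.ker (A - 1)) := by
      apply Submodule.finrank_lt_finrank_of_lt
      refine lt_of_le_of_ne inf_le_left ?_
      intro h
      have : u ∈ (LinearMap.ker (A - 1) ⊓ LinearMap.ker f : Submodule K V) := by rw [h]; exact hu
      exact hfu this.2
    have hrank : 2 ≤ finrank K (LinearMap.range (cmp A e f hfA - 1)) := by
      apply good_rank A e f hfA (LinearMap.ker (A - 1) ⊓ LinearMap.ker f) _ (by omega)
      intro h hh
      have h1 := cmp_fix A e f hfA h hh
      refine ⟨?_, h.2⟩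
      by_cases h0 : f (A h) = 0
      · rw [h0, zero_smul] at h1
        exact h1
      · exfalso
        apply he3
        have h2 : A e = (A - 1) ((f (A h))⁻¹ • (h : V)) := by
          rw [map_smul, h1, smul_smul, inv_mul_cancel₀ h0, one_smul]
        refine ⟨(f (A h))⁻¹ • (h : V) - e, ?_⟩
        rw [map_sub, ← h2]
        simp
    refine ⟨?_, hrank⟩
    intro c hc
    have hc0 := scal_ne_zero A e f hfe hfA hdet (by omega) c hc
    have hc1 := scal_ne_one A e f hfA hrank c hc
    -- fixed vectors are multiples of one vector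
    have hfix : ∀ u', (A - 1) u' = 0 → u' ∈ K ∙ (A e - c • e) := by
      intro u' hu'
      have h1 := scal_eq A e f hfe hfA c hc u'
      have h2 : A u' = u' := by simpa [sub_eq_zero] using hu'
      rw [h2] at h1
      have h3 : (1 - c) • u' = f u' • (A e - c • e) := by
        rw [sub_smul, one_smul, h1, smul_sub, mul_comm, smul_smul]
      have h4 : 1 - c ≠ 0 := sub_ne_zero.mpr (Ne.symm hc1)
      refine Submodule.mem_span_singleton.mpr ⟨(1 - c)⁻¹ * f u', ?_⟩
      rw [← smul_smul, ← h3, smul_smul, inv_mul_cancel₀ h4, one_smul]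
    have hkle : LinearMap.ker (A - 1) ≤ K ∙ (A e - c • e) := fun u' hu' => hfix u' hu'
    have hk1 := Submodule.finrank_mono hkle
    have hk2 := finrank_single_le (K := K) (A e - c • e)
    have hn3 : finrank K V = 3 := by omega
    -- scalar is -1
    have hc2 : c ^ 2 = 1 := by
      have := scal_pow A e f hfe hfA hdet c hc
      have h5 : finrank K (LinearMap.ker f) = 2 := by omega
      rwa [h5] at this
    have hcm : c = -1 := by
      have : (c - 1) * (c + 1) = 0 := by ring_nf; rw [hc2]; ring
      rcases mul_eq_zero.mp this with h | h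
      · exact absurd (sub_eq_zero.mp h) hc1
      · exact eq_neg_of_add_eq_zero_left h
    subst hcm
    exact he6 hn3 hc1 (scal_big A e f hfe hfA _ hc) (scal_mem A e f hfe hfA _ hc hc0 h6)

end Cfsg.Agent.H11.Gow
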