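import Cfsg.Agent.Lib.H11.Gow3

set_option autoImplicit false
open Module

namespace Cfsg.Agent.H11.Gow

universe u v

section
variable {K : Type u} {V : Type v} [Field K] [AddCommGroup V] [Module K V] [FiniteDimensional K V]

lemma five_of_four (T : Finset K) (hT : 4 ≤ T.card) (h : (-1 : K) ≠ 1) :
    ∃ T' : Finset K, 5 ≤ T'.card := by
  classical
  have h1 : (({0, 1, -1} : Finset K)).card ≤ 3 := Finset.card_le_three
  obtain ⟨a, ha, hna⟩ : ∃ a ∈ T, a ∉ ({0, 1, -1} : Finset K) := by
    by_contra hc
    push_neg at hc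
    have := Finset.card_le_card (show T ⊆ ({0, 1, -1} : Finset K) from hc)
    omega
  simp only [Finset.mem_insert, Finset.mem_singleton, not_or] at hna
  obtain ⟨ha0, ha1, ham⟩ := hna
  have h2 : (2 : K) ≠ 0 := by
    intro h2
    apply h
    have : (1 : K) + 1 = 0 := by rw [← h2]; norm_num
    exact (eq_neg_of_add_eq_zero_left this).symm
  have hma : -a ≠ a := by
    intro h3
    apply ha0
    have : 2 * a = 0 := by linear_combination -h3
    exact (mul_eq_zero.mp this).resolve_left h2
  have hm0 : -a ≠ 0 := neg_ne_zero.mpr ha0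
  have hm1 : -a ≠ 1 := by
    intro h3
    apply ham
    rw [← h3, neg_neg]
  have hmm : -a ≠ -1 := by
    intro h3
    exact ha1 (neg_injective h3)
  have h01 : (0 : K) ≠ 1 := zero_ne_one
  have h0m : (0 : K) ≠ -1 := by
    intro h3
    apply h01
    have := congrArg (fun t => -t) h3
    simpa using this
  refine ⟨{0, 1, -1, a, -a}, ?_⟩
  rw [Finset.card_insert_of_notMem, Finset.card_insert_of_notMem, Finset.card_insert_of_notMem,
    Finset.card_insert_of_notMem, Finset.card_singleton]
  · simp only [Finset.mem_singleton]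
    exact fun h3 => hma h3.symm
  · simp only [Finset.mem_insert, Finset.mem_singleton, not_or]
    exact ⟨Ne.symm ham, Ne.symm hmm⟩
  · simp only [Finset.mem_insert, Finset.mem_singleton, not_or]
    exact ⟨Ne.symm h, Ne.symm ha1, Ne.symm hm1⟩
  · simp only [Finset.mem_insert, Finset.mem_singleton, not_or]
    exact ⟨h01, h0m, Ne.symm ha0, Ne.symm hm0⟩

lemma case_S2 (T : Finset K) (hT : 4 ≤ T.card) (A : Module.End K V)
    (hdet : LinearMap.det A = 1)
    (hr : finrank K (LinearMap.range (A - 1)) = 2)
    (hinj : ¬ Function.Injective (A - 1 : Module.End K V))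
    (x : V) (y : Dual K V) (hx : x ≠ 0) (hy : y ≠ 0) : EF A x y := by
  have hr2 : 2 ≤ finrank K (LinearMap.range (A - 1)) := by omega
  have hBne : LinearMap.range (A - 1) ≠ ⊤ := by
    have := range_ne_top A 1 (by simpa using hinj)
    simpa using this
  have hn : 3 ≤ finrank K V := by
    have h1 : finrank K (LinearMap.range (A - 1)) < finrank K V := Submodule.finrank_lt hBne
    omega
  obtain ⟨u, hu0, hu⟩ : ∃ u, u ≠ 0 ∧ (A - 1) u = 0 := by
    by_contra hc
    push_neg at hc
    apply hinj
    rw [injective_iff_map_eq_zero]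
    intro a ha
    by_contra ha0
    exact hc a ha0 ha
  by_cases hq : finrank K V = 3 ∧ (-1 : K) ≠ 1 ∧ Big A (-1)
  · obtain ⟨hq1, hq2, hq3⟩ := hq
    obtain ⟨T', hT'⟩ := five_of_four T hT hq2
    obtain ⟨e, he⟩ := avoid T' [LinearMap.ker y, (K ∙ x).comap (A - 1), LinearMap.range (A - 1),
      (K ∙ u).comap (A - 1), LinearMap.range (A - (-1 : K) • (1 : Module.End K V))]
      (by simpa using hT') (by
      intro S hS'
      simp only [List.mem_cons, List.not_mem_nil, or_false] at hS'
      rcases hS' with rfl | rfl | rfl | rfl | rfl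
      · exact fun h => hy (LinearMap.ker_eq_top.mp h)
      · exact comap_ne_top _ hr2 x
      · exact hBne
      · exact comap_ne_top _ hr2 u
      · exact range_ne_top A _ (not_inj_of_big hn A _ hq3))
    exact case_S2_core T hT hn A hdet hr x y hx u hu0 hu e
      (fun h => he (LinearMap.ker y) (by simp) h)
      (fun h => he ((K ∙ x).comap (A - 1)) (by simp) h)
      (fun h => he (LinearMap.range (A - 1)) (by simp) h)
      (fun h => he ((K ∙ u).comap (A - 1)) (by simp) h)
      (fun _ _ _ h => he (LinearMap.range (A - (-1 : K) • (1 : Module.End K V))) (by simp) h)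
  · obtain ⟨e, he⟩ := avoid T [LinearMap.ker y, (K ∙ x).comap (A - 1), LinearMap.range (A - 1),
      (K ∙ u).comap (A - 1)] (by simpa using hT) (by
      intro S hS'
      simp only [List.mem_cons, List.not_mem_nil, or_false] at hS'
      rcases hS' with rfl | rfl | rfl | rfl
      · exact fun h => hy (LinearMap.ker_eq_top.mp h)
      · exact comap_ne_top _ hr2 x
      · exact hBne
      · exact comap_ne_top _ hr2 u)
    exact case_S2_core T hT hn A hdet hr x y hx u hu0 hu e
      (fun h => he (LinearMap.ker y) (by simp) h)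
      (fun h => he ((K ∙ x).comap (A - 1)) (by simp) h)
      (fun h => he (LinearMap.range (A - 1)) (by simp) h)
      (fun h => he ((K ∙ u).comap (A - 1)) (by simp) h)
      (fun a b c => absurd ⟨a, b, c⟩ hq)

/-- `A + A⁻¹` is not scalar in dimension three when `A - 1` is invertible. -/
lemma G_ns (T : Finset K) (hT : 2 ≤ T.card) (hn : finrank K V = 3) (A A' : Module.End K V)
    (hA'A : A' * A = 1) (hdet : LinearMap.det A = 1) (hns : ∀ c : K, A ≠ c • 1)
    (hsurj : Function.Surjective (A - 1 : Module.End K V)) (τ : K) :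
    A + A' ≠ τ • 1 := by
  intro hG
  have hinv : ∀ v, A' (A v) = v := fun v => by
    have := congrArg (fun t : Module.End K V => t v) hA'A
    simpa using this
  have q : ∀ v, A (A v) = τ • A v - v := by
    intro v
    have h1 := congrArg (fun t : Module.End K V => t (A v)) hG
    simp only [LinearMap.add_apply, hinv, LinearMap.smul_apply, Module.End.one_apply] at h1
    exact eq_sub_of_add_eq h1
  obtain ⟨S₃, S₄, h3, h4, hS⟩ := eig_pair (by omega) A hns
  obtain ⟨v, hv⟩ := avoid T [S₃, S₄] (by simpa using hT) (by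
    intro S hS'
    simp only [List.mem_cons, List.not_mem_nil, or_false] at hS'
    rcases hS' with rfl | rfl
    · exact h3
    · exact h4)
  have hne := (hS v (hv _ (by simp)) (hv _ (by simp))).1
  have hv0 : v ≠ 0 := by
    rintro rfl
    exact hne 0 (by simp)
  let P : Submodule K V := (K ∙ v) ⊔ (K ∙ A v)
  have hP : P ≠ ⊤ := by
    intro h
    have h1 := Submodule.finrank_add_le_finrank_add_finrank (K ∙ v) (K ∙ A v)
    have h2 := finrank_single_le (K := K) v
    have h3 := finrank_single_le (K := K) (A v)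
    have h4 : finrank K P = 3 := by rw [h, finrank_top, hn]
    change finrank K ((K ∙ v) ⊔ (K ∙ A v) : Submodule K V) = 3 at h4
    omega
  obtain ⟨z, hz⟩ : ∃ z, z ∉ P := by
    by_contra hc
    push_neg at hc
    exact hP (by ext a; simp [hc a])
  let w : Fin 3 → V := ![v, A v, z]
  have hli : LinearIndependent K w := by
    rw [Fintype.linearIndependent_iff]
    intro g hg
    rw [Fin.sum_univ_three] at hg
    simp only [w, Matrix.cons_val_zero, Matrix.cons_val_one, Matrix.cons_val] at hg
    have g2 : g 2 = 0 := by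
      by_contra hg2
      apply hz
      have h1 : z = -(g 2)⁻¹ • (g 0 • v + g 1 • A v) := by
        have h2 : g 2 • z = -(g 0 • v + g 1 • A v) := eq_neg_of_add_eq_zero_right hg
        rw [neg_smul, ← smul_neg, ← h2, smul_smul, inv_mul_cancel₀ hg2, one_smul]
      rw [h1]
      exact Submodule.smul_mem _ _ (Submodule.add_mem _
        (Submodule.smul_mem _ _ (Submodule.mem_sup_left (Submodule.mem_span_singleton_self _)))
        (Submodule.smul_mem _ _ (Submodule.mem_sup_right (Submodule.mem_span_singleton_self _))))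
    rw [g2, zero_smul, add_zero, add_comm] at hg
    obtain ⟨g1, g0⟩ := indep_of_noneig A v hne _ _ hg
    intro i
    fin_cases i
    · exact g0
    · exact g1
    · exact g2
  let b : Basis (Fin 3) K V := basisOfLinearIndependentOfCardEqFinrank hli (by simp [hn])
  have hb : ∀ i, b i = w i := fun i => by
    simp only [b, coe_basisOfLinearIndependentOfCardEqFinrank]
  have hb0 : b 0 = v := hb 0
  have hb1 : b 1 = A v := hb 1
  have hb2 : b 2 = z := hb 2
  let M := LinearMap.toMatrix b b A
  have hM : ∀ i j, M i j = b.repr (A (b j)) i := fun i j => LinearMap.toMatrix_apply _ _ _ _ _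
  have hA0 : A (b 0) = b 1 := by rw [hb0, hb1]
  have hA1 : A (b 1) = τ • b 1 - b 0 := by rw [hb0, hb1, q]
  have hM0 : ∀ i, M i 0 = b.repr (b 1) i := fun i => by rw [hM, hA0]
  have hM1 : ∀ i, M i 1 = τ * b.repr (b 1) i - b.repr (b 0) i := fun i => by
    rw [hM, hA1, map_sub, map_smul]
    simp only [Finsupp.coe_sub, Finsupp.coe_smul, Pi.sub_apply, Pi.smul_apply, smul_eq_mul]
  have hdetM : M.det = 1 := by
    rw [LinearMap.det_toMatrix, hdet]
  rw [Matrix.det_fin_three] at hdetM
  simp only [hM0, hM1, Module.Basis.repr_self, Finsupp.single_apply] at hdetM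
  have hM22 : M 2 2 = 1 := by
    simp at hdetM
    linear_combination hdetM
  -- the coordinate functional is invariant
  let f₀ : Dual K V := b.coord 2
  have hf₀ : ∀ t, f₀ (A t) = f₀ t := by
    intro t
    have h1 : f₀ ∘ₗ A = f₀ := by
      apply b.ext
      intro i
      have h2 : f₀ (A (b i)) = M 2 i := (hM 2 i).symm
      simp only [LinearMap.comp_apply, h2]
      fin_cases i
      · simp [f₀, hM0]
      · simp [f₀, hM1]
      · simp [f₀, hM22]
    exact congrArg (fun t' : Dual K V => t' t) h1
  obtain ⟨t, ht⟩ := hsurj (b 2)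
  have h5 : f₀ (b 2) = 1 := by simp [f₀]
  have h6 : f₀ ((A - 1) t) = 0 := by
    simp [hf₀]
  rw [ht, h5] at h6
  exact one_ne_zero h6

/-- `B` invertible, dimension three. -/
lemma case_I3 (T : Finset K) (hT : 4 ≤ T.card) (hn : finrank K V = 3)
    (A : Module.End K V) (hdet : LinearMap.det A = 1) (hG : Good A)
    (hinj : Function.Injective (A - 1 : Module.End K V)) (x : V) (y : Dual K V) (hx : x ≠ 0)
    (hy : y ≠ 0) : EF A x y := by
  classical
  obtain ⟨hns, hr⟩ := hG
  have hsurj : Function.Surjective (A - 1 : Module.End K V) :=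
    LinearMap.injective_iff_surjective.mp hinj
  have hunit : IsUnit A := (LinearMap.isUnit_iff_isUnit_det A).2 (by rw [hdet]; exact isUnit_one)
  let A' : Module.End K V := (hunit.unit⁻¹ : (Module.End K V)ˣ)
  have hA'A : A' * A = 1 := hunit.val_inv_mul
  have hAA' : A * A' = 1 := hunit.mul_val_inv
  have hinv : ∀ v, A' (A v) = v := fun v => by
    have := congrArg (fun t : Module.End K V => t v) hA'A
    simpa using this
  have hinv' : ∀ v, A (A' v) = v := fun v => by
    have := congrArg (fun t : Module.End K V => t v) hAA'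
    simpa using this
  have hGns := G_ns T (by omega) hn A A' hA'A hdet hns hsurj
  obtain ⟨S₃, S₄, h3, h4, hS⟩ := eig_pair (by omega) (A + A') hGns
  obtain ⟨e, he⟩ := avoid T [LinearMap.ker y, (K ∙ x).comap (A - 1), S₃, S₄] (by simpa using hT) (by
    intro S hS'
    simp only [List.mem_cons, List.not_mem_nil, or_false] at hS'
    rcases hS' with rfl | rfl | rfl | rfl
    · exact fun h => hy (LinearMap.ker_eq_top.mp h)
    · exact comap_ne_top _ hr x
    · exact h3
    · exact h4)
  have he1 : y e ≠ 0 := fun h => he (LinearMap.ker y) (by simp) h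
  have he2 : (A - 1) e ∉ K ∙ x := fun h => he ((K ∙ x).comap (A - 1)) (by simp) h
  have he3 : e ∉ S₃ := he S₃ (by simp)
  have he4 : e ∉ S₄ := he S₄ (by simp)
  have hneG := (hS e he3 he4).1
  have he0 : e ≠ 0 := by
    rintro rfl
    exact hneG 0 (by simp)
  have hne : ∀ c : K, A e ≠ c • e := by
    intro c hc
    have hc0 : c ≠ 0 := by
      rintro rfl
      rw [zero_smul] at hc
      apply he0
      rw [← hinv e, hc, map_zero]
    apply hneG (c + c⁻¹)
    have h1 : A' e = c⁻¹ • e := by
      have h2 : A' (c • e) = e := by rw [← hc, hinv]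
      rw [map_smul] at h2
      calc A' e = c⁻¹ • (c • A' e) := by rw [smul_smul, inv_mul_cancel₀ hc0, one_smul]
        _ = c⁻¹ • e := by rw [h2]
    simp only [LinearMap.add_apply, hc, h1, add_smul]
  have hw : x ∉ K ∙ (A e - e) := by
    have h1 := notMem_swap hx he2
    simpa using h1
  obtain ⟨z₀, hz₀⟩ := hsurj (A e)
  have hz₀w : z₀ ∉ K ∙ (A e - e) := by
    intro hm
    obtain ⟨s, hs⟩ := Submodule.mem_span_singleton.mp hm
    have h1 : A e = s • (A (A e) - A e - (A e - e)) := by
      calc A e = (A - 1) z₀ := hz₀.symm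
        _ = (A - 1) (s • (A e - e)) := by rw [hs]
        _ = s • (A (A e) - A e - (A e - e)) := by simp [map_smul, map_sub]
    have hs0 : s ≠ 0 := by
      rintro rfl
      rw [zero_smul] at h1
      apply he0
      rw [← hinv e, h1, map_zero]
    have h2 : e = s • (A e - e - (e - A' e)) := by
      have h3 := congrArg A' h1
      rw [hinv, map_smul] at h3
      simpa [hinv] using h3
    apply hneG (s⁻¹ + 2)
    simp only [LinearMap.add_apply]
    have h4 : s⁻¹ • e = A e - e - (e - A' e) := by
      conv_lhs => rw [h2]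
      rw [smul_smul, inv_mul_cancel₀ hs0, one_smul]
    rw [add_smul, h4]
    have h5 : (2 : K) • e = e + e := two_smul K e
    rw [h5]
    abel
  obtain ⟨z, hz⟩ : ∃ z, z ∉ (K ∙ e) ⊔ (K ∙ A e) := by
    by_contra hc
    push_neg at hc
    have htop : (K ∙ e) ⊔ (K ∙ A e) = (⊤ : Submodule K V) := by ext a; simp [hc a]
    have h1 := Submodule.finrank_add_le_finrank_add_finrank (K ∙ e) (K ∙ A e)
    have h2 := finrank_single_le (K := K) e
    have h3 := finrank_single_le (K := K) (A e)
    rw [htop, finrank_top] at h1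
    omega
  -- choose `f`
  obtain ⟨f, hfe, hfA, hfx, hfz₀, hfs⟩ : ∃ f : Dual K V, f e = 1 ∧ f (A e) = 1 ∧ f x ≠ 0 ∧ f z₀ ≠ 0 ∧
      ¬ ∀ t, A t - (-1 : K) • t = f (A t) • A e - ((-1 : K) * f t) • e := by
    by_cases hf₁ : ∃ f₁ : Dual K V, f₁ e = 1 ∧ f₁ (A e) = 1 ∧
        ∀ t, A t - (-1 : K) • t = f₁ (A t) • A e - ((-1 : K) * f₁ t) • e
    · obtain ⟨f₁, hf₁e, hf₁A, hf₁s⟩ := hf₁
      have hzz : z - f₁ z • e ∉ K ∙ (A e - e) := by
        intro hm
        obtain ⟨s, hs⟩ := Submodule.mem_span_singleton.mp hm
        apply hz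
        have h1 : z = f₁ z • e + s • (A e - e) := by
          rw [hs]
          abel
        have hm1 : e ∈ (K ∙ e) ⊔ (K ∙ A e) := Submodule.mem_sup_left (Submodule.mem_span_singleton_self _)
        have hm2 : A e ∈ (K ∙ e) ⊔ (K ∙ A e) := Submodule.mem_sup_right (Submodule.mem_span_singleton_self _)
        rw [h1]
        exact Submodule.add_mem _ (Submodule.smul_mem _ _ hm1)
          (Submodule.smul_mem _ _ (Submodule.sub_mem _ hm2 hm1))
      obtain ⟨f, hfe, hfA, hfL⟩ := exists_f_of T A e hne [x, z₀, z - f₁ z • e] (by simp; omega) (by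
        intro t ht
        simp only [List.mem_cons, List.not_mem_nil, or_false] at ht
        rcases ht with rfl | rfl | rfl
        · exact hw
        · exact hz₀w
        · exact hzz)
      refine ⟨f, hfe, hfA, hfL _ (by simp), hfL _ (by simp), ?_⟩
      intro hfsc
      have h0 := hfL (z - f₁ z • e) (by simp)
      apply h0
      have hff : f z = f₁ z := by
        have h1 := hfsc z
        have h2 := hf₁s z
        rw [h1] at h2
        have h3 : (f (A z) - f₁ (A z)) • A e + ((f z - f₁ z)) • e = 0 := by
          have h4 := sub_eq_zero.mpr h2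
          rw [sub_smul, sub_smul]
          simp only [neg_mul, one_mul, neg_smul] at h4
          linear_combination (norm := module) h4
        exact sub_eq_zero.mp (indep_of_noneig A e hne _ _ h3).2
      simp [hff, hfe]
    · obtain ⟨f, hfe, hfA, hfL⟩ := exists_f_of T A e hne [x, z₀] (by simp; omega) (by
        intro t ht
        simp only [List.mem_cons, List.not_mem_nil, or_false] at ht
        rcases ht with rfl | rfl
        · exact hw
        · exact hz₀w)
      exact ⟨f, hfe, hfA, hfL _ (by simp), hfL _ (by simp), fun hfsc => hf₁ ⟨f, hfe, hfA, hfsc⟩⟩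
  have h6 : ∃ h, f h = 0 ∧ f (A h) ≠ 0 := by
    obtain ⟨v₁, hv₁⟩ := hsurj e
    exact exists_h_of A e f hfe hfA v₁ (by rw [hv₁, hfe]; exact one_ne_zero)
  refine ⟨e, f, hfe, hfA, hfx, he1, ?_, h6, ?_⟩
  · have := hne 1
    rwa [one_smul] at this
  · intro _
    have hf1 := finrank_ker_f e f hfe
    have hrank : 2 ≤ finrank K (LinearMap.range (cmp A e f hfA - 1)) := by
      apply good_rank A e f hfA ⊥ _ (by rw [finrank_bot]; omega)
      intro h hh
      have h1 := cmp_fix A e f hfA h hh
      have h2 : (A - 1) (h : V) = (A - 1) (f (A h) • z₀) := by rw [map_smul, hz₀, h1]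
      have h3 : (h : V) = f (A h) • z₀ := hinj h2
      have h4 : f (h : V) = 0 := h.2
      rw [h3, map_smul, smul_eq_mul] at h4
      have h5 : f (A h) = 0 := (mul_eq_zero.mp h4).resolve_right hfz₀
      rw [h5, zero_smul] at h3
      simp [h3]
    refine ⟨?_, hrank⟩
    intro c hc
    have hc1 := scal_ne_one A e f hfA hrank c hc
    have hc2 : c ^ 2 = 1 := by
      have := scal_pow A e f hfe hfA hdet c hc
      have h5 : finrank K (LinearMap.ker f) = 2 := by omega
      rwa [h5] at this
    have hcm : c = -1 := by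
      have : (c - 1) * (c + 1) = 0 := by ring_nf; rw [hc2]; ring
      rcases mul_eq_zero.mp this with h | h
      · exact absurd (sub_eq_zero.mp h) hc1
      · exact eq_neg_of_add_eq_zero_left h
    subst hcm
    exact hfs (scal_eq A e f hfe hfA _ hc)

theorem exists_ef (T : Finset K) (hT : 4 ≤ T.card) (hn : 2 ≤ finrank K V)
    (A : Module.End K V) (hdet : LinearMap.det A = 1) (hG : Good A)
    (x : V) (y : Dual K V) (hx : x ≠ 0) (hy : y ≠ 0) : EF A x y := by
  by_cases hinj : Function.Injective (A - 1 : Module.End K V)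
  · by_cases h3 : finrank K V = 3
    · exact case_I3 T hT h3 A hdet hG hinj x y hx hy
    · exact case_I_ne3 T hT hn h3 A hdet hG hinj x y hx hy
  · by_cases hr : 3 ≤ finrank K (LinearMap.range (A - 1))
    · exact case_S_big T hT A hdet hG.1 hr hinj x y hx hy
    · exact case_S2 T hT A hdet (by have := hG.2; omega) hinj x y hx hy

end

theorem rf_main {K : Type u} [Field K] (T : Finset K) (hT : 4 ≤ T.card) (n : ℕ) :
    ∀ (V : Type v) [AddCommGroup V] [Module K V] [FiniteDimensional K V], finrank K V = n + 1 →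
      ∀ A : Module.End K V, LinearMap.det A = 1 → (1 ≤ n → Good A) →
      ∀ (x : V) (y : Dual K V), x ≠ 0 → y ≠ 0 → RF A x y := by
  induction n with
  | zero =>
    intro V _ _ _ h A hdet _ x y hx hy
    exact rf_base h A hdet x y hx hy
  | succ m ih =>
    intro V _ _ _ h A hdet hG x y hx hy
    obtain ⟨e, f, he, hA, hfx, hye, hAe, ⟨h₀, hh₁, hh₂⟩, hgood⟩ :=
      exists_ef T hT (by omega) A hdet (hG (by omega)) x y hx hy
    apply rf_step A e f he hA x y hfx hye
    have hk := finrank_ker_f e f he
    apply ih (LinearMap.ker f) (by omega) (cmp A e f hA) ((det_cmp A e f he hA).trans hdet)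
      (fun h1 => hgood (by omega))
    · intro h
      apply hAe
      have := congrArg Subtype.val h
      simpa [sub_eq_zero] using this
    · intro h
      apply hh₂
      have := congrArg (fun t : Dual K (LinearMap.ker f) => t ⟨h₀, hh₁⟩) h
      simpa using this

end Cfsg.Agent.H11.Gow
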