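import Mathlib
import Cfsg.Prelude.Def_ClassicalGeometry

set_option autoImplicit false
set_option linter.unusedSectionVars false

namespace Cfsg.Agent.H11.Transv

open Matrix Module Cfsg

variable {F : Type*} [Field F] {ι : Type} [Fintype ι] [DecidableEq ι]

/-- rank one decomposition -/
lemma exists_decomp (t : Matrix ι ι F) (ht : IsTransvection t) :
    ∃ (v w : ι → F), v ≠ 0 ∧ w ≠ 0 ∧ w ⬝ᵥ v = 0 ∧ t = 1 + vecMulVec v w := by
  classical
  obtain ⟨h1, h2⟩ := ht
  have hN : Matrix.rank (t - 1) = 1 := h1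
  rw [Matrix.rank, finrank_eq_one_iff'] at hN
  obtain ⟨⟨v, hv0⟩, hv, hv2⟩ := hN
  have hv' : v ≠ 0 := fun h => hv (Subtype.ext h)
  have hc : ∀ j, ∃ c : F, c • v = (t - 1) *ᵥ Pi.single j 1 := by
    intro j
    obtain ⟨c, hc⟩ := hv2 ⟨(t - 1) *ᵥ Pi.single j 1, ⟨_, rfl⟩⟩
    exact ⟨c, congrArg Subtype.val hc⟩
  choose w hw using hc
  have hdec : t - 1 = vecMulVec v w := by
    ext i j
    have := congrFun (hw j) i
    simp only [Pi.smul_apply, smul_eq_mul, Matrix.mulVec_single_one, Matrix.col_apply] at this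
    rw [← this, Matrix.vecMulVec_apply, mul_comm]
  have hw0 : w ≠ 0 := by
    rintro rfl
    apply hv
    have h0 : t - 1 = 0 := by
      rw [hdec]
      ext i j
      simp [Matrix.vecMulVec_apply]
    obtain ⟨x, hx⟩ := hv0
    apply Subtype.ext
    change v = 0
    rw [← hx, h0]
    simp
  have hdot : w ⬝ᵥ v = 0 := by
    rw [hdec] at h2
    obtain ⟨i, hi⟩ := Function.ne_iff.1 hv'
    obtain ⟨j, hj⟩ := Function.ne_iff.1 hw0
    have := congrFun (congrFun h2 i) j
    rw [Matrix.vecMulVec_mul_vecMulVec] at this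
    have h3 : v i = 0 ∨ w ⬝ᵥ v = 0 ∨ w j = 0 := by
      simpa [Matrix.vecMulVec_apply, Matrix.smul_apply] using this
    rcases h3 with h3 | h3 | h3
    · exact absurd h3 hi
    · exact h3
    · exact absurd h3 hj
  exact ⟨v, w, hv', hw0, hdot, by rw [← hdec]; abel⟩

/-- the functional attached to a vector -/
noncomputable def ph (w : ι → F) : (ι → F) →ₗ[F] F where
  toFun x := w ⬝ᵥ x
  map_add' x y := dotProduct_add w x y
  map_smul' c x := by simp [dotProduct_smul]

lemma ph_apply (w x : ι → F) : ph w x = w ⬝ᵥ x := rfl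

lemma exists_ph_eq_one {w : ι → F} (hw : w ≠ 0) : ∃ z, w ⬝ᵥ z = 1 := by
  obtain ⟨i, hi⟩ := Function.ne_iff.1 hw
  refine ⟨(w i)⁻¹ • Pi.single i 1, ?_⟩
  rw [dotProduct_smul, dotProduct_single]
  simp [show w i ≠ 0 from hi]

lemma ph_surjective {w : ι → F} (hw : w ≠ 0) : Function.Surjective (ph w) := by
  obtain ⟨z, hz⟩ := exists_ph_eq_one hw
  intro c
  refine ⟨c • z, ?_⟩
  rw [map_smul, ph_apply, hz]
  simp

lemma finrank_ker_ph {w : ι → F} (hw : w ≠ 0) : finrank F (LinearMap.ker (ph w)) + 1 = Fintype.card ι := by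
  have h1 := LinearMap.finrank_range_add_finrank_ker (ph w)
  rw [LinearMap.range_eq_top.2 (ph_surjective hw), finrank_top, finrank_self, finrank_fintype_fun_eq_card] at h1
  omega

/-- conjugacy of incident pairs -/
lemma exists_conj {v w v' w' : ι → F} (hv : v ≠ 0) (hw : w ≠ 0) (hwv : w ⬝ᵥ v = 0)
    (hv' : v' ≠ 0) (hw' : w' ≠ 0) (hwv' : w' ⬝ᵥ v' = 0) :
    ∃ P : Matrix ι ι F, IsUnit P.det ∧ P * (1 + vecMulVec v w) = (1 + vecMulVec v' w') * P := by
  classical
  let W := LinearMap.ker (ph w)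
  let W' := LinearMap.ker (ph w')
  have hfr : finrank F W = finrank F W' := by
    have h1 := finrank_ker_ph hw
    have h2 := finrank_ker_ph hw'
    change finrank F (LinearMap.ker (ph w)) = finrank F (LinearMap.ker (ph w'))
    omega
  let e₀ : W ≃ₗ[F] W' := LinearEquiv.ofFinrankEq W W' hfr
  let v₁ : W := ⟨v, hwv⟩
  let v₂ : W' := ⟨v', hwv'⟩
  have hv₁ : e₀ v₁ ≠ 0 := by
    intro h
    have := e₀.map_eq_zero_iff.1 h
    exact hv (congrArg Subtype.val this)
  have hv₂ : v₂ ≠ 0 := fun h => hv' (congrArg Subtype.val h)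
  let f : Submodule.span F {e₀ v₁} ≃ₗ[F] Submodule.span F {v₂} :=
    (LinearEquiv.toSpanNonzeroSingleton F W' _ hv₁).symm ≪≫ₗ LinearEquiv.toSpanNonzeroSingleton F W' _ hv₂
  obtain ⟨g₁, hg₁⟩ := Submodule.exists_linearEquiv_restrict_eq f
  have hg₁v : g₁ (e₀ v₁) = v₂ := by
    have h1 := hg₁ ⟨e₀ v₁, Submodule.mem_span_singleton_self _⟩
    have h2 : f ⟨e₀ v₁, Submodule.mem_span_singleton_self _⟩ = ⟨v₂, Submodule.mem_span_singleton_self _⟩ := by
      change LinearEquiv.toSpanNonzeroSingleton F W' _ hv₂ ((LinearEquiv.toSpanNonzeroSingleton F W' _ hv₁).symm _) = _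
      have h3 : (⟨e₀ v₁, Submodule.mem_span_singleton_self _⟩ : Submodule.span F {e₀ v₁}) =
          LinearEquiv.toSpanNonzeroSingleton F W' _ hv₁ 1 := by
        rw [LinearEquiv.toSpanNonzeroSingleton_one]
      rw [h3, LinearEquiv.symm_apply_apply, LinearEquiv.toSpanNonzeroSingleton_one]
    rw [h2] at h1
    exact h1.symm
  let fW : W ≃ₗ[F] W' := e₀ ≪≫ₗ g₁
  have hfW : fW v₁ = v₂ := hg₁v
  obtain ⟨z, hz⟩ := exists_ph_eq_one hw
  obtain ⟨z', hz'⟩ := exists_ph_eq_one hw'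
  -- the projection onto `W`
  let pr : (ι → F) →ₗ[F] W := LinearMap.codRestrict W (LinearMap.id - (LinearMap.toSpanSingleton F _ z).comp (ph w)) (by
    intro x
    change w ⬝ᵥ (x - (w ⬝ᵥ x) • z) = 0
    rw [dotProduct_sub, dotProduct_smul, hz]
    simp)
  have hpr : ∀ x : ι → F, ((pr x : W) : ι → F) = x - (w ⬝ᵥ x) • z := fun x => rfl
  let g : (ι → F) →ₗ[F] (ι → F) :=
    W'.subtype.comp (fW.toLinearMap.comp pr) + (LinearMap.toSpanSingleton F _ z').comp (ph w)
  have hg : ∀ x, g x = (fW (pr x) : ι → F) + (w ⬝ᵥ x) • z' := fun x => rfl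
  have hw'g : ∀ x, w' ⬝ᵥ g x = w ⬝ᵥ x := by
    intro x
    rw [hg, dotProduct_add, dotProduct_smul, hz']
    have : w' ⬝ᵥ (fW (pr x) : ι → F) = 0 := (fW (pr x)).2
    rw [this]
    simp
  have hgv : g v = v' := by
    rw [hg, hwv, zero_smul, add_zero]
    have : pr v = v₁ := by
      apply Subtype.ext
      rw [hpr, hwv]
      simp [v₁]
    rw [this, hfW]
  have hinj : Function.Injective g := by
    rw [← LinearMap.ker_eq_bot, eq_bot_iff]
    intro x hx
    have hx0 : g x = 0 := hx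
    have h1 : w ⬝ᵥ x = 0 := by rw [← hw'g, hx0]; simp
    rw [hg, h1, zero_smul, add_zero] at hx0
    have h2 : fW (pr x) = 0 := Subtype.ext hx0
    have h3 := fW.map_eq_zero_iff.1 h2
    have h4 := congrArg Subtype.val h3
    change ((pr x : W) : ι → F) = 0 at h4
    rw [hpr, h1] at h4
    simpa using h4
  let P := LinearMap.toMatrix' g
  have hP : ∀ x, P *ᵥ x = g x := fun x => LinearMap.toMatrix'_mulVec g x
  refine ⟨P, ?_, ?_⟩
  · rw [← Matrix.isUnit_iff_isUnit_det, ← Matrix.mulVec_injective_iff_isUnit]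
    intro x y hxy
    apply hinj
    rw [← hP, ← hP]
    exact hxy
  · rw [mul_add, add_mul, mul_one, one_mul, Matrix.mul_vecMulVec, Matrix.vecMulVec_mul, hP, hgv]
    congr 2
    funext i
    have := hw'g (Pi.single i 1)
    rw [dotProduct_single, mul_one] at this
    rw [← this, ← hP]
    rw [Matrix.dotProduct_mulVec, dotProduct_single, mul_one]

end Cfsg.Agent.H11.Transv
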