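import Cfsg.Agent.Lib.H11.Gow4
import Cfsg.Agent.Lib.H11.RegUnip3
import Cfsg.Agent.Lib.H11.Transv

set_option autoImplicit false
open Module Matrix

namespace Cfsg.Agent.H11.Gow

variable {K : Type*} [Field K] {n : ℕ}

lemma J_eq (J : Matrix (Fin n) (Fin n) K)
    (hJ : ∀ i j : Fin n, J i j = if i = j then 1 else if j.val = i.val + 1 then 1 else 0) :
    J = 1 + shiftM n K := by
  ext i j
  rw [hJ, Matrix.add_apply, Matrix.one_apply]
  simp only [shiftM, Matrix.of_apply]
  by_cases h : i = j
  · subst h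
    simp
  · simp [h]

/-- A nilpotent matrix with one-dimensional kernel is similar to the shift. -/
lemma reg_conj (hn : 1 ≤ n) (N : Matrix (Fin n) (Fin n) K) (hN : IsNilpotent N)
    (hK : K1 (N.mulVecLin : Module.End K (Fin n → K))) :
    ∃ P : GL (Fin n) K, (P : Matrix (Fin n) (Fin n) K) * N = shiftM n K * P := by
  classical
  let T : Module.End K (Fin n → K) := N.mulVecLin
  have hTnil : IsNilpotent T := by
    obtain ⟨m, hm⟩ := hN
    refine ⟨m, ?_⟩
    change (N.mulVecLin : Module.End K (Fin n → K)) ^ m = 0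
    rw [← mulVecLin_pow', hm]
    ext x
    simp
  have hpow : N ^ n = 0 := by
    have h1 := pow_finrank_eq_zero_of_nilpotent T hTnil
    rw [finrank_fintype_fun_eq_card, Fintype.card_fin] at h1
    apply mulVecLin_injective'
    change (N ^ n).mulVecLin = (0 : Matrix (Fin n) (Fin n) K).mulVecLin
    rw [mulVecLin_pow', Matrix.mulVecLin_zero]
    exact h1
  -- a kernel vector
  have hker : finrank K (LinearMap.ker T) = 1 := by
    obtain ⟨a, ha0, ha⟩ : ∃ a, a ≠ 0 ∧ T a = 0 := by
      by_contra hc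
      push_neg at hc
      have hv : (Pi.single ⟨0, hn⟩ 1 : Fin n → K) ≠ 0 := by
        intro h
        have := congrFun h ⟨0, hn⟩
        simp at this
      have hinj : ∀ k : ℕ, ∀ v, v ≠ 0 → (T ^ k) v ≠ 0 := by
        intro k
        induction k with
        | zero => intro v hv; simpa using hv
        | succ k ih =>
          intro v hv
          rw [pow_succ, Module.End.mul_apply]
          exact ih _ (hc v hv)
      obtain ⟨m, hm⟩ := hTnil
      apply hinj m _ hv
      rw [hm]
      rfl
    have hk : LinearMap.ker T = K ∙ a := by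
      apply le_antisymm
      · intro b hb
        obtain ⟨c, hc⟩ := hK a b ha hb ha0
        exact Submodule.mem_span_singleton.mpr ⟨c, hc.symm⟩
      · rw [Submodule.span_singleton_le_iff_mem]
        exact ha
    rw [hk, finrank_span_singleton ha0]
  have hrank : N.rank = n - 1 := by
    have h1 := LinearMap.finrank_range_add_finrank_ker T
    rw [finrank_fintype_fun_eq_card, Fintype.card_fin, hker] at h1
    have h2 : finrank K (LinearMap.range T) = N.rank := rfl
    omega
  have h0 : 1 ≤ Fintype.card (Fin n) := by simpa using hn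
  have := regular_similar h0 (N := N) (N' := shiftM n K) (by simpa using hpow) (by simpa using hrank)
    (by simpa using shiftM_pow_card) (by simpa using shiftM_rank)
  exact this

lemma conj_J (hn : 1 ≤ n) (J : GL (Fin n) K)
    (hJ : ∀ i j : Fin n, (J : Matrix (Fin n) (Fin n) K) i j = if i = j then 1 else if j.val = i.val + 1 then 1 else 0)
    (N : Matrix (Fin n) (Fin n) K) (hN : IsNilpotent N)
    (hK : K1 (N.mulVecLin : Module.End K (Fin n → K))) :
    ∃ x : GL (Fin n) K, 1 + N = ((x * J * x⁻¹ : GL (Fin n) K) : Matrix (Fin n) (Fin n) K) := by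
  obtain ⟨P, hP⟩ := reg_conj hn N hN hK
  refine ⟨P⁻¹, ?_⟩
  have h1 := J_eq _ hJ
  have h2 : (P : Matrix (Fin n) (Fin n) K) * (1 + N) = (J : Matrix (Fin n) (Fin n) K) * P := by
    rw [h1, mul_add, add_mul, mul_one, one_mul, hP]
  have h3 : ((P⁻¹ * J * P⁻¹⁻¹ : GL (Fin n) K) : Matrix (Fin n) (Fin n) K) =
      ((P⁻¹ : GL (Fin n) K) : Matrix (Fin n) (Fin n) K) * (J * P) := by
    simp [mul_assoc]
  rw [h3, ← h2, ← mul_assoc]
  simp

lemma rf_case (T : Finset K) (hT : 4 ≤ T.card) (hn : 3 ≤ n) (g J : GL (Fin n) K)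
    (hJ : ∀ i j : Fin n, (J : Matrix (Fin n) (Fin n) K) i j = if i = j then 1 else if j.val = i.val + 1 then 1 else 0)
    (hG : Good (Matrix.toLin' (g : Matrix (Fin n) (Fin n) K) : Module.End K (Fin n → K)))
    (hdet : (g : Matrix (Fin n) (Fin n) K).det = 1) :
    ∃ x y : GL (Fin n) K, g = (x * J * x⁻¹) * (y * J * y⁻¹) := by
  classical
  have h0 : 0 < n := by omega
  let φ : Matrix (Fin n) (Fin n) K ≃ₐ[K] Module.End K (Fin n → K) := Matrix.toLinAlgEquiv'
  have hφ : ∀ M : Matrix (Fin n) (Fin n) K, φ M = M.mulVecLin := fun M => by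
    ext1 x
    ext i
    simp [φ, Matrix.toLinAlgEquiv'_apply]
  let A : Module.End K (Fin n → K) := Matrix.toLin' (g : Matrix (Fin n) (Fin n) K)
  have hA : A = φ (g : Matrix (Fin n) (Fin n) K) := by
    rw [hφ]
    exact Matrix.toLin'_apply' _
  have hx₀ : (Pi.single ⟨0, h0⟩ 1 : Fin n → K) ≠ 0 := by
    intro h
    have := congrFun h ⟨0, h0⟩
    simp at this
  have hy₀ : (LinearMap.proj ⟨0, h0⟩ : Dual K (Fin n → K)) ≠ 0 := by
    intro h
    have := congrArg (fun t : Dual K (Fin n → K) => t (Pi.single ⟨0, h0⟩ 1)) h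
    simp at this
  obtain ⟨L, U, hLU, hNL, hNU, hKL, hKU, -, -⟩ := rf_main T hT (n - 1) (Fin n → K)
    (by simp; omega) A (by rw [LinearMap.det_toLin']; exact hdet) (fun _ => hG) _ _ hx₀ hy₀
  let N₁ := φ.symm (L - 1)
  let N₂ := φ.symm (U - 1)
  have h1 : φ N₁ = L - 1 := by simp [N₁]
  have h2 : φ N₂ = U - 1 := by simp [N₂]
  have hm1 : N₁.mulVecLin = L - 1 := by rw [← hφ, h1]
  have hm2 : N₂.mulVecLin = U - 1 := by rw [← hφ, h2]
  obtain ⟨x, hx⟩ := conj_J (by omega) J hJ N₁ (hNL.map φ.symm) (by rw [hm1]; exact hKL)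
  obtain ⟨y, hy⟩ := conj_J (by omega) J hJ N₂ (hNU.map φ.symm) (by rw [hm2]; exact hKU)
  refine ⟨x, y, ?_⟩
  apply Units.ext
  rw [Units.val_mul, ← hx, ← hy]
  apply φ.injective
  rw [← hA, hLU, map_mul, map_add, map_add, map_one, h1, h2]
  simp

lemma tr_case (T : Finset K) (hT : 4 ≤ T.card) (hn : 3 ≤ n) (g J : GL (Fin n) K)
    (hJ : ∀ i j : Fin n, (J : Matrix (Fin n) (Fin n) K) i j = if i = j then 1 else if j.val = i.val + 1 then 1 else 0)
    (hns : ∀ c : K, (Matrix.toLin' (g : Matrix (Fin n) (Fin n) K) : Module.End K (Fin n → K)) ≠ c • 1)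
    (hr : finrank K (LinearMap.range ((Matrix.toLin' (g : Matrix (Fin n) (Fin n) K) : Module.End K (Fin n → K)) - 1)) ≤ 1)
    (hdet : (g : Matrix (Fin n) (Fin n) K).det = 1) :
    ∃ x y : GL (Fin n) K, g = (x * J * x⁻¹) * (y * J * y⁻¹) := by
  classical
  have h0 : 0 < n := by omega
  let A : Module.End K (Fin n → K) := Matrix.toLin' (g : Matrix (Fin n) (Fin n) K)
  let B : Module.End K (Fin n → K) := A - 1
  -- rank one form
  obtain ⟨v₁, hv₁⟩ : ∃ v₁, B v₁ ≠ 0 := by
    by_contra hc
    push_neg at hc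
    apply hns 1
    ext1 x
    have h1 : A (Pi.single x 1) - Pi.single x 1 = 0 := hc ((Pi.single x 1 : Fin n → K))
    ext i
    have h2 := congrFun (sub_eq_zero.mp h1) i
    simpa [A] using h2
  set u : Fin n → K := B v₁ with hu
  have hrange : LinearMap.range B = K ∙ u := by
    symm
    apply Submodule.eq_of_le_of_finrank_le
    · rw [Submodule.span_singleton_le_iff_mem]
      exact ⟨v₁, rfl⟩
    · rw [finrank_span_singleton hv₁]
      exact hr
  obtain ⟨ξ, hξ⟩ : ∃ ξ : Dual K (Fin n → K), ξ u = 1 := by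
    obtain ⟨ξ₀, h₀⟩ : ∃ ξ₀ : Dual K (Fin n → K), ξ₀ u ≠ 0 := by
      by_contra hc
      push_neg at hc
      exact hv₁ ((Module.forall_dual_apply_eq_zero_iff K u).1 hc)
    exact ⟨(ξ₀ u)⁻¹ • ξ₀, by simp [h₀]⟩
  let ψ : Dual K (Fin n → K) := ξ ∘ₗ B
  have hψ : ∀ v, B v = ψ v • u := by
    intro v
    have : B v ∈ K ∙ u := by rw [← hrange]; exact ⟨v, rfl⟩
    obtain ⟨s, hs⟩ := Submodule.mem_span_singleton.mp this
    have h2 : ψ v = s := by
      show ξ (B v) = s
      rw [← hs, map_smul, hξ, smul_eq_mul, mul_one]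
    rw [h2, hs]
  have hAt : A = LinearMap.transvection ψ u := by
    ext1 x
    ext i
    have h2 : A (Pi.single x 1) = Pi.single x 1 + B (Pi.single x 1) := by simp [B]
    simp only [LinearMap.coe_comp, LinearMap.coe_single, Function.comp_apply, h2, hψ,
      LinearMap.transvection.apply]
  have hψu : ψ u = 0 := by
    have h2 : LinearMap.det A = 1 := by
      rw [LinearMap.det_toLin']
      exact hdet
    rw [hAt, LinearMap.transvection.det] at h2
    simpa using h2
  let w : Fin n → K := fun j => ψ (Pi.single j 1)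
  have hgw : (g : Matrix (Fin n) (Fin n) K) = 1 + vecMulVec u w := by
    ext i j
    have h2 : (g : Matrix (Fin n) (Fin n) K) i j = (A (Pi.single j 1)) i := by
      simp [A]
    have h3 : A (Pi.single j 1) = Pi.single j 1 + w j • u := by
      rw [hAt, LinearMap.transvection.apply]
    rw [h2, h3]
    simp [Matrix.one_apply, vecMulVec_apply, Pi.single_apply, mul_comm, eq_comm]
  have hwu : w ⬝ᵥ u = 0 := by
    rw [← hψu]
    conv_rhs => rw [LinearMap.pi_apply_eq_sum_univ ψ u]
    simp only [dotProduct, w, smul_eq_mul]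
    apply Finset.sum_congr rfl
    intro j _
    rw [mul_comm]
    congr 2
    ext i
    simp [Pi.single_apply, eq_comm]
  have hw : w ≠ 0 := by
    intro h
    have h2 : ψ v₁ = 1 := by
      have h3 := hψ v₁
      have h4 : (1 : K) • u = ψ v₁ • u := by rw [one_smul]; exact h3
      have h5 : ((1 : K) - ψ v₁) • u = 0 := by rw [sub_smul, sub_eq_zero]; exact h4
      exact (sub_eq_zero.mp ((smul_eq_zero.mp h5).resolve_right hv₁)).symm
    have h3 : ψ v₁ = 0 := by
      rw [LinearMap.pi_apply_eq_sum_univ ψ v₁]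
      apply Finset.sum_eq_zero
      intro j _
      have h4 : w j = 0 := by rw [h]; rfl
      have h5 : (fun i' => if j = i' then (1 : K) else 0) = Pi.single j 1 := by
        ext i
        simp [Pi.single_apply, eq_comm]
      rw [h5]
      simp only [w] at h4
      rw [h4, smul_zero]
    rw [h3] at h2
    exact zero_ne_one h2
  -- normal form
  let i0 : Fin n := ⟨0, h0⟩
  let il : Fin n := ⟨n - 1, by omega⟩
  have hil : i0 ≠ il := by
    intro h
    have := congrArg Fin.val h
    simp only [i0, il] at this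
    omega
  let e0 : Fin n → K := Pi.single i0 1
  let el : Fin n → K := Pi.single il 1
  have he0 : e0 ≠ 0 := by
    intro h
    have := congrFun h i0
    simp [e0] at this
  have hel : el ≠ 0 := by
    intro h
    have := congrFun h il
    simp [el] at this
  have hele0 : el ⬝ᵥ e0 = 0 := by
    simp [el, e0, dotProduct, Pi.single_apply, hil]
  obtain ⟨P, hPu, hP⟩ := Transv.exists_conj hv₁ hw hwu he0 hel hele0
  rw [← hgw] at hP
  let Tm : Matrix (Fin n) (Fin n) K := vecMulVec e0 el
  let S := shiftM n K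
  have hJS : (J : Matrix (Fin n) (Fin n) K) = 1 + S := J_eq _ hJ
  have hTS : Tm * S = 0 := by
    ext i j
    rw [Matrix.mul_apply]
    apply Finset.sum_eq_zero
    intro k _
    simp only [Tm, vecMulVec_apply, el, S, shiftM, Matrix.of_apply, Pi.single_apply]
    by_cases hk : k = il
    · subst hk
      have : ¬ (j : ℕ) = (il : ℕ) + 1 := by
        have := j.2
        simp only [il]
        omega
      simp [this]
    · simp [hk]
  have hST : S * Tm = 0 := by
    ext i j
    rw [Matrix.mul_apply]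
    apply Finset.sum_eq_zero
    intro k _
    simp only [Tm, vecMulVec_apply, e0, S, shiftM, Matrix.of_apply, Pi.single_apply]
    by_cases hk : k = i0
    · subst hk
      have : ¬ ((i0 : Fin n) : ℕ) = (i : ℕ) + 1 := by
        simp only [i0]
        omega
      simp [this]
    · simp [hk]
  have hTT : Tm * Tm = 0 := by
    ext i j
    rw [Matrix.mul_apply]
    apply Finset.sum_eq_zero
    intro k _
    simp only [Tm, vecMulVec_apply, e0, el, Pi.single_apply]
    by_cases hk : k = il
    · subst hk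
      simp [Ne.symm hil]
    · simp [hk]
  let E : Matrix (Fin n) (Fin n) K := 1 + Tm
  let Ji : Matrix (Fin n) (Fin n) K := ((J⁻¹ : GL (Fin n) K) : Matrix (Fin n) (Fin n) K)
  have hJJi : (J : Matrix (Fin n) (Fin n) K) * Ji = 1 := by simp [Ji]
  have hJiJ : Ji * (J : Matrix (Fin n) (Fin n) K) = 1 := by simp [Ji]
  let Z : Matrix (Fin n) (Fin n) K := Tm - S
  have hcomm : Commute (J : Matrix (Fin n) (Fin n) K) Z := by
    show (J : Matrix (Fin n) (Fin n) K) * Z = Z * J
    rw [hJS]
    simp only [Z, mul_add, add_mul, mul_one, one_mul, mul_sub, sub_mul, hTS, hST]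
    abel
  have hcommi : Commute Ji Z := by
    show Ji * Z = Z * Ji
    calc Ji * Z = Ji * (Z * (J * Ji)) := by rw [hJJi, mul_one]
      _ = Ji * ((Z * J) * Ji) := by rw [mul_assoc]
      _ = Ji * ((J * Z) * Ji) := by rw [hcomm.eq]
      _ = (Ji * J) * Z * Ji := by simp only [mul_assoc]
      _ = Z * Ji := by rw [hJiJ, one_mul]
  have hZ2 : Z ^ 2 = S ^ 2 := by
    simp only [Z, sq, mul_sub, sub_mul, hTS, hST, hTT]
    simp
  have hZnil : IsNilpotent Z := by
    refine ⟨2 * n, ?_⟩
    rw [pow_mul, hZ2, ← pow_mul, mul_comm, pow_mul, shiftM_pow_card]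
    simp
  let N₂ : Matrix (Fin n) (Fin n) K := Ji * E - 1
  have hN₂ : N₂ = Ji * Z := by
    have h2 : E = J * 1 + Z := by
      rw [hJS]
      simp only [E, Z]
      noncomm_ring
    simp only [N₂]
    rw [h2, mul_add, ← mul_assoc, hJiJ]
    noncomm_ring
  have hN₂nil : IsNilpotent N₂ := by
    rw [hN₂]
    exact hcommi.isNilpotent_mul_left hZnil
  -- kernel of `N₂`
  have hkey : ∀ a : Fin n → K, N₂.mulVecLin a = 0 → a = a i0 • e0 := by
    intro a ha
    have h2 : Z *ᵥ a = 0 := by
      have h3 : (J : Matrix (Fin n) (Fin n) K) *ᵥ (N₂ *ᵥ a) = 0 := by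
        have h4 : N₂ *ᵥ a = 0 := ha
        rw [h4, Matrix.mulVec_zero]
      rw [hN₂, Matrix.mulVec_mulVec, ← mul_assoc, hJJi, one_mul] at h3
      exact h3
    have h3 : ∀ i, (Tm *ᵥ a) i = (S *ᵥ a) i := by
      intro i
      have h4 := congrFun h2 i
      simp only [Z, Matrix.sub_mulVec, Pi.sub_apply, Pi.zero_apply, sub_eq_zero] at h4
      exact h4
    have h4 : ∀ i, (Tm *ᵥ a) i = e0 i * a il := by
      intro i
      simp only [Tm, Matrix.mulVec, dotProduct, vecMulVec_apply, el, Pi.single_apply]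
      rw [Finset.sum_eq_single il]
      · simp
      · intro b _ hb
        simp [hb]
      · simp
    have h5 : ∀ j : Fin n, 2 ≤ (j : ℕ) → a j = 0 := by
      intro j hj
      have hlt : (j : ℕ) - 1 < n := by have := j.2; omega
      have h6 := h3 ⟨(j : ℕ) - 1, hlt⟩
      rw [h4] at h6
      have h7 : (S *ᵥ a) ⟨(j : ℕ) - 1, hlt⟩ = a j := by
        simp only [S]
        rw [shiftM_mulVec]
        have hlt2 : (j : ℕ) - 1 + 1 < n := by have := j.2; omega
        simp only [hlt2, dif_pos]
        congr 1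
        apply Fin.ext
        simp
        omega
      rw [h7] at h6
      rw [← h6]
      have h8 : e0 ⟨(j : ℕ) - 1, hlt⟩ = 0 := by
        simp only [e0, Pi.single_apply]
        rw [if_neg]
        intro h9
        have := congrArg Fin.val h9
        simp only [i0] at this
        omega
      rw [h8, zero_mul]
    have h6 : a il = 0 := h5 il (by simp only [il]; omega)
    ext j
    by_cases hj : j = i0
    · subst hj
      simp [e0]
    · have h7 : j.val ≠ 0 := by
        intro h8
        exact hj (Fin.ext h8)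
      have h8 : e0 j = 0 := by simp [e0, Pi.single_apply, hj]
      simp only [Pi.smul_apply, h8, smul_zero]
      by_cases hj1 : (j : ℕ) = 1
      · have h9 := h3 i0
        rw [h4, h6, mul_zero] at h9
        have h10 : (S *ᵥ a) i0 = a j := by
          simp only [S]
          rw [shiftM_mulVec]
          have hlt2 : (i0 : ℕ) + 1 < n := by simp only [i0]; omega
          simp only [hlt2, dif_pos]
          congr 1
          apply Fin.ext
          simp only [i0]
          omega
        rw [h10] at h9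
        exact h9.symm
      · exact h5 j (by omega)
  have hN₂K : K1 (N₂.mulVecLin : Module.End K (Fin n → K)) := by
    intro a b ha hb ha0
    have h2 := hkey a ha
    have h3 := hkey b hb
    have h4 : a i0 ≠ 0 := by
      intro h
      apply ha0
      rw [h2, h, zero_smul]
    refine ⟨b i0 * (a i0)⁻¹, ?_⟩
    calc b = b i0 • e0 := h3
      _ = (b i0 * (a i0)⁻¹) • (a i0 • e0) := by rw [smul_smul, mul_assoc, inv_mul_cancel₀ h4, mul_one]
      _ = (b i0 * (a i0)⁻¹) • a := by rw [← h2]
  obtain ⟨y, hy⟩ := conj_J (by omega) J hJ N₂ hN₂nil hN₂K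
  have hy' : ((y * J * y⁻¹ : GL (Fin n) K) : Matrix (Fin n) (Fin n) K) = Ji * E := by
    rw [← hy]
    simp [N₂]
  -- assemble
  let Q : GL (Fin n) K := Matrix.GeneralLinearGroup.mk'' P hPu
  have hQ : (Q : Matrix (Fin n) (Fin n) K) = P := rfl
  have hQg : Q * g = J * (y * J * y⁻¹) * Q := by
    apply Units.ext
    rw [Units.val_mul, Units.val_mul, Units.val_mul, hy', hQ, hP, ← mul_assoc, hJJi, one_mul]
  refine ⟨Q⁻¹, Q⁻¹ * y, ?_⟩
  have h9 : g = Q⁻¹ * (J * (y * J * y⁻¹) * Q) := by
    rw [← hQg]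
    group
  rw [h9]
  group

end Cfsg.Agent.H11.Gow
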