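/-
Arithmetic for Hall subgroups of symmetric groups: small primes dividing binomial coefficients.
-/
import Mathlib

set_option autoImplicit false

namespace Cfsg.Agent.H11.HallS

open Nat Finset

lemma term_ineq (u : ℕ) : u/3 + u/18 + u/36 + 2*(u/2) ≤ u/4 + u/6 + u := by omega

lemma fm2 (a b ℓ : ℕ) (ha : a ≠ 0) (hb : b ≠ 0) :
    (a*b).factorization ℓ = a.factorization ℓ + b.factorization ℓ := by
  simp [Nat.factorization_mul, ha, hb]

theorem key_dvd (m : ℕ) (hm : 0 < m) :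
    ((2*m)/3)! * ((2*m)/18)! * ((2*m)/36)! ∣ ((2*m)/4)! * ((2*m)/6)! * choose (2*m) m := by
  have hC : choose (2*m) m * m ! * m ! = (2*m)! := by
    have := Nat.choose_mul_factorial_mul_factorial (show m ≤ 2*m by omega)
    rwa [show 2*m - m = m by omega] at this
  have h0 : ∀ N : ℕ, N ! ≠ 0 := Nat.factorial_ne_zero
  have hC0 : choose (2*m) m ≠ 0 := (Nat.choose_pos (by omega)).ne'
  rw [← Nat.factorization_prime_le_iff_dvd (by simp [h0]) (by simp [h0, hC0])]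
  intro ℓ hℓ
  have hb : ∀ N : ℕ, N ≤ 2*m → log ℓ N < 2*m+1 := fun N hN =>
    lt_of_le_of_lt (Nat.log_le_self _ _) (by omega)
  have e : ∀ k : ℕ, 1 ≤ k → (((2*m)/k)!).factorization ℓ = ∑ i ∈ Ico 1 (2*m+1), ((2*m)/ℓ^i)/k := by
    intro k _
    rw [Nat.factorization_factorial hℓ (hb _ (Nat.div_le_self _ _))]
    refine Finset.sum_congr rfl fun i _ => ?_
    rw [Nat.div_div_eq_div_mul, Nat.div_div_eq_div_mul, Nat.mul_comm k]
  have e1 : ((2*m)!).factorization ℓ = ∑ i ∈ Ico 1 (2*m+1), ((2*m)/ℓ^i) :=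
    Nat.factorization_factorial hℓ (hb _ le_rfl)
  have e2 : (m !).factorization ℓ = ∑ i ∈ Ico 1 (2*m+1), ((2*m)/ℓ^i)/2 := by
    have := e 2 (by omega)
    rwa [show 2*m/2 = m by omega] at this
  have hv : (choose (2*m) m).factorization ℓ + (m !).factorization ℓ + (m !).factorization ℓ
      = ((2*m)!).factorization ℓ := by
    rw [← hC, fm2 _ _ _ (by simp [hC0, h0]) (h0 _), fm2 _ _ _ hC0 (h0 _)]
  rw [fm2 _ _ _ (by simp [h0]) (h0 _), fm2 _ _ _ (h0 _) (h0 _),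
    fm2 _ _ _ (by simp [h0]) hC0, fm2 _ _ _ (h0 _) (h0 _),
    e 3 (by omega), e 18 (by omega), e 36 (by omega), e 4 (by omega), e 6 (by omega)]
  have hs : ∑ i ∈ Ico 1 (2*m+1), ((2*m/ℓ^i)/3 + (2*m/ℓ^i)/18 + (2*m/ℓ^i)/36 + 2*((2*m/ℓ^i)/2))
      ≤ ∑ i ∈ Ico 1 (2*m+1), ((2*m/ℓ^i)/4 + (2*m/ℓ^i)/6 + (2*m/ℓ^i)) :=
    Finset.sum_le_sum fun i _ => term_ineq _
  simp only [Finset.sum_add_distrib, ← Finset.mul_sum] at hs
  rw [e1, e2] at hv
  omega

lemma choose_two (m : ℕ) (hm : 1 ≤ m) : choose (2*m) m = 2 * choose (2*m-1) m := by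
  obtain ⟨t, rfl⟩ : ∃ t, m = t+1 := ⟨m-1, by omega⟩
  have h1 : 2*(t+1) = (2*t+1)+1 := by ring
  have h2 : 2*(t+1) - 1 = 2*t+1 := by omega
  rw [h2, h1, Nat.choose_succ_succ' (2*t+1) t, ← Nat.choose_symm_half t]
  ring

/-- telescoping lower bound -/
lemma fac_prod (a k : ℕ) : (a+k)! = a ! * ∏ i ∈ range k, (a+1+i) := by
  rw [← Nat.factorial_mul_ascFactorial, Nat.ascFactorial_eq_prod_range]

lemma poly_ineq (w : ℕ) :
    19 * ((∏ i ∈ range 9, (9*w+1+i)) * ∏ i ∈ range 6, (6*w+1+i))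
      ≤ 10 * ((∏ i ∈ range 12, (12*w+1+i)) * (∏ i ∈ range 2, (2*w+1+i)) * (∏ i ∈ range 1, (w+1+i))) := by
  have : 10 * ((∏ i ∈ range 12, (12*w+1+i)) * (∏ i ∈ range 2, (2*w+1+i)) * (∏ i ∈ range 1, (w+1+i)))
      = 19 * ((∏ i ∈ range 9, (9*w+1+i)) * ∏ i ∈ range 6, (6*w+1+i)) + (4615833600*w^0 + 195700665600*w^1 + 3477275562816*w^2 + 35246267302176*w^3 + 231346174746960*w^4 + 1051283327358600*w^5 + 3436900114713912*w^6 + 8260340099775192*w^7 + 14738139978459480*w^8 + 19512371978253000*w^9 + 18957349803574728*w^10 + 13185129684861288*w^11 + 6269574934659960*w^12 + 1869620610070800*w^13 + 290604472304544*w^14 + 13209701569344*w^15) := by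
    simp only [Finset.prod_range_succ, Finset.prod_range_zero]
    ring
  omega

lemma tel (w : ℕ) : 19^w * ((9*w)! * (6*w)!) ≤ 10^w * ((12*w)! * (2*w)! * w !) := by
  induction w with
  | zero => simp
  | succ w ih =>
    have e1 : (9*(w+1))! = (9*w)! * ∏ i ∈ range 9, (9*w+1+i) := by
      rw [show 9*(w+1) = 9*w+9 by ring, fac_prod]
    have e2 : (6*(w+1))! = (6*w)! * ∏ i ∈ range 6, (6*w+1+i) := by
      rw [show 6*(w+1) = 6*w+6 by ring, fac_prod]
    have e3 : (12*(w+1))! = (12*w)! * ∏ i ∈ range 12, (12*w+1+i) := by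
      rw [show 12*(w+1) = 12*w+12 by ring, fac_prod]
    have e4 : (2*(w+1))! = (2*w)! * ∏ i ∈ range 2, (2*w+1+i) := by
      rw [show 2*(w+1) = 2*w+2 by ring, fac_prod]
    have e5 : (w+1)! = w ! * ∏ i ∈ range 1, (w+1+i) := by
      rw [fac_prod]
    rw [e1, e2, e3, e4, e5]
    have h := Nat.mul_le_mul ih (poly_ineq w)
    calc _ = 19^w * ((9*w)! * (6*w)!) * (19 * ((∏ i ∈ range 9, (9*w+1+i)) * ∏ i ∈ range 6, (6*w+1+i))) := by ring
      _ ≤ _ := h
      _ = _ := by ring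

lemma I2 (w : ℕ) (hw : 144 ≤ w) : 10^w * 2 * (9*w+8)^8 * (6*w+5)^5 < 19^w := by
  induction w, hw using Nat.le_induction with
  | base => norm_num
  | succ w hw ih =>
    have h1 : 20 * (9*(w+1)+8) ≤ 21 * (9*w+8) := by omega
    have h2 : 20 * (6*(w+1)+5) ≤ 21 * (6*w+5) := by omega
    have h3 : (20 * (9*(w+1)+8))^8 ≤ (21 * (9*w+8))^8 := Nat.pow_le_pow_left h1 8
    have h4 : (20 * (6*(w+1)+5))^5 ≤ (21 * (6*w+5))^5 := Nat.pow_le_pow_left h2 5
    have h5 := Nat.mul_le_mul h3 h4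
    have h6 : (10:ℕ) * 21^13 ≤ 19 * 20^13 := by norm_num
    have key : 20^13 * (10^(w+1) * 2 * (9*(w+1)+8)^8 * (6*(w+1)+5)^5) < 20^13 * 19^(w+1) := by
      calc 20^13 * (10^(w+1) * 2 * (9*(w+1)+8)^8 * (6*(w+1)+5)^5)
          = 10^(w+1) * 2 * ((20 * (9*(w+1)+8))^8 * (20 * (6*(w+1)+5))^5) := by ring
        _ ≤ 10^(w+1) * 2 * ((21 * (9*w+8))^8 * (21 * (6*w+5))^5) := Nat.mul_le_mul_left _ h5
        _ = (10 * 21^13) * (10^w * 2 * (9*w+8)^8 * (6*w+5)^5) := by ring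
        _ < (10 * 21^13) * 19^w := Nat.mul_lt_mul_of_pos_left ih (by norm_num)
        _ ≤ (19 * 20^13) * 19^w := Nat.mul_le_mul_right _ h6
        _ = 20^13 * 19^(w+1) := by ring
    exact Nat.lt_of_mul_lt_mul_left key

lemma fac_le (a k : ℕ) : (a+k)! ≤ (a+k)^k * a ! := by
  induction k with
  | zero => simp
  | succ k ih =>
    rw [← add_assoc, Nat.factorial_succ]
    calc (a+k+1) * (a+k)! ≤ (a+k+1) * ((a+k)^k * a !) := Nat.mul_le_mul_left _ ih
      _ ≤ (a+k+1) * ((a+k+1)^k * a !) := by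
          apply Nat.mul_le_mul_left
          apply Nat.mul_le_mul_right
          exact Nat.pow_le_pow_left (by omega) k
      _ = (a+k+1)^(k+1) * a ! := by ring

theorem size_big (x : ℕ) (hx : 36*144 ≤ x) :
    2 * ((x/4)! * (x/6)!) < (x/3)! * (x/18)! * (x/36)! := by
  obtain ⟨w, hw⟩ : ∃ w, w = x/36 := ⟨_, rfl⟩
  have hw0 : 144 ≤ w := by omega
  have b1 : 12*w ≤ x/3 := by omega
  have b2 : 2*w ≤ x/18 := by omega
  have b3 : x/4 ≤ 9*w+8 := by omega
  have b4 : x/6 ≤ 6*w+5 := by omega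
  have hA : (12*w)! * (2*w)! * w ! ≤ (x/3)! * (x/18)! * (x/36)! := by
    rw [← hw]
    exact Nat.mul_le_mul_right _ (Nat.mul_le_mul (Nat.factorial_le b1) (Nat.factorial_le b2))
  have hB : (x/4)! * (x/6)! ≤ (9*w+8)^8 * (6*w+5)^5 * ((9*w)! * (6*w)!) := by
    calc (x/4)! * (x/6)! ≤ (9*w+8)! * (6*w+5)! :=
          Nat.mul_le_mul (Nat.factorial_le b3) (Nat.factorial_le b4)
      _ ≤ ((9*w+8)^8 * (9*w)!) * ((6*w+5)^5 * (6*w)!) :=
          Nat.mul_le_mul (fac_le _ _) (fac_le _ _)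
      _ = _ := by ring
  have hpos : 0 < (9*w)! * (6*w)! := by positivity
  have h10 : 0 < 10^w := by positivity
  have key : 10^w * (2 * ((x/4)! * (x/6)!)) < 10^w * ((x/3)! * (x/18)! * (x/36)!) := by
    calc 10^w * (2 * ((x/4)! * (x/6)!))
        ≤ 10^w * (2 * ((9*w+8)^8 * (6*w+5)^5 * ((9*w)! * (6*w)!))) :=
          Nat.mul_le_mul_left _ (Nat.mul_le_mul_left _ hB)
      _ = (10^w * 2 * (9*w+8)^8 * (6*w+5)^5) * ((9*w)! * (6*w)!) := by ring
      _ < 19^w * ((9*w)! * (6*w)!) := Nat.mul_lt_mul_of_pos_right (I2 w hw0) hpos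
      _ ≤ 10^w * ((12*w)! * (2*w)! * w !) := tel w
      _ ≤ _ := Nat.mul_le_mul_left _ hA
  exact Nat.lt_of_mul_lt_mul_left key

/-- parity -/
lemma lucas2 (n k : ℕ) : choose n k % 2 = (choose (n%2) (k%2) * choose (n/2) (k/2)) % 2 := by
  haveI : Fact (Nat.Prime 2) := ⟨Nat.prime_two⟩
  exact Choose.choose_modEq_choose_mod_mul_choose_div_nat

lemma odd_pow (x : ℕ) : ¬ 2 ∣ choose (2*2^x-1) (2^x) := by
  induction x with
  | zero => simp
  | succ x ih =>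
    intro h
    apply ih
    have hpos : 0 < 2^x := by positivity
    obtain ⟨t, ht⟩ : ∃ t, t = 2^x := ⟨_, rfl⟩
    rw [← ht] at hpos ⊢
    have e : (2:ℕ)^(x+1) = 2*t := by rw [ht]; ring
    rw [e] at h
    have l := lucas2 (2*(2*t)-1) (2*t)
    rw [show (2*(2*t)-1)%2 = 1 by omega, show (2*t)%2 = 0 by omega,
      show (2*(2*t)-1)/2 = 2*t-1 by omega, show (2*t)/2 = t by omega] at l
    simp at l
    omega

lemma pow_of_odd (m : ℕ) (hm : 1 ≤ m) (h : ¬ 2 ∣ choose (2*m-1) m) : ∃ x, m = 2^x := by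
  induction m using Nat.strong_induction_on with
  | _ m ih =>
    by_cases h1 : m = 1
    · exact ⟨0, by simpa using h1⟩
    obtain ⟨t, ht | ht⟩ := Nat.even_or_odd' m
    · have ht0 : 1 ≤ t := by omega
      have l := lucas2 (2*m-1) m
      subst ht
      rw [show (2*(2*t)-1)%2 = 1 by omega, show (2*t)%2 = 0 by omega,
        show (2*(2*t)-1)/2 = 2*t-1 by omega, show (2*t)/2 = t by omega] at l
      simp at l
      obtain ⟨x, hx⟩ := ih t (by omega) ht0 (by omega)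
      exact ⟨x+1, by rw [hx]; ring⟩
    · exfalso
      have ht0 : 1 ≤ t := by omega
      have l := lucas2 (2*m-1) m
      subst ht
      rw [show (2*(2*t+1)-1)%2 = 1 by omega, show (2*t+1)%2 = 1 by omega,
        show (2*(2*t+1)-1)/2 = 2*t by omega, show (2*t+1)/2 = t by omega] at l
      have c : 2 ∣ choose (2*t) t := by
        have := Nat.two_dvd_centralBinom_of_one_le ht0
        rwa [Nat.centralBinom_eq_two_mul_choose] at this
      simp at l
      omega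

end Cfsg.Agent.H11.HallS
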