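/-
Arithmetic, continued: an odd prime at most `2^x` dividing the central binomial coefficient,
and the binomial lemma on `choose (m+k) k`.
-/
import Cfsg.Agent.Lib.H11.HallA1

set_option autoImplicit false

namespace Cfsg.Agent.H11.HallS

open Nat Finset

lemma small_three {m : ℕ} (hm : 1 ≤ m) (h : (digits 3 (2*m)).sum < (digits 3 m).sum + (digits 3 m).sum) :
    3 ∣ choose (2*m) m := by
  haveI : Fact (Nat.Prime 3) := ⟨Nat.prime_three⟩
  have := sub_one_mul_padicValNat_choose_eq_sub_sum_digits (p := 3) (k := m) (n := 2*m) (by omega)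
  rw [show 2*m-m = m by omega] at this
  have h1 : padicValNat 3 (choose (2*m) m) ≠ 0 := by
    intro h0
    rw [h0] at this
    omega
  exact dvd_of_one_le_padicValNat (by omega)

lemma small_seven {m : ℕ} (hm : 1 ≤ m) (h : (digits 7 (2*m)).sum < (digits 7 m).sum + (digits 7 m).sum) :
    7 ∣ choose (2*m) m := by
  haveI : Fact (Nat.Prime 7) := ⟨by norm_num⟩
  have := sub_one_mul_padicValNat_choose_eq_sub_sum_digits (p := 7) (k := m) (n := 2*m) (by omega)
  rw [show 2*m-m = m by omega] at this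
  have h1 : padicValNat 7 (choose (2*m) m) ≠ 0 := by
    intro h0
    rw [h0] at this
    omega
  exact dvd_of_one_le_padicValNat (by omega)

/-- For `a = 2^x ≥ 8` the central binomial coefficient has an odd prime factor at most `a`. -/
theorem nt_odd (x : ℕ) (hx : 3 ≤ x) :
    ∃ ℓ : ℕ, ℓ.Prime ∧ ℓ ≠ 2 ∧ ℓ ≤ 2^x ∧ ℓ ∣ choose (2*2^x) (2^x) := by
  by_cases hs : x ≤ 11
  · have h8 : (8:ℕ) ≤ 2^x := by
      calc 8 = 2^3 := by norm_num
        _ ≤ 2^x := Nat.pow_le_pow_right (by norm_num) hx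
    by_cases h8' : x = 8
    · subst h8'
      exact ⟨7, by norm_num, by norm_num, by norm_num, small_seven (by norm_num) (by norm_num)⟩
    · refine ⟨3, Nat.prime_three, by norm_num, by omega, small_three Nat.one_le_two_pow ?_⟩
      interval_cases x <;> first | omega | norm_num
  · by_contra hcon
    push_neg at hcon
    have hm : (4096:ℕ) ≤ 2^x := by
      calc 4096 = 2^12 := by norm_num
        _ ≤ 2^x := Nat.pow_le_pow_right (by norm_num) (by omega)
    obtain ⟨m, hmd⟩ : ∃ m, m = 2^x := ⟨_, rfl⟩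
    rw [← hmd] at hm hcon
    have hodd : ¬ 2 ∣ choose (2*m-1) m := by rw [hmd]; exact odd_pow x
    have hd := key_dvd m (by omega)
    rw [choose_two m (by omega)] at hd
    have hcop : Nat.Coprime (((2*m)/3)! * ((2*m)/18)! * ((2*m)/36)!) (choose (2*m-1) m) := by
      apply Nat.coprime_of_dvd
      intro ℓ hℓ h1 h2
      have hle : ℓ ≤ m := by
        have h3 : ℓ ∣ ((2*m)/3)! ∨ ℓ ∣ ((2*m)/18)! ∨ ℓ ∣ ((2*m)/36)! := by
          rcases (Nat.Prime.dvd_mul hℓ).1 h1 with h | h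
          · rcases (Nat.Prime.dvd_mul hℓ).1 h with h | h
            · exact Or.inl h
            · exact Or.inr (Or.inl h)
          · exact Or.inr (Or.inr h)
        rcases h3 with h | h | h <;> have := (Nat.Prime.dvd_factorial hℓ).1 h <;> omega
      by_cases h2' : ℓ = 2
      · subst h2'; exact hodd h2
      · exact hcon ℓ hℓ h2' hle (by rw [choose_two m (by omega)]; exact Dvd.dvd.mul_left h2 2)
    have hd2 : ((2*m)/3)! * ((2*m)/18)! * ((2*m)/36)! ∣ ((2*m)/4)! * ((2*m)/6)! * 2 := by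
      have : ((2*m)/4)! * ((2*m)/6)! * (2 * choose (2*m-1) m)
          = ((2*m)/4)! * ((2*m)/6)! * 2 * choose (2*m-1) m := by ring
      rw [this] at hd
      exact hcop.dvd_of_dvd_mul_right hd
    have hle := Nat.le_of_dvd (by positivity) hd2
    have hb := size_big (2*m) (by omega)
    omega

/-- counting multiples of 2 or 3 -/
lemma cs (a k : ℕ) : Nat.count (fun i => 2 ∣ a+i ∨ 3 ∣ a+i) (k+1)
    = Nat.count (fun i => 2 ∣ a+i ∨ 3 ∣ a+i) k + if (2 ∣ a+k ∨ 3 ∣ a+k) then 1 else 0 :=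
  Nat.count_succ _ _

lemma count_step (a k : ℕ) :
    Nat.count (fun i => 2 ∣ a+i ∨ 3 ∣ a+i) (k+6) = Nat.count (fun i => 2 ∣ a+i ∨ 3 ∣ a+i) k + 4 := by
  rw [show k+6 = k+5+1 from rfl, cs, show k+5 = k+4+1 from rfl, cs, show k+4 = k+3+1 from rfl, cs,
    show k+3 = k+2+1 from rfl, cs, show k+2 = k+1+1 from rfl, cs, cs]
  have hr : (a+k)%6 = 0 ∨ (a+k)%6 = 1 ∨ (a+k)%6 = 2 ∨ (a+k)%6 = 3 ∨ (a+k)%6 = 4 ∨ (a+k)%6 = 5 := by omega
  rcases hr with h | h | h | h | h | h <;> split_ifs <;> omega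

lemma count_bound (a k : ℕ) : 2*k ≤ 3 * Nat.count (fun i => 2 ∣ a+i ∨ 3 ∣ a+i) k + 3 := by
  induction k using Nat.strong_induction_on with
  | _ k ih =>
    by_cases h : 6 ≤ k
    · obtain ⟨t, rfl⟩ : ∃ t, k = t+6 := ⟨k-6, by omega⟩
      have := ih t (by omega)
      rw [count_step]
      omega
    · have e0 : Nat.count (fun i => 2 ∣ a+i ∨ 3 ∣ a+i) 0 = 0 := Nat.count_zero _
      have e1 := cs a 0
      have e2 := cs a 1
      have e3 := cs a 2
      have e4 := cs a 3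
      have e5 := cs a 4
      simp only [Nat.zero_add, Nat.add_zero, show (1+1:ℕ) = 2 from rfl, show (2+1:ℕ) = 3 from rfl,
        show (3+1:ℕ) = 4 from rfl, show (4+1:ℕ) = 5 from rfl] at e1 e2 e3 e4 e5
      have hr : a%6 = 0 ∨ a%6 = 1 ∨ a%6 = 2 ∨ a%6 = 3 ∨ a%6 = 4 ∨ a%6 = 5 := by omega
      have hk : k = 0 ∨ k = 1 ∨ k = 2 ∨ k = 3 ∨ k = 4 ∨ k = 5 := by omega
      rcases hr with hr | hr | hr | hr | hr | hr <;>
      rcases hk with rfl | rfl | rfl | rfl | rfl | rfl <;>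
      split_ifs at e1 e2 e3 e4 e5 <;> omega

lemma bern (x t : ℕ) : x^(t+1) + (t+1)*x^t ≤ (x+1)^(t+1) := by
  induction t with
  | zero => simp
  | succ t ih =>
    calc x^(t+1+1) + (t+1+1)*x^(t+1) ≤ (x^(t+1) + (t+1)*x^t) * (x+1) := by
          have : (x^(t+1) + (t+1)*x^t) * (x+1)
              = x^(t+1+1) + (t+1+1)*x^(t+1) + (t+1)*x^t := by ring
          omega
      _ ≤ (x+1)^(t+1) * (x+1) := Nat.mul_le_mul_right _ ih
      _ = _ := by ring

lemma two_pow_fac (k : ℕ) : 2^k * k ! ≤ (k+1)^k := by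
  induction k with
  | zero => simp
  | succ k ih =>
    have h1 : 2 * (k+1)^(k+1) ≤ (k+1+1)^(k+1) := by
      have := bern (k+1) k
      calc 2 * (k+1)^(k+1) = (k+1)^(k+1) + (k+1)*(k+1)^k := by ring
        _ ≤ _ := this
    calc 2^(k+1) * (k+1)! = 2 * (k+1) * (2^k * k !) := by rw [Nat.factorial_succ]; ring
      _ ≤ 2 * (k+1) * (k+1)^k := Nat.mul_le_mul_left _ ih
      _ = 2 * (k+1)^(k+1) := by ring
      _ ≤ _ := h1

lemma sixteen (k : ℕ) (hk : 7 ≤ k) : (k+1)^9 < 16^k := by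
  induction k, hk using Nat.le_induction with
  | base => norm_num
  | succ k hk ih =>
    have h1 : 8*(k+1+1) ≤ 9*(k+1) := by omega
    have h2 : (8*(k+1+1))^9 ≤ (9*(k+1))^9 := Nat.pow_le_pow_left h1 9
    have h3 : 8^9 * (k+1+1)^9 < 8^9 * 16^(k+1) := by
      calc 8^9 * (k+1+1)^9 = (8*(k+1+1))^9 := by ring
        _ ≤ (9*(k+1))^9 := h2
        _ = 9^9 * (k+1)^9 := by ring
        _ < 9^9 * 16^k := Nat.mul_lt_mul_of_pos_left ih (by norm_num)
        _ ≤ (8^9 * 16) * 16^k := Nat.mul_le_mul_right _ (by norm_num)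
        _ = _ := by ring
    exact Nat.lt_of_mul_lt_mul_left h3

/-- the product bound: multiples of 2 or 3 in the window divide `k!`. -/
lemma prod_bound (m k : ℕ) (hk : 2 ≤ k) (hkm : k < m)
    (h : ∀ ℓ, ℓ.Prime → ℓ ≤ m → ¬ ℓ ∣ choose (m+k) k) :
    m ^ Nat.count (fun i => 2 ∣ (m+1)+i ∨ 3 ∣ (m+1)+i) k ≤ k ! := by
  classical
  rw [Nat.count_eq_card_filter_range]
  have hA : ∏ i ∈ range k, ((m+1)+i) = k ! * choose (m+k) k := by
    rw [← Nat.ascFactorial_eq_prod_range, Nat.ascFactorial_eq_factorial_mul_choose]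
  set S := (range k).filter (fun i => 2 ∣ (m+1)+i ∨ 3 ∣ (m+1)+i) with hS
  have hd1 : ∏ i ∈ S, ((m+1)+i) ∣ k ! * choose (m+k) k := by
    rw [← hA]
    exact Finset.prod_dvd_prod_of_subset _ _ _ (Finset.filter_subset _ _)
  have hcop : Nat.Coprime (∏ i ∈ S, ((m+1)+i)) (choose (m+k) k) := by
    apply Nat.Coprime.prod_left
    intro i hi
    rw [hS, Finset.mem_filter, Finset.mem_range] at hi
    obtain ⟨hik, hi2⟩ := hi
    apply Nat.coprime_of_dvd
    intro ℓ hℓ h1 h2
    refine h ℓ hℓ ?_ h2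
    rcases hi2 with ⟨y, hy⟩ | ⟨y, hy⟩
    · rw [hy] at h1
      rcases (Nat.Prime.dvd_mul hℓ).1 h1 with h3 | h3
      · have := Nat.le_of_dvd (by norm_num) h3
        omega
      · have := Nat.le_of_dvd (by omega) h3
        omega
    · rw [hy] at h1
      rcases (Nat.Prime.dvd_mul hℓ).1 h1 with h3 | h3
      · have := Nat.le_of_dvd (by norm_num) h3
        omega
      · have := Nat.le_of_dvd (by omega) h3
        omega
  have hd2 := hcop.dvd_of_dvd_mul_right hd1
  have hle := Nat.le_of_dvd (Nat.factorial_pos k) hd2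
  calc m ^ S.card = ∏ _i ∈ S, m := by rw [Finset.prod_const]
    _ ≤ ∏ i ∈ S, ((m+1)+i) := Finset.prod_le_prod (fun _ _ => Nat.zero_le _) (fun i _ => by omega)
    _ ≤ _ := hle

/-- The binomial lemma: for `2 ≤ k < m`, `choose (m+k) k` has a prime factor at most `m`,
except for `(m,k) = (4,3)`. -/
theorem ecklund (m k : ℕ) (hk : 2 ≤ k) (hkm : k < m)
    (h : ∀ ℓ, ℓ.Prime → ℓ ≤ m → ¬ ℓ ∣ choose (m+k) k) : m = 4 ∧ k = 3 := by
  have hcop : ∀ N : ℕ, 0 < N → (∀ ℓ, ℓ.Prime → ℓ ∣ N → ℓ ≤ m) → Nat.Coprime N (choose (m+k) k) := by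
    intro N _ hN
    apply Nat.coprime_of_dvd
    intro ℓ hℓ h1 h2
    exact h ℓ hℓ (hN ℓ hℓ h1) h2
  have hs1 : choose (m+k) (k+1) * (k+1) = choose (m+k) k * m := by
    have := Nat.choose_succ_right_eq (m+k) k
    rwa [show m+k-k = m by omega] at this
  have hd1 : k+1 ∣ m := by
    have h1 : k+1 ∣ choose (m+k) k * m := ⟨choose (m+k) (k+1), by rw [← hs1]; ring⟩
    have h2 : Nat.Coprime (k+1) (choose (m+k) k) := by
      apply hcop _ (by omega)
      intro ℓ _ h3
      have := Nat.le_of_dvd (by omega) h3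
      omega
    exact h2.dvd_of_dvd_mul_left h1
  obtain ⟨g, hg⟩ := hd1
  have hg0 : 1 ≤ g := by
    rcases Nat.eq_zero_or_pos g with h0 | h0
    · subst h0; omega
    · exact h0
  by_cases hg1 : g = 1
  · subst hg1
    have hm : m = k+1 := by omega
    subst hm
    have e1 : choose (k+1+k) k = choose (2*(k+1)-1) (k+1) := by
      rw [show 2*(k+1)-1 = k+1+k by omega, ← Nat.choose_symm_of_eq_add (show k+1+k = k + (k+1) by omega)]
    have hodd : ¬ 2 ∣ choose (2*(k+1)-1) (k+1) := by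
      rw [← e1]
      exact h 2 Nat.prime_two (by omega)
    obtain ⟨x, hx⟩ := pow_of_odd (k+1) (by omega) hodd
    by_cases hx3 : 3 ≤ x
    · exfalso
      obtain ⟨ℓ, hℓ, hℓ2, hle, hdvd⟩ := nt_odd x hx3
      rw [← hx, choose_two _ (by omega)] at hdvd
      rcases (Nat.Prime.dvd_mul hℓ).1 hdvd with h3 | h3
      · exact hℓ2 ((Nat.prime_dvd_prime_iff_eq hℓ Nat.prime_two).1 h3)
      · rw [← hx] at hle
        exact h ℓ hℓ hle (by rw [e1]; exact h3)
    · have hx' : x = 0 ∨ x = 1 ∨ x = 2 := by omega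
      rcases hx' with rfl | rfl | rfl
      · simp at hx; omega
      · simp at hx; omega
      · simp at hx; omega
  · exfalso
    have hg2 : 2 ≤ g := by omega
    have hm2 : 2*(k+1) ≤ m := by
      rw [hg]
      calc 2*(k+1) = (k+1)*2 := by ring
        _ ≤ (k+1)*g := Nat.mul_le_mul_left _ hg2
    -- second divisibility
    have hs2 : choose (m+k) (k+2) * (k+2) = choose (m+k) (k+1) * (m-1) := by
      have := Nat.choose_succ_right_eq (m+k) (k+1)
      rwa [show m+k-(k+1) = m-1 by omega] at this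
    have hd2 : (k+1)*(k+2) ∣ m*(m-1) := by
      have h1 : (k+1)*(k+2) ∣ choose (m+k) k * (m*(m-1)) := by
        refine ⟨choose (m+k) (k+2), ?_⟩
        calc choose (m+k) k * (m*(m-1)) = (choose (m+k) k * m) * (m-1) := by ring
          _ = (choose (m+k) (k+1) * (k+1)) * (m-1) := by rw [hs1]
          _ = (choose (m+k) (k+1) * (m-1)) * (k+1) := by ring
          _ = (choose (m+k) (k+2) * (k+2)) * (k+1) := by rw [hs2]
          _ = _ := by ring
      have h2 : Nat.Coprime ((k+1)*(k+2)) (choose (m+k) k) := by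
        apply hcop _ (by positivity)
        intro ℓ hℓ h3
        rcases (Nat.Prime.dvd_mul hℓ).1 h3 with h4 | h4
        · have := Nat.le_of_dvd (by omega) h4
          omega
        · have := Nat.le_of_dvd (by omega) h4
          omega
      exact h2.dvd_of_dvd_mul_left h1
    have hd3 : k+2 ∣ g*(m-1) := by
      have : (k+1)*(k+2) ∣ (k+1)*(g*(m-1)) := by
        have e : (k+1)*(g*(m-1)) = m*(m-1) := by rw [hg]; ring
        rw [e]; exact hd2
      exact Nat.dvd_of_mul_dvd_mul_left (by omega) this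
    have hd4 : k+2 ∣ g*(g+1) := by
      have e : g*(m-1) + g*(g+1) = (k+2)*(g*g) := by
        obtain ⟨t, ht⟩ : ∃ t, m = t+1 := ⟨m-1, by omega⟩
        have e2 : t + 1 = (k+1)*g := by rw [← ht]; exact hg
        rw [ht, show t+1-1 = t by omega]
        have : g*(g+1) + g*t = g*(t+1+g) := by ring
        nlinarith [e2]
      have h5 : k+2 ∣ g*(m-1) + g*(g+1) := ⟨g*g, e⟩
      exact (Nat.dvd_add_right hd3).1 h5
    have hg3 : k+2 ≤ g*(g+1) := Nat.le_of_dvd (by positivity) hd4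
    have hp := prod_bound m k hk hkm h
    have hc := count_bound (m+1) k
    set c := Nat.count (fun i => 2 ∣ (m+1)+i ∨ 3 ∣ (m+1)+i) k with hc'
    obtain ⟨u, hu⟩ : ∃ u, u = (2*k-1)/3 := ⟨_, rfl⟩
    have huc : u ≤ c := by omega
    have hu1 : m^u ≤ k ! := le_trans (Nat.pow_le_pow_right (by omega) huc) hp
    by_cases hk7 : 7 ≤ k
    · have hu3 : 3*u ≤ 2*k := by omega
      have hu4 : 2*k ≤ 3*u+3 := by omega
      have hB : (k+1)^3 ≤ 2*(m*m) := by
        have h1 : k+2 ≤ 2*(g*g) := by nlinarith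
        calc (k+1)^3 = (k+1)*(k+1)*(k+1) := by ring
          _ ≤ (k+1)*(k+1)*(k+2) := Nat.mul_le_mul_left _ (by omega)
          _ ≤ (k+1)*(k+1)*(2*(g*g)) := Nat.mul_le_mul_left _ h1
          _ = 2*(m*m) := by rw [hg]; ring
      have hC : (k+1)^(3*u) ≤ 2^u * (m^u)^2 := by
        calc (k+1)^(3*u) = ((k+1)^3)^u := by rw [pow_mul]
          _ ≤ (2*(m*m))^u := Nat.pow_le_pow_left hB u
          _ = _ := by ring
      have hD : (m^u)^2 ≤ (k !)^2 := Nat.pow_le_pow_left hu1 2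
      have hE : (2^k * k !)^2 ≤ (k+1)^(3*u+3) := by
        calc (2^k * k !)^2 ≤ ((k+1)^k)^2 := Nat.pow_le_pow_left (two_pow_fac k) 2
          _ = (k+1)^(2*k) := by rw [← pow_mul]; ring_nf
          _ ≤ _ := Nat.pow_le_pow_right (by omega) hu4
      have hF : 4^k * (k+1)^(3*u) ≤ (2^u * (k+1)^3) * (k+1)^(3*u) := by
        calc 4^k * (k+1)^(3*u) ≤ 4^k * (2^u * (k !)^2) :=
              Nat.mul_le_mul_left _ (le_trans hC (Nat.mul_le_mul_left _ hD))
          _ = 2^u * (2^k * k !)^2 := by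
              rw [show (4:ℕ)^k = (2^k)^2 by rw [← pow_mul, show (4:ℕ) = 2^2 by norm_num, ← pow_mul, mul_comm]]
              ring
          _ ≤ 2^u * (k+1)^(3*u+3) := Nat.mul_le_mul_left _ hE
          _ = _ := by ring
      have hG : 4^k ≤ 2^u * (k+1)^3 := Nat.le_of_mul_le_mul_right hF (by positivity)
      have hH : (4^k)^3 ≤ (2^u * (k+1)^3)^3 := Nat.pow_le_pow_left hG 3
      have hI : 4^k * 16^k ≤ 4^k * (k+1)^9 := by
        calc 4^k * 16^k = (4^k)^3 := by
              rw [show (16:ℕ) = 4^2 by norm_num, ← pow_mul, ← pow_add, ← pow_mul]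
              ring_nf
          _ ≤ (2^u * (k+1)^3)^3 := hH
          _ = 2^(3*u) * (k+1)^9 := by ring
          _ ≤ 2^(2*k) * (k+1)^9 := Nat.mul_le_mul_right _ (Nat.pow_le_pow_right (by norm_num) hu3)
          _ = _ := by
              rw [show (4:ℕ) = 2^2 by norm_num, ← pow_mul]
      have hJ : 16^k ≤ (k+1)^9 := Nat.le_of_mul_le_mul_left hI (by positivity)
      have := sixteen k hk7
      omega
    · have hpow : (2*(k+1))^u ≤ k ! := le_trans (Nat.pow_le_pow_left hm2 u) hu1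
      have hk' : k = 2 ∨ k = 3 ∨ k = 4 ∨ k = 5 ∨ k = 6 := by omega
      rcases hk' with rfl | rfl | rfl | rfl | rfl <;>
      · have hu' : u = _ := hu
        norm_num at hu'
        subst hu'
        revert hpow
        decide

end Cfsg.Agent.H11.HallS
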