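/-
Hall subgroups of symmetric groups: cycles in Hall subgroups, a primitivity lemma.
-/
import Cfsg.Agent.Lib.H11.HallA2
import Cfsg.Agent.Lib.H16.ExtPrim
import Cfsg.Agent.S0713
import Cfsg.Prelude.Def_OddOrderLocal

set_option autoImplicit false

namespace Cfsg.Agent.H11.HallS

open Equiv Equiv.Perm MulAction
open scoped Nat

section general
variable {G : Type*} [Group G] [Finite G]

lemma exists_sylow_le {π : Set ℕ} {H : Subgroup G} (hH : Cfsg.IsPiHall π H) {ℓ : ℕ}
    (hℓ : ℓ.Prime) (hπ : ℓ ∈ π) : ∃ P : Sylow ℓ G, (P : Subgroup G) ≤ H := by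
  haveI : Fact ℓ.Prime := ⟨hℓ⟩
  obtain ⟨Q⟩ : Nonempty (Sylow ℓ H) := inferInstance
  have hQ' : IsPGroup ℓ ((Q : Subgroup H).map H.subtype) := Q.isPGroup'.map _
  obtain ⟨P, hP⟩ := hQ'.exists_le_sylow
  refine ⟨P, ?_⟩
  have hcard : Nat.card ((Q : Subgroup H).map H.subtype) = Nat.card (Q : Subgroup H) :=
    Nat.card_congr (Subgroup.equivMapOfInjective _ _ H.subtype_injective).symm.toEquiv
  have h1 : Nat.card (Q : Subgroup H) = ℓ ^ (Nat.card H).factorization ℓ := Q.card_eq_multiplicity
  have h2 : Nat.card (P : Subgroup G) = ℓ ^ (Nat.card G).factorization ℓ := P.card_eq_multiplicity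
  have h3 : (Nat.card G).factorization ℓ = (Nat.card H).factorization ℓ := by
    rw [← H.card_mul_index, Nat.factorization_mul Nat.card_pos.ne' (Subgroup.index_ne_zero_of_finite)]
    simp [Nat.factorization_eq_zero_of_not_dvd (hH.2 ℓ hℓ hπ)]
  have h4 : (Q : Subgroup H).map H.subtype = P := by
    apply Subgroup.eq_of_le_of_card_ge hP
    rw [hcard, h1, h2, h3]
  rw [← h4]
  exact Subgroup.map_subtype_le _

lemma conj_mem {π : Set ℕ} {H : Subgroup G} (hH : Cfsg.IsPiHall π H) {ℓ : ℕ}
    (hℓ : ℓ.Prime) (hπ : ℓ ∈ π) (g : G) (y : ℕ) (hg : orderOf g = ℓ ^ y) :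
    ∃ x : G, x * g * x⁻¹ ∈ H := by
  haveI : Fact ℓ.Prime := ⟨hℓ⟩
  obtain ⟨P, hP⟩ := exists_sylow_le hH hℓ hπ
  have hpg : IsPGroup ℓ (Subgroup.zpowers g) := by
    rw [IsPGroup.iff_card]
    exact ⟨y, by rw [Nat.card_zpowers, hg]⟩
  obtain ⟨P', hP'⟩ := hpg.exists_le_sylow
  obtain ⟨x, hx⟩ := MulAction.exists_smul_eq G P' P
  refine ⟨x, hP ?_⟩
  have hgm : g ∈ (P' : Subgroup G) := hP' (Subgroup.mem_zpowers g)
  rw [← hx, Sylow.coe_subgroup_smul]
  exact ⟨g, hgm, rfl⟩

lemma not_dvd_index_of_le {π : Set ℕ} {H K : Subgroup G} (hH : Cfsg.IsPiHall π H) (hK : H ≤ K)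
    {ℓ : ℕ} (hℓ : ℓ.Prime) (hπ : ℓ ∈ π) : ¬ ℓ ∣ K.index := fun h =>
  hH.2 ℓ hℓ hπ (h.trans (Subgroup.index_dvd_of_le hK))

end general

section cycles
variable {Ω : Type*} [Fintype Ω] [DecidableEq Ω]

lemma exists_cycle (N : ℕ) (hN : 2 ≤ N) (hc : N ≤ Fintype.card Ω) :
    ∃ c : Perm Ω, c.IsCycle ∧ c.support.card = N := by
  obtain ⟨f⟩ : Nonempty (Fin N ↪ Ω) :=
    Function.Embedding.nonempty_of_card_le (by simpa using hc)
  have hnd : (List.ofFn f).Nodup := List.nodup_ofFn.2 f.injective
  have hlen : (List.ofFn f).length = N := by simp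
  refine ⟨(List.ofFn f).formPerm, List.isCycle_formPerm hnd (by omega), ?_⟩
  rw [List.support_formPerm_of_nodup _ hnd, List.toFinset_card_of_nodup hnd, hlen]
  intro x hx
  rw [hx] at hlen
  simp at hlen
  omega

lemma hall_cycle {π : Set ℕ} {H : Subgroup (Perm Ω)} (hH : Cfsg.IsPiHall π H) {ℓ : ℕ}
    (hℓ : ℓ.Prime) (hπ : ℓ ∈ π) (y : ℕ) (hy : 1 ≤ y) (hc : ℓ ^ y ≤ Fintype.card Ω) :
    ∃ c ∈ H, c.IsCycle ∧ c.support.card = ℓ ^ y := by
  have h2 : 2 ≤ ℓ ^ y := by
    calc 2 ≤ ℓ := hℓ.two_le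
      _ = ℓ^1 := (pow_one ℓ).symm
      _ ≤ ℓ^y := Nat.pow_le_pow_right hℓ.pos hy
  obtain ⟨c, hc1, hc2⟩ := exists_cycle (Ω := Ω) (ℓ^y) h2 hc
  obtain ⟨x, hx⟩ := conj_mem hH hℓ hπ c y (by rw [hc1.orderOf, hc2])
  exact ⟨_, hx, hc1.conj, by rw [card_support_conj, hc2]⟩

end cycles

section prim
variable {α : Type*} [Fintype α] [DecidableEq α]

lemma prime_dvd_card_alt {q : ℕ} (hq : q.Prime) (h5 : 5 ≤ Fintype.card α) (hqa : q ≤ Fintype.card α) :
    q ∣ Nat.card (alternatingGroup α) := by
  have hnt : Nontrivial α := by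
    rw [← Fintype.one_lt_card_iff_nontrivial]; omega
  have h1 := two_mul_card_alternatingGroup (α := α)
  rw [Nat.card_eq_fintype_card]
  rw [Fintype.card_perm] at h1
  by_cases h2 : q = 2
  · subst h2
    have h4 : 4 ∣ (Fintype.card α)! := Nat.dvd_factorial (by norm_num) (by omega)
    rw [← h1] at h4
    obtain ⟨t, ht⟩ := h4
    exact ⟨t, by omega⟩
  · have h3 : q ∣ 2 * Fintype.card (alternatingGroup α) := by
      rw [h1]; exact Nat.dvd_factorial hq.pos hqa
    rcases (Nat.Prime.dvd_mul hq).1 h3 with h | h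
    · exact absurd ((Nat.prime_dvd_prime_iff_eq hq Nat.prime_two).1 h) h2
    · exact h

/-- The twin prime configuration cannot occur for a primitive group. -/
lemma twin_absurd (X : Subgroup (Perm α)) (hX : IsPreprimitive X α) (s a : ℕ) (hs : s.Prime)
    (ha : a.Prime) (hsa : a = s + 2) (h3 : 3 ≤ s) (hcard : Fintype.card α = a)
    (hpr : ∀ q : ℕ, q.Prime → q ∣ Nat.card X → q = s ∨ q = a)
    (c : Perm α) (hc : c ∈ X) (hc1 : c.IsCycle) (hc2 : c.support.card = s) : False := by
  classical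
  have hcX : Nat.card X ∣ a ! := by
    rw [← hcard, ← Fintype.card_perm, ← Nat.card_eq_fintype_card]
    exact Subgroup.card_subgroup_dvd_card X
  -- two fixed points
  have hfix : ∃ z z' : α, z ≠ z' ∧ c z = z ∧ c z' = z' := by
    have h1 : 1 < (c.supportᶜ).card := by
      rw [Finset.card_compl, hc2, hcard]; omega
    obtain ⟨z, hz, z', hz', hne⟩ := Finset.one_lt_card.1 h1
    refine ⟨z, z', hne, ?_, ?_⟩
    · by_contra h
      exact (Finset.mem_compl.1 hz) (mem_support.2 h)
    · by_contra h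
      exact (Finset.mem_compl.1 hz') (mem_support.2 h)
  obtain ⟨z, z', hne, hz, hz'⟩ := hfix
  -- the stabilizers have order `s`
  have hstab : ∀ u : α, c u = u → ∀ g ∈ stabilizer X u, ∃ i : ℤ, (g : Perm α) = c ^ i := by
    intro u hu
    let c' : X := ⟨c, hc⟩
    have hc'u : c' ∈ stabilizer X u := by
      rw [mem_stabilizer_iff]; exact hu
    have hidx : (stabilizer X u).index = a := by
      haveI : IsPretransitive X α := hX.toIsPretransitive
      rw [index_stabilizer_of_transitive, Nat.card_eq_fintype_card, hcard]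
    have hm := (stabilizer X u).card_mul_index
    rw [hidx] at hm
    set d := Nat.card (stabilizer X u) with hd
    have hdvd : d * a ∣ a ! := by rw [hm]; exact hcX
    have hsd : s ∣ d := by
      have h0 : orderOf c' = s := by
        rw [← hc2, ← hc1.orderOf]
        exact Subgroup.orderOf_mk c hc
      have : orderOf (⟨c', hc'u⟩ : stabilizer X u) = s := by
        rw [← h0]; exact Subgroup.orderOf_mk c' hc'u
      rw [hd, ← this]
      exact orderOf_dvd_natCard _
    have hd0 : d ≠ 0 := Nat.card_pos.ne'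
    have hds : ∀ {q : ℕ}, q.Prime → q ∣ d → q = s := by
      intro q hq hqd
      rcases hpr q hq (by rw [← hm]; exact Dvd.dvd.mul_right hqd a) with h | h
      · exact h
      · exfalso
        subst h
        have h1 : q * q ∣ q ! := (mul_dvd_mul_right hqd q).trans hdvd
        rw [show q = (q-1)+1 by have := hq.pos; omega, Nat.factorial_succ] at h1
        have h2 : (q-1+1) ∣ (q-1)! := Nat.dvd_of_mul_dvd_mul_left (by omega) h1
        have h3 := (Nat.Prime.dvd_factorial (by rwa [show q-1+1 = q by have := hq.pos; omega])).1 h2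
        omega
    obtain ⟨e, he⟩ : ∃ e, d = s ^ e := ⟨_, Nat.eq_prime_pow_of_unique_prime_dvd hd0 hds⟩
    have he1 : e = 1 := by
      have he0 : e ≠ 0 := by
        rintro rfl
        rw [he, pow_zero] at hsd
        exact hs.one_lt.ne' (Nat.dvd_one.1 hsd)
      by_contra hne1
      have h2le : 2 ≤ e := by omega
      have hss : s * s ∣ d := by
        rw [he, ← pow_two]; exact pow_dvd_pow s h2le
      have h1 : s * s ∣ a ! := hss.trans ((Dvd.intro _ rfl).trans hdvd)
      have e1 : a ! = (s+2) * ((s+1) * (s * (s-1)!)) := by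
        have hs0 := hs.pos
        rw [hsa, Nat.factorial_succ, Nat.factorial_succ]
        obtain ⟨t, rfl⟩ : ∃ t, s = t+1 := ⟨s-1, by omega⟩
        rw [Nat.factorial_succ]
        simp
      rw [e1] at h1
      have h2 : s * s ∣ s * ((s+2) * ((s+1) * (s-1)!)) := by
        have : (s+2) * ((s+1) * (s * (s-1)!)) = s * ((s+2) * ((s+1) * (s-1)!)) := by ring
        rwa [this] at h1
      have h3 : s ∣ (s+2) * ((s+1) * (s-1)!) := Nat.dvd_of_mul_dvd_mul_left hs.pos h2
      rcases (Nat.Prime.dvd_mul hs).1 h3 with h4 | h4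
      · have := (Nat.dvd_add_right (dvd_refl s)).1 h4
        have := Nat.le_of_dvd (by norm_num) this
        omega
      · rcases (Nat.Prime.dvd_mul hs).1 h4 with h5 | h5
        · have := (Nat.dvd_add_right (dvd_refl s)).1 h5
          have := Nat.le_of_dvd (by norm_num) this
          omega
        · have := (Nat.Prime.dvd_factorial hs).1 h5
          omega
    rw [he1, pow_one] at he
    -- `⟨c⟩ = stabilizer`
    have hle : Subgroup.zpowers (⟨c', hc'u⟩ : stabilizer X u) = ⊤ := by
      rw [← Subgroup.card_eq_iff_eq_top, Nat.card_zpowers]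
      have h0 : orderOf c' = s := by
        rw [← hc2, ← hc1.orderOf]
        exact Subgroup.orderOf_mk c hc
      have : orderOf (⟨c', hc'u⟩ : stabilizer X u) = s := by
        rw [← h0]; exact Subgroup.orderOf_mk c' hc'u
      rw [this, ← he]
    intro g hg
    have hgm : (⟨g, hg⟩ : stabilizer X u) ∈ Subgroup.zpowers (⟨c', hc'u⟩ : stabilizer X u) := by
      rw [hle]; exact Subgroup.mem_top _
    obtain ⟨i, hi⟩ := hgm
    refine ⟨i, ?_⟩
    have := congrArg (fun t : stabilizer X u => ((t : X) : Perm α)) hi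
    simpa using this.symm
  -- conclude
  have hfixz : ∀ i : ℤ, ∀ u : α, c u = u → (c ^ i) u = u := by
    intro i u hu
    exact zpow_apply_eq_self_of_apply_eq_self hu i
  have hle1 : stabilizer X z ≤ stabilizer X z' := by
    intro g hg
    obtain ⟨i, hi⟩ := hstab z hz g hg
    rw [mem_stabilizer_iff]
    show (g : Perm α) z' = z'
    rw [hi]; exact hfixz i z' hz'
  have hcardeq : Nat.card (stabilizer X z) = Nat.card (stabilizer X z') := by
    haveI : IsPretransitive X α := hX.toIsPretransitive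
    have h1 := (stabilizer X z).card_mul_index
    have h2 := (stabilizer X z').card_mul_index
    rw [index_stabilizer_of_transitive] at h1 h2
    have hpos : 0 < Nat.card α := Nat.card_pos_iff.2 ⟨⟨z⟩, inferInstance⟩
    exact Nat.eq_of_mul_eq_mul_right hpos (h1.trans h2.symm)
  have hEq : stabilizer X z = stabilizer X z' :=
    Subgroup.eq_of_le_of_card_ge hle1 hcardeq.ge
  let r : α → α → Prop := fun u v => stabilizer X u = stabilizer X v
  have hr : Equivalence r := ⟨fun _ => rfl, fun h => h.symm, fun h1 h2 => h1.trans h2⟩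
  have hinv : ∀ (g : X) (x y : α), r x y → r (g • x) (g • y) := by
    intro g x y h
    show stabilizer X (g • x) = stabilizer X (g • y)
    rw [stabilizer_smul_eq_stabilizer_map_conj, stabilizer_smul_eq_stabilizer_map_conj]
    show Subgroup.map _ (stabilizer X x) = Subgroup.map _ (stabilizer X y)
    rw [show stabilizer X x = stabilizer X y from h]
  haveI := hX
  have hall : ∀ y : α, r z y := fun y => Cfsg.Agent.H16.prim_rel r hr hinv hne hEq y
  obtain ⟨w, hw, -⟩ := hc1
  have : (⟨c, hc⟩ : X) ∈ stabilizer X z := by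
    rw [mem_stabilizer_iff]; exact hz
  rw [show stabilizer X z = stabilizer X w from hall w] at this
  exact hw (by simpa [mem_stabilizer_iff] using this)

theorem prim_core (X : Subgroup (Perm α)) (hX : IsPreprimitive X α) (π : Set ℕ)
    (hπ : ∀ q : ℕ, q.Prime → q ∣ Nat.card X → q ∈ π)
    (hc : ∀ ℓ : ℕ, ℓ.Prime → ℓ ∈ π → ℓ ≤ Fintype.card α → ∃ c ∈ X, c.IsCycle ∧ c.support.card = ℓ)
    (r s : ℕ) (hr : r.Prime) (hs : s.Prime) (hrs : s < r) (hrπ : r ∈ π) (hsπ : s ∈ π)
    (hra : r ≤ Fintype.card α) :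
    ∀ q : ℕ, q.Prime → q ≤ Fintype.card α → q ∈ π := by
  intro q hq hqa
  by_cases h5 : Fintype.card α ≤ 4
  · have hr' : r ≤ 4 := by omega
    have hq' : q ≤ 4 := by omega
    have h1 : r = 3 := by
      have hr2 := hr.two_le
      have hs2 := hs.two_le
      interval_cases r <;> first | rfl | (exfalso; omega) | (exfalso; revert hr; norm_num)
    have h2 : s = 2 := by
      have hs2 := hs.two_le
      omega
    have h3 : q = 2 ∨ q = 3 := by
      have hq2 := hq.two_le
      interval_cases q <;> first | (left; rfl) | (right; rfl) | (exfalso; revert hq; norm_num)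
    rcases h3 with h | h
    · rw [h, ← h2]; exact hsπ
    · rw [h, ← h1]; exact hrπ
  · have h5' : 5 ≤ Fintype.card α := by omega
    by_cases hex : ∃ ℓ : ℕ, ℓ.Prime ∧ ℓ ∈ π ∧ ℓ + 3 ≤ Fintype.card α
    · obtain ⟨ℓ, hℓ, hℓπ, hℓa⟩ := hex
      obtain ⟨c, hcX, hc1, hc2⟩ := hc ℓ hℓ hℓπ (by omega)
      have hA := Cfsg.Agent.S0713.result X hX hℓ h5' hℓa hc1 hc2 hcX
      have h1 := prime_dvd_card_alt hq h5' hqa
      exact hπ q hq (h1.trans (Subgroup.card_dvd_of_le hA))
    · push_neg at hex
      exfalso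
      have hs3 := hex s hs hsπ
      have hr3 := hex r hr hrπ
      have hs2 : 3 ≤ s := by omega
      have hsodd : s % 2 = 1 := (hs.eq_two_or_odd).resolve_left (by omega)
      have hrodd : r % 2 = 1 := (hr.eq_two_or_odd).resolve_left (by omega)
      have hsr : r = s + 2 := by omega
      have hra' : Fintype.card α = s + 2 := by omega
      obtain ⟨c, hcX, hc1, hc2⟩ := hc s hs hsπ (by omega)
      refine twin_absurd X hX s r hs hr hsr hs2 (by omega) ?_ c hcX hc1 hc2
      intro q' hq' hq'X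
      have h1 : q' ∈ π := hπ q' hq' hq'X
      have h2 := hex q' hq' h1
      have h3 : q' ≤ r := by
        have hdiv : q' ∣ r ! := by
          have : Nat.card X ∣ r ! := by
            rw [hsr, ← hra', ← Fintype.card_perm, ← Nat.card_eq_fintype_card]
            exact Subgroup.card_subgroup_dvd_card X
          exact hq'X.trans this
        exact (Nat.Prime.dvd_factorial hq').1 hdiv
      have hq'odd : q' = s ∨ q' = s + 1 ∨ q' = s + 2 := by omega
      rcases hq'odd with h | h | h
      · exact Or.inl h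
      · exfalso
        have := hq'.eq_two_or_odd
        omega
      · exact Or.inr (by omega)

end prim

end Cfsg.Agent.H11.HallS
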