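/-
Hall subgroups of symmetric groups: block systems, restriction to invariant sets.
-/
import Cfsg.Agent.Lib.H11.HallG1

set_option autoImplicit false

namespace Cfsg.Agent.H11.HallS

open Equiv Equiv.Perm MulAction
open scoped Nat Pointwise

variable {Ω : Type*} [Fintype Ω] [DecidableEq Ω]

/-- the index of a set stabilizer -/
lemma index_stab (S : Finset Ω) :
    (stabilizer (Perm Ω) (S : Set Ω)).index = (Fintype.card Ω).choose S.card := by
  let s : Set.powersetCard Ω S.card := ⟨S, rfl⟩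
  have h1 : stabilizer (Perm Ω) s = stabilizer (Perm Ω) (S : Set Ω) :=
    Set.powersetCard.stabilizer_coe s
  rw [← h1]
  haveI : IsPretransitive (Perm Ω) (Set.powersetCard Ω S.card) := Set.powersetCard.isPretransitive
  rw [index_stabilizer_of_transitive, Set.powersetCard.card, Nat.card_eq_fintype_card]

lemma mem_stab {S : Set Ω} {g : Perm Ω} : g ∈ stabilizer (Perm Ω) S ↔ ∀ x, g x ∈ S ↔ x ∈ S := by
  rw [mem_stabilizer_set]; rfl

/-- own block predicate -/
def Bl (H : Subgroup (Perm Ω)) (B : Finset Ω) : Prop :=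
  ∀ g ∈ H, ∀ x ∈ B, g x ∈ B → ∀ y ∈ B, g y ∈ B

/-- same translate -/
def Eqv (H : Subgroup (Perm Ω)) (B : Finset Ω) (x y : Ω) : Prop :=
  ∃ g ∈ H, ∃ u ∈ B, ∃ v ∈ B, g u = x ∧ g v = y

section eqv
variable {H : Subgroup (Perm Ω)} {B : Finset Ω}

lemma Bl.stab (hB : Bl H B) {g : Perm Ω} (hg : g ∈ H) {x : Ω} (hx : x ∈ B) (hgx : g x ∈ B) :
    g ∈ stabilizer (Perm Ω) (B : Set Ω) := by
  rw [mem_stab]
  intro y
  simp only [Finset.mem_coe]
  constructor
  · intro hy
    have hinv : g⁻¹ ∈ H := H.inv_mem hg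
    have := hB g⁻¹ hinv (g x) hgx (by simpa using hx) (g y) hy
    simpa using this
  · intro hy
    exact hB g hg x hx hgx y hy

lemma eqv_refl (htr : ∀ x y : Ω, ∃ g ∈ H, g x = y) {b₀ : Ω} (hb₀ : b₀ ∈ B) (x : Ω) : Eqv H B x x := by
  obtain ⟨g, hg, hx⟩ := htr b₀ x
  exact ⟨g, hg, b₀, hb₀, b₀, hb₀, hx, hx⟩

lemma eqv_symm {x y : Ω} (h : Eqv H B x y) : Eqv H B y x := by
  obtain ⟨g, hg, u, hu, v, hv, h1, h2⟩ := h
  exact ⟨g, hg, v, hv, u, hu, h2, h1⟩

lemma eqv_trans (hB : Bl H B) {x y z : Ω} (h1 : Eqv H B x y) (h2 : Eqv H B y z) : Eqv H B x z := by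
  obtain ⟨g, hg, u, hu, v, hv, rfl, rfl⟩ := h1
  obtain ⟨k, hk, w, hw, t, ht, h3, rfl⟩ := h2
  have hkg : k⁻¹ * g ∈ H := H.mul_mem (H.inv_mem hk) hg
  have hvw : (k⁻¹ * g) v = w := by
    simp only [Perm.mul_apply]
    rw [← h3]; simp
  have hu' : (k⁻¹ * g) u ∈ B := hB _ hkg v hv (by rw [hvw]; exact hw) u hu
  refine ⟨k, hk, _, hu', t, ht, ?_, rfl⟩
  simp

lemma eqv_smul {k : Perm Ω} (hk : k ∈ H) {x y : Ω} (h : Eqv H B x y) : Eqv H B (k x) (k y) := by
  obtain ⟨g, hg, u, hu, v, hv, rfl, rfl⟩ := h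
  exact ⟨k * g, H.mul_mem hk hg, u, hu, v, hv, rfl, rfl⟩

lemma eqv_mem (hB : Bl H B) {b y : Ω} (hb : b ∈ B) : Eqv H B b y ↔ y ∈ B := by
  constructor
  · rintro ⟨g, hg, u, hu, v, hv, h1, rfl⟩
    exact hB g hg u hu (by rw [h1]; exact hb) v hv
  · intro hy
    exact ⟨1, H.one_mem, b, hb, y, hy, rfl, rfl⟩

open Classical in
/-- the class of a point -/
noncomputable def cls (H : Subgroup (Perm Ω)) (B : Finset Ω) (x : Ω) : Finset Ω :=
  Finset.univ.filter (Eqv H B x)

lemma mem_cls {x y : Ω} : y ∈ cls H B x ↔ Eqv H B x y := by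
  simp [cls]

lemma card_cls (htr : ∀ x y : Ω, ∃ g ∈ H, g x = y) (hB : Bl H B) {b₀ : Ω} (hb₀ : b₀ ∈ B) (x : Ω) :
    (cls H B x).card = B.card := by
  obtain ⟨g, hg, hx⟩ := htr b₀ x
  symm
  apply Finset.card_bij (fun y _ => g y)
  · intro y hy
    rw [mem_cls]
    exact ⟨g, hg, b₀, hb₀, y, hy, hx, rfl⟩
  · intro a _ b _ h
    exact g.injective h
  · intro z hz
    rw [mem_cls] at hz
    obtain ⟨k, hk, u, hu, v, hv, h1, h2⟩ := hz
    have hgk : g⁻¹ * k ∈ H := H.mul_mem (H.inv_mem hg) hk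
    have hub : (g⁻¹ * k) u = b₀ := by
      simp only [Perm.mul_apply]
      rw [h1, ← hx]; simp
    have hv' : (g⁻¹ * k) v ∈ B := hB _ hgk u hu (by rw [hub]; exact hb₀) v hv
    refine ⟨_, hv', ?_⟩
    simp [h2]

lemma cls_eq (hB : Bl H B) (htr : ∀ x y : Ω, ∃ g ∈ H, g x = y) {b₀ : Ω} (hb₀ : b₀ ∈ B) {x y : Ω}
    (h : Eqv H B x y) : cls H B y = cls H B x := by
  ext z
  rw [mem_cls, mem_cls]
  exact ⟨fun h1 => eqv_trans hB h h1, fun h1 => eqv_trans hB (eqv_symm h) h1⟩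

/-- The key fact about a cycle in a group preserving a block system. -/
theorem block_cycle (htr : ∀ x y : Ω, ∃ g ∈ H, g x = y) (hB : Bl H B) {b₀ : Ω} (hb₀ : b₀ ∈ B)
    {c : Perm Ω} (hcH : c ∈ H) (hc : c.IsCycle) :
    (∀ u ∈ c.support, ∀ v ∈ c.support, Eqv H B u v) ∨
      (B.card ∣ c.support.card ∧ 2 * B.card ≤ c.support.card) := by
  obtain ⟨x₀, hx₀, hall⟩ := id hc
  have hpow : ∀ y ∈ c.support, ∃ i : ℕ, (c ^ i) x₀ = y := fun y hy =>
    hc.exists_pow_eq hx₀ (mem_support.1 hy)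
  by_cases h : Eqv H B x₀ (c x₀)
  · left
    have h1 : ∀ i : ℕ, Eqv H B x₀ ((c ^ i) x₀) := by
      intro i
      induction i with
      | zero => exact eqv_refl htr hb₀ x₀
      | succ i ih =>
        have h2 := eqv_smul (H.pow_mem hcH i) h
        have e : (c ^ i) (c x₀) = (c ^ (i+1)) x₀ := by
          rw [pow_succ, Perm.mul_apply]
        rw [e] at h2
        exact eqv_trans hB ih h2
    intro u hu v hv
    obtain ⟨i, rfl⟩ := hpow u hu
    obtain ⟨j, rfl⟩ := hpow v hv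
    exact eqv_trans hB (eqv_symm (h1 i)) (h1 j)
  · right
    have h1 : ∀ x ∈ c.support, ¬ Eqv H B x (c x) := by
      intro x hx hE
      obtain ⟨i, rfl⟩ := hpow x hx
      apply h
      have h2 := eqv_smul (H.inv_mem (H.pow_mem hcH i)) hE
      have e1 : ((c ^ i)⁻¹) ((c ^ i) x₀) = x₀ := by simp
      have e2 : ((c ^ i)⁻¹) (c ((c ^ i) x₀)) = c x₀ := by
        have : c ((c ^ i) x₀) = (c ^ i) (c x₀) := by
          rw [← Perm.mul_apply, ← Perm.mul_apply, ← pow_succ', pow_succ]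
        rw [this]; simp
      rwa [e1, e2] at h2
    have h2 : ∀ x ∈ c.support, ∀ y, Eqv H B x y → y ∈ c.support := by
      intro x hx y hxy
      rw [mem_support]
      intro hy
      apply h1 x hx
      have h3 := eqv_smul hcH hxy
      rw [hy] at h3
      exact eqv_trans hB hxy (eqv_symm h3)
    have hf : ∀ t ∈ c.support.image (cls H B), (c.support.filter (fun y => cls H B y = t)).card = B.card := by
      intro t ht
      obtain ⟨x, hx, rfl⟩ := Finset.mem_image.1 ht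
      rw [← card_cls htr hB hb₀ x]
      congr 1
      ext y
      simp only [Finset.mem_filter, mem_cls]
      constructor
      · rintro ⟨_, hy⟩
        have : y ∈ cls H B y := mem_cls.2 (eqv_refl htr hb₀ y)
        rw [hy] at this
        exact mem_cls.1 this
      · intro hy
        exact ⟨h2 x hx y hy, cls_eq hB htr hb₀ hy⟩
    have hcard := Finset.card_eq_sum_card_image (cls H B) c.support
    rw [Finset.sum_congr rfl hf, Finset.sum_const, smul_eq_mul] at hcard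
    have hx₀s : x₀ ∈ c.support := mem_support.2 hx₀
    have hcx₀s : c x₀ ∈ c.support := apply_mem_support.2 hx₀s
    have hne : cls H B x₀ ≠ cls H B (c x₀) := by
      intro he
      apply h
      have : c x₀ ∈ cls H B (c x₀) := mem_cls.2 (eqv_refl htr hb₀ _)
      rw [← he] at this
      exact mem_cls.1 this
    have h2c : 1 < (c.support.image (cls H B)).card :=
      Finset.one_lt_card.2 ⟨_, Finset.mem_image_of_mem _ hx₀s, _, Finset.mem_image_of_mem _ hcx₀s, hne⟩
    constructor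
    · rw [hcard]; exact Dvd.intro_left _ rfl
    · rw [hcard]; exact Nat.mul_le_mul_right _ h2c

/-- transport a cycle whose support lies in one class to `B`. -/
lemma move_cycle (htr : ∀ x y : Ω, ∃ g ∈ H, g x = y) (hB : Bl H B) {b₀ : Ω} (hb₀ : b₀ ∈ B)
    {c : Perm Ω} (hcH : c ∈ H) (hc : c.IsCycle)
    (hcl : ∀ u ∈ c.support, ∀ v ∈ c.support, Eqv H B u v) :
    ∃ c' ∈ H, c'.IsCycle ∧ c'.support.card = c.support.card ∧ c'.support ⊆ B := by
  obtain ⟨x₀, hx₀, -⟩ := id hc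
  obtain ⟨g, hg, hgx⟩ := htr x₀ b₀
  refine ⟨g * c * g⁻¹, H.mul_mem (H.mul_mem hg hcH) (H.inv_mem hg), hc.conj, card_support_conj, ?_⟩
  rw [support_conj]
  intro y hy
  obtain ⟨u, hu, rfl⟩ := Finset.mem_map.1 hy
  have h1 := eqv_smul hg (hcl x₀ (mem_support.2 hx₀) u hu)
  rw [hgx] at h1
  exact (eqv_mem hB hb₀).1 h1

end eqv

/-- The permutation group induced on an invariant set. -/
noncomputable def res (H : Subgroup (Perm Ω)) (s : Set Ω) : Subgroup (Perm s) :=
  (H.subgroupOf (stabilizer (Perm Ω) s)).map (toPermHom (stabilizer (Perm Ω) s) s)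

lemma mem_res {H : Subgroup (Perm Ω)} {s : Set Ω} {f : Perm s} :
    f ∈ res H s ↔ ∃ g ∈ H, g ∈ stabilizer (Perm Ω) s ∧ ∀ x : s, ((f x : s) : Ω) = g x := by
  constructor
  · rintro ⟨k, hk, rfl⟩
    exact ⟨k, hk, k.2, fun x => rfl⟩
  · rintro ⟨g, hg, hgs, hf⟩
    refine ⟨⟨g, hgs⟩, hg, ?_⟩
    ext x
    exact (hf x).symm

lemma card_res_dvd (H : Subgroup (Perm Ω)) (s : Set Ω) : Nat.card (res H s) ∣ Nat.card H := by
  refine (Subgroup.card_map_dvd _ _).trans ?_
  let ψ : (H.subgroupOf (stabilizer (Perm Ω) s)) →* H :=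
    { toFun := fun x => ⟨x.1.1, x.2⟩
      map_one' := rfl
      map_mul' := fun _ _ => rfl }
  refine Subgroup.card_dvd_of_injective ψ ?_
  intro x y h
  have h1 : x.1.1 = y.1.1 := congrArg (fun t : H => (t : Perm Ω)) h
  exact Subtype.ext (Subtype.ext h1)

/-- restriction of a cycle supported in an invariant set -/
lemma restrict_cycle {H : Subgroup (Perm Ω)} {B : Finset Ω} {c : Perm Ω} (hcH : c ∈ H)
    (hc : c.IsCycle) (hsub : c.support ⊆ B) :
    ∃ f ∈ res H (B : Set Ω), f.IsCycle ∧ f.support.card = c.support.card := by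
  classical
  have hst : c ∈ stabilizer (Perm Ω) (B : Set Ω) := by
    rw [mem_stab]
    intro x
    simp only [Finset.mem_coe]
    by_cases hx : c x = x
    · rw [hx]
    · constructor
      · intro _
        exact hsub (mem_support.2 hx)
      · intro _
        exact hsub (apply_mem_support.2 (mem_support.2 hx))
  let k : stabilizer (Perm Ω) (B : Set Ω) := ⟨c, hst⟩
  let f : Perm (B : Set Ω) := toPermHom _ _ k
  have hfv : ∀ x : (B : Set Ω), ((f x : (B : Set Ω)) : Ω) = c x := fun x => rfl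
  have hfpow : ∀ (i : ℕ) (x : (B : Set Ω)), (((f ^ i) x : (B : Set Ω)) : Ω) = (c ^ i) x := by
    intro i x
    induction i with
    | zero => rfl
    | succ i ih =>
      rw [pow_succ', Perm.mul_apply, hfv, ih, pow_succ', Perm.mul_apply]
  have hmem : f ∈ res H (B : Set Ω) := mem_res.2 ⟨c, hcH, hst, hfv⟩
  have hmov : ∀ x : (B : Set Ω), f x ≠ x ↔ c x ≠ x := by
    intro x
    rw [not_iff_not, Subtype.ext_iff, hfv]
  refine ⟨f, hmem, ?_, ?_⟩
  · obtain ⟨x₀, hx₀, -⟩ := id hc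
    have hx₀B : x₀ ∈ B := hsub (mem_support.2 hx₀)
    refine ⟨⟨x₀, hx₀B⟩, (hmov _).2 hx₀, ?_⟩
    intro y hy
    obtain ⟨i, hi⟩ := hc.exists_pow_eq hx₀ ((hmov y).1 hy)
    refine ⟨(i : ℤ), ?_⟩
    rw [zpow_natCast]
    exact Subtype.ext ((hfpow i _).trans hi)
  · have : (f.support).map (Function.Embedding.subtype _) = c.support := by
      ext y
      simp only [Finset.mem_map, mem_support, Function.Embedding.coe_subtype]
      constructor
      · rintro ⟨x, hx, rfl⟩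
        exact (hmov x).1 hx
      · intro hy
        have hyB : y ∈ B := hsub (mem_support.2 hy)
        exact ⟨⟨y, hyB⟩, (hmov _).2 hy, rfl⟩
    rw [← this, Finset.card_map]

end Cfsg.Agent.H11.HallS
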