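/-
Hall subgroups of symmetric groups: the transitive case.
-/
import Cfsg.Agent.Lib.H11.HallG2

set_option autoImplicit false

namespace Cfsg.Agent.H11.HallS

open Equiv Equiv.Perm MulAction
open scoped Nat Pointwise

variable {Ω : Type*} [Fintype Ω] [DecidableEq Ω]

/-- a minimal block gives a primitive induced group -/
lemma res_prim {H : Subgroup (Perm Ω)} {B : Finset Ω} (htr : ∀ x y : Ω, ∃ g ∈ H, g x = y)
    (hB : Bl H B) (hmin : ∀ B' : Finset Ω, Bl H B' → 2 ≤ B'.card → B.card ≤ B'.card) :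
    IsPreprimitive (res H (B : Set Ω)) (B : Set Ω) := by
  classical
  have hmk : ∀ g ∈ H, ∀ x : (B : Set Ω), g x ∈ B → ∃ f : res H (B : Set Ω), ∀ y : (B : Set Ω),
      ((f.1 y : (B : Set Ω)) : Ω) = g y := by
    intro g hg x hx
    have hst := hB.stab hg x.2 hx
    let k : stabilizer (Perm Ω) (B : Set Ω) := ⟨g, hst⟩
    refine ⟨⟨toPermHom _ _ k, mem_res.2 ⟨g, hg, hst, fun _ => rfl⟩⟩, fun _ => rfl⟩
  haveI hpre : IsPretransitive (res H (B : Set Ω)) (B : Set Ω) := by
    constructor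
    intro x y
    obtain ⟨g, hg, hgx⟩ := htr x.1 y.1
    obtain ⟨f, hf⟩ := hmk g hg x (by rw [hgx]; exact y.2)
    exact ⟨f, Subtype.ext ((hf x).trans hgx)⟩
  refine IsPreprimitive.mk ?_
  intro C hC
  by_cases hs : C.Subsingleton
  · exact Or.inl hs
  right
  -- the image of `C` in `Ω`
  let C' : Finset Ω := (Finset.univ.filter (fun x : (B : Set Ω) => x ∈ C)).map (Function.Embedding.subtype _)
  have hC'mem : ∀ y : Ω, y ∈ C' ↔ ∃ h : y ∈ B, (⟨y, h⟩ : (B : Set Ω)) ∈ C := by
    intro y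
    simp only [C', Finset.mem_map, Finset.mem_filter, Finset.mem_univ, true_and,
      Function.Embedding.coe_subtype]
    constructor
    · rintro ⟨x, hx, rfl⟩
      exact ⟨x.2, hx⟩
    · rintro ⟨h, hy⟩
      exact ⟨⟨y, h⟩, hy, rfl⟩
  have hC'B : Bl H C' := by
    intro g hg x hx hgx y hy
    obtain ⟨hxB, hxC⟩ := (hC'mem x).1 hx
    obtain ⟨hgxB, hgxC⟩ := (hC'mem _).1 hgx
    obtain ⟨hyB, hyC⟩ := (hC'mem y).1 hy
    obtain ⟨f, hf⟩ := hmk g hg ⟨x, hxB⟩ hgxB
    have h1 : f • C = C := by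
      rw [isBlock_iff_smul_eq_of_mem] at hC
      apply hC hxC
      convert hgxC using 1
      exact Subtype.ext (hf _)
    have h2 : f • (⟨y, hyB⟩ : (B : Set Ω)) ∈ C := by
      rw [← h1]
      exact Set.smul_mem_smul_set hyC
    refine (hC'mem _).2 ⟨?_, ?_⟩
    · have := (f.1 ⟨y, hyB⟩).2
      rw [hf] at this
      exact this
    · convert h2 using 1
      exact Subtype.ext (hf ⟨y, hyB⟩).symm
  have h2C' : 2 ≤ C'.card := by
    rw [Set.not_subsingleton_iff] at hs
    obtain ⟨x, hx, y, hy, hne⟩ := hs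
    have : 1 < C'.card := Finset.one_lt_card.2 ⟨x.1, (hC'mem _).2 ⟨x.2, hx⟩, y.1, (hC'mem _).2 ⟨y.2, hy⟩,
      fun h => hne (Subtype.ext h)⟩
    omega
  have hsub : C' ⊆ B := fun y hy => ((hC'mem y).1 hy).1
  have hEq : C' = B := Finset.eq_of_subset_of_card_le hsub (hmin C' hC'B h2C')
  rw [Set.eq_univ_iff_forall]
  intro x
  have : x.1 ∈ C' := by rw [hEq]; exact x.2
  exact ((hC'mem _).1 this).2

/-- the elements of a group with two blocks -/
lemma two_block_square {H : Subgroup (Perm Ω)} {B : Finset Ω} (hB : Bl H B)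
    (h2 : Fintype.card Ω = 2 * B.card) {g : Perm Ω} (hg : g ∈ H) :
    g ∈ stabilizer (Perm Ω) (B : Set Ω) ∨ ∀ x, g x ∈ B ↔ x ∉ B := by
  classical
  by_cases h : ∃ x ∈ B, g x ∈ B
  · obtain ⟨x, hx, hgx⟩ := h
    exact Or.inl (hB.stab hg hx hgx)
  · push_neg at h
    right
    have hcard : (B.map g.toEmbedding) = Bᶜ := by
      apply Finset.eq_of_subset_of_card_le
      · intro y hy
        obtain ⟨x, hx, rfl⟩ := Finset.mem_map.1 hy
        simpa using h x hx
      · rw [Finset.card_compl, Finset.card_map]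
        omega
    intro x
    constructor
    · intro hgx hx
      exact h x hx hgx
    · intro hx
      by_contra hgx
      have hgx' : g x ∈ Bᶜ := by simpa using hgx
      rw [← hcard] at hgx'
      obtain ⟨b, hb, hbx⟩ := Finset.mem_map.1 hgx'
      have : b = x := g.injective hbx
      exact hx (this ▸ hb)

/-- elements of odd prime power order stabilize a block in a two-block system -/
lemma two_block_odd {H : Subgroup (Perm Ω)} {B : Finset Ω} (hB : Bl H B)
    (h2 : Fintype.card Ω = 2 * B.card) {g : Perm Ω} (hg : g ∈ H) {ℓ n : ℕ} (hℓ : ℓ % 2 = 1)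
    (hgo : g ^ (ℓ ^ n) = 1) : g ∈ stabilizer (Perm Ω) (B : Set Ω) := by
  rcases two_block_square hB h2 hg with h | h
  · exact h
  · have hsq : g ^ 2 ∈ stabilizer (Perm Ω) (B : Set Ω) := by
      rw [mem_stab]
      intro x
      simp only [Finset.mem_coe, pow_two, Perm.mul_apply]
      rw [h (g x), h x]
      tauto
    have hodd : (ℓ ^ n) % 2 = 1 := by
      rw [Nat.pow_mod, hℓ]; simp
    obtain ⟨t, ht⟩ : ∃ t, ℓ ^ n = 2 * t + 1 := ⟨ℓ^n/2, by omega⟩
    rw [ht, pow_succ, pow_mul] at hgo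
    have : g = ((g ^ 2) ^ t)⁻¹ := by
      exact eq_inv_of_mul_eq_one_right hgo
    rw [this]
    exact Subgroup.inv_mem _ (Subgroup.pow_mem _ hsq t)

/-- The transitive case. -/
theorem hall_transitive (H : Subgroup (Perm Ω)) (π : Set ℕ) (hH : Cfsg.IsPiHall π H)
    (htr : ∀ x y : Ω, ∃ g ∈ H, g x = y) (r s : ℕ) (hr : r.Prime) (hs : s.Prime) (hsr : s < r)
    (hrπ : r ∈ π) (hsπ : s ∈ π) (hrm : r ≤ Fintype.card Ω) :
    (∀ q : ℕ, q.Prime → q ≤ Fintype.card Ω → q ∈ π) ∨
      (Fintype.card Ω = 8 ∧ (∀ q : ℕ, q.Prime → q ≤ 8 → (q ∈ π ↔ q = 2 ∨ q = 3)) ∧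
        ∃ B : Finset Ω, B.card = 4 ∧ Bl H B) := by
  classical
  have hs2 := hs.two_le
  have hr3 : 3 ≤ r := by omega
  have hm3 : 3 ≤ Fintype.card Ω := by omega
  -- a minimal block
  let 𝓑 : Finset (Finset Ω) := Finset.univ.filter (fun B => Bl H B ∧ 2 ≤ B.card)
  have h𝓑 : 𝓑.Nonempty := by
    refine ⟨Finset.univ, ?_⟩
    simp only [𝓑, Finset.mem_filter, Finset.mem_univ, true_and]
    refine ⟨fun _ _ _ _ _ _ _ => Finset.mem_univ _, ?_⟩
    rw [Finset.card_univ]; omega
  obtain ⟨B, hB𝓑, hmin⟩ := Finset.exists_min_image 𝓑 Finset.card h𝓑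
  simp only [𝓑, Finset.mem_filter, Finset.mem_univ, true_and] at hB𝓑 hmin
  obtain ⟨hB, ha2⟩ := hB𝓑
  have hmin' : ∀ B' : Finset Ω, Bl H B' → 2 ≤ B'.card → B.card ≤ B'.card :=
    fun B' h1 h2 => hmin B' ⟨h1, h2⟩
  obtain ⟨b₀, hb₀⟩ : B.Nonempty := Finset.card_pos.1 (by omega)
  -- prime cycles live in `B`
  have hcyc : ∀ ℓ : ℕ, ℓ.Prime → ℓ ∈ π → ℓ ≤ Fintype.card Ω →
      ∃ c ∈ H, c.IsCycle ∧ c.support.card = ℓ ∧ c.support ⊆ B := by
    intro ℓ hℓ hℓπ hℓm
    obtain ⟨c, hcH, hc, hcs⟩ := hall_cycle hH hℓ hℓπ 1 le_rfl (by simpa using hℓm)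
    rw [pow_one] at hcs
    rcases block_cycle htr hB hb₀ hcH hc with h | ⟨h1, h2⟩
    · obtain ⟨c', h1, h2, h3, h4⟩ := move_cycle htr hB hb₀ hcH hc h
      exact ⟨c', h1, h2, by omega, h4⟩
    · exfalso
      rw [hcs] at h1 h2
      rcases (Nat.dvd_prime hℓ).1 h1 with h3 | h3 <;> omega
  have hle : ∀ ℓ : ℕ, ℓ.Prime → ℓ ∈ π → ℓ ≤ Fintype.card Ω → ℓ ≤ B.card := by
    intro ℓ hℓ hℓπ hℓm
    obtain ⟨c, _, _, h3, h4⟩ := hcyc ℓ hℓ hℓπ hℓm
    rw [← h3]
    exact Finset.card_le_card h4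
  have hca : Fintype.card (B : Set Ω) = B.card := by simp
  have hprim := res_prim htr hB hmin'
  have hq : ∀ q : ℕ, q.Prime → q ≤ B.card → q ∈ π := by
    have := prim_core (res H (B : Set Ω)) hprim π
      (fun q hq hd => hH.1 q hq (hd.trans (card_res_dvd H _))) (by
        intro ℓ hℓ hℓπ hℓa
        rw [hca] at hℓa
        obtain ⟨c, h1, h2, h3, h4⟩ := hcyc ℓ hℓ hℓπ (le_trans hℓa (by
          rw [← Finset.card_univ]; exact Finset.card_le_univ B))
        obtain ⟨f, hf1, hf2, hf3⟩ := restrict_cycle h1 h2 h4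
        exact ⟨f, hf1, hf2, by omega⟩) r s hr hs hsr hrπ hsπ (by
        rw [hca]; exact hle r hr hrπ hrm)
    rwa [hca] at this
  have hBm : B.card ≤ Fintype.card Ω := by
    rw [← Finset.card_univ]; exact Finset.card_le_univ B
  have hra := hle r hr hrπ hrm
  by_cases haeq : B.card = Fintype.card Ω
  · exact Or.inl (fun q h1 h2 => hq q h1 (by omega))
  right
  -- the classes partition `Ω`
  have hpart : B.card ∣ Fintype.card Ω ∧ 2 * B.card ≤ Fintype.card Ω := by
    have hcard := Finset.card_eq_sum_card_image (cls H B) (Finset.univ : Finset Ω)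
    have hf : ∀ t ∈ (Finset.univ : Finset Ω).image (cls H B),
        ((Finset.univ : Finset Ω).filter (fun y => cls H B y = t)).card = B.card := by
      intro t ht
      obtain ⟨x, -, rfl⟩ := Finset.mem_image.1 ht
      rw [← card_cls htr hB hb₀ x]
      congr 1
      ext y
      simp only [Finset.mem_filter, Finset.mem_univ, true_and, mem_cls]
      constructor
      · intro hy
        have : y ∈ cls H B y := mem_cls.2 (eqv_refl htr hb₀ y)
        rw [hy] at this
        exact mem_cls.1 this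
      · intro hy
        exact cls_eq hB htr hb₀ hy
    rw [Finset.sum_congr rfl hf, Finset.sum_const, smul_eq_mul, Finset.card_univ] at hcard
    obtain ⟨z, hz⟩ : ∃ z, z ∉ B := by
      by_contra hcon
      push_neg at hcon
      apply haeq
      rw [← Finset.card_univ]
      congr 1
      exact Finset.eq_univ_of_forall hcon
    have hne : cls H B b₀ ≠ cls H B z := by
      intro he
      have : z ∈ cls H B z := mem_cls.2 (eqv_refl htr hb₀ _)
      rw [← he, mem_cls, eqv_mem hB hb₀] at this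
      exact hz this
    have h2c : 1 < ((Finset.univ : Finset Ω).image (cls H B)).card :=
      Finset.one_lt_card.2 ⟨_, Finset.mem_image_of_mem _ (Finset.mem_univ b₀), _,
        Finset.mem_image_of_mem _ (Finset.mem_univ z), hne⟩
    constructor
    · rw [hcard]; exact Dvd.intro_left _ rfl
    · rw [hcard]; exact Nat.mul_le_mul_right _ h2c
  obtain ⟨hdvd, h2a⟩ := hpart
  have h2π : 2 ∈ π := hq 2 Nat.prime_two (by omega)
  have h3π : 3 ∈ π := hq 3 Nat.prime_three (by omega)
  -- `B.card` is a power of 2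
  have hpow : ∃ x, B.card = 2 ^ x := by
    obtain ⟨y, hy⟩ : ∃ y, y = Nat.log 2 (Fintype.card Ω) := ⟨_, rfl⟩
    have hy1 : 1 ≤ y := by
      rw [hy]; exact Nat.log_pos (by norm_num) (by omega)
    have hy2 : 2 ^ y ≤ Fintype.card Ω := by
      rw [hy]; exact Nat.pow_log_le_self 2 (by omega)
    have hy3 : Fintype.card Ω < 2 ^ (y+1) := by
      rw [hy]; exact Nat.lt_pow_succ_log_self (by norm_num) _
    obtain ⟨c, hcH, hc, hcs⟩ := hall_cycle hH Nat.prime_two h2π y hy1 hy2
    rcases block_cycle htr hB hb₀ hcH hc with h | ⟨h1, -⟩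
    · exfalso
      obtain ⟨c', -, -, h3, h4⟩ := move_cycle htr hB hb₀ hcH hc h
      have := Finset.card_le_card h4
      rw [pow_succ] at hy3
      omega
    · rw [hcs] at h1
      obtain ⟨x, -, hx⟩ := (Nat.dvd_prime_pow Nat.prime_two).1 h1
      exact ⟨x, hx⟩
  obtain ⟨x, hx⟩ := hpow
  -- two blocks
  have hm2 : Fintype.card Ω = 2 * B.card := by
    obtain ⟨y, hy⟩ : ∃ y, y = Nat.log 3 (Fintype.card Ω) := ⟨_, rfl⟩
    have hy1 : 1 ≤ y := by
      rw [hy]; exact Nat.log_pos (by norm_num) (by omega)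
    have hy2 : 3 ^ y ≤ Fintype.card Ω := by
      rw [hy]; exact Nat.pow_log_le_self 3 (by omega)
    have hy3 : Fintype.card Ω < 3 ^ (y+1) := by
      rw [hy]; exact Nat.lt_pow_succ_log_self (by norm_num) _
    obtain ⟨c, hcH, hc, hcs⟩ := hall_cycle hH Nat.prime_three h3π y hy1 hy2
    rcases block_cycle htr hB hb₀ hcH hc with h | ⟨h1, -⟩
    · obtain ⟨c', -, -, h3, h4⟩ := move_cycle htr hB hb₀ hcH hc h
      have h5 := Finset.card_le_card h4
      rw [pow_succ] at hy3
      obtain ⟨t, ht⟩ := hdvd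
      have ht2 : t = 2 := by
        have h6 : 2 * B.card ≤ B.card * t := by omega
        have h7 : B.card * t < B.card * 3 := by omega
        have h8 : t < 3 := Nat.lt_of_mul_lt_mul_left h7
        have h9 : 2 ≤ t := by
          by_contra hlt
          have : t ≤ 1 := by omega
          have : B.card * t ≤ B.card * 1 := Nat.mul_le_mul_left _ this
          omega
        omega
      rw [ht, ht2]; ring
    · exfalso
      rw [hcs] at h1
      have h2d : 2 ∣ B.card := by
        rw [hx]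
        exact dvd_pow_self 2 (by rintro rfl; simp at hx; omega)
      have := Nat.Prime.dvd_of_dvd_pow Nat.prime_two (h2d.trans h1)
      omega
  -- the arithmetic
  have hx2 : x = 2 := by
    have hx3 : x < 3 := by
      by_contra hcon
      have hx3 : 3 ≤ x := by omega
      obtain ⟨ℓ, hℓ, hℓ2, hℓa, hℓd⟩ := nt_odd x hx3
      have hℓπ : ℓ ∈ π := hq ℓ hℓ (by rw [hx]; exact hℓa)
      obtain ⟨P, hP⟩ := exists_sylow_le hH hℓ hℓπ
      have hPst : (P : Subgroup (Perm Ω)) ≤ stabilizer (Perm Ω) (B : Set Ω) := by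
        intro g hg
        haveI : Fact ℓ.Prime := ⟨hℓ⟩
        obtain ⟨n, hn⟩ := P.isPGroup' ⟨g, hg⟩
        have hgo : g ^ (ℓ ^ n) = 1 := by
          have := congrArg (fun t : (P : Subgroup (Perm Ω)) => (t : Perm Ω)) hn
          simpa using this
        exact two_block_odd hB hm2 (hP hg) ((hℓ.eq_two_or_odd).resolve_left hℓ2) hgo
      haveI : Fact ℓ.Prime := ⟨hℓ⟩
      have hnd := P.not_dvd_index
      have h1 : ¬ ℓ ∣ (stabilizer (Perm Ω) (B : Set Ω)).index := fun h =>
        hnd (h.trans (Subgroup.index_dvd_of_le hPst))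
      apply h1
      rw [index_stab, hm2, hx]
      exact hℓd
    have hb3 : 3 ≤ B.card := by omega
    have hxne0 : x ≠ 0 := by rintro rfl; simp at hx; omega
    have hxne1 : x ≠ 1 := by rintro rfl; simp at hx; omega
    omega
  subst hx2
  norm_num at hx
  refine ⟨by omega, ?_, B, hx, hB⟩
  intro q hq1 hq8
  constructor
  · intro hqπ
    have := hle q hq1 hqπ (by omega)
    have hq2 := hq1.two_le
    have : q = 2 ∨ q = 3 ∨ q = 4 := by omega
    rcases this with h | h | h
    · exact Or.inl h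
    · exact Or.inr h
    · exfalso; rw [h] at hq1; revert hq1; norm_num
  · rintro (h | h)
    · rw [h]; exact h2π
    · rw [h]; exact h3π

end Cfsg.Agent.H11.HallS
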