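/-
Hall subgroups of symmetric groups: the global analysis through orbits.
-/
import Cfsg.Agent.Lib.H11.HallG3

set_option autoImplicit false

namespace Cfsg.Agent.H11.HallS

open Equiv Equiv.Perm MulAction
open scoped Nat Pointwise

variable {Ω : Type*} [Fintype Ω] [DecidableEq Ω]

lemma res_hall {H : Subgroup (Perm Ω)} {π : Set ℕ} (hH : Cfsg.IsPiHall π H) {s : Set Ω}
    (hs : H ≤ stabilizer (Perm Ω) s) : Cfsg.IsPiHall π (res H s) := by
  refine ⟨fun q hq hd => hH.1 q hq (hd.trans (card_res_dvd H s)), ?_⟩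
  intro q hq hqπ hd
  apply hH.2 q hq hqπ
  have h1 : (res H s).index ∣ (H.subgroupOf (stabilizer (Perm Ω) s)).index :=
    Subgroup.index_map_dvd _ (stabilizer.surjective_toPerm s)
  have h2 : (H.subgroupOf (stabilizer (Perm Ω) s)).index ∣ H.index := by
    have := Subgroup.relIndex_mul_index hs
    exact ⟨_, this.symm⟩
  exact hd.trans (h1.trans h2)

open Classical in
/-- the orbit of a point -/
noncomputable def orb (H : Subgroup (Perm Ω)) (x : Ω) : Finset Ω :=
  Finset.univ.filter (fun y => ∃ g ∈ H, g x = y)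

lemma mem_orb {H : Subgroup (Perm Ω)} {x y : Ω} : y ∈ orb H x ↔ ∃ g ∈ H, g x = y := by
  simp [orb]

lemma self_mem_orb (H : Subgroup (Perm Ω)) (x : Ω) : x ∈ orb H x :=
  mem_orb.2 ⟨1, H.one_mem, rfl⟩

lemma orb_eq {H : Subgroup (Perm Ω)} {x y : Ω} (h : y ∈ orb H x) : orb H y = orb H x := by
  obtain ⟨g, hg, rfl⟩ := mem_orb.1 h
  ext z
  rw [mem_orb, mem_orb]
  constructor
  · rintro ⟨k, hk, rfl⟩
    exact ⟨k * g, H.mul_mem hk hg, rfl⟩
  · rintro ⟨k, hk, rfl⟩
    exact ⟨k * g⁻¹, H.mul_mem hk (H.inv_mem hg), by simp⟩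

lemma orb_stab (H : Subgroup (Perm Ω)) (x : Ω) : H ≤ stabilizer (Perm Ω) ((orb H x : Finset Ω) : Set Ω) := by
  intro g hg
  rw [mem_stab]
  intro y
  simp only [Finset.mem_coe]
  constructor
  · intro h
    obtain ⟨k, hk, hky⟩ := mem_orb.1 h
    exact mem_orb.2 ⟨g⁻¹ * k, H.mul_mem (H.inv_mem hg) hk, by simp [hky]⟩
  · intro h
    obtain ⟨k, hk, rfl⟩ := mem_orb.1 h
    exact mem_orb.2 ⟨g * k, H.mul_mem hg hk, rfl⟩

lemma support_sub_orb {H : Subgroup (Perm Ω)} {c : Perm Ω} (hcH : c ∈ H) (hc : c.IsCycle) {x : Ω}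
    (hx : x ∈ c.support) : c.support ⊆ orb H x := by
  intro y hy
  obtain ⟨i, rfl⟩ := hc.exists_pow_eq (mem_support.1 hx) (mem_support.1 hy)
  exact mem_orb.2 ⟨c ^ i, H.pow_mem hcH i, rfl⟩

/-- The two alternatives on an orbit containing two primes. -/
theorem orb_T (H : Subgroup (Perm Ω)) (π : Set ℕ) (hH : Cfsg.IsPiHall π H) (x : Ω) (r s : ℕ)
    (hr : r.Prime) (hs : s.Prime) (hsr : s < r) (hrπ : r ∈ π) (hsπ : s ∈ π)
    (hrm : r ≤ (orb H x).card) :
    (∀ q : ℕ, q.Prime → q ≤ (orb H x).card → q ∈ π) ∨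
      ((orb H x).card = 8 ∧ (∀ q : ℕ, q.Prime → q ≤ 8 → (q ∈ π ↔ q = 2 ∨ q = 3)) ∧
        ∃ B : Finset ((orb H x : Finset Ω) : Set Ω), B.card = 4 ∧ Bl (res H ((orb H x : Finset Ω) : Set Ω)) B) := by
  classical
  have hca : Fintype.card ((orb H x : Finset Ω) : Set Ω) = (orb H x).card := by simp
  have htr : ∀ u v : ((orb H x : Finset Ω) : Set Ω), ∃ g ∈ res H ((orb H x : Finset Ω) : Set Ω), g u = v := by
    intro u v
    have hu : (u : Ω) ∈ orb H x := u.2
    have hv : (v : Ω) ∈ orb H (u : Ω) := by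
      rw [orb_eq hu]; exact v.2
    obtain ⟨g, hg, hgu⟩ := mem_orb.1 hv
    have hst := orb_stab H x hg
    let k : stabilizer (Perm Ω) ((orb H x : Finset Ω) : Set Ω) := ⟨g, hst⟩
    refine ⟨toPermHom _ _ k, mem_res.2 ⟨g, hg, hst, fun _ => rfl⟩, Subtype.ext hgu⟩
  have := hall_transitive (res H ((orb H x : Finset Ω) : Set Ω)) π (res_hall hH (orb_stab H x)) htr r s hr hs hsr hrπ hsπ
    (by rw [hca]; exact hrm)
  rwa [hca] at this

lemma orb_le_of_disjoint (H : Subgroup (Perm Ω)) {x y : Ω} (h : y ∉ orb H x) :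
    (orb H x).card + (orb H y).card ≤ Fintype.card Ω := by
  have hd : Disjoint (orb H x) (orb H y) := by
    rw [Finset.disjoint_left]
    intro z hz hz'
    apply h
    have h1 := orb_eq hz
    have h2 := orb_eq hz'
    rw [← h1, h2]
    exact self_mem_orb H y
  rw [← Finset.card_union_of_disjoint hd, ← Finset.card_univ]
  exact Finset.card_le_univ _

/-- Global structure of a Hall subgroup. -/
theorem hall_forward (H : Subgroup (Perm Ω)) (π : Set ℕ) (hH : Cfsg.IsPiHall π H) (r s : ℕ)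
    (hr : r.Prime) (hs : s.Prime) (hsr : s < r) (hrπ : r ∈ π) (hsπ : s ∈ π)
    (hrm : r ≤ Fintype.card Ω) (q₀ : ℕ) (hq₀ : q₀.Prime) (hq₀n : q₀ ≤ Fintype.card Ω) (hq₀π : q₀ ∉ π) :
    ((Fintype.card Ω).Prime ∧ (∀ q : ℕ, q.Prime → q ≤ Fintype.card Ω → (q ∈ π ↔ q < Fintype.card Ω)) ∧
        ∃ z : Ω, ∀ g ∈ H, g z = z) ∨
    (Fintype.card Ω = 7 ∧ (∀ q : ℕ, q.Prime → q ≤ 7 → (q ∈ π ↔ q = 2 ∨ q = 3)) ∧
        ∃ D : Finset Ω, D.card = 4 ∧ H ≤ stabilizer (Perm Ω) (D : Set Ω)) ∨
    (Fintype.card Ω = 8 ∧ (∀ q : ℕ, q.Prime → q ≤ 8 → (q ∈ π ↔ q = 2 ∨ q = 3)) ∧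
        ∃ x : Ω, orb H x = Finset.univ ∧
        ∃ B : Finset ((orb H x : Finset Ω) : Set Ω), B.card = 4 ∧ Bl (res H ((orb H x : Finset Ω) : Set Ω)) B) := by
  classical
  obtain ⟨n, hn⟩ : ∃ n, n = Fintype.card Ω := ⟨_, rfl⟩
  have hcyc : ∀ (ℓ y : ℕ), ℓ.Prime → ℓ ∈ π → 1 ≤ y → ℓ^y ≤ Fintype.card Ω →
      ∃ x : Ω, ℓ^y ≤ (orb H x).card := by
    intro ℓ y hℓ hπ hy hle
    obtain ⟨c, hcH, hc, hcs⟩ := hall_cycle hH hℓ hπ y hy hle
    obtain ⟨x, hx, -⟩ := id hc
    have hxs : x ∈ c.support := mem_support.2 hx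
    refine ⟨x, ?_⟩
    rw [← hcs]
    exact Finset.card_le_card (support_sub_orb hcH hc hxs)
  have hr2 := hr.two_le
  have hs2 := hs.two_le
  -- 2 ∈ π
  have h2π : 2 ∈ π := by
    obtain ⟨x, hx⟩ := hcyc r 1 hr hrπ le_rfl (by simpa using hrm)
    rw [pow_one] at hx
    rcases orb_T H π hH x r s hr hs hsr hrπ hsπ hx with h | ⟨-, h, -⟩
    · exact h 2 Nat.prime_two (by omega)
    · exact (h 2 Nat.prime_two (by norm_num)).2 (Or.inl rfl)
  have hr3 : 3 ≤ r := by omega
  have hn2 : 2 ≤ Fintype.card Ω := by omega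
  -- the orbit of a large 2-cycle
  obtain ⟨y, hy⟩ : ∃ y, y = Nat.log 2 (Fintype.card Ω) := ⟨_, rfl⟩
  have hy1 : 1 ≤ y := by
    rw [hy]; exact Nat.log_pos (by norm_num) (by omega)
  have hy2 : 2 ^ y ≤ Fintype.card Ω := by
    rw [hy]; exact Nat.pow_log_le_self 2 (by omega)
  have hy3 : Fintype.card Ω < 2 ^ (y+1) := by
    rw [hy]; exact Nat.lt_pow_succ_log_self (by norm_num) _
  obtain ⟨x, hx⟩ := hcyc 2 y Nat.prime_two h2π hy1 hy2
  have hmn : Fintype.card Ω < 2 * (orb H x).card := by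
    rw [pow_succ] at hy3; omega
  -- primes in `π` lie in the big orbit
  have hπm : ∀ ℓ : ℕ, ℓ.Prime → ℓ ∈ π → ℓ ≤ Fintype.card Ω → ℓ ≤ (orb H x).card := by
    intro ℓ hℓ hπ hle
    obtain ⟨z, hz⟩ := hcyc ℓ 1 hℓ hπ le_rfl (by simpa using hle)
    rw [pow_one] at hz
    by_cases hzm : z ∈ orb H x
    · rwa [orb_eq hzm] at hz
    · by_contra hcon
      have := orb_le_of_disjoint H hzm
      omega
  have hrm' := hπm r hr hrπ hrm
  have h2r : 2 < r := by omega
  rcases orb_T H π hH x r 2 hr Nat.prime_two h2r hrπ h2π hrm' with hT | ⟨h8, hπ8, hB⟩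
  · -- all primes up to the orbit size lie in `π`
    have hq₀m : (orb H x).card < q₀ := by
      by_contra hcon
      exact hq₀π (hT q₀ hq₀ (by omega))
    obtain ⟨m, hm⟩ : ∃ m, m = (orb H x).card := ⟨_, rfl⟩
    obtain ⟨k, hk⟩ : ∃ k, k = Fintype.card Ω - m := ⟨_, rfl⟩
    have hmle : m ≤ Fintype.card Ω := by
      rw [hm, ← Finset.card_univ]; exact Finset.card_le_univ _
    have hnmk : Fintype.card Ω = m + k := by omega
    have hk1 : 1 ≤ k := by omega
    have hkm : k < m := by omega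
    by_cases hk1' : k = 1
    · left
      subst hk1'
      have hqn : q₀ = Fintype.card Ω := by omega
      refine ⟨hqn ▸ hq₀, ?_, ?_⟩
      · intro q hq hqn'
        constructor
        · intro hqπ
          rcases Nat.lt_or_ge q (Fintype.card Ω) with h | h
          · exact h
          · exfalso
            have : q = q₀ := by omega
            exact hq₀π (this ▸ hqπ)
        · intro hlt
          exact hT q hq (by omega)
      · -- the point outside the orbit
        obtain ⟨z, hz⟩ : ∃ z, z ∉ orb H x := by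
          by_contra hcon
          push_neg at hcon
          have : orb H x = Finset.univ := Finset.eq_univ_of_forall hcon
          rw [this, Finset.card_univ] at hm
          omega
        refine ⟨z, ?_⟩
        intro g hg
        by_contra hne
        have h1 : g z ∈ orb H z := mem_orb.2 ⟨g, hg, rfl⟩
        have h2 : 2 ≤ (orb H z).card := by
          have : 1 < (orb H z).card :=
            Finset.one_lt_card.2 ⟨z, self_mem_orb H z, g z, h1, fun h => hne h.symm⟩
          omega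
        have := orb_le_of_disjoint H hz
        omega
    · have hk2 : 2 ≤ k := by omega
      have hnd : ∀ ℓ : ℕ, ℓ.Prime → ℓ ≤ m → ¬ ℓ ∣ Nat.choose (m+k) k := by
        intro ℓ hℓ hle hd
        have hℓπ := hT ℓ hℓ (by omega)
        apply not_dvd_index_of_le hH (orb_stab H x) hℓ hℓπ
        rw [index_stab, hnmk, ← hm, Nat.choose_symm_add]
        exact hd
      obtain ⟨rfl, rfl⟩ := ecklund m k hk2 hkm hnd
      right; left
      have h7 : Fintype.card Ω = 7 := by omega
      refine ⟨h7, ?_, orb H x, hm.symm, orb_stab H x⟩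
      intro q hq hq7
      have hq2 := hq.two_le
      constructor
      · intro hqπ
        have := hπm q hq hqπ (by omega)
        have hq4 : q = 2 ∨ q = 3 ∨ q = 4 := by omega
        rcases hq4 with h | h | h
        · exact Or.inl h
        · exact Or.inr h
        · exfalso; rw [h] at hq; revert hq; norm_num
      · rintro (h | h)
        · rw [h]; exact h2π
        · rw [h]; exact hT 3 Nat.prime_three (by omega)
  · -- the orbit has size 8
    right; right
    have h3π : 3 ∈ π := (hπ8 3 Nat.prime_three (by norm_num)).2 (Or.inr rfl)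
    by_cases hn8 : Fintype.card Ω = 8
    · refine ⟨hn8, hπ8, x, ?_, hB⟩
      apply Finset.eq_univ_of_card
      omega
    · exfalso
      have hmle : (orb H x).card ≤ Fintype.card Ω := by
        rw [← Finset.card_univ]; exact Finset.card_le_univ _
      obtain ⟨x₉, hx₉⟩ := hcyc 3 2 Nat.prime_three h3π (by norm_num) (by norm_num; omega)
      norm_num at hx₉
      rcases orb_T H π hH x₉ 3 2 Nat.prime_three Nat.prime_two (by norm_num) h3π h2π (by omega) with h | ⟨h, -, -⟩
      · have h5 := h 5 (by norm_num) (by omega)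
        have := (hπ8 5 (by norm_num) (by norm_num)).1 h5
        omega
      · omega

end Cfsg.Agent.H11.HallS
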