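/-
Hall subgroups of symmetric groups: constructions, and the main classification.
-/
import Cfsg.Agent.Lib.H11.HallG4
import Cfsg.Prelude.Def_HallClasses

set_option autoImplicit false

namespace Cfsg.Agent.H11.HallS

open Equiv Equiv.Perm MulAction
open scoped Nat Pointwise

variable {Ω : Type*} [Fintype Ω] [DecidableEq Ω]

lemma card_stab (S : Finset Ω) :
    Nat.card (stabilizer (Perm Ω) (S : Set Ω)) * (Fintype.card Ω).choose S.card = (Fintype.card Ω)! := by
  rw [← index_stab, Subgroup.card_mul_index, Nat.card_eq_fintype_card, Fintype.card_perm]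

/-- the stabilizer of a two block partition -/
def K2 (S : Finset Ω) : Subgroup (Perm Ω) where
  carrier := {g | (∀ x, g x ∈ S ↔ x ∈ S) ∨ (∀ x, g x ∈ S ↔ x ∉ S)}
  one_mem' := Or.inl fun _ => Iff.rfl
  mul_mem' := by
    rintro g k (hg | hg) (hk | hk)
    · exact Or.inl fun x => by rw [Perm.mul_apply, hg, hk]
    · exact Or.inr fun x => by rw [Perm.mul_apply, hg, hk]
    · exact Or.inr fun x => by rw [Perm.mul_apply, hg, hk]
    · exact Or.inl fun x => by rw [Perm.mul_apply, hg, hk]; tauto
  inv_mem' := by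
    rintro g (hg | hg)
    · refine Or.inl fun x => ?_
      have := hg (g⁻¹ x)
      have e : g (g⁻¹ x) = x := by simp
      rw [e] at this
      exact this.symm
    · refine Or.inr fun x => ?_
      have := hg (g⁻¹ x)
      have e : g (g⁻¹ x) = x := by simp
      rw [e] at this
      tauto

lemma mem_K2 {S : Finset Ω} {g : Perm Ω} :
    g ∈ K2 S ↔ (∀ x, g x ∈ S ↔ x ∈ S) ∨ (∀ x, g x ∈ S ↔ x ∉ S) := Iff.rfl

lemma stab_le_K2 (S : Finset Ω) : stabilizer (Perm Ω) (S : Set Ω) ≤ K2 S := by
  intro g hg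
  rw [mem_stab] at hg
  exact Or.inl fun x => by simpa using hg x

lemma index_K2 (S : Finset Ω) {τ : Perm Ω} (hτ : ∀ x, τ x ∈ S ↔ x ∉ S) (x₀ : Ω) :
    2 * (K2 S).index = (Fintype.card Ω).choose S.card := by
  have h1 := Subgroup.relIndex_mul_index (stab_le_K2 S)
  rw [index_stab] at h1
  rw [← h1]
  congr 1
  symm
  show ((stabilizer (Perm Ω) (S : Set Ω)).subgroupOf (K2 S)).index = 2
  rw [Subgroup.index_eq_two_iff_exists_notMem_and]
  refine ⟨⟨τ, Or.inr hτ⟩, ?_, ?_⟩
  · rw [Subgroup.mem_subgroupOf]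
    intro h
    have h2 := (mem_stab.1 h) x₀
    simp only [Finset.mem_coe] at h2
    have h3 := hτ x₀
    show False
    change τ x₀ ∈ S ↔ x₀ ∈ S at h2
    tauto
  · rintro ⟨b, hb⟩
    rw [Subgroup.mem_subgroupOf, Subgroup.mem_subgroupOf]
    rcases hb with hb | hb
    · right
      rw [mem_stab]
      intro x
      simpa using hb x
    · left
      rw [mem_stab]
      intro x
      have h3 := hτ x
      have h4 := hb (τ x)
      simp only [Subgroup.coe_mul, Perm.mul_apply, Finset.mem_coe]
      change b (τ x) ∈ S ↔ x ∈ S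
      tauto

/-- A subgroup with the given numerics is Hall. -/
lemma hall_of {G : Type*} [Group G] {K : Subgroup G} {π : Set ℕ}
    (h1 : ∀ p : ℕ, p.Prime → p ∣ Nat.card K → p ∈ π) (h2 : ∀ p : ℕ, p.Prime → p ∈ π → ¬ p ∣ K.index) :
    Cfsg.IsPiHall π K := ⟨h1, h2⟩

/-- The classification of Hall subgroups of symmetric groups. -/
theorem main (n : ℕ) (π : Set ℕ)
    (h2 : ∃ r s : ℕ, r.Prime ∧ s.Prime ∧ r ≠ s ∧ r ∈ π ∧ s ∈ π ∧ r ≤ n ∧ s ≤ n)
    (hns : ∃ r : ℕ, r.Prime ∧ r ≤ n ∧ r ∉ π) :
    Cfsg.IsEPiGroup π (Equiv.Perm (Fin n)) ↔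
      ((n.Prime ∧ ∀ r : ℕ, r.Prime → r ≤ n → (r ∈ π ↔ r < n)) ∨
       ((n = 7 ∨ n = 8) ∧ ∀ r : ℕ, r.Prime → r ≤ n → (r ∈ π ↔ (r = 2 ∨ r = 3)))) := by
  classical
  constructor
  · rintro ⟨H, hH⟩
    obtain ⟨r, s, hr, hs, hne, hrπ, hsπ, hrn, hsn⟩ := h2
    obtain ⟨q, hq, hqn, hqπ⟩ := hns
    have hcard : Fintype.card (Fin n) = n := Fintype.card_fin n
    have key : ∀ r s : ℕ, r.Prime → s.Prime → s < r → r ∈ π → s ∈ π → r ≤ n →
        ((n.Prime ∧ ∀ r : ℕ, r.Prime → r ≤ n → (r ∈ π ↔ r < n)) ∨
       ((n = 7 ∨ n = 8) ∧ ∀ r : ℕ, r.Prime → r ≤ n → (r ∈ π ↔ (r = 2 ∨ r = 3)))) := by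
      intro r s hr hs hsr hrπ hsπ hrn
      rcases hall_forward H π hH r s hr hs hsr hrπ hsπ (by rwa [hcard]) q hq (by rwa [hcard]) hqπ with
        ⟨h1, h3, -⟩ | ⟨h1, h3, -⟩ | ⟨h1, h3, -⟩
      · left
        rw [hcard] at h1 h3
        exact ⟨h1, h3⟩
      · right
        rw [hcard] at h1
        subst h1
        exact ⟨Or.inl rfl, h3⟩
      · right
        rw [hcard] at h1
        subst h1
        exact ⟨Or.inr rfl, h3⟩
    rcases lt_or_gt_of_ne hne with h | h
    · exact key s r hs hr h hsπ hrπ hsn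
    · exact key r s hr hs h hrπ hsπ hrn
  · rintro (⟨hn, h⟩ | ⟨hn | hn, h⟩)
    · haveI : NeZero n := ⟨hn.ne_zero⟩
      let S : Finset (Fin n) := {0}
      have hS : S.card = 1 := Finset.card_singleton _
      have hc := card_stab S
      rw [hS, Fintype.card_fin, Nat.choose_one_right] at hc
      refine ⟨_, hall_of (K := stabilizer (Perm (Fin n)) (S : Set (Fin n))) ?_ ?_⟩
      · intro p hp hd
        have h1 : Nat.card (stabilizer (Perm (Fin n)) (S : Set (Fin n))) = (n-1)! := by
          have h3 : n ! = n * (n-1)! := (Nat.mul_factorial_pred hn.ne_zero).symm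
          rw [h3, mul_comm] at hc
          exact Nat.eq_of_mul_eq_mul_left hn.pos hc
        rw [h1] at hd
        have h2 := (Nat.Prime.dvd_factorial hp).1 hd
        have h3 := hn.two_le
        exact (h p hp (by omega)).2 (by omega)
      · intro p hp hpπ hd
        rw [index_stab, hS, Fintype.card_fin, Nat.choose_one_right] at hd
        have h1 : p = n := (Nat.prime_dvd_prime_iff_eq hp hn).1 hd
        have h2 := (h p hp (by omega)).1 hpπ
        omega
    · subst hn
      let S : Finset (Fin 7) := Finset.univ.filter (fun x => x.val < 3)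
      have hS : S.card = 3 := by decide
      have hc := card_stab S
      rw [hS, Fintype.card_fin] at hc
      have h35 : Nat.choose 7 3 = 35 := by decide
      have h7 : (7 : ℕ)! = 5040 := by decide
      rw [h35, h7] at hc
      have h1 : Nat.card (stabilizer (Perm (Fin 7)) (S : Set (Fin 7))) = 144 := by omega
      refine ⟨_, hall_of (K := stabilizer (Perm (Fin 7)) (S : Set (Fin 7))) ?_ ?_⟩
      · intro p hp hd
        rw [h1, show (144:ℕ) = 2^4*3^2 by norm_num] at hd
        rcases (Nat.Prime.dvd_mul hp).1 hd with h3 | h3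
        · have := hp.dvd_of_dvd_pow h3
          have h4 := (Nat.prime_dvd_prime_iff_eq hp Nat.prime_two).1 this
          exact (h p hp (by omega)).2 (Or.inl h4)
        · have := hp.dvd_of_dvd_pow h3
          have h4 := (Nat.prime_dvd_prime_iff_eq hp Nat.prime_three).1 this
          exact (h p hp (by omega)).2 (Or.inr h4)
      · intro p hp hpπ hd
        rw [index_stab, hS, Fintype.card_fin, h35, show (35:ℕ) = 5*7 by norm_num] at hd
        rcases (Nat.Prime.dvd_mul hp).1 hd with h3 | h3
        · have h4 := (Nat.prime_dvd_prime_iff_eq hp (by norm_num)).1 h3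
          have := (h p hp (by omega)).1 hpπ
          omega
        · have h4 := (Nat.prime_dvd_prime_iff_eq hp (by norm_num)).1 h3
          have := (h p hp (by omega)).1 hpπ
          omega
    · subst hn
      let S : Finset (Fin 8) := Finset.univ.filter (fun x => x.val < 4)
      have hS : S.card = 4 := by decide
      let τ : Perm (Fin 8) := swap 0 4 * swap 1 5 * swap 2 6 * swap 3 7
      have hτ : ∀ x, τ x ∈ S ↔ x ∉ S := by decide
      have hi := index_K2 S hτ 0
      rw [hS, Fintype.card_fin, show Nat.choose 8 4 = 70 by decide] at hi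
      have hi35 : (K2 S).index = 35 := by omega
      have hc := (K2 S).card_mul_index
      have hp8 : Nat.card (Perm (Fin 8)) = 40320 := by
        rw [Nat.card_eq_fintype_card, Fintype.card_perm, Fintype.card_fin]; decide
      rw [hi35, hp8] at hc
      have h1 : Nat.card (K2 S) = 1152 := by omega
      refine ⟨K2 S, hall_of ?_ ?_⟩
      · intro p hp hd
        rw [h1, show (1152:ℕ) = 2^7*3^2 by norm_num] at hd
        rcases (Nat.Prime.dvd_mul hp).1 hd with h3 | h3
        · have := hp.dvd_of_dvd_pow h3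
          have h4 := (Nat.prime_dvd_prime_iff_eq hp Nat.prime_two).1 this
          exact (h p hp (by omega)).2 (Or.inl h4)
        · have := hp.dvd_of_dvd_pow h3
          have h4 := (Nat.prime_dvd_prime_iff_eq hp Nat.prime_three).1 this
          exact (h p hp (by omega)).2 (Or.inr h4)
      · intro p hp hpπ hd
        rw [hi35, show (35:ℕ) = 5*7 by norm_num] at hd
        rcases (Nat.Prime.dvd_mul hp).1 hd with h3 | h3
        · have h4 := (Nat.prime_dvd_prime_iff_eq hp (by norm_num)).1 h3
          have := (h p hp (by omega)).1 hpπ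
          omega
        · have h4 := (Nat.prime_dvd_prime_iff_eq hp (by norm_num)).1 h3
          have := (h p hp (by omega)).1 hpπ
          omega

end Cfsg.Agent.H11.HallS
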