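/-
Hall subgroups of alternating groups: generalities.
-/
import Cfsg.Agent.Lib.H11.HallG5

set_option autoImplicit false

namespace Cfsg.Agent.H11.HallS

open Equiv Equiv.Perm MulAction
open scoped Nat Pointwise

/-- `K` is a Hall `π`-subgroup of `L`. -/
def HallIn {G : Type*} [Group G] (π : Set ℕ) (K L : Subgroup G) : Prop :=
  K ≤ L ∧ (∀ p : ℕ, p.Prime → p ∣ Nat.card K → p ∈ π) ∧ ∀ p : ℕ, p.Prime → p ∈ π → ¬ p ∣ K.relIndex L

section general
variable {G : Type*} [Group G] [Finite G] {π : Set ℕ} {K L : Subgroup G}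

lemma HallIn.subgroupOf (h : HallIn π K L) : Cfsg.IsPiHall π (K.subgroupOf L) := by
  refine ⟨fun p hp hd => h.2.1 p hp ?_, fun p hp hπ hd => h.2.2 p hp hπ hd⟩
  have : Nat.card (K.subgroupOf L) = Nat.card K :=
    Nat.card_congr (Subgroup.subgroupOfEquivOfLe h.1).toEquiv
  rwa [this] at hd

lemma HallIn.conj (h : HallIn π K L) {ℓ : ℕ} (hℓ : ℓ.Prime) (hπ : ℓ ∈ π) {g : G} (hg : g ∈ L) (y : ℕ)
    (hgo : orderOf g = ℓ ^ y) : ∃ a ∈ L, a * g * a⁻¹ ∈ K := by
  obtain ⟨x, hx⟩ := conj_mem h.subgroupOf hℓ hπ (⟨g, hg⟩ : L) y (by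
    rw [← hgo]; exact Subgroup.orderOf_mk g hg)
  exact ⟨x.1, x.2, hx⟩

lemma HallIn.eq_of_pi (h : HallIn π K L) {T : Subgroup G} (hKT : K ≤ T) (hTL : T ≤ L)
    (hT : ∀ p : ℕ, p.Prime → p ∣ Nat.card T → p ∈ π) : T = K := by
  have h1 := Subgroup.relIndex_mul_relIndex K T L hKT hTL
  have h2 : K.relIndex T ∣ Nat.card T := by
    have := (K.subgroupOf T).card_mul_index
    exact ⟨_, this.symm.trans (mul_comm _ _)⟩
  have h3 : K.relIndex T = 1 := by
    by_contra hne
    obtain ⟨p, hp, hd⟩ := Nat.exists_prime_and_dvd hne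
    have hpπ := hT p hp (hd.trans h2)
    exact h.2.2 p hp hpπ (by rw [← h1]; exact hd.trans (dvd_mul_right _ _))
  exact le_antisymm (Subgroup.relIndex_eq_one.1 h3) hKT

lemma HallIn.prime_cauchy {T : Subgroup G} (hT : ∀ t ∈ T, ∀ p : ℕ, p.Prime → orderOf t = p → p ∈ π) :
    ∀ p : ℕ, p.Prime → p ∣ Nat.card T → p ∈ π := by
  intro p hp hd
  haveI : Fact p.Prime := ⟨hp⟩
  obtain ⟨t, ht⟩ := exists_prime_orderOf_dvd_card' p hd
  refine hT t.1 t.2 p hp ?_
  rw [← ht]
  exact (Subgroup.orderOf_coe t)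

end general

section perm
variable {Ω : Type*} [Fintype Ω] [DecidableEq Ω]

local notation "A" => alternatingGroup Ω

lemma sup_alt_eq_top {W : Subgroup (Perm Ω)} (hW : ¬ W ≤ alternatingGroup Ω) :
    alternatingGroup Ω ⊔ W = ⊤ := by
  rw [SetLike.not_le_iff_exists] at hW
  obtain ⟨t, htW, htA⟩ := hW
  rw [eq_top_iff]
  intro g _
  have ht : sign t = -1 := by
    rw [Equiv.Perm.mem_alternatingGroup] at htA
    exact (Int.units_eq_one_or _).resolve_left htA
  by_cases hg : sign g = 1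
  · exact Subgroup.mem_sup_left (Equiv.Perm.mem_alternatingGroup.2 hg)
  · have hg' : sign g = -1 := (Int.units_eq_one_or _).resolve_left hg
    have h1 : g * t⁻¹ ∈ alternatingGroup Ω := by
      rw [Equiv.Perm.mem_alternatingGroup, map_mul, map_inv, hg', ht]
      decide
    have := Subgroup.mul_mem_sup h1 htW
    simpa using this

/-- A `π`-subgroup containing a Hall subgroup `K` of `A` and not contained in `A` is Hall in the
symmetric group, and meets `A` in `K`. -/
theorem ext_W {π : Set ℕ} {K W : Subgroup (Perm Ω)} (hK : HallIn π K (alternatingGroup Ω)) (hKW : K ≤ W)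
    (hWπ : ∀ p : ℕ, p.Prime → p ∣ Nat.card W → p ∈ π) (hWA : ¬ W ≤ alternatingGroup Ω) :
    Cfsg.IsPiHall π W ∧ W ⊓ alternatingGroup Ω = K := by
  have hcap : W ⊓ alternatingGroup Ω = K := by
    apply hK.eq_of_pi (le_inf hKW hK.1) inf_le_right
    intro p hp hd
    exact hWπ p hp (hd.trans (Subgroup.card_dvd_of_le inf_le_left))
  refine ⟨⟨hWπ, ?_⟩, hcap⟩
  intro p hp hπ hd
  apply hK.2.2 p hp hπ
  -- index computation
  obtain ⟨t, htW, htA⟩ := SetLike.not_le_iff_exists.1 hWA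
  have hnt : Nontrivial Ω := by
    by_contra hn
    rw [not_nontrivial_iff_subsingleton] at hn
    apply htA
    have : t = 1 := Subsingleton.elim _ _
    rw [this]; exact Subgroup.one_mem _
  have hr1 : K.relIndex W = 2 := by
    rw [← hcap, Subgroup.inf_relIndex_left]
    have h1 : (alternatingGroup Ω).relIndex (W ⊔ alternatingGroup Ω) = (alternatingGroup Ω).relIndex W :=
      Subgroup.relIndex_sup_right W (alternatingGroup Ω)
    rw [sup_comm, sup_alt_eq_top hWA, Subgroup.relIndex_top_right, alternatingGroup.index_eq_two] at h1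
    exact h1.symm
  have c1 : Nat.card K * K.relIndex W = Nat.card W := by
    have := (K.subgroupOf W).card_mul_index
    rwa [Nat.card_congr (Subgroup.subgroupOfEquivOfLe hKW).toEquiv] at this
  have c2 : Nat.card K * K.relIndex (alternatingGroup Ω) = Nat.card (alternatingGroup Ω) := by
    have := (K.subgroupOf (alternatingGroup Ω)).card_mul_index
    rwa [Nat.card_congr (Subgroup.subgroupOfEquivOfLe hK.1).toEquiv] at this
  have c3 := W.card_mul_index
  have c4 := (alternatingGroup Ω).card_mul_index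
  rw [alternatingGroup.index_eq_two] at c4
  rw [hr1] at c1
  have hK0 : 0 < Nat.card K := Nat.card_pos
  have h5 : Nat.card K * (2 * W.index) = Nat.card K * (2 * K.relIndex (alternatingGroup Ω)) := by
    calc Nat.card K * (2 * W.index) = (Nat.card K * 2) * W.index := by ring
      _ = Nat.card (Perm Ω) := by rw [c1, c3]
      _ = Nat.card (alternatingGroup Ω) * 2 := c4.symm
      _ = _ := by rw [← c2]; ring
  have h6 : W.index = K.relIndex (alternatingGroup Ω) := by
    have := Nat.eq_of_mul_eq_mul_left hK0 h5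
    omega
  rw [← h6]
  exact hd

/-- an odd length cycle in a Hall subgroup of the alternating group -/
lemma hallA_cycle {π : Set ℕ} {K : Subgroup (Perm Ω)} (hK : HallIn π K (alternatingGroup Ω)) {ℓ : ℕ}
    (hℓ : ℓ.Prime) (hodd : ℓ ≠ 2) (hπ : ℓ ∈ π) (y : ℕ) (hy : 1 ≤ y) (hc : ℓ ^ y ≤ Fintype.card Ω) :
    ∃ c ∈ K, c.IsCycle ∧ c.support.card = ℓ ^ y := by
  have h2 : 2 ≤ ℓ ^ y := by
    calc 2 ≤ ℓ := hℓ.two_le
      _ = ℓ^1 := (pow_one ℓ).symm
      _ ≤ ℓ^y := Nat.pow_le_pow_right hℓ.pos hy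
  obtain ⟨c, hc1, hc2⟩ := exists_cycle (Ω := Ω) (ℓ^y) h2 hc
  have hA : c ∈ alternatingGroup Ω := by
    rw [Equiv.Perm.mem_alternatingGroup, hc1.sign, hc2]
    have : Odd (ℓ ^ y) := (hℓ.odd_of_ne_two hodd).pow
    rw [this.neg_one_pow]; simp
  obtain ⟨a, haA, ha⟩ := hK.conj hℓ hπ hA y (by rw [hc1.orderOf, hc2])
  exact ⟨_, ha, hc1.conj, by rw [card_support_conj, hc2]⟩

end perm

end Cfsg.Agent.H11.HallS
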