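/-
Hall subgroups of alternating groups: exclusion lemmas for groups of prime degree.
-/
import Cfsg.Agent.Lib.H11.HallX1

set_option autoImplicit false

namespace Cfsg.Agent.H11.HallS

open Equiv Equiv.Perm MulAction
open scoped Nat Pointwise

lemma pgroup_norm {G : Type*} [Group G] [Finite G] {q : ℕ} [Fact q.Prime] {P D : Subgroup G}
    (hP : IsPGroup q P) (hD : D < P) : ∃ g ∈ P, g ∉ D ∧ g ∈ Subgroup.normalizer (D : Set G) := by
  haveI : Group.IsNilpotent P := hP.isNilpotent
  have hlt : D.subgroupOf P < ⊤ := by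
    rw [lt_top_iff_ne_top]
    intro h
    rw [Subgroup.subgroupOf_eq_top] at h
    exact absurd h (not_le_of_gt hD)
  have h1 := Group.normalizerCondition_of_isNilpotent (G := P) _ hlt
  obtain ⟨g, hg, hgD⟩ := SetLike.exists_of_lt h1
  refine ⟨g.1, g.2, fun h => hgD (Subgroup.mem_subgroupOf.2 h), ?_⟩
  rw [Subgroup.mem_normalizer_iff]
  intro h
  rw [Subgroup.mem_normalizer_iff] at hg
  by_cases hh : h ∈ P
  · have := hg ⟨h, hh⟩
    simpa [Subgroup.mem_subgroupOf] using this
  · constructor
    · intro h2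
      exact absurd (hD.le h2) hh
    · intro h2
      exfalso
      apply hh
      have h3 := hD.le h2
      have : h = g.1⁻¹ * (g.1 * h * g.1⁻¹) * g.1 := by group
      rw [this]
      exact P.mul_mem (P.mul_mem (P.inv_mem g.2) h3) g.2

section mi
variable {Λ : Type*} [Fintype Λ] [DecidableEq Λ]

theorem stab_eq_absurd (Z : Subgroup (Perm Λ)) (hZ : IsPreprimitive Z Λ) {u v : Λ} (huv : u ≠ v)
    (h : stabilizer Z u = stabilizer Z v) : ∀ g ∈ stabilizer Z u, g = 1 := by
  let r : Λ → Λ → Prop := fun u v => stabilizer Z u = stabilizer Z v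
  have hr : Equivalence r := ⟨fun _ => rfl, fun h => h.symm, fun h1 h2 => h1.trans h2⟩
  have hinv : ∀ (g : Z) (x y : Λ), r x y → r (g • x) (g • y) := by
    intro g x y h
    show stabilizer Z (g • x) = stabilizer Z (g • y)
    rw [stabilizer_smul_eq_stabilizer_map_conj, stabilizer_smul_eq_stabilizer_map_conj]
    show Subgroup.map _ (stabilizer Z x) = Subgroup.map _ (stabilizer Z y)
    rw [show stabilizer Z x = stabilizer Z y from h]
  haveI := hZ
  have hall : ∀ y : Λ, r u y := fun y => Cfsg.Agent.H16.prim_rel r hr hinv huv h y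
  intro g hg
  apply Subtype.ext
  apply Equiv.ext
  intro y
  have : g ∈ stabilizer Z y := by
    rw [← show stabilizer Z u = stabilizer Z y from hall y]; exact hg
  exact this

/-- The maximal intersection argument. -/
theorem mi (Z : Subgroup (Perm Λ)) (htr : ∀ u v : Λ, ∃ g ∈ Z, g u = v) (p : ℕ) (hp : p.Prime) (hp3 : p ≠ 2)
    (hcard : Fintype.card Λ = p) (hprim : ∀ q : ℕ, q.Prime → q ∣ Nat.card Z → q = 2 ∨ q = p)
    (hp2 : ¬ p * p ∣ Nat.card Z) {x : Perm Λ} (hxZ : x ∈ Z) (hx1 : x ≠ 1) {u₀ v₀ : Λ} (huv : u₀ ≠ v₀)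
    (hxu : x u₀ = u₀) (hxv : x v₀ = v₀) : False := by
  classical
  haveI : Fact (Nat.Prime 2) := ⟨Nat.prime_two⟩
  haveI hpre : IsPretransitive Z Λ := ⟨fun u v => by
    obtain ⟨g, hg, h⟩ := htr u v
    exact ⟨⟨g, hg⟩, h⟩⟩
  have hprimZ : IsPreprimitive Z Λ :=
    IsPreprimitive.of_prime_card (by rw [Nat.card_eq_fintype_card, hcard]; exact hp)
  have hcardS : ∀ u : Λ, Nat.card (stabilizer Z u) * p = Nat.card Z := by
    intro u
    have := (stabilizer Z u).card_mul_index
    rwa [index_stabilizer_of_transitive, Nat.card_eq_fintype_card (α := Λ), hcard] at this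
  have hpS : ∀ u : Λ, ¬ p ∣ Nat.card (stabilizer Z u) := by
    intro u h
    apply hp2
    rw [← hcardS u]
    exact Nat.mul_dvd_mul_right h p
  have h2S : ∀ u : Λ, IsPGroup 2 (stabilizer Z u) := by
    intro u
    apply IsPGroup.of_card (n := (Nat.card (stabilizer Z u)).primeFactorsList.length)
    apply Nat.eq_prime_pow_of_unique_prime_dvd Nat.card_pos.ne'
    intro q hq hd
    rcases hprim q hq (hd.trans (Dvd.intro _ (hcardS u))) with h | h
    · exact h
    · exact absurd (h ▸ hd) (hpS u)
  let F : Finset (Λ × Λ) := Finset.univ.filter (fun w => w.1 ≠ w.2)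
  have hF : F.Nonempty := ⟨(u₀, v₀), by simp [F, huv]⟩
  obtain ⟨⟨u, v⟩, huvF, hmax⟩ := Finset.exists_max_image F
    (fun w => Nat.card (stabilizer Z w.1 ⊓ stabilizer Z w.2 : Subgroup Z)) hF
  have huv' : u ≠ v := by simpa [F] using huvF
  simp only at hmax
  set D : Subgroup Z := stabilizer Z u ⊓ stabilizer Z v with hD
  have hDbot : D ≠ ⊥ := by
    intro hb
    have h0 : Nat.card (stabilizer Z u₀ ⊓ stabilizer Z v₀ : Subgroup Z) ≤ Nat.card D :=
      hmax (u₀, v₀) (by simp [F, huv])
    rw [hb, Subgroup.card_bot] at h0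
    have h1 : (⟨x, hxZ⟩ : Z) ∈ (stabilizer Z u₀ ⊓ stabilizer Z v₀ : Subgroup Z) :=
      ⟨hxu, hxv⟩
    have h2 : Nat.card (stabilizer Z u₀ ⊓ stabilizer Z v₀ : Subgroup Z) = 1 :=
      le_antisymm h0 Nat.card_pos
    have h3 := Subgroup.card_eq_one.1 h2 
    rw [h3] at h1
    apply hx1
    have := (Subgroup.mem_bot.1 h1)
    exact congrArg Subtype.val this
  have hne : stabilizer Z u ≠ stabilizer Z v := by
    intro he
    have h1 := stab_eq_absurd Z hprimZ huv' he
    apply hDbot
    rw [eq_bot_iff]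
    intro g hg
    exact Subgroup.mem_bot.2 (h1 g hg.1)
  have hcardeq : ∀ a b : Λ, Nat.card (stabilizer Z a) = Nat.card (stabilizer Z b) := by
    intro a b
    exact Nat.eq_of_mul_eq_mul_right hp.pos ((hcardS a).trans (hcardS b).symm)
  have hltu : D < stabilizer Z u := by
    refine lt_of_le_of_ne inf_le_left ?_
    intro h
    have h1 : stabilizer Z u ≤ stabilizer Z v := by rw [← h]; exact inf_le_right
    exact hne (Subgroup.eq_of_le_of_card_ge h1 (hcardeq _ _).ge)
  have hltv : D < stabilizer Z v := by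
    refine lt_of_le_of_ne inf_le_right ?_
    intro h
    have h1 : stabilizer Z v ≤ stabilizer Z u := by rw [← h]; exact inf_le_left
    exact hne (Subgroup.eq_of_le_of_card_ge h1 (hcardeq _ _).ge).symm
  obtain ⟨gu, hgu, hguD, hguN⟩ := pgroup_norm (h2S u) hltu
  obtain ⟨gv, hgv, hgvD, hgvN⟩ := pgroup_norm (h2S v) hltv
  by_cases hL : IsPGroup 2 (Subgroup.normalizer (D : Set Z))
  · have hodd : ¬ 2 ∣ Nat.card Λ := by
      rw [Nat.card_eq_fintype_card, hcard]
      intro h
      exact hp3 ((Nat.prime_dvd_prime_iff_eq Nat.prime_two hp).1 h).symm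
    obtain ⟨y, hy⟩ := hL.nonempty_fixed_point_of_prime_not_dvd_card Λ hodd
    have hLy : Subgroup.normalizer (D : Set Z) ≤ stabilizer Z y := by
      intro l hl
      exact hy ⟨l, hl⟩
    have hDy : D ≤ stabilizer Z y := Subgroup.le_normalizer.trans hLy
    have key : ∀ (a : Λ) (g : Z), a ≠ y → g ∈ stabilizer Z a → g ∉ D → g ∈ Subgroup.normalizer (D : Set Z) →
        D ≤ stabilizer Z a → False := by
      intro a g hay hg hgD hgN hDa
      have h1 : Nat.card (stabilizer Z a ⊓ stabilizer Z y : Subgroup Z) ≤ Nat.card D :=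
        hmax (a, y) (by simp [F, hay])
      have h2 : D ≤ stabilizer Z a ⊓ stabilizer Z y := le_inf hDa hDy
      have h3 := Subgroup.eq_of_le_of_card_ge h2 h1
      apply hgD
      rw [h3]
      exact ⟨hg, hLy hgN⟩
    have hyu : u = y := by
      by_contra h
      exact key u gu h hgu hguD hguN inf_le_left
    have hyv : v = y := by
      by_contra h
      exact key v gv h hgv hgvD hgvN inf_le_right
    exact huv' (hyu.trans hyv.symm)
  · -- the normalizer contains an element of order `p`
    have hpL : p ∣ Nat.card (Subgroup.normalizer (D : Set Z)) := by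
      by_contra hnd
      apply hL
      apply IsPGroup.of_card (n := (Nat.card (Subgroup.normalizer (D : Set Z))).primeFactorsList.length)
      apply Nat.eq_prime_pow_of_unique_prime_dvd Nat.card_pos.ne'
      intro q hq hd
      have hdZ : q ∣ Nat.card Z := hd.trans (Subgroup.card_subgroup_dvd_card _)
      rcases hprim q hq hdZ with h | h
      · exact h
      · exact absurd (h ▸ hd) hnd
    haveI : Fact p.Prime := ⟨hp⟩
    obtain ⟨w, hw⟩ := exists_prime_orderOf_dvd_card' p hpL
    have hwo : orderOf (w : Z) = p := by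
      rw [← hw]; exact Subgroup.orderOf_coe w
    have hwN : ∀ (i : ℕ), (w : Z) ^ i ∈ Subgroup.normalizer (D : Set Z) := fun i => Subgroup.pow_mem _ w.2 i
    have hfix : ∀ (i : ℕ) (h : Z), h ∈ D → h • (((w : Z) ^ i) • u) = ((w : Z) ^ i) • u := by
      intro i h hh
      have h1 : ((w : Z) ^ i)⁻¹ ∈ Subgroup.normalizer (D : Set Z) := Subgroup.inv_mem _ (hwN i)
      have h2 := (Subgroup.mem_normalizer_iff.1 h1 h).1 hh
      have h3 : (((w : Z) ^ i)⁻¹ * h * (((w : Z) ^ i)⁻¹)⁻¹) • u = u := h2.1
      rw [inv_inv, mul_smul, mul_smul, inv_smul_eq_iff] at h3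
      exact h3
    let ff : Fin p → Λ := fun i => ((w : Z) ^ (i : ℕ)) • u
    have hinj : Function.Injective ff := by
      have hcop : ∀ d : ℕ, 0 < d → d < p → (w : Z) ^ d • u ≠ u := by
        intro d hd0 hdp heq
        have hs : (w : Z) ^ d ∈ stabilizer Z u := heq
        have ho : orderOf ((w : Z) ^ d) = p := by
          have hc : (orderOf (w : Z)).Coprime d := by
            rw [hwo]
            exact (Nat.Prime.coprime_iff_not_dvd hp).2 (Nat.not_dvd_of_pos_of_lt hd0 hdp)
          rw [hc.orderOf_pow, hwo]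
        apply hpS u
        have ho' : orderOf (⟨(w : Z) ^ d, hs⟩ : stabilizer Z u) = p := by
          rw [← ho]; exact Subgroup.orderOf_mk _ hs
        rw [← ho']
        exact orderOf_dvd_natCard _
      have key : ∀ i j : Fin p, (i : ℕ) < j → ff i ≠ ff j := by
        intro i j hij he
        apply hcop ((j : ℕ) - i) (by omega) (by have := j.2; omega)
        have e : (w : Z) ^ (j : ℕ) = (w : Z) ^ (i : ℕ) * (w : Z) ^ ((j : ℕ) - i) := by
          rw [← pow_add]; congr 1; omega
        have he' : ((w : Z) ^ (i : ℕ)) • u = ((w : Z) ^ (j : ℕ)) • u := he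
        rw [e, mul_smul] at he'
        exact (smul_left_cancel _ he').symm
      intro i j he
      rcases lt_trichotomy (i : ℕ) j with h | h | h
      · exact absurd he (key i j h)
      · exact Fin.ext h
      · exact absurd he.symm (key j i h)
    have hbij : Function.Bijective ff :=
      (Fintype.bijective_iff_injective_and_card ff).2 ⟨hinj, by simp [hcard]⟩
    apply hDbot
    rw [eq_bot_iff]
    intro h hh
    rw [Subgroup.mem_bot]
    apply Subtype.ext
    apply Equiv.ext
    intro y
    obtain ⟨i, rfl⟩ := hbij.2 y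
    exact hfix i h hh

/-- The second twin prime configuration. -/
theorem twin2 (X : Subgroup (Perm Λ)) (hX : IsPreprimitive X Λ) (p r : ℕ) (hp : p.Prime) (hr : r.Prime)
    (hpr : p = r + 2) (hr5 : 5 ≤ r) (hcard : Fintype.card Λ = p)
    (hprim : ∀ q : ℕ, q.Prime → q ∣ Nat.card X → q = 2 ∨ q = r ∨ q = p)
    (hp2 : ¬ p * p ∣ Nat.card X) (c : Perm Λ) (hc : c ∈ X) (hc1 : c.IsCycle) (hc2 : c.support.card = r) :
    False := by
  classical
  haveI hpre : IsPretransitive X Λ := hX.toIsPretransitive
  have hcardS : ∀ u : Λ, Nat.card (stabilizer X u) * p = Nat.card X := by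
    intro u
    have := (stabilizer X u).card_mul_index
    rwa [index_stabilizer_of_transitive, Nat.card_eq_fintype_card (α := Λ), hcard] at this
  have hcompl : (c.supportᶜ).card = 2 := by
    rw [Finset.card_compl, hc2, hcard]; omega
  obtain ⟨z, z', hne, hzz⟩ := Finset.card_eq_two.1 hcompl
  have hfixall : ∀ y, c y = y ↔ y = z ∨ y = z' := by
    intro y
    have : y ∈ c.supportᶜ ↔ c y = y := by simp
    rw [← this, hzz]; simp
  have hz : c z = z := (hfixall z).2 (Or.inl rfl)
  have hz' : c z' = z' := (hfixall z').2 (Or.inr rfl)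
  let c' : X := ⟨c, hc⟩
  have hc'z : c' ∈ stabilizer X z := hz
  have hle : stabilizer X z ≤ stabilizer X z' := by
    intro g hg
    by_contra hgz
    have hgz' : (g : Perm Λ) z' ≠ z' := hgz
    have hgzz : (g : Perm Λ) z = z := hg
    -- orbit of `z'` under the stabilizer of `z`
    let T := stabilizer X z
    have hw : c ((g : Perm Λ) z') ≠ (g : Perm Λ) z' := by
      intro h
      rcases (hfixall _).1 h with h1 | h1
      · have : (g : Perm Λ) z' = (g : Perm Λ) z := by rw [hgzz, h1]
        exact hne ((g : Perm Λ).injective this).symm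
      · exact hgz' h1
    have horb : orbit T z' = ((Finset.univ.erase z : Finset Λ) : Set Λ) := by
      ext y
      simp only [Finset.coe_erase, Finset.coe_univ, Set.mem_diff, Set.mem_univ, Set.mem_singleton_iff,
        true_and, mem_orbit_iff]
      constructor
      · rintro ⟨t, rfl⟩
        intro h
        have h1 : (t : X) • z = z := t.2
        have h2 : (t : X) • z' = z := h
        exact hne (((t : X).1).injective (h1.trans h2.symm))
      · intro hy
        by_cases hyc : c y = y
        · rcases (hfixall y).1 hyc with h | h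
          · exact absurd h hy
          · exact ⟨1, by rw [h, one_smul]⟩
        · obtain ⟨i, hi⟩ := hc1.exists_pow_eq hw hyc
          refine ⟨⟨c' ^ i * g, T.mul_mem (T.pow_mem hc'z i) hg⟩, ?_⟩
          exact hi
    have hidx : (stabilizer T z').index = p - 1 := by
      rw [index_stabilizer, horb, Set.ncard_coe_finset, Finset.card_erase_of_mem (Finset.mem_univ z),
        Finset.card_univ, hcard]
    have hdvdT : p - 1 ∣ Nat.card T := by
      rw [← hidx]; exact Subgroup.index_dvd_card _
    have hTX : Nat.card T ∣ Nat.card X := Subgroup.card_subgroup_dvd_card T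
    have hTp : ¬ p ∣ Nat.card T := by
      intro h
      apply hp2
      rw [← hcardS z]
      exact Nat.mul_dvd_mul_right h p
    have hpow : p - 1 = 2 ^ (p-1).primeFactorsList.length := by
      apply Nat.eq_prime_pow_of_unique_prime_dvd (by omega)
      intro q hq hd
      rcases hprim q hq (hd.trans (hdvdT.trans hTX)) with h | h | h
      · exact h
      · exfalso
        rw [h] at hd
        have e : p - 1 = r + 1 := by omega
        rw [e] at hd
        have := (Nat.dvd_add_right (dvd_refl r)).1 hd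
        have := Nat.le_of_dvd (by norm_num) this
        omega
      · exfalso
        have := Nat.le_of_dvd (by omega) hd
        omega
    obtain ⟨e, he⟩ : ∃ e, p - 1 = 2 ^ e := ⟨_, hpow⟩
    have h1 : r * p = 4 ^ e - 1 := by
      have h2 : 2 ^ e = r + 1 := by omega
      have h3 : 4 ^ e = (2 ^ e) ^ 2 := by
        rw [show (4:ℕ) = 2^2 by norm_num, ← pow_mul, ← pow_mul, mul_comm]
      rw [h3, h2, hpr]
      have : (r+1)^2 = r*(r+2) + 1 := by ring
      omega
    have h3 : 3 ∣ r * p := by
      rw [h1]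
      have h4 : 4 ^ e % 3 = 1 := by
        rw [Nat.pow_mod]; simp
      omega
    rcases (Nat.Prime.dvd_mul Nat.prime_three).1 h3 with h | h
    · have := (Nat.prime_dvd_prime_iff_eq Nat.prime_three hr).1 h
      omega
    · have := (Nat.prime_dvd_prime_iff_eq Nat.prime_three hp).1 h
      omega
  have hEq : stabilizer X z = stabilizer X z' := by
    apply Subgroup.eq_of_le_of_card_ge hle
    exact (Nat.eq_of_mul_eq_mul_right hp.pos ((hcardS z).trans (hcardS z').symm)).ge
  have h1 := stab_eq_absurd X hX hne hEq c' hc'z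
  obtain ⟨w, hw, -⟩ := hc1
  apply hw
  have : c = 1 := congrArg Subtype.val h1
  rw [this]; rfl

/-- No subgroup of index 3 in the alternating group of degree 5. -/
theorem no_index_three (X : Subgroup (Perm Λ)) (hX : X ≤ alternatingGroup Λ) (hcard : Fintype.card Λ = 5)
    (hrel : X.relIndex (alternatingGroup Λ) = 3) : False := by
  classical
  let A := alternatingGroup Λ
  let X' : Subgroup A := X.subgroupOf A
  have hidx : X'.index = 3 := hrel
  let ff : A →* Perm (A ⧸ X') := MulAction.toPermHom A (A ⧸ X')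
  haveI : Finite (A ⧸ X') := inferInstance
  have hQ : Nat.card (A ⧸ X') = 3 := by
    rw [← Subgroup.index_eq_card]; exact hidx
  have hP : Nat.card (Perm (A ⧸ X')) = 6 := by
    rw [Nat.card_perm, hQ]; rfl
  have hmem : ∀ g : A, g ^ 5 = 1 → (g : Perm Λ) ∈ X := by
    intro g hg
    have h1 : ff g ^ 5 = 1 := by rw [← map_pow, hg, map_one]
    have h2 : ff g ^ 6 = 1 := by rw [← hP]; exact pow_card_eq_one'
    have h3 : ff g = 1 := by
      have : ff g ^ 6 = ff g ^ 5 * ff g := pow_succ _ _
      rwa [h2, h1, one_mul, eq_comm] at this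
    have h4 : g • ((1 : A) : A ⧸ X') = ((1 : A) : A ⧸ X') := by
      have := congrArg (fun f : Perm (A ⧸ X') => f ((1 : A) : A ⧸ X')) h3
      simpa [ff] using this
    have h5 : ((g : A) : A ⧸ X') = ((1 : A) : A ⧸ X') := by
      have := h4
      rw [MulAction.Quotient.smul_coe, smul_eq_mul, mul_one] at this
      exact this
    have h6 : g ∈ X' := by
      have := QuotientGroup.eq.1 h5
      simpa using this
    exact h6
  let e : Λ ≃ Fin 5 := Fintype.equivFinOfCardEq hcard
  let ψ : Perm (Fin 5) ≃* Perm Λ := e.symm.permCongrHom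
  let σ₁ : Perm (Fin 5) := swap 0 1 * swap 1 2 * swap 2 3 * swap 3 4
  let σ₂ : Perm (Fin 5) := swap 0 1 * swap 1 4 * swap 4 3 * swap 3 2
  have h15 : σ₁ ^ 5 = 1 := by decide
  have h25 : σ₂ ^ 5 = 1 := by decide
  have h33 : (σ₁ * σ₂) ^ 3 = 1 := by decide
  have h31 : σ₁ * σ₂ ≠ 1 := by decide
  have hsgn : ∀ t : Perm Λ, t ^ 5 = 1 → t ∈ alternatingGroup Λ := by
    intro t ht
    rw [Equiv.Perm.mem_alternatingGroup]
    have h1 : (sign t) ^ 5 = 1 := by rw [← map_pow, ht, map_one]
    rcases Int.units_eq_one_or (sign t) with h | h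
    · exact h
    · rw [h] at h1
      exact absurd h1 (by decide)
  have ht1 : ψ σ₁ ^ 5 = 1 := by rw [← map_pow, h15, map_one]
  have ht2 : ψ σ₂ ^ 5 = 1 := by rw [← map_pow, h25, map_one]
  have hx1 : ψ σ₁ ∈ X := hmem ⟨_, hsgn _ ht1⟩ (Subtype.ext ht1)
  have hx2 : ψ σ₂ ∈ X := hmem ⟨_, hsgn _ ht2⟩ (Subtype.ext ht2)
  have hx : ψ (σ₁ * σ₂) ∈ X := by rw [map_mul]; exact X.mul_mem hx1 hx2
  have hord : orderOf (⟨ψ (σ₁ * σ₂), hx⟩ : X) = 3 := by
    haveI : Fact (Nat.Prime 3) := ⟨Nat.prime_three⟩
    apply orderOf_eq_prime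
    · apply Subtype.ext
      show ψ (σ₁ * σ₂) ^ 3 = 1
      rw [← map_pow, h33, map_one]
    · intro h
      apply h31
      have : ψ (σ₁ * σ₂) = 1 := congrArg Subtype.val h
      exact (map_eq_one_iff ψ ψ.injective).1 this
  have h3X : 3 ∣ Nat.card X := by
    rw [← hord]; exact orderOf_dvd_natCard _
  have hc1 : Nat.card X * 3 = Nat.card A := by
    have := (X.subgroupOf A).card_mul_index
    rw [Nat.card_congr (Subgroup.subgroupOfEquivOfLe hX).toEquiv] at this
    rwa [hidx] at this
  have hnt : Nontrivial Λ := by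
    rw [← Fintype.one_lt_card_iff_nontrivial]; omega
  have hc2 : 2 * Nat.card A = 120 := by
    have := two_mul_card_alternatingGroup (α := Λ)
    rw [Fintype.card_perm, hcard] at this
    rw [Nat.card_eq_fintype_card]
    exact this
  omega

end mi

/-- product formula for partitions into blocks -/
theorem fac_block (a b : ℕ) (ha : 1 ≤ a) :
    (b * a)! = b ! * (a !) ^ b * ∏ j ∈ Finset.range b, Nat.choose ((j+1)*a - 1) (a - 1) := by
  induction b with
  | zero => simp
  | succ b ih =>
    obtain ⟨t, rfl⟩ : ∃ t, a = t + 1 := ⟨a - 1, by omega⟩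
    have h1 : (b+1) * (t+1) = b*(t+1) + (t+1) := by ring
    have h2 := Nat.add_choose_mul_factorial_mul_factorial (b*(t+1)) (t+1)
    have h3 : Nat.choose (b*(t+1)+(t+1)) (t+1) = (b+1) * Nat.choose ((b+1)*(t+1) - 1) t := by
      have h4 := Nat.add_one_mul_choose_eq (b*(t+1)+t) t
      have h5 : ((b+1)*(t+1) - 1) = b*(t+1)+t := by
        rw [h1]; omega
      rw [h5]
      have h6 : (t+1) * Nat.choose (b*(t+1)+(t+1)) (t+1) = (t+1) * ((b+1) * Nat.choose (b*(t+1)+t) t) := by
        have e : (b*(t+1)+t+1) * Nat.choose (b*(t+1)+t) t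
            = Nat.choose (b*(t+1)+t+1) (t+1) * (t+1) := h4
        have e2 : b*(t+1)+t+1 = (b+1)*(t+1) := by rw [h1]; rfl
        rw [e2] at e
        calc (t+1) * Nat.choose (b*(t+1)+(t+1)) (t+1)
            = Nat.choose ((b+1)*(t+1)) (t+1) * (t+1) := by rw [h1]; ring
          _ = (b+1)*(t+1) * Nat.choose (b*(t+1)+t) t := e.symm
          _ = _ := by ring
      exact Nat.eq_of_mul_eq_mul_left (by omega) h6
    rw [h1, ← h2, Finset.prod_range_succ, h3, ih]
    simp only [Nat.add_sub_cancel, Nat.factorial_succ]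
    ring

end Cfsg.Agent.H11.HallS
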