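/-
Hall subgroups of alternating groups: the transitive case.
-/
import Cfsg.Agent.Lib.H11.HallX2

set_option autoImplicit false

namespace Cfsg.Agent.H11.HallS

open Equiv Equiv.Perm MulAction
open scoped Nat Pointwise

variable {Λ : Type*} [Fintype Λ] [DecidableEq Λ]

/-- the stabilizer of the block system -/
def W1 (H : Subgroup (Perm Λ)) (B : Finset Λ) : Subgroup (Perm Λ) where
  carrier := {g | ∀ x y, Eqv H B x y ↔ Eqv H B (g x) (g y)}
  one_mem' := fun _ _ => Iff.rfl
  mul_mem' := fun {a b} ha hb x y => by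
    rw [Perm.mul_apply, Perm.mul_apply, ← ha, ← hb]
  inv_mem' := fun {a} ha x y => by
    have := ha (a⁻¹ x) (a⁻¹ y)
    have e₁ : a (a⁻¹ x) = x := by simp
    have e₂ : a (a⁻¹ y) = y := by simp
    rw [e₁, e₂] at this
    exact this.symm

section W1
variable {H : Subgroup (Perm Λ)} {B : Finset Λ}

lemma mem_W1 {g : Perm Λ} : g ∈ W1 H B ↔ ∀ x y, Eqv H B x y ↔ Eqv H B (g x) (g y) := Iff.rfl

lemma le_W1 : H ≤ W1 H B := by
  intro g hg x y
  constructor
  · exact eqv_smul hg
  · intro h
    have := eqv_smul (H.inv_mem hg) h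
    simpa using this

lemma mem_W1_of (htr : ∀ x y : Λ, ∃ g ∈ H, g x = y) (hB : Bl H B) {g : Perm Λ}
    (h : ∀ x, Eqv H B (g x) x) : g ∈ W1 H B := by
  intro x y
  constructor
  · intro hxy
    exact eqv_trans hB (h x) (eqv_trans hB hxy (eqv_symm (h y)))
  · intro hxy
    exact eqv_trans hB (eqv_symm (h x)) (eqv_trans hB hxy (h y))

lemma swap_mem_W1 (htr : ∀ x y : Λ, ∃ g ∈ H, g x = y) (hB : Bl H B) {b₀ : Λ} (hb₀ : b₀ ∈ B) {p q : Λ}
    (hpq : Eqv H B p q) : swap p q ∈ W1 H B := by
  apply mem_W1_of htr hB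
  intro x
  rw [swap_apply_def]
  split_ifs with h1 h2
  · rw [h1]; exact eqv_symm hpq
  · rw [h2]; exact hpq
  · exact eqv_refl htr hb₀ x

/-- the order of the stabilizer of the block system divides `b! (a!)^b` -/
theorem W1_card_dvd (htr : ∀ x y : Λ, ∃ g ∈ H, g x = y) (hB : Bl H B) {b₀ : Λ} (hb₀ : b₀ ∈ B) :
    ∃ b : ℕ, Fintype.card Λ = b * B.card ∧ Nat.card (W1 H B) ∣ b ! * (B.card !) ^ b := by
  classical
  let s : Setoid Λ := ⟨Eqv H B, ⟨eqv_refl htr hb₀, eqv_symm, eqv_trans hB⟩⟩
  let Q := Quotient s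
  haveI : Fintype Q := Fintype.ofFinite Q
  have hfib : ∀ i : Q, Fintype.card {a : Λ // (Quotient.mk s a : Q) = i} = B.card := by
    intro i
    obtain ⟨x, rfl⟩ := Quotient.exists_rep i
    rw [← card_cls htr hB hb₀ x, Fintype.card_subtype]
    congr 1
    ext y
    simp only [Finset.mem_filter, Finset.mem_univ, true_and, mem_cls]
    rw [Quotient.eq]
    exact ⟨fun h => eqv_symm h, fun h => eqv_symm h⟩
  refine ⟨Fintype.card Q, ?_, ?_⟩
  · have h1 := Fintype.card_congr (Equiv.sigmaFiberEquiv (Quotient.mk s : Λ → Q))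
    rw [Fintype.card_sigma] at h1
    rw [← h1, Finset.sum_congr rfl (fun i _ => hfib i), Finset.sum_const, smul_eq_mul, Finset.card_univ]
  · let ψ : W1 H B →* Perm Q :=
      { toFun := fun g => Quotient.congr g.1 g.2
        map_one' := by
          apply Equiv.ext
          intro i
          obtain ⟨x, rfl⟩ := Quotient.exists_rep i
          rfl
        map_mul' := by
          intro g k
          apply Equiv.ext
          intro i
          obtain ⟨x, rfl⟩ := Quotient.exists_rep i
          rfl }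
    have hker : ∀ g : W1 H B, g ∈ ψ.ker ↔ ∀ x, Eqv H B (g.1 x) x := by
      intro g
      rw [MonoidHom.mem_ker]
      constructor
      · intro h x
        have h1 := congrArg (fun f : Perm Q => f (Quotient.mk s x)) h
        exact Quotient.eq.1 h1
      · intro h
        apply Equiv.ext
        intro i
        obtain ⟨x, rfl⟩ := Quotient.exists_rep i
        exact Quotient.sound (h x)
    have hcardker : Nat.card ψ.ker = (B.card !) ^ Fintype.card Q := by
      have h1 := DomMulAct.stabilizer_card (Quotient.mk s : Λ → Q)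
      rw [Finset.prod_congr rfl (fun i _ => by rw [hfib i]), Finset.prod_const, Finset.card_univ] at h1
      rw [← h1, ← Nat.card_eq_fintype_card]
      apply Nat.card_congr
      refine ⟨fun g => ⟨g.1.1, ?_⟩, fun g => ⟨⟨g.1, ?_⟩, ?_⟩, ?_, ?_⟩
      · funext x
        exact Quotient.sound ((hker g.1).1 g.2 x)
      · apply mem_W1_of htr hB
        intro x
        have := congrFun g.2 x
        exact Quotient.eq.1 this
      · rw [hker]
        intro x
        have := congrFun g.2 x
        exact Quotient.eq.1 this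
      · intro g; rfl
      · intro g; rfl
    have h2 := ψ.ker.card_mul_index
    rw [Subgroup.index_ker, hcardker] at h2
    rw [← h2, mul_comm]
    apply Nat.mul_dvd_mul_right
    have h3 : Nat.card ψ.range ∣ Nat.card (Perm Q) := Subgroup.card_subgroup_dvd_card _
    rwa [Nat.card_eq_fintype_card (α := Perm Q), Fintype.card_perm] at h3

end W1

/-- the block size is a power of 2 -/
theorem block_pow {X : Subgroup (Perm Λ)} {π : Set ℕ} {B : Finset Λ}
    (hX : HallIn π X (alternatingGroup Λ)) (h2π : 2 ∈ π) (htr : ∀ x y : Λ, ∃ g ∈ X, g x = y)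
    (hB : Bl X B) (ha : 2 ≤ B.card) (hm : 2 * B.card ≤ Fintype.card Λ) : ∃ x, B.card = 2 ^ x := by
  classical
  obtain ⟨b₀, hb₀⟩ : B.Nonempty := Finset.card_pos.1 (by omega)
  obtain ⟨b, hb, hdvd⟩ := W1_card_dvd htr hB hb₀
  have hb2 : 2 ≤ b := by
    rw [hb] at hm
    exact Nat.le_of_mul_le_mul_right hm (by omega)
  obtain ⟨u, hu, v, hv, huv⟩ := Finset.one_lt_card.1 (show 1 < B.card by omega)
  have hst : swap u v ∈ W1 X B :=
    swap_mem_W1 htr hB hb₀ ((eqv_mem hB hu).2 hv)
  have hsgn : swap u v ∉ alternatingGroup Λ := by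
    rw [Equiv.Perm.mem_alternatingGroup, sign_swap huv]
    decide
  have hnt : Nontrivial Λ := ⟨⟨u, v, huv⟩⟩
  have hWA : ¬ W1 X B ≤ alternatingGroup Λ := fun h => hsgn (h hst)
  -- `2 |X|` divides the order of the block stabilizer
  have hr : (W1 X B ⊓ alternatingGroup Λ).relIndex (W1 X B) = 2 := by
    rw [Subgroup.inf_relIndex_left]
    have h1 : (alternatingGroup Λ).relIndex (W1 X B ⊔ alternatingGroup Λ) = (alternatingGroup Λ).relIndex (W1 X B) :=
      Subgroup.relIndex_sup_right (W1 X B) (alternatingGroup Λ)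
    rw [sup_comm, sup_alt_eq_top hWA, Subgroup.relIndex_top_right, alternatingGroup.index_eq_two] at h1
    exact h1.symm
  have hc1 : Nat.card (W1 X B ⊓ alternatingGroup Λ : Subgroup (Perm Λ)) * 2 = Nat.card (W1 X B) := by
    have := ((W1 X B ⊓ alternatingGroup Λ).subgroupOf (W1 X B)).card_mul_index
    rw [Nat.card_congr (Subgroup.subgroupOfEquivOfLe inf_le_left).toEquiv] at this
    rwa [show ((W1 X B ⊓ alternatingGroup Λ).subgroupOf (W1 X B)).index = 2 from hr] at this
  have hXle : X ≤ W1 X B ⊓ alternatingGroup Λ := le_inf le_W1 hX.1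
  have hc2 : Nat.card X ∣ Nat.card (W1 X B ⊓ alternatingGroup Λ : Subgroup (Perm Λ)) :=
    Subgroup.card_dvd_of_le hXle
  have hc3 : Nat.card X * 2 ∣ b ! * (B.card !) ^ b := by
    refine dvd_trans ?_ hdvd
    rw [← hc1]
    exact Nat.mul_dvd_mul_right hc2 2
  have hc4 : Nat.card X * X.relIndex (alternatingGroup Λ) = Nat.card (alternatingGroup Λ) := by
    have := (X.subgroupOf (alternatingGroup Λ)).card_mul_index
    rwa [Nat.card_congr (Subgroup.subgroupOfEquivOfLe hX.1).toEquiv] at this
  have hc5 : 2 * Nat.card (alternatingGroup Λ) = (b * B.card)! := by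
    have := two_mul_card_alternatingGroup (α := Λ)
    rw [Fintype.card_perm, hb] at this
    rw [Nat.card_eq_fintype_card]
    exact this
  have hfb := fac_block B.card b (by omega)
  obtain ⟨c, hc⟩ := hc3
  set PP := ∏ j ∈ Finset.range b, Nat.choose ((j+1)*B.card - 1) (B.card - 1) with hPP
  have hR : X.relIndex (alternatingGroup Λ) = c * PP := by
    have h1 : (Nat.card X * 2) * X.relIndex (alternatingGroup Λ) = (Nat.card X * 2) * (c * PP) := by
      calc (Nat.card X * 2) * X.relIndex (alternatingGroup Λ)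
          = 2 * (Nat.card X * X.relIndex (alternatingGroup Λ)) := by ring
        _ = (b * B.card)! := by rw [hc4, hc5]
        _ = b ! * (B.card !) ^ b * PP := hfb
        _ = _ := by rw [hc]; ring
    exact Nat.eq_of_mul_eq_mul_left (by have : 0 < Nat.card X := Nat.card_pos; omega) h1
  have hodd : ¬ 2 ∣ Nat.choose (2*B.card - 1) (B.card - 1) := by
    intro h
    apply hX.2.2 2 Nat.prime_two h2π
    rw [hR]
    refine Dvd.dvd.mul_left (h.trans ?_) c
    have hmem : (1:ℕ) ∈ Finset.range b := Finset.mem_range.2 (by omega)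
    have := Finset.dvd_prod_of_mem (fun j => Nat.choose ((j+1)*B.card - 1) (B.card - 1)) hmem
    simpa using this
  apply pow_of_odd B.card (by omega)
  rwa [← Nat.choose_symm_of_eq_add (show 2*B.card-1 = (B.card - 1) + B.card by omega)]

lemma exists_double {π : Set ℕ} {K : Subgroup (Perm Λ)} (hK : HallIn π K (alternatingGroup Λ))
    (h2π : 2 ∈ π) (h4 : 4 ≤ Fintype.card Λ) : ∃ x ∈ K, x ≠ 1 ∧ x.support.card = 4 := by
  classical
  obtain ⟨f⟩ : Nonempty (Fin 4 ↪ Λ) :=
    Function.Embedding.nonempty_of_card_le (by simpa using h4)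
  have hne : ∀ i j : Fin 4, i ≠ j → f i ≠ f j := fun i j h h' => h (f.injective h')
  have h01 := hne 0 1 (by decide)
  have h23 := hne 2 3 (by decide)
  have hdis : Disjoint (swap (f 0) (f 1)) (swap (f 2) (f 3)) := by
    rw [Equiv.Perm.disjoint_iff_eq_or_eq]
    intro x
    by_cases h1 : x = f 0
    · right
      subst h1
      exact swap_apply_of_ne_of_ne (hne 0 2 (by decide)) (hne 0 3 (by decide))
    · by_cases h2 : x = f 1
      · right
        subst h2
        exact swap_apply_of_ne_of_ne (hne 1 2 (by decide)) (hne 1 3 (by decide))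
      · left
        exact swap_apply_of_ne_of_ne h1 h2
  let d := swap (f 0) (f 1) * swap (f 2) (f 3)
  have hsup : d.support.card = 4 := by
    rw [hdis.card_support_mul, card_support_swap h01, card_support_swap h23]
  have hd1 : d ≠ 1 := by
    intro h
    rw [h, support_one] at hsup
    simp at hsup
  have hd2 : d ^ 2 = 1 := by
    show (swap (f 0) (f 1) * swap (f 2) (f 3)) ^ 2 = 1
    rw [hdis.commute.mul_pow, pow_two, pow_two, swap_mul_self, swap_mul_self, one_mul]
  have hA : d ∈ alternatingGroup Λ := by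
    rw [Equiv.Perm.mem_alternatingGroup]
    show sign (swap (f 0) (f 1) * swap (f 2) (f 3)) = 1
    rw [map_mul, sign_swap h01, sign_swap h23]
    decide
  have ho : orderOf d = 2 ^ 1 := by
    haveI : Fact (Nat.Prime 2) := ⟨Nat.prime_two⟩
    rw [pow_one]
    exact orderOf_eq_prime hd2 hd1
  obtain ⟨a, -, ha⟩ := hK.conj Nat.prime_two h2π hA 1 ho
  refine ⟨_, ha, ?_, by rw [card_support_conj, hsup]⟩
  intro h
  apply hd1
  have : a * d * a⁻¹ = 1 := h
  have h2 : a⁻¹ * (a * d * a⁻¹) * a = a⁻¹ * 1 * a := by rw [this]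
  simpa [mul_assoc] using h2

end Cfsg.Agent.H11.HallS
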