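/-
Hall subgroups of alternating groups: the primitive case.
-/
import Cfsg.Agent.Lib.H11.HallX3
import Cfsg.Agent.S0713

set_option autoImplicit false

namespace Cfsg.Agent.H11.HallS

open Equiv Equiv.Perm MulAction
open scoped Nat Pointwise

variable {Λ : Type*} [Fintype Λ] [DecidableEq Λ]

lemma card_dvd_fact (Z : Subgroup (Perm Λ)) : Nat.card Z ∣ (Fintype.card Λ)! := by
  have h3 : Nat.card Z ∣ Nat.card (Perm Λ) := Subgroup.card_subgroup_dvd_card _
  rwa [Nat.card_eq_fintype_card (α := Perm Λ), Fintype.card_perm] at h3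

lemma not_sq_dvd (Z : Subgroup (Perm Λ)) {p : ℕ} (hp : p.Prime) (hc : Fintype.card Λ = p) :
    ¬ p * p ∣ Nat.card Z := by
  intro h
  have h1 := h.trans (card_dvd_fact Z)
  rw [hc] at h1
  obtain ⟨t, ht⟩ : ∃ t, p = t + 1 := ⟨p - 1, by have := hp.two_le; omega⟩
  subst ht
  rw [Nat.factorial_succ] at h1
  have h2 : t + 1 ∣ t ! := Nat.dvd_of_mul_dvd_mul_left (Nat.succ_pos t) h1
  have := (hp.dvd_factorial).1 h2
  omega

lemma prime_le_of_dvd (Z : Subgroup (Perm Λ)) {q : ℕ} (hq : q.Prime) (h : q ∣ Nat.card Z) :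
    q ≤ Fintype.card Λ := (hq.dvd_factorial).1 (h.trans (card_dvd_fact Z))

lemma card_dvd_of_tr (X : Subgroup (Perm Λ)) (htr : ∀ u v : Λ, ∃ g ∈ X, g u = v) (u : Λ) :
    Fintype.card Λ ∣ Nat.card X := by
  haveI hpre : IsPretransitive X Λ := ⟨fun u v => by
    obtain ⟨g, hg, h⟩ := htr u v
    exact ⟨⟨g, hg⟩, h⟩⟩
  have h1 := (stabilizer X u).card_mul_index
  rw [index_stabilizer_of_transitive, Nat.card_eq_fintype_card (α := Λ)] at h1
  exact ⟨_, by rw [← h1, mul_comm]⟩

/-- a nonidentity involution-type element with two fixed points in the Hall subgroup -/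
lemma exists_double_fix {π : Set ℕ} {X : Subgroup (Perm Λ)} (hX : HallIn π X (alternatingGroup Λ))
    (h2π : 2 ∈ π) (h6 : 6 ≤ Fintype.card Λ ∨ 7 ≤ Fintype.card Λ) :
    ∃ x ∈ X, x ≠ 1 ∧ x.support.card = 4 := exists_double hX h2π (by omega)

lemma two_fixed_points {x : Perm Λ} (hx : x.support.card = 4) (h : 6 ≤ Fintype.card Λ) :
    ∃ u v : Λ, u ≠ v ∧ x u = u ∧ x v = v := by
  classical
  have h1 : 1 < (x.supportᶜ : Finset Λ).card := by
    rw [Finset.card_compl, hx]; omega
  obtain ⟨u, hu, v, hv, huv⟩ := Finset.one_lt_card.1 h1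
  simp only [Finset.mem_compl, mem_support, not_not] at hu hv
  exact ⟨u, v, huv, hu, hv⟩

theorem prim_even {π : Set ℕ} (X : Subgroup (Perm Λ)) (hX : HallIn π X (alternatingGroup Λ))
    (htr : ∀ u v : Λ, ∃ g ∈ X, g u = v) (h2π : 2 ∈ π) (s : ℕ) (hs : s.Prime) (hs2 : s ≠ 2) (hsπ : s ∈ π)
    (hm8 : 8 ≤ Fintype.card Λ) (hms : Fintype.card Λ = s + 1)
    (hprim : ∀ t : ℕ, t.Prime → t ∣ Nat.card X → t = 2 ∨ t = s) : False := by
  classical
  obtain ⟨c, hcX, hc, hcs⟩ := hallA_cycle hX hs hs2 hsπ 1 le_rfl (by rw [pow_one]; omega)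
  rw [pow_one] at hcs
  obtain ⟨z, hz⟩ : ∃ z, z ∉ c.support := by
    by_contra hcon
    push_neg at hcon
    have : c.support = Finset.univ := Finset.eq_univ_of_forall hcon
    rw [this, Finset.card_univ] at hcs
    omega
  let B : Finset Λ := Finset.univ.erase z
  have hBcard : B.card = s := by
    simp only [B]
    rw [Finset.card_erase_of_mem (Finset.mem_univ z), Finset.card_univ]
    omega
  have hsubB : c.support ⊆ B := by
    intro y hy
    simp only [B, Finset.mem_erase, Finset.mem_univ, and_true]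
    rintro rfl
    exact hz hy
  have hca : Fintype.card (B : Set Λ) = s := by
    simp [hBcard]
  obtain ⟨f, hfZ, hf, hfs⟩ := restrict_cycle hcX hc hsubB
  rw [hcs] at hfs
  have hfall : ∀ y : (B : Set Λ), f y ≠ y := by
    intro y
    have : f.support = Finset.univ := by
      apply Finset.eq_univ_of_card
      rw [hfs, hca]
    have hy : y ∈ f.support := by rw [this]; exact Finset.mem_univ y
    exact mem_support.1 hy
  have htrZ : ∀ u v : (B : Set Λ), ∃ g ∈ res X (B : Set Λ), g u = v := by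
    intro u v
    obtain ⟨i, hi⟩ := hf.exists_pow_eq (hfall u) (hfall v)
    exact ⟨f ^ i, Subgroup.pow_mem _ hfZ i, hi⟩
  have hprimZ : ∀ t : ℕ, t.Prime → t ∣ Nat.card (res X (B : Set Λ)) → t = 2 ∨ t = s :=
    fun t ht hd => hprim t ht (hd.trans (card_res_dvd X _))
  obtain ⟨x₀, hx₀, hx₀1, hx₀s⟩ := exists_double hX h2π (by omega)
  obtain ⟨w, -, -, hw₀, -⟩ := two_fixed_points hx₀s (by omega)
  obtain ⟨h, hh, hhw⟩ := htr w z
  let x := h * x₀ * h⁻¹
  have hxX : x ∈ X := X.mul_mem (X.mul_mem hh hx₀) (X.inv_mem hh)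
  have hxs : x.support.card = 4 := by
    show (h * x₀ * h⁻¹).support.card = 4
    rw [card_support_conj, hx₀s]
  have hxz : x z = z := by
    show (h * x₀ * h⁻¹) z = z
    rw [Perm.mul_apply, Perm.mul_apply, ← hhw]
    simp [hw₀]
  have hx1 : x ≠ 1 := by
    intro hh1
    rw [hh1, support_one] at hxs
    simp at hxs
  have hst : x ∈ stabilizer (Perm Λ) (B : Set Λ) := by
    rw [mem_stab]
    intro y
    simp only [B, Finset.coe_erase, Finset.coe_univ, Set.mem_diff, Set.mem_univ, true_and,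
      Set.mem_singleton_iff]
    constructor
    · intro h1 h2
      exact h1 (by rw [h2]; exact hxz)
    · intro h1 h2
      apply h1
      apply x.injective
      rw [h2, hxz]
  let k : stabilizer (Perm Λ) (B : Set Λ) := ⟨x, hst⟩
  let f' : Perm (B : Set Λ) := toPermHom _ _ k
  have hfv : ∀ y : (B : Set Λ), ((f' y : (B : Set Λ)) : Λ) = x y := fun y => rfl
  have hf'Z : f' ∈ res X (B : Set Λ) := mem_res.2 ⟨x, hxX, hst, hfv⟩
  have hmemB : ∀ y : Λ, y ≠ z → y ∈ (B : Set Λ) := by
    intro y hy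
    simp [B, hy]
  have hf'1 : f' ≠ 1 := by
    intro hh1
    apply hx1
    ext y
    by_cases hy : y = z
    · rw [hy, hxz]; rfl
    · have := hfv ⟨y, hmemB y hy⟩
      rw [hh1] at this
      simpa using this.symm
  -- two more fixed points
  have h1 : 1 < (((x.supportᶜ : Finset Λ)).erase z).card := by
    rw [Finset.card_erase_of_mem (by simp [hxz]), Finset.card_compl, hxs]; omega
  obtain ⟨u, hu, v, hv, huv⟩ := Finset.one_lt_card.1 h1
  simp only [Finset.mem_erase, Finset.mem_compl, mem_support, not_not] at hu hv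
  exact mi (res X (B : Set Λ)) htrZ s hs hs2 hca hprimZ (not_sq_dvd _ hs hca) hf'Z hf'1
    (u₀ := ⟨u, hmemB u hu.1⟩) (v₀ := ⟨v, hmemB v hv.1⟩) (fun h => huv (congrArg Subtype.val h))
    (Subtype.ext hu.2) (Subtype.ext hv.2)

theorem prim_A {π : Set ℕ} (X : Subgroup (Perm Λ)) (hX : HallIn π X (alternatingGroup Λ))
    (hXp : IsPreprimitive X Λ) (h2π : 2 ∈ π) (s : ℕ) (hs : s.Prime) (hs2 : s ≠ 2) (hsπ : s ∈ π)
    (hsm : s ≤ Fintype.card Λ) : ∀ q : ℕ, q.Prime → q ≤ Fintype.card Λ → q ∈ π := by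
  classical
  intro q hq hqm
  by_cases h5 : Fintype.card Λ ≤ 4
  · have hs3 : s = 3 := by
      have h1 := hs.two_le
      have h1' : s ≤ 4 := by omega
      interval_cases s <;> first | rfl | omega | (exfalso; revert hs; norm_num)
    have hq2 := hq.two_le
    have : q = 2 ∨ q = 3 ∨ q = 4 := by omega
    rcases this with h | h | h
    · rw [h]; exact h2π
    · rw [h, ← hs3]; exact hsπ
    · exfalso; rw [h] at hq; revert hq; norm_num
  have h5' : 5 ≤ Fintype.card Λ := by omega
  by_cases hbig : ∃ ℓ : ℕ, ℓ.Prime ∧ ℓ ≠ 2 ∧ ℓ ∈ π ∧ ℓ + 3 ≤ Fintype.card Λ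
  · obtain ⟨ℓ, hℓ, hℓ2, hℓπ, hℓ3⟩ := hbig
    obtain ⟨c, hcX, hc, hcs⟩ := hallA_cycle hX hℓ hℓ2 hℓπ 1 le_rfl (by rw [pow_one]; omega)
    rw [pow_one] at hcs
    have hAX := Cfsg.Agent.S0713.result X hXp hℓ h5' hℓ3 hc hcs hcX
    have : X = alternatingGroup Λ := le_antisymm hX.1 hAX
    exact hX.2.1 q hq (by rw [this]; exact prime_dvd_card_alt hq h5' hqm)
  push_neg at hbig
  have hodd_big : ∀ ℓ : ℕ, ℓ.Prime → ℓ ≠ 2 → ℓ ∈ π → Fintype.card Λ < ℓ + 3 := hbig
  haveI hpre : IsPretransitive X Λ := hXp.toIsPretransitive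
  have htr : ∀ u v : Λ, ∃ g ∈ X, g u = v := by
    intro u v
    obtain ⟨g, hg⟩ := MulAction.exists_smul_eq X u v
    exact ⟨g.1, g.2, hg⟩
  haveI : Nonempty Λ := Fintype.card_pos_iff.1 (by omega)
  obtain ⟨u₀⟩ := ‹Nonempty Λ›
  have hmd : Fintype.card Λ ∣ Nat.card X := card_dvd_of_tr X htr u₀
  have hmπ : ∀ ℓ : ℕ, ℓ.Prime → ℓ ∣ Fintype.card Λ → ℓ ∈ π :=
    fun ℓ h1 h2 => hX.2.1 ℓ h1 (h2.trans hmd)
  have hof : ∀ ℓ : ℕ, ℓ.Prime → ℓ ≠ 2 → ℓ ∣ Fintype.card Λ → ℓ = Fintype.card Λ := by
    intro ℓ h1 h2 h3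
    have h4 := hodd_big ℓ h1 h2 (hmπ ℓ h1 h3)
    obtain ⟨t, ht⟩ := h3
    have h6 := h1.two_le
    have h7 : ℓ ≠ 2 := h2
    rcases t with _ | _ | t
    · omega
    · omega
    · exfalso
      have : ℓ * (t + 1 + 1) = ℓ * t + 2 * ℓ := by ring
      have h8 : 0 ≤ ℓ * t := Nat.zero_le _
      omega
  rcases Nat.even_or_odd (Fintype.card Λ) with hev | hod
  · exfalso
    have hev2 : Fintype.card Λ % 2 = 0 := Nat.even_iff.1 hev
    have hsodd : s % 2 = 1 := Nat.odd_iff.1 (hs.odd_of_ne_two hs2)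
    have hsb := hodd_big s hs hs2 hsπ
    have hms : Fintype.card Λ = s + 1 := by omega
    have h8 : 8 ≤ Fintype.card Λ := by
      by_contra hlt
      have h6 : Fintype.card Λ = 6 := by omega
      have := hof 3 Nat.prime_three (by norm_num) (by rw [h6]; norm_num)
      omega
    apply prim_even X hX htr h2π s hs hs2 hsπ h8 hms
    intro t ht hd
    by_cases ht2 : t = 2
    · exact Or.inl ht2
    · right
      have h1 := hodd_big t ht ht2 (hX.2.1 t ht hd)
      have h2 := prime_le_of_dvd X ht hd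
      have h3 : t % 2 = 1 := Nat.odd_iff.1 (ht.odd_of_ne_two ht2)
      omega
  · -- `m` is prime
    have hod2 : Fintype.card Λ % 2 = 1 := Nat.odd_iff.1 hod
    have hmp : (Fintype.card Λ).Prime := by
      have h1 := Nat.minFac_prime (n := Fintype.card Λ) (by omega)
      have h2 := Nat.minFac_dvd (Fintype.card Λ)
      have h3 : Nat.minFac (Fintype.card Λ) ≠ 2 := by
        intro h
        rw [h] at h2
        omega
      have h4 := hof _ h1 h3 h2
      rw [h4] at h1
      exact h1
    have hm2 : Fintype.card Λ ≠ 2 := by omega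
    have hmm : Fintype.card Λ ∈ π := hmπ _ hmp dvd_rfl
    have hp2 : ¬ Fintype.card Λ * Fintype.card Λ ∣ Nat.card X := not_sq_dvd X hmp rfl
    by_cases hr : (Fintype.card Λ - 2).Prime ∧ Fintype.card Λ - 2 ∈ π
    · by_cases hm5 : Fintype.card Λ = 5
      · rw [hm5] at hqm hr hmm
        have hq2 := hq.two_le
        have : q = 2 ∨ q = 3 ∨ q = 4 ∨ q = 5 := by omega
        rcases this with h | h | h | h
        · rw [h]; exact h2π
        · rw [h]; exact hr.2
        · exfalso; rw [h] at hq; revert hq; norm_num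
        · rw [h]; exact hmm
      · exfalso
        obtain ⟨hr1, hr2⟩ := hr
        have hr5 : 5 ≤ Fintype.card Λ - 2 := by omega
        have hr2' : Fintype.card Λ - 2 ≠ 2 := by omega
        obtain ⟨c, hcX, hc, hcs⟩ := hallA_cycle hX hr1 hr2' hr2 1 le_rfl (by rw [pow_one]; omega)
        rw [pow_one] at hcs
        refine twin2 X hXp _ _ hmp hr1 (by omega) hr5 rfl ?_ hp2 c hcX hc hcs
        intro t ht hd
        by_cases ht2 : t = 2
        · exact Or.inl ht2
        · right
          have h1 := hodd_big t ht ht2 (hX.2.1 t ht hd)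
          have h2 := prime_le_of_dvd X ht hd
          have h3 : t % 2 = 1 := Nat.odd_iff.1 (ht.odd_of_ne_two ht2)
          omega
    · exfalso
      have hprim : ∀ t : ℕ, t.Prime → t ∣ Nat.card X → t = 2 ∨ t = Fintype.card Λ := by
        intro t ht hd
        by_cases ht2 : t = 2
        · exact Or.inl ht2
        · right
          have h0 := hX.2.1 t ht hd
          have h1 := hodd_big t ht ht2 h0
          have h2 := prime_le_of_dvd X ht hd
          have h3 : t % 2 = 1 := Nat.odd_iff.1 (ht.odd_of_ne_two ht2)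
          have h4 : t = Fintype.card Λ - 2 ∨ t = Fintype.card Λ := by omega
          rcases h4 with h4 | h4
          · exfalso
            apply hr
            rw [← h4]
            exact ⟨ht, h0⟩
          · exact h4
      by_cases hm5 : Fintype.card Λ = 5
      · -- degree 5
        have hc4 : Nat.card X * X.relIndex (alternatingGroup Λ) = Nat.card (alternatingGroup Λ) := by
          have := (X.subgroupOf (alternatingGroup Λ)).card_mul_index
          rwa [Nat.card_congr (Subgroup.subgroupOfEquivOfLe hX.1).toEquiv] at this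
        have hc5 : Nat.card (alternatingGroup Λ) = 60 := by
          haveI : Nontrivial Λ := by
            rw [← Fintype.one_lt_card_iff_nontrivial]; omega
          have := two_mul_card_alternatingGroup (α := Λ)
          rw [Fintype.card_perm, hm5] at this
          rw [Nat.card_eq_fintype_card]
          have h120 : (5 : ℕ)! = 120 := by decide
          omega
        have hRd : X.relIndex (alternatingGroup Λ) ∣ 60 := by
          rw [← hc5, ← hc4]; exact dvd_mul_left _ _
        have hR2 : ¬ 2 ∣ X.relIndex (alternatingGroup Λ) := hX.2.2 2 Nat.prime_two h2π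
        have hR5 : ¬ 5 ∣ X.relIndex (alternatingGroup Λ) :=
          hX.2.2 5 (by norm_num) (by rw [← hm5]; exact hmm)
        have hRle : X.relIndex (alternatingGroup Λ) ≤ 60 := Nat.le_of_dvd (by norm_num) hRd
        have hR : X.relIndex (alternatingGroup Λ) = 1 ∨ X.relIndex (alternatingGroup Λ) = 3 := by
          generalize X.relIndex (alternatingGroup Λ) = R at hRd hR2 hR5 hRle
          interval_cases R <;> omega
        rcases hR with hR | hR
        · have hAX : alternatingGroup Λ ≤ X := Subgroup.relIndex_eq_one.1 hR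
          have heq : X = alternatingGroup Λ := le_antisymm hX.1 hAX
          have h3 : 3 ∈ π := hX.2.1 3 Nat.prime_three (by
            rw [heq]; exact prime_dvd_card_alt Nat.prime_three h5' (by omega))
          apply hr
          rw [hm5]
          exact ⟨Nat.prime_three, h3⟩
        · exact no_index_three X hX.1 hm5 hR
      · obtain ⟨x, hxX, hx1, hxs⟩ := exists_double hX h2π (by omega)
        have hm7 : 6 ≤ Fintype.card Λ := by omega
        obtain ⟨u, v, huv, hu, hv⟩ := two_fixed_points hxs hm7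
        exact mi X htr _ hmp hm2 rfl hprim hp2 hxX hx1 huv hu hv

end Cfsg.Agent.H11.HallS
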