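/-
Hall subgroups of alternating groups: the transitive case.
-/
import Cfsg.Agent.Lib.H11.HallX4

set_option autoImplicit false

namespace Cfsg.Agent.H11.HallS

open Equiv Equiv.Perm MulAction
open scoped Nat Pointwise

variable {Λ : Type*} [Fintype Λ] [DecidableEq Λ]

lemma prim_of_min {X : Subgroup (Perm Λ)} (htr : ∀ x y : Λ, ∃ g ∈ X, g x = y)
    (hmin : ∀ B' : Finset Λ, Bl X B' → 2 ≤ B'.card → Fintype.card Λ ≤ B'.card) :
    IsPreprimitive X Λ := by
  classical
  haveI hpre : IsPretransitive X Λ := ⟨fun x y => by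
    obtain ⟨g, hg, h⟩ := htr x y
    exact ⟨⟨g, hg⟩, h⟩⟩
  refine IsPreprimitive.mk ?_
  intro C hC
  by_cases hs : C.Subsingleton
  · exact Or.inl hs
  right
  let C' : Finset Λ := Finset.univ.filter (fun x => x ∈ C)
  have hC'mem : ∀ y : Λ, y ∈ C' ↔ y ∈ C := by
    intro y
    simp [C']
  have hC'B : Bl X C' := by
    intro g hg x hx hgx y hy
    rw [hC'mem] at hx hgx hy ⊢
    have h1 : (⟨g, hg⟩ : X) • C = C := by
      rw [isBlock_iff_smul_eq_of_mem] at hC
      exact hC hx hgx
    have h2 : (⟨g, hg⟩ : X) • y ∈ C := by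
      rw [← h1]
      exact Set.smul_mem_smul_set hy
    exact h2
  have h2C' : 2 ≤ C'.card := by
    rw [Set.not_subsingleton_iff] at hs
    obtain ⟨x, hx, y, hy, hne⟩ := hs
    have : 1 < C'.card := Finset.one_lt_card.2 ⟨x, (hC'mem _).2 hx, y, (hC'mem _).2 hy, hne⟩
    omega
  have h3 := hmin C' hC'B h2C'
  have hEq : C' = Finset.univ := by
    apply Finset.eq_univ_of_card
    exact le_antisymm (Finset.card_le_univ _) h3
  rw [Set.eq_univ_iff_forall]
  intro x
  have : x ∈ C' := by rw [hEq]; exact Finset.mem_univ x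
  exact (hC'mem _).1 this

lemma index_eq_relIndex {T : Subgroup (Perm Λ)} (hT : ¬ T ≤ alternatingGroup Λ) :
    T.index = T.relIndex (alternatingGroup Λ) := by
  obtain ⟨t, htT, htA⟩ := SetLike.not_le_iff_exists.1 hT
  have hnt : Nontrivial Λ := by
    by_contra hn
    rw [not_nontrivial_iff_subsingleton] at hn
    apply htA
    have : t = 1 := Subsingleton.elim _ _
    rw [this]; exact Subgroup.one_mem _
  have hr : (T ⊓ alternatingGroup Λ).relIndex T = 2 := by
    rw [Subgroup.inf_relIndex_left]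
    have h1 : (alternatingGroup Λ).relIndex (T ⊔ alternatingGroup Λ) = (alternatingGroup Λ).relIndex T :=
      Subgroup.relIndex_sup_right T (alternatingGroup Λ)
    rw [sup_comm, sup_alt_eq_top hT, Subgroup.relIndex_top_right, alternatingGroup.index_eq_two] at h1
    exact h1.symm
  have hc1 : Nat.card (T ⊓ alternatingGroup Λ : Subgroup (Perm Λ)) * 2 = Nat.card T := by
    have := ((T ⊓ alternatingGroup Λ).subgroupOf T).card_mul_index
    rw [Nat.card_congr (Subgroup.subgroupOfEquivOfLe inf_le_left).toEquiv] at this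
    rwa [show ((T ⊓ alternatingGroup Λ).subgroupOf T).index = 2 from hr] at this
  have hc2 : Nat.card (T ⊓ alternatingGroup Λ : Subgroup (Perm Λ)) * T.relIndex (alternatingGroup Λ)
      = Nat.card (alternatingGroup Λ) := by
    have := ((T ⊓ alternatingGroup Λ).subgroupOf (alternatingGroup Λ)).card_mul_index
    rw [Nat.card_congr (Subgroup.subgroupOfEquivOfLe inf_le_right).toEquiv] at this
    rwa [show ((T ⊓ alternatingGroup Λ).subgroupOf (alternatingGroup Λ)).index
      = T.relIndex (alternatingGroup Λ) from Subgroup.inf_relIndex_right _ _] at this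
  have c3 := T.card_mul_index
  have c4 := (alternatingGroup Λ).card_mul_index
  rw [alternatingGroup.index_eq_two] at c4
  have hpos : 0 < Nat.card (T ⊓ alternatingGroup Λ : Subgroup (Perm Λ)) := Nat.card_pos
  have h5 : (Nat.card (T ⊓ alternatingGroup Λ : Subgroup (Perm Λ)) * 2) * T.index =
      (Nat.card (T ⊓ alternatingGroup Λ : Subgroup (Perm Λ)) * 2) * T.relIndex (alternatingGroup Λ) := by
    calc (Nat.card (T ⊓ alternatingGroup Λ : Subgroup (Perm Λ)) * 2) * T.index = Nat.card (Perm Λ) := by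
          rw [hc1, c3]
      _ = _ := by
          rw [← c4, ← hc2]; ring
  exact Nat.eq_of_mul_eq_mul_left (by omega) h5

lemma swap_mem_iff {S : Finset Λ} {p q : Λ} (h : p ∈ S ↔ q ∈ S) (y : Λ) : swap p q y ∈ S ↔ y ∈ S := by
  rw [swap_apply_def]
  split_ifs with h1 h2
  · rw [h1]; exact h.symm
  · rw [h2]; exact h
  · exact Iff.rfl

/-- the transposition in the group induced on a block -/
lemma block_transposition {π : Set ℕ} {X : Subgroup (Perm Λ)} {B : Finset Λ}
    (hX : HallIn π X (alternatingGroup Λ)) (h2π : 2 ∈ π) (htr : ∀ x y : Λ, ∃ g ∈ X, g x = y)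
    (hB : Bl X B) (ha2 : 2 ≤ B.card) {z : Λ} (hz : z ∉ B) :
    ∃ f ∈ res X (B : Set Λ), f.IsCycle ∧ f.support.card = 2 := by
  classical
  obtain ⟨u, hu, v, hv, huv⟩ := Finset.one_lt_card.1 (show 1 < B.card by omega)
  have hcc : 1 < (cls X B z).card := by
    rw [card_cls htr hB hu z]; omega
  obtain ⟨u', hu', v', hv', huv'⟩ := Finset.one_lt_card.1 hcc
  rw [mem_cls] at hu' hv'
  have hnotB : ∀ y, Eqv X B z y → y ∉ B := by
    intro y hy hyB
    have h1 : Eqv X B u y := (eqv_mem hB hu).2 hyB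
    have h2 : Eqv X B u z := eqv_trans hB h1 (eqv_symm hy)
    exact hz ((eqv_mem hB hu).1 h2)
  have hu'B := hnotB _ hu'
  have hv'B := hnotB _ hv'
  have hneB : ∀ x y, x ∈ B → y ∉ B → x ≠ y := by
    rintro x y hx hy rfl
    exact hy hx
  have hdis : Disjoint (swap u v) (swap u' v') := by
    rw [Equiv.Perm.disjoint_iff_eq_or_eq]
    intro x
    by_cases hx : x ∈ B
    · right
      exact swap_apply_of_ne_of_ne (hneB _ _ hx hu'B) (hneB _ _ hx hv'B)
    · left
      exact swap_apply_of_ne_of_ne (hneB _ _ hu hx).symm (hneB _ _ hv hx).symm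
  let d := swap u v * swap u' v'
  have hdW : d ∈ W1 X B := (W1 X B).mul_mem
    (swap_mem_W1 htr hB hu ((eqv_mem hB hu).2 hv))
    (swap_mem_W1 htr hB hu (eqv_trans hB (eqv_symm hu') hv'))
  have hdA : d ∈ alternatingGroup Λ := by
    rw [Equiv.Perm.mem_alternatingGroup]
    show sign (swap u v * swap u' v') = 1
    rw [map_mul, sign_swap huv, sign_swap huv']
    decide
  have hsup : d.support.card = 4 := by
    rw [hdis.card_support_mul, card_support_swap huv, card_support_swap huv']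
  have hd1 : d ≠ 1 := by
    intro h
    rw [h, support_one] at hsup
    simp at hsup
  have hd2 : d ^ 2 = 1 := by
    show (swap u v * swap u' v') ^ 2 = 1
    rw [hdis.commute.mul_pow, pow_two, pow_two, swap_mul_self, swap_mul_self, one_mul]
  have ho : orderOf d = 2 ^ 1 := by
    haveI : Fact (Nat.Prime 2) := ⟨Nat.prime_two⟩
    rw [pow_one]
    exact orderOf_eq_prime hd2 hd1
  have hXW : HallIn π X (W1 X B ⊓ alternatingGroup Λ) := by
    refine ⟨le_inf le_W1 hX.1, hX.2.1, ?_⟩
    intro p hp hπ hd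
    apply hX.2.2 p hp hπ
    rw [← Subgroup.relIndex_mul_relIndex X (W1 X B ⊓ alternatingGroup Λ) (alternatingGroup Λ)
      (le_inf le_W1 hX.1) inf_le_right]
    exact hd.trans (dvd_mul_right _ _)
  obtain ⟨a, haW, ha⟩ := hXW.conj Nat.prime_two h2π ⟨hdW, hdA⟩ 1 ho
  obtain ⟨h, hh, hhu⟩ := htr (a u) u
  let k := h * a
  have hkW : k ∈ W1 X B := (W1 X B).mul_mem (le_W1 hh) haW.1
  have hku : k u = u := hhu
  have hkv : k v ∈ B := by
    have h1 : Eqv X B u v := (eqv_mem hB hu).2 hv
    have h2 := (hkW u v).1 h1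
    rw [hku] at h2
    exact (eqv_mem hB hu).1 h2
  have hkB : ∀ y, y ∉ B → k y ∉ B := by
    intro y hy hky
    have h1 : Eqv X B (k u) (k y) := by
      rw [hku]
      exact (eqv_mem hB hu).2 hky
    have h2 := (hkW u y).2 h1
    exact hy ((eqv_mem hB hu).1 h2)
  have hkne : k u ≠ k v := fun h => huv (k.injective h)
  let e := k * d * k⁻¹
  have heX : e ∈ X := by
    have : e = h * (a * d * a⁻¹) * h⁻¹ := by
      show (h * a) * d * (h * a)⁻¹ = _
      group
    rw [this]
    exact X.mul_mem (X.mul_mem hh ha) (X.inv_mem hh)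
  have hee : e = swap (k u) (k v) * swap (k u') (k v') := by
    show k * (swap u v * swap u' v') * k⁻¹ = _
    rw [swap_apply_apply, swap_apply_apply]
    group
  have hmemB1 : (k u ∈ B) := by rw [hku]; exact hu
  have hst : e ∈ stabilizer (Perm Λ) (B : Set Λ) := by
    rw [mem_stab]
    intro y
    simp only [Finset.mem_coe]
    rw [hee, Perm.mul_apply, swap_mem_iff (iff_of_true hmemB1 hkv),
      swap_mem_iff (iff_of_false (hkB _ hu'B) (hkB _ hv'B))]
  let p' : (B : Set Λ) := ⟨k u, hmemB1⟩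
  let q' : (B : Set Λ) := ⟨k v, hkv⟩
  have hpq : p' ≠ q' := fun h => hkne (congrArg Subtype.val h)
  refine ⟨swap p' q', mem_res.2 ⟨e, heX, hst, ?_⟩, isCycle_swap hpq, card_support_swap hpq⟩
  intro x
  have hxB : (x : Λ) ∈ B := x.2
  rw [hee, Perm.mul_apply, swap_apply_of_ne_of_ne (hneB _ _ hxB (hkB _ hu'B)) (hneB _ _ hxB (hkB _ hv'B))]
  exact (Function.Injective.swap_apply Subtype.val_injective p' q' x).symm

theorem hallA_transitive {π : Set ℕ} (X : Subgroup (Perm Λ)) (hX : HallIn π X (alternatingGroup Λ))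
    (htr : ∀ x y : Λ, ∃ g ∈ X, g x = y) (h2π : 2 ∈ π) (s : ℕ) (hs : s.Prime) (hs2 : s ≠ 2) (hsπ : s ∈ π)
    (hsm : s ≤ Fintype.card Λ) :
    (∀ q : ℕ, q.Prime → q ≤ Fintype.card Λ → q ∈ π) ∨
      (Fintype.card Λ = 8 ∧ (∀ q : ℕ, q.Prime → q ≤ 8 → (q ∈ π ↔ q = 2 ∨ q = 3)) ∧
        ∃ B : Finset Λ, B.card = 4 ∧ Bl X B) := by
  classical
  have hs3 : 3 ≤ s := by
    have := hs.two_le
    omega
  have hm3 : 3 ≤ Fintype.card Λ := by omega
  -- a minimal block
  let 𝓑 : Finset (Finset Λ) := Finset.univ.filter (fun B => Bl X B ∧ 2 ≤ B.card)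
  have h𝓑 : 𝓑.Nonempty := by
    refine ⟨Finset.univ, ?_⟩
    simp only [𝓑, Finset.mem_filter, Finset.mem_univ, true_and]
    refine ⟨fun _ _ _ _ _ _ _ => Finset.mem_univ _, ?_⟩
    rw [Finset.card_univ]; omega
  obtain ⟨B, hB𝓑, hmin⟩ := Finset.exists_min_image 𝓑 Finset.card h𝓑
  simp only [𝓑, Finset.mem_filter, Finset.mem_univ, true_and] at hB𝓑 hmin
  obtain ⟨hB, ha2⟩ := hB𝓑
  have hmin' : ∀ B' : Finset Λ, Bl X B' → 2 ≤ B'.card → B.card ≤ B'.card :=
    fun B' h1 h2 => hmin B' ⟨h1, h2⟩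
  obtain ⟨b₀, hb₀⟩ : B.Nonempty := Finset.card_pos.1 (by omega)
  -- prime cycles live in `B`
  have hcyc : ∀ ℓ : ℕ, ℓ.Prime → ℓ ≠ 2 → ℓ ∈ π → ℓ ≤ Fintype.card Λ →
      ∃ c ∈ X, c.IsCycle ∧ c.support.card = ℓ ∧ c.support ⊆ B := by
    intro ℓ hℓ hℓ2 hℓπ hℓm
    obtain ⟨c, hcH, hc, hcs⟩ := hallA_cycle hX hℓ hℓ2 hℓπ 1 le_rfl (by simpa using hℓm)
    rw [pow_one] at hcs
    rcases block_cycle htr hB hb₀ hcH hc with h | ⟨h1, h2⟩
    · obtain ⟨c', h1, h2, h3, h4⟩ := move_cycle htr hB hb₀ hcH hc h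
      exact ⟨c', h1, h2, by omega, h4⟩
    · exfalso
      rw [hcs] at h1 h2
      rcases (Nat.dvd_prime hℓ).1 h1 with h3 | h3 <;> omega
  have hle : ∀ ℓ : ℕ, ℓ.Prime → ℓ ≠ 2 → ℓ ∈ π → ℓ ≤ Fintype.card Λ → ℓ ≤ B.card := by
    intro ℓ hℓ hℓ2 hℓπ hℓm
    obtain ⟨c, _, _, h3, h4⟩ := hcyc ℓ hℓ hℓ2 hℓπ hℓm
    rw [← h3]
    exact Finset.card_le_card h4
  have hBm : B.card ≤ Fintype.card Λ := by
    rw [← Finset.card_univ]; exact Finset.card_le_univ B
  by_cases haeq : B.card = Fintype.card Λ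
  · left
    refine prim_A X hX (prim_of_min htr ?_) h2π s hs hs2 hsπ hsm
    intro B' h1 h2
    rw [← haeq]
    exact hmin' B' h1 h2
  right
  obtain ⟨z, hz⟩ : ∃ z, z ∉ B := by
    by_contra hcon
    push_neg at hcon
    apply haeq
    rw [← Finset.card_univ]
    congr 1
    exact Finset.eq_univ_of_forall hcon
  have hsa := hle s hs hs2 hsπ hsm
  have hca : Fintype.card (B : Set Λ) = B.card := by simp
  have hprim := res_prim htr hB hmin'
  have hq : ∀ q : ℕ, q.Prime → q ≤ B.card → q ∈ π := by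
    have := prim_core (res X (B : Set Λ)) hprim π
      (fun q hq hd => hX.2.1 q hq (hd.trans (card_res_dvd X _))) (by
        intro ℓ hℓ hℓπ hℓa
        rw [hca] at hℓa
        by_cases hℓ2 : ℓ = 2
        · rw [hℓ2]
          exact block_transposition hX h2π htr hB ha2 hz
        obtain ⟨c, h1, h2, h3, h4⟩ := hcyc ℓ hℓ hℓ2 hℓπ (by omega)
        obtain ⟨f, hf1, hf2, hf3⟩ := restrict_cycle h1 h2 h4
        exact ⟨f, hf1, hf2, by omega⟩) s 2 hs Nat.prime_two (by omega) hsπ h2π (by
        rw [hca]; exact hsa)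
    rwa [hca] at this
  -- the classes partition `Λ`
  have hpart : B.card ∣ Fintype.card Λ ∧ 2 * B.card ≤ Fintype.card Λ := by
    have hcard := Finset.card_eq_sum_card_image (cls X B) (Finset.univ : Finset Λ)
    have hf : ∀ t ∈ (Finset.univ : Finset Λ).image (cls X B),
        ((Finset.univ : Finset Λ).filter (fun y => cls X B y = t)).card = B.card := by
      intro t ht
      obtain ⟨x, -, rfl⟩ := Finset.mem_image.1 ht
      rw [← card_cls htr hB hb₀ x]
      congr 1
      ext y
      simp only [Finset.mem_filter, Finset.mem_univ, true_and, mem_cls]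
      constructor
      · intro hy
        have : y ∈ cls X B y := mem_cls.2 (eqv_refl htr hb₀ y)
        rw [hy] at this
        exact mem_cls.1 this
      · intro hy
        exact cls_eq hB htr hb₀ hy
    rw [Finset.sum_congr rfl hf, Finset.sum_const, smul_eq_mul, Finset.card_univ] at hcard
    have hne : cls X B b₀ ≠ cls X B z := by
      intro he
      have : z ∈ cls X B z := mem_cls.2 (eqv_refl htr hb₀ _)
      rw [← he, mem_cls, eqv_mem hB hb₀] at this
      exact hz this
    have h2c : 1 < ((Finset.univ : Finset Λ).image (cls X B)).card :=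
      Finset.one_lt_card.2 ⟨_, Finset.mem_image_of_mem _ (Finset.mem_univ b₀), _,
        Finset.mem_image_of_mem _ (Finset.mem_univ z), hne⟩
    constructor
    · rw [hcard]; exact Dvd.intro_left _ rfl
    · rw [hcard]; exact Nat.mul_le_mul_right _ h2c
  obtain ⟨hdvd, h2a⟩ := hpart
  have h3π : 3 ∈ π := hq 3 Nat.prime_three (by omega)
  obtain ⟨x, hx⟩ := block_pow hX h2π htr hB ha2 h2a
  -- two blocks
  have hm2 : Fintype.card Λ = 2 * B.card := by
    obtain ⟨y, hy⟩ : ∃ y, y = Nat.log 3 (Fintype.card Λ) := ⟨_, rfl⟩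
    have hy1 : 1 ≤ y := by
      rw [hy]; exact Nat.log_pos (by norm_num) (by omega)
    have hy2 : 3 ^ y ≤ Fintype.card Λ := by
      rw [hy]; exact Nat.pow_log_le_self 3 (by omega)
    have hy3 : Fintype.card Λ < 3 ^ (y+1) := by
      rw [hy]; exact Nat.lt_pow_succ_log_self (by norm_num) _
    obtain ⟨c, hcH, hc, hcs⟩ := hallA_cycle hX Nat.prime_three (by norm_num) h3π y hy1 hy2
    rcases block_cycle htr hB hb₀ hcH hc with h | ⟨h1, -⟩
    · obtain ⟨c', -, -, h3, h4⟩ := move_cycle htr hB hb₀ hcH hc h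
      have h5 := Finset.card_le_card h4
      rw [pow_succ] at hy3
      obtain ⟨t, ht⟩ := hdvd
      have ht2 : t = 2 := by
        have h6 : 2 * B.card ≤ B.card * t := by omega
        have h7 : B.card * t < B.card * 3 := by omega
        have h8 : t < 3 := Nat.lt_of_mul_lt_mul_left h7
        have h9 : 2 ≤ t := by
          by_contra hlt
          have : t ≤ 1 := by omega
          have : B.card * t ≤ B.card * 1 := Nat.mul_le_mul_left _ this
          omega
        omega
      rw [ht, ht2]; ring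
    · exfalso
      rw [hcs] at h1
      have h2d : 2 ∣ B.card := by
        rw [hx]
        exact dvd_pow_self 2 (by rintro rfl; simp at hx; omega)
      have := Nat.Prime.dvd_of_dvd_pow Nat.prime_two (h2d.trans h1)
      omega
  -- the arithmetic
  have hx2 : x = 2 := by
    have hx3 : x < 3 := by
      by_contra hcon
      have hx3 : 3 ≤ x := by omega
      obtain ⟨ℓ, hℓ, hℓ2, hℓa, hℓd⟩ := nt_odd x hx3
      have hℓπ : ℓ ∈ π := hq ℓ hℓ (by rw [hx]; exact hℓa)
      obtain ⟨P, hP⟩ := exists_sylow_le hX.subgroupOf hℓ hℓπ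
      haveI : Fact ℓ.Prime := ⟨hℓ⟩
      have hPst : (P : Subgroup (alternatingGroup Λ)) ≤
          (stabilizer (Perm Λ) (B : Set Λ)).subgroupOf (alternatingGroup Λ) := by
        intro g hg
        obtain ⟨n, hn⟩ := P.isPGroup' ⟨g, hg⟩
        have hgo : (g : Perm Λ) ^ (ℓ ^ n) = 1 := by
          have := congrArg (fun t : (P : Subgroup (alternatingGroup Λ)) => ((t : alternatingGroup Λ) : Perm Λ)) hn
          simpa using this
        exact two_block_odd hB hm2 (hP hg) ((hℓ.eq_two_or_odd).resolve_left hℓ2) hgo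
      have hnd := P.not_dvd_index
      have h1 : ¬ ℓ ∣ (stabilizer (Perm Λ) (B : Set Λ)).relIndex (alternatingGroup Λ) := fun h =>
        hnd (h.trans (Subgroup.index_dvd_of_le hPst))
      have hnotA : ¬ stabilizer (Perm Λ) (B : Set Λ) ≤ alternatingGroup Λ := by
        intro hle'
        obtain ⟨u, hu, v, hv, huv⟩ := Finset.one_lt_card.1 (show 1 < B.card by omega)
        have hsw : swap u v ∈ stabilizer (Perm Λ) (B : Set Λ) := by
          rw [mem_stab]
          intro y
          simp only [Finset.mem_coe]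
          exact swap_mem_iff (iff_of_true hu hv) y
        have := hle' hsw
        rw [Equiv.Perm.mem_alternatingGroup, sign_swap huv] at this
        revert this
        decide
      apply h1
      rw [← index_eq_relIndex hnotA, index_stab, hm2, hx]
      exact hℓd
    have hb3 : 3 ≤ B.card := by omega
    have hxne0 : x ≠ 0 := by rintro rfl; simp at hx; omega
    have hxne1 : x ≠ 1 := by rintro rfl; simp at hx; omega
    omega
  subst hx2
  norm_num at hx
  refine ⟨by omega, ?_, B, hx, hB⟩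
  intro q hq1 hq8
  constructor
  · intro hqπ
    by_cases hq2' : q = 2
    · exact Or.inl hq2'
    have := hle q hq1 hq2' hqπ (by omega)
    have hq2 := hq1.two_le
    have : q = 3 ∨ q = 4 := by omega
    rcases this with h | h
    · exact Or.inr h
    · exfalso; rw [h] at hq1; revert hq1; norm_num
  · rintro (h | h)
    · rw [h]; exact h2π
    · rw [h]; exact h3π

end Cfsg.Agent.H11.HallS
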