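/-
Hall subgroups of alternating groups: intransitive extension.
-/
import Cfsg.Agent.Lib.H11.HallX5

set_option autoImplicit false

namespace Cfsg.Agent.H11.HallS

open Equiv Equiv.Perm MulAction
open scoped Nat Pointwise

variable {Ω : Type*} [Fintype Ω] [DecidableEq Ω]

lemma mem_orb_apply {K : Subgroup (Perm Ω)} {g : Perm Ω} (hg : g ∈ K) (x : Ω) : g x ∈ orb K x :=
  mem_orb.2 ⟨g, hg, rfl⟩

/-- orbit-preserving permutations -/
noncomputable def OWp (K : Subgroup (Perm Ω)) : Subgroup (Perm Ω) where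
  carrier := {w | ∀ z, w z ∈ orb K z}
  one_mem' := fun z => self_mem_orb K z
  mul_mem' := fun {a b} ha hb z => by
    have h1 := ha (b z)
    rw [orb_eq (hb z)] at h1
    exact h1
  inv_mem' := fun {a} ha z => by
    have h1 := ha (a⁻¹ z)
    have e : a (a⁻¹ z) = z := by simp
    rw [e] at h1
    rw [orb_eq h1]
    exact self_mem_orb K _

/-- permutations acting on each orbit as an element of `K` -/
noncomputable def OW (K : Subgroup (Perm Ω)) : Subgroup (Perm Ω) where
  carrier := {w | ∀ z, ∃ k ∈ K, ∀ u ∈ orb K z, w u = k u}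
  one_mem' := fun z => ⟨1, K.one_mem, fun _ _ => rfl⟩
  mul_mem' := fun {a b} ha hb z => by
    obtain ⟨k, hk, h1⟩ := ha z
    obtain ⟨k', hk', h2⟩ := hb z
    refine ⟨k * k', K.mul_mem hk hk', fun u hu => ?_⟩
    rw [Perm.mul_apply, Perm.mul_apply, h2 u hu, h1]
    obtain ⟨t, ht, rfl⟩ := mem_orb.1 hu
    exact mem_orb.2 ⟨k' * t, K.mul_mem hk' ht, rfl⟩
  inv_mem' := fun {a} ha z => by
    obtain ⟨k, hk, h1⟩ := ha z
    refine ⟨k⁻¹, K.inv_mem hk, fun u hu => ?_⟩
    have hv : k⁻¹ u ∈ orb K z := by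
      obtain ⟨t, ht, rfl⟩ := mem_orb.1 hu
      exact mem_orb.2 ⟨k⁻¹ * t, K.mul_mem (K.inv_mem hk) ht, rfl⟩
    have h2 := h1 _ hv
    have e : k (k⁻¹ u) = u := by simp
    rw [e] at h2
    rw [Perm.inv_eq_iff_eq]
    exact h2.symm

lemma le_OW (K : Subgroup (Perm Ω)) : K ≤ OW K := fun g hg _ => ⟨g, hg, fun _ _ => rfl⟩

lemma OW_pi {π : Set ℕ} {K : Subgroup (Perm Ω)} (hK : ∀ p : ℕ, p.Prime → p ∣ Nat.card K → p ∈ π) :
    ∀ p : ℕ, p.Prime → p ∣ Nat.card (OW K) → p ∈ π := by
  apply HallIn.prime_cauchy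
  intro t ht p hp ho
  by_contra hpπ
  have ht1 : t ≠ 1 := by
    rintro rfl
    rw [orderOf_one] at ho
    exact hp.one_lt.ne ho
  obtain ⟨z, hz⟩ : ∃ z, t z ≠ z := by
    by_contra hcon
    push_neg at hcon
    exact ht1 (Equiv.ext hcon)
  obtain ⟨k, hk, hku⟩ := ht z
  have hpow : ∀ i : ℕ, (t ^ i) z = (k ^ i) z ∧ (k ^ i) z ∈ orb K z := by
    intro i
    induction i with
    | zero => exact ⟨rfl, self_mem_orb K z⟩
    | succ i ih =>
      obtain ⟨h1, h2⟩ := ih
      constructor
      · rw [pow_succ', Perm.mul_apply, h1, hku _ h2, pow_succ', Perm.mul_apply]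
      · rw [pow_succ', Perm.mul_apply]
        obtain ⟨g, hg, hgz⟩ := mem_orb.1 h2
        exact mem_orb.2 ⟨k * g, K.mul_mem hk hg, by rw [Perm.mul_apply, hgz]⟩
  have ho1 : (t ^ orderOf k) z = z := by
    rw [(hpow _).1, pow_orderOf_eq_one]; rfl
  have hpo : p ∣ orderOf k := by
    by_contra hnd
    have hco : Nat.Coprime (orderOf k) p := ((Nat.Prime.coprime_iff_not_dvd hp).2 hnd).symm
    obtain ⟨m, -, hm⟩ := Nat.exists_mul_mod_eq_one_of_coprime hco hp.one_lt
    have h1 : t ^ (orderOf k * m) = t := by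
      have h0 : t ^ p = 1 := by rw [← ho]; exact pow_orderOf_eq_one t
      rw [pow_eq_pow_mod _ h0, hm, pow_one]
    apply hz
    have h2 : ((t ^ orderOf k) ^ m) z = z := by
      induction m with
      | zero => rfl
      | succ m _ =>
        clear hm h1
        have hfix : ∀ n : ℕ, ((t ^ orderOf k) ^ n) z = z := by
          intro n
          induction n with
          | zero => rfl
          | succ n ih => rw [pow_succ, Perm.mul_apply, ho1, ih]
        exact hfix _
    rw [← pow_mul, h1] at h2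
    exact h2
  apply hpπ
  apply hK p hp
  refine hpo.trans ?_
  have := Subgroup.orderOf_dvd_natCard K hk
  exact this

lemma mem_OWp_swap {K : Subgroup (Perm Ω)} {a b x : Ω} (ha : a ∈ orb K x) (hb : b ∈ orb K x) :
    swap a b ∈ OWp K := by
  intro z
  rw [swap_apply_def]
  split_ifs with h1 h2
  · rw [h1, orb_eq ha]; exact hb
  · rw [h2, orb_eq hb]; exact ha
  · exact self_mem_orb K z

lemma orb_disj {K : Subgroup (Perm Ω)} {x y u : Ω} (hy : y ∉ orb K x) (hux : u ∈ orb K x) :
    u ∉ orb K y := by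
  intro huy
  apply hy
  rw [← orb_eq hux, orb_eq huy]
  exact self_mem_orb K y

/-- two nontrivial orbits -/
theorem case_two_orbits {π : Set ℕ} {K : Subgroup (Perm Ω)} (hK : HallIn π K (alternatingGroup Ω))
    (h2π : 2 ∈ π) {x y a b c d : Ω} (hy : y ∉ orb K x) (ha : a ∈ orb K x) (hb : b ∈ orb K x) (hab : a ≠ b)
    (hc : c ∈ orb K y) (hd : d ∈ orb K y) (hcd : c ≠ d) :
    ∃ W : Subgroup (Perm Ω), K ≤ W ∧ (∀ p : ℕ, p.Prime → p ∣ Nat.card W → p ∈ π) ∧
      ¬ W ≤ alternatingGroup Ω := by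
  classical
  refine ⟨OW K, le_OW K, OW_pi hK.2.1, ?_⟩
  have hKN : K ≤ OWp K ⊓ alternatingGroup Ω :=
    le_inf (fun g hg z => mem_orb_apply hg z) hK.1
  have hN : HallIn π K (OWp K ⊓ alternatingGroup Ω) := by
    refine ⟨hKN, hK.2.1, ?_⟩
    intro p hp hπ hd
    apply hK.2.2 p hp hπ
    rw [← Subgroup.relIndex_mul_relIndex K (OWp K ⊓ alternatingGroup Ω) (alternatingGroup Ω) hKN inf_le_right]
    exact hd.trans (dvd_mul_right _ _)
  have hne : ∀ u v, u ∈ orb K x → v ∈ orb K y → u ≠ v := by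
    rintro u v hu hv rfl
    exact orb_disj hy hu hv
  have hdis : Disjoint (swap a b) (swap c d) := by
    rw [Equiv.Perm.disjoint_iff_eq_or_eq]
    intro z
    by_cases hz : z ∈ orb K x
    · right
      exact swap_apply_of_ne_of_ne (hne _ _ hz hc) (hne _ _ hz hd)
    · left
      refine swap_apply_of_ne_of_ne ?_ ?_
      · rintro rfl; exact hz ha
      · rintro rfl; exact hz hb
  let e := swap a b * swap c d
  have heN : e ∈ OWp K ⊓ alternatingGroup Ω := by
    refine ⟨(OWp K).mul_mem (mem_OWp_swap ha hb) (mem_OWp_swap hc hd), ?_⟩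
    show e ∈ alternatingGroup Ω
    rw [Equiv.Perm.mem_alternatingGroup]
    show sign (swap a b * swap c d) = 1
    rw [map_mul, sign_swap hab, sign_swap hcd]
    decide
  have hsup : e.support.card = 4 := by
    rw [hdis.card_support_mul, card_support_swap hab, card_support_swap hcd]
  have he1 : e ≠ 1 := by
    intro h
    rw [h, support_one] at hsup
    simp at hsup
  have he2 : e ^ 2 = 1 := by
    show (swap a b * swap c d) ^ 2 = 1
    rw [hdis.commute.mul_pow, pow_two, pow_two, swap_mul_self, swap_mul_self, one_mul]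
  have ho : orderOf e = 2 ^ 1 := by
    haveI : Fact (Nat.Prime 2) := ⟨Nat.prime_two⟩
    rw [pow_one]
    exact orderOf_eq_prime he2 he1
  obtain ⟨g, hgN, hg⟩ := hN.conj Nat.prime_two h2π heN 1 ho
  have hgo : ∀ z, g z ∈ orb K z := hgN.1
  have hE : g * e * g⁻¹ = swap (g a) (g b) * swap (g c) (g d) := by
    show g * (swap a b * swap c d) * g⁻¹ = _
    rw [swap_apply_apply, swap_apply_apply]
    group
  rw [hE] at hg
  have hpa : g a ∈ orb K x := by
    have := hgo a
    rwa [orb_eq ha] at this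
  have hpb : g b ∈ orb K x := by
    have := hgo b
    rwa [orb_eq hb] at this
  have hpc : g c ∈ orb K y := by
    have := hgo c
    rwa [orb_eq hc] at this
  have hpd : g d ∈ orb K y := by
    have := hgo d
    rwa [orb_eq hd] at this
  have hgab : g a ≠ g b := fun h => hab (g.injective h)
  have hτ : swap (g a) (g b) ∈ OW K := by
    intro z
    by_cases hz : z ∈ orb K x
    · refine ⟨_, hg, fun u hu => ?_⟩
      rw [orb_eq hz] at hu
      rw [Perm.mul_apply, swap_apply_of_ne_of_ne (hne _ _ hu hpc) (hne _ _ hu hpd)]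
    · refine ⟨1, K.one_mem, fun u hu => ?_⟩
      have hux : u ∉ orb K x := by
        intro h
        apply hz
        rw [← orb_eq h, orb_eq hu]
        exact self_mem_orb K z
      refine swap_apply_of_ne_of_ne ?_ ?_
      · rintro rfl; exact hux hpa
      · rintro rfl; exact hux hpb
  intro hle
  have := hle hτ
  rw [Equiv.Perm.mem_alternatingGroup, sign_swap hgab] at this
  revert this
  decide

section W3
variable {G : Type*} [Group G]

/-- the extension of `K` by a central involution -/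
def W3 (K : Subgroup G) (τ : G) (hτ : ∀ k ∈ K, k * τ = τ * k) (h2 : τ * τ = 1) : Subgroup G where
  carrier := {w | w ∈ K ∨ w * τ ∈ K}
  one_mem' := Or.inl K.one_mem
  mul_mem' := fun {a b} ha hb => by
    have hcomm : ∀ w, w * τ ∈ K → w * τ = τ * w := by
      intro w hw
      have h1 := hτ _ hw
      have h3 : w * (τ * τ) = τ * (w * τ) := by rw [← mul_assoc]; exact h1
      rw [h2, mul_one] at h3
      calc w * τ = (τ * (w * τ)) * τ := by rw [← h3]
        _ = τ * w * (τ * τ) := by group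
        _ = τ * w := by rw [h2, mul_one]
    rcases ha with ha | ha <;> rcases hb with hb | hb
    · exact Or.inl (K.mul_mem ha hb)
    · right
      rw [mul_assoc]
      exact K.mul_mem ha hb
    · right
      have : a * b * τ = (a * τ) * b := by
        rw [mul_assoc, hτ b hb, mul_assoc]
      rw [this]
      exact K.mul_mem ha hb
    · left
      have : a * b = (a * τ) * (b * τ) := by
        rw [hcomm b hb]
        calc a * b = a * (τ * τ) * b := by rw [h2, mul_one]
          _ = _ := by group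
      rw [this]
      exact K.mul_mem ha hb
  inv_mem' := fun {a} ha => by
    rcases ha with ha | ha
    · exact Or.inl (K.inv_mem ha)
    · right
      have hτi : τ⁻¹ = τ := inv_eq_of_mul_eq_one_left h2
      have h1 : τ * a⁻¹ ∈ K := by
        have := K.inv_mem ha
        rwa [mul_inv_rev, hτi] at this
      have h3 := hτ _ h1
      have h4 : τ * (τ * a⁻¹) = a⁻¹ := by rw [← mul_assoc, h2, one_mul]
      have h5 : a⁻¹ * τ = τ * a⁻¹ := by
        calc a⁻¹ * τ = (τ * a⁻¹ * τ) * τ := by rw [h3, h4]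
          _ = τ * a⁻¹ * (τ * τ) := by rw [mul_assoc]
          _ = τ * a⁻¹ := by rw [h2, mul_one]
      rw [h5]
      exact h1

lemma W3_pi [Finite G] {π : Set ℕ} {K : Subgroup G} {τ : G} (hτ : ∀ k ∈ K, k * τ = τ * k) (h2 : τ * τ = 1)
    (h2π : 2 ∈ π) (hK : ∀ p : ℕ, p.Prime → p ∣ Nat.card K → p ∈ π) :
    ∀ p : ℕ, p.Prime → p ∣ Nat.card (W3 K τ hτ h2) → p ∈ π := by
  apply HallIn.prime_cauchy
  intro t ht p hp ho
  by_cases hp2 : p = 2
  · rw [hp2]; exact h2π
  have htK : t ∈ K := by
    rcases ht with ht | ht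
    · exact ht
    have hcomm : t * τ = τ * t := by
      have h1 := hτ _ ht
      have h3 : t * (τ * τ) = τ * (t * τ) := by rw [← mul_assoc]; exact h1
      rw [h2, mul_one] at h3
      calc t * τ = (τ * (t * τ)) * τ := by rw [← h3]
        _ = τ * t * (τ * τ) := by group
        _ = τ * t := by rw [h2, mul_one]
    have hsq : t * t ∈ K := by
      have : t * t = (t * τ) * (t * τ) := by
        calc t * t = t * (τ * τ) * t := by rw [h2, mul_one]
          _ = (t * τ) * (τ * t) := by group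
          _ = (t * τ) * (t * τ) := by rw [hcomm]
      rw [this]
      exact K.mul_mem ht ht
    have hodd : Odd p := hp.odd_of_ne_two hp2
    obtain ⟨j, hj⟩ := hodd
    have h1 : t ^ (2 * (j + 1)) = t := by
      have h5 : 2 * (j + 1) = p + 1 := by omega
      rw [h5, pow_succ, ← ho, pow_orderOf_eq_one, one_mul]
    rw [← h1, pow_mul, pow_two]
    exact K.pow_mem hsq _
  exact hK p hp (by rw [← ho]; exact Subgroup.orderOf_dvd_natCard K htK)

end W3

/-- two fixed points -/
theorem case_fixed_pair {π : Set ℕ} {K : Subgroup (Perm Ω)} (hK : HallIn π K (alternatingGroup Ω))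
    (h2π : 2 ∈ π) {u v : Ω} (huv : u ≠ v) (hu : ∀ g ∈ K, g u = u) (hv : ∀ g ∈ K, g v = v) :
    ∃ W : Subgroup (Perm Ω), K ≤ W ∧ (∀ p : ℕ, p.Prime → p ∣ Nat.card W → p ∈ π) ∧
      ¬ W ≤ alternatingGroup Ω := by
  have hτ : ∀ k ∈ K, k * swap u v = swap u v * k := by
    intro k hk
    have h1 := swap_apply_apply k u v
    rw [hu k hk, hv k hk] at h1
    calc k * swap u v = (k * swap u v * k⁻¹) * k := by group
      _ = swap u v * k := by rw [← h1]
  have h2 : swap u v * swap u v = 1 := swap_mul_self u v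
  refine ⟨W3 K (swap u v) hτ h2, fun g hg => Or.inl hg, W3_pi hτ h2 h2π hK.2.1, ?_⟩
  intro hle
  have hm : swap u v ∈ W3 K (swap u v) hτ h2 := Or.inr (by rw [h2]; exact K.one_mem)
  have := hle hm
  rw [Equiv.Perm.mem_alternatingGroup, sign_swap huv] at this
  revert this
  decide

end Cfsg.Agent.H11.HallS
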