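/-
Hall subgroups of alternating groups: the extension theorem.
-/
import Cfsg.Agent.Lib.H11.HallX6

set_option autoImplicit false

namespace Cfsg.Agent.H11.HallS

open Equiv Equiv.Perm MulAction
open scoped Nat Pointwise

variable {Ω : Type*} [Fintype Ω] [DecidableEq Ω]

/-- the transitive case of the extension -/
theorem case_transitive {π : Set ℕ} {K : Subgroup (Perm Ω)} (hK : HallIn π K (alternatingGroup Ω))
    (h2π : 2 ∈ π) (htr : ∀ x y : Ω, ∃ g ∈ K, g x = y) (s : ℕ) (hs : s.Prime) (hs2 : s ≠ 2) (hsπ : s ∈ π)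
    (hsn : s ≤ Fintype.card Ω) (q₀ : ℕ) (hq₀ : q₀.Prime) (hq₀n : q₀ ≤ Fintype.card Ω) (hq₀π : q₀ ∉ π) :
    ∃ W : Subgroup (Perm Ω), K ≤ W ∧ (∀ p : ℕ, p.Prime → p ∣ Nat.card W → p ∈ π) ∧
      ¬ W ≤ alternatingGroup Ω := by
  classical
  rcases hallA_transitive K hK htr h2π s hs hs2 hsπ hsn with h | ⟨h8, hπ8, B, hB4, hB⟩
  · exact absurd (h q₀ hq₀ hq₀n) hq₀π
  have h2 : Fintype.card Ω = 2 * B.card := by omega
  refine ⟨K2 B, ?_, ?_, ?_⟩
  · intro g hg
    rcases two_block_square hB h2 hg with h | h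
    · exact stab_le_K2 B h
    · exact Or.inr h
  · obtain ⟨b₀, hb₀⟩ : B.Nonempty := Finset.card_pos.1 (by omega)
    obtain ⟨z, hz⟩ : ∃ z, z ∉ B := by
      by_contra hcon
      push_neg at hcon
      have : B = Finset.univ := Finset.eq_univ_of_forall hcon
      rw [this, Finset.card_univ] at hB4
      omega
    obtain ⟨g, hg, hgb⟩ := htr b₀ z
    have hτ : ∀ x, g x ∈ B ↔ x ∉ B := by
      refine (two_block_square hB h2 hg).resolve_left ?_
      intro hst
      rw [mem_stab] at hst
      have := (hst b₀).2 hb₀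
      rw [hgb] at this
      exact hz this
    have hi := index_K2 B hτ b₀
    rw [h8, hB4] at hi
    have h70 : Nat.choose 8 4 = 70 := by decide
    rw [h70] at hi
    have hidx : (K2 B).index = 35 := by omega
    have hc := (K2 B).card_mul_index
    rw [Nat.card_eq_fintype_card (α := Perm Ω), Fintype.card_perm, h8, hidx] at hc
    have h40320 : (8 : ℕ)! = 40320 := by decide
    rw [h40320] at hc
    have hcard : Nat.card (K2 B) = 2 ^ 7 * 3 ^ 2 := by omega
    intro p hp hd
    rw [hcard] at hd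
    have hp23 : p = 2 ∨ p = 3 := by
      rcases hp.dvd_mul.1 hd with h | h
      · exact Or.inl ((Nat.prime_dvd_prime_iff_eq hp Nat.prime_two).1 (hp.dvd_of_dvd_pow h))
      · exact Or.inr ((Nat.prime_dvd_prime_iff_eq hp Nat.prime_three).1 (hp.dvd_of_dvd_pow h))
    have hp8 : p ≤ 8 := by omega
    exact (hπ8 p hp hp8).2 hp23
  · intro hle
    obtain ⟨u, hu, v, hv, huv⟩ := Finset.one_lt_card.1 (show 1 < B.card by omega)
    have hsw : swap u v ∈ stabilizer (Perm Ω) (B : Set Ω) := by
      rw [mem_stab]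
      intro y
      simp only [Finset.mem_coe]
      exact swap_mem_iff (iff_of_true hu hv) y
    have := hle (stab_le_K2 B hsw)
    rw [Equiv.Perm.mem_alternatingGroup, sign_swap huv] at this
    revert this
    decide

/-- one fixed point and a transitive action on the rest -/
theorem case_fixed_point {π : Set ℕ} {K : Subgroup (Perm Ω)} (hK : HallIn π K (alternatingGroup Ω))
    (h2π : 2 ∈ π) {O : Finset Ω} {z : Ω} (hz : z ∉ O) (hO : ∀ y, y ≠ z → y ∈ O)
    (hfix : ∀ g ∈ K, g z = z) (htrO : ∀ x ∈ O, ∀ y ∈ O, ∃ g ∈ K, g x = y)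
    (s : ℕ) (hs : s.Prime) (hs2 : s ≠ 2) (hsπ : s ∈ π) (hsO : s ≤ O.card)
    (q₀ : ℕ) (hq₀ : q₀.Prime) (hq₀n : q₀ ≤ Fintype.card Ω) (hq₀π : q₀ ∉ π) :
    ∃ W : Subgroup (Perm Ω), K ≤ W ∧ (∀ p : ℕ, p.Prime → p ∣ Nat.card W → p ∈ π) ∧
      ¬ W ≤ alternatingGroup Ω := by
  classical
  have hs3 : 3 ≤ s := by
    have := hs.two_le
    omega
  have hOeq : O = Finset.univ.erase z := by
    ext y
    simp only [Finset.mem_erase, Finset.mem_univ, and_true]
    constructor
    · rintro hy rfl
      exact hz hy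
    · exact hO y
  have hn : Fintype.card Ω = O.card + 1 := by
    rw [hOeq, Finset.card_erase_of_mem (Finset.mem_univ z), Finset.card_univ]
    have : 0 < Fintype.card Ω := Fintype.card_pos_iff.2 ⟨z⟩
    omega
  have hOmem : ∀ y, y ∈ O ↔ y ≠ z := by
    intro y
    rw [hOeq]
    simp
  have hstz : ∀ g : Perm Ω, g z = z → ∀ x, g x ∈ O ↔ x ∈ O := by
    intro g hg x
    rw [hOmem, hOmem]
    constructor
    · rintro h rfl
      exact h hg
    · intro h h'
      apply h
      apply g.injective
      rw [h', hg]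
  have hKst : K ≤ stabilizer (Perm Ω) (O : Set Ω) := by
    intro g hg
    rw [mem_stab]
    intro x
    simpa using hstz g (hfix g hg) x
  -- injectivity of restriction
  have hinj : Function.Injective (toPermHom (stabilizer (Perm Ω) (O : Set Ω)) (O : Set Ω)) := by
    rw [injective_iff_map_eq_one]
    intro g hg
    apply Subtype.ext
    apply Equiv.ext
    intro y
    by_cases hy : y = z
    · subst hy
      have h1 := mem_stab.1 g.2 y
      simp only [Finset.mem_coe] at h1
      by_contra hne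
      have h2 : g.1 y ∈ O := (hOmem _).2 (by
        intro h3
        exact hne h3)
      exact hz (h1.1 h2)
    · have h1 : (O : Set Ω) y := by
        show y ∈ (O : Set Ω)
        simpa using (hOmem y).2 hy
      have h2 := congrArg (fun f : Perm (O : Set Ω) => ((f ⟨y, h1⟩ : (O : Set Ω)) : Ω)) hg
      exact h2
  have hcardX : Nat.card (res K (O : Set Ω)) = Nat.card K := by
    have h1 : Nat.card (res K (O : Set Ω)) = Nat.card (K.subgroupOf (stabilizer (Perm Ω) (O : Set Ω))) :=
      (Nat.card_congr (Subgroup.equivMapOfInjective _ _ hinj).toEquiv).symm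
    rw [h1]
    exact Nat.card_congr (Subgroup.subgroupOfEquivOfLe hKst).toEquiv
  have hXA : res K (O : Set Ω) ≤ alternatingGroup (O : Set Ω) := by
    intro f hf
    obtain ⟨g, hg, hgs, hfg⟩ := mem_res.1 hf
    rw [Equiv.Perm.mem_alternatingGroup]
    have h1 : ∀ x, g x ∈ (O : Set Ω) ↔ x ∈ (O : Set Ω) := by
      intro x
      simpa using hstz g (hfix g hg) x
    have h2 : ∀ x, g x ≠ x → x ∈ (O : Set Ω) := by
      intro x hx
      have : x ≠ z := by
        rintro rfl
        exact hx (hfix g hg)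
      simpa using (hOmem x).2 this
    have h3 := sign_subtypePerm g h1 h2
    have h4 : f = g.subtypePerm h1 := by
      ext x
      exact hfg x
    have h5 : sign g = 1 := Equiv.Perm.mem_alternatingGroup.1 (hK.1 hg)
    rw [h4]
    convert h3.trans h5
  have hm3 : 3 ≤ O.card := by omega
  have hca : Fintype.card (O : Set Ω) = O.card := by simp
  haveI hntΩ : Nontrivial Ω := by
    rw [← Fintype.one_lt_card_iff_nontrivial]; omega
  haveI hntO : Nontrivial (O : Set Ω) := by
    rw [← Fintype.one_lt_card_iff_nontrivial, hca]; omega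
  have hR : K.relIndex (alternatingGroup Ω) =
      Fintype.card Ω * (res K (O : Set Ω)).relIndex (alternatingGroup (O : Set Ω)) := by
    have c1 : Nat.card K * K.relIndex (alternatingGroup Ω) = Nat.card (alternatingGroup Ω) := by
      have := (K.subgroupOf (alternatingGroup Ω)).card_mul_index
      rwa [Nat.card_congr (Subgroup.subgroupOfEquivOfLe hK.1).toEquiv] at this
    have c2 : Nat.card K * (res K (O : Set Ω)).relIndex (alternatingGroup (O : Set Ω))
        = Nat.card (alternatingGroup (O : Set Ω)) := by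
      have := ((res K (O : Set Ω)).subgroupOf (alternatingGroup (O : Set Ω))).card_mul_index
      rwa [Nat.card_congr (Subgroup.subgroupOfEquivOfLe hXA).toEquiv, hcardX] at this
    have c3 : 2 * Nat.card (alternatingGroup Ω) = (Fintype.card Ω)! := by
      have := two_mul_card_alternatingGroup (α := Ω)
      rw [Fintype.card_perm] at this
      rw [Nat.card_eq_fintype_card]
      exact this
    have c4 : 2 * Nat.card (alternatingGroup (O : Set Ω)) = (O.card)! := by
      have := two_mul_card_alternatingGroup (α := (O : Set Ω))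
      rw [Fintype.card_perm, hca] at this
      rw [Nat.card_eq_fintype_card]
      exact this
    have c5 : (Fintype.card Ω)! = Fintype.card Ω * (O.card)! := by
      rw [hn, Nat.factorial_succ]
    have hK0 : 0 < Nat.card K := Nat.card_pos
    apply Nat.eq_of_mul_eq_mul_left (show 0 < 2 * Nat.card K by omega)
    calc 2 * Nat.card K * K.relIndex (alternatingGroup Ω) = 2 * Nat.card (alternatingGroup Ω) := by
          rw [← c1]; ring
      _ = Fintype.card Ω * (2 * Nat.card (alternatingGroup (O : Set Ω))) := by rw [c3, c4, c5]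
      _ = _ := by rw [← c2]; ring
  have hHall : HallIn π (res K (O : Set Ω)) (alternatingGroup (O : Set Ω)) := by
    refine ⟨hXA, ?_, ?_⟩
    · intro p hp hd
      rw [hcardX] at hd
      exact hK.2.1 p hp hd
    · intro p hp hπ hd
      apply hK.2.2 p hp hπ
      rw [hR]
      exact hd.trans (dvd_mul_left _ _)
  have htrX : ∀ x y : (O : Set Ω), ∃ g ∈ res K (O : Set Ω), g x = y := by
    intro x y
    obtain ⟨g, hg, hgx⟩ := htrO x.1 (by simpa using x.2) y.1 (by simpa using y.2)
    have hst := hKst hg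
    refine ⟨toPermHom _ _ (⟨g, hst⟩ : stabilizer (Perm Ω) (O : Set Ω)), mem_res.2 ⟨g, hg, hst, fun _ => rfl⟩, ?_⟩
    exact Subtype.ext hgx
  rcases hallA_transitive _ hHall htrX h2π s hs hs2 hsπ (by rw [hca]; exact hsO) with hT | ⟨h8, hπ8, -⟩
  · rw [hca] at hT
    refine ⟨stabilizer (Perm Ω) z, fun g hg => hfix g hg, ?_, ?_⟩
    · intro p hp hd
      apply hT p hp
      have h1 := (stabilizer (Perm Ω) z).card_mul_index
      rw [index_stabilizer_of_transitive, Nat.card_eq_fintype_card (α := Perm Ω), Fintype.card_perm,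
        Nat.card_eq_fintype_card (α := Ω), hn, Nat.factorial_succ, mul_comm] at h1
      have h2 := Nat.eq_of_mul_eq_mul_left (Nat.succ_pos _) h1
      rw [h2] at hd
      exact (hp.dvd_factorial).1 hd
    · intro hle
      obtain ⟨u, hu, v, hv, huv⟩ := Finset.one_lt_card.1 (show 1 < O.card by omega)
      have hsw : swap u v ∈ stabilizer (Perm Ω) z := by
        show swap u v z = z
        exact swap_apply_of_ne_of_ne (fun h => hz (h ▸ hu)) (fun h => hz (h ▸ hv))
      have := hle hsw
      rw [Equiv.Perm.mem_alternatingGroup, sign_swap huv] at this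
      revert this
      decide
  · exfalso
    rw [hca] at h8
    have h3 : 3 ∈ π := (hπ8 3 Nat.prime_three (by norm_num)).2 (Or.inr rfl)
    apply hK.2.2 3 Nat.prime_three h3
    rw [hR, hn, h8]
    exact Dvd.dvd.mul_right (by norm_num) _

/-- **The extension theorem.** -/
theorem extension {π : Set ℕ} (K : Subgroup (Perm Ω)) (hK : HallIn π K (alternatingGroup Ω)) :
    ∃ W : Subgroup (Perm Ω), Cfsg.IsPiHall π W ∧ W ⊓ alternatingGroup Ω = K := by
  classical
  by_cases h2π : 2 ∈ π
  swap
  · refine ⟨K, ⟨hK.2.1, ?_⟩, inf_eq_left.2 hK.1⟩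
    intro p hp hπ hd
    have hp2 : p ≠ 2 := by
      rintro rfl
      exact h2π hπ
    have h1 := Subgroup.relIndex_mul_index hK.1
    rw [← h1] at hd
    rcases hp.dvd_mul.1 hd with h | h
    · exact hK.2.2 p hp hπ h
    · by_cases hnt : Nontrivial Ω
      · rw [alternatingGroup.index_eq_two] at h
        exact hp2 ((Nat.prime_dvd_prime_iff_eq hp Nat.prime_two).1 h)
      · rw [not_nontrivial_iff_subsingleton] at hnt
        have htop : alternatingGroup Ω = ⊤ := by
          rw [eq_top_iff]
          intro g _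
          have : g = 1 := Subsingleton.elim _ _
          rw [this]
          exact Subgroup.one_mem _
        rw [htop, Subgroup.index_top] at h
        exact hp.one_lt.ne' (Nat.dvd_one.1 h)
  have hpl : ∀ p : ℕ, p.Prime → p ∣ Nat.card K → p ≤ Fintype.card Ω :=
    fun p hp hd => prime_le_of_dvd K hp hd
  by_cases hodd : ∃ s : ℕ, s.Prime ∧ s ≠ 2 ∧ s ∈ π ∧ s ≤ Fintype.card Ω
  swap
  · push_neg at hodd
    have hodd' : ∀ p : ℕ, p.Prime → p ∈ π → p ≤ Fintype.card Ω → p = 2 := by
      intro p hp hπ hle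
      by_contra hne
      exact absurd hle (not_le.2 (hodd p hp hne hπ))
    have h2K : IsPGroup 2 K := by
      apply IsPGroup.of_card (n := (Nat.card K).primeFactorsList.length)
      apply Nat.eq_prime_pow_of_unique_prime_dvd Nat.card_pos.ne'
      intro d hd hdd
      exact hodd' d hd (hK.2.1 d hd hdd) (hpl d hd hdd)
    obtain ⟨Q, hQ⟩ := h2K.exists_le_sylow
    haveI : Fact (Nat.Prime 2) := ⟨Nat.prime_two⟩
    have hQp : ∀ p : ℕ, p.Prime → p ∣ Nat.card (Q : Subgroup (Perm Ω)) → p ∈ π := by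
      intro p hp hd
      obtain ⟨n, hn⟩ := IsPGroup.iff_card.1 Q.isPGroup'
      rw [hn] at hd
      have := (Nat.prime_dvd_prime_iff_eq hp Nat.prime_two).1 (hp.dvd_of_dvd_pow hd)
      rw [this]
      exact h2π
    refine ⟨Q, ⟨hQp, ?_⟩, ?_⟩
    · intro p hp hπ hd
      have hle : p ≤ Fintype.card Ω := by
        apply (hp.dvd_factorial).1
        have h3 : (Q : Subgroup (Perm Ω)).index ∣ Nat.card (Perm Ω) := Subgroup.index_dvd_card _
        rw [Nat.card_eq_fintype_card, Fintype.card_perm] at h3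
        exact hd.trans h3
      have := hodd' p hp hπ hle
      rw [this] at hd
      exact Q.not_dvd_index hd
    · apply hK.eq_of_pi (le_inf hQ hK.1) inf_le_right
      intro p hp hd
      exact hQp p hp (hd.trans (Subgroup.card_dvd_of_le inf_le_left))
  obtain ⟨s, hs, hs2, hsπ, hsn⟩ := hodd
  by_cases hall : ∀ q : ℕ, q.Prime → q ≤ Fintype.card Ω → q ∈ π
  · have hrel : K.relIndex (alternatingGroup Ω) = 1 := by
      by_contra hne
      obtain ⟨p, hp, hd⟩ := Nat.exists_prime_and_dvd hne
      apply hK.2.2 p hp (hall p hp _) hd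
      apply (hp.dvd_factorial).1
      refine hd.trans (Dvd.dvd.trans ?_ (card_dvd_fact (alternatingGroup Ω)))
      have := (K.subgroupOf (alternatingGroup Ω)).card_mul_index
      exact ⟨_, (this.symm.trans (mul_comm _ _))⟩
    have hKA : K = alternatingGroup Ω := le_antisymm hK.1 (Subgroup.relIndex_eq_one.1 hrel)
    refine ⟨⊤, ⟨?_, ?_⟩, by rw [top_inf_eq, hKA]⟩
    · intro p hp hd
      apply hall p hp
      exact prime_le_of_dvd ⊤ hp hd
    · intro p hp _ hd
      rw [Subgroup.index_top] at hd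
      exact hp.one_lt.ne' (Nat.dvd_one.1 hd)
  push_neg at hall
  obtain ⟨q₀, hq₀, hq₀n, hq₀π⟩ := hall
  suffices h : ∃ W : Subgroup (Perm Ω), K ≤ W ∧ (∀ p : ℕ, p.Prime → p ∣ Nat.card W → p ∈ π) ∧
      ¬ W ≤ alternatingGroup Ω by
    obtain ⟨W, h1, h2, h3⟩ := h
    exact ⟨W, ext_W hK h1 h2 h3⟩
  obtain ⟨c, hcK, hc, hcs⟩ := hallA_cycle hK hs hs2 hsπ 1 le_rfl (by simpa using hsn)
  rw [pow_one] at hcs
  obtain ⟨x, hx, -⟩ := id hc
  have hxs : x ∈ c.support := mem_support.2 hx
  have hOs : s ≤ (orb K x).card := by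
    rw [← hcs]
    exact Finset.card_le_card (support_sub_orb hcK hc hxs)
  by_cases hA : ∃ y, y ∉ orb K x ∧ ∃ g ∈ K, g y ≠ y
  · obtain ⟨y, hy, g, hg, hgy⟩ := hA
    exact case_two_orbits hK h2π hy (self_mem_orb K x) (mem_orb_apply hcK x) (Ne.symm hx)
      (self_mem_orb K y) (mem_orb_apply hg y) (Ne.symm hgy)
  push_neg at hA
  by_cases hB : ∃ u v, u ≠ v ∧ u ∉ orb K x ∧ v ∉ orb K x
  · obtain ⟨u, v, huv, hu, hv⟩ := hB
    exact case_fixed_pair hK h2π huv (hA u hu) (hA v hv)
  push_neg at hB
  by_cases hU : ∃ z, z ∉ orb K x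
  · obtain ⟨z, hz⟩ := hU
    refine case_fixed_point hK h2π hz (fun y hy => ?_) (hA z hz) ?_ s hs hs2 hsπ hOs q₀ hq₀ hq₀n hq₀π
    · by_contra h
      exact hz (hB y z hy h)
    · intro a ha b hb
      have h1 := orb_eq ha
      rw [← h1] at hb
      exact mem_orb.1 hb
  · push_neg at hU
    have htr : ∀ a b : Ω, ∃ g ∈ K, g a = b := by
      intro a b
      have h1 := orb_eq (hU a)
      have h2 := hU b
      rw [← h1] at h2
      exact mem_orb.1 h2
    exact case_transitive hK h2π htr s hs hs2 hsπ hsn q₀ hq₀ hq₀n hq₀π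

/-- `H` Hall in the symmetric group gives a Hall subgroup of the alternating group. -/
theorem inter_hall {π : Set ℕ} {H : Subgroup (Perm Ω)} (hH : Cfsg.IsPiHall π H) :
    HallIn π (H ⊓ alternatingGroup Ω) (alternatingGroup Ω) := by
  refine ⟨inf_le_right, fun p hp hd => hH.1 p hp (hd.trans (Subgroup.card_dvd_of_le inf_le_left)), ?_⟩
  intro p hp hπ hd
  apply hH.2 p hp hπ
  rw [Subgroup.inf_relIndex_right] at hd
  by_cases hle : H ≤ alternatingGroup Ω
  · rw [← Subgroup.relIndex_mul_index hle]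
    exact hd.trans (dvd_mul_right _ _)
  · rw [index_eq_relIndex hle]
    exact hd

end Cfsg.Agent.H11.HallS
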