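/-
Hall subgroups of alternating groups: passing between the group and the subgroup form.
-/
import Cfsg.Agent.Lib.H11.HallX7

set_option autoImplicit false

namespace Cfsg.Agent.H11.HallS

open Equiv Equiv.Perm MulAction
open scoped Nat Pointwise

variable {Ω : Type*} [Fintype Ω] [DecidableEq Ω]

lemma mem_map_subtype {M : Subgroup (alternatingGroup Ω)} {x : alternatingGroup Ω} :
    (x : Perm Ω) ∈ M.map (alternatingGroup Ω).subtype ↔ x ∈ M := by
  constructor
  · rintro ⟨y, hy, hyx⟩
    have : y = x := Subtype.ext hyx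
    rwa [← this]
  · intro h
    exact ⟨x, h, rfl⟩

lemma subgroupOf_map (M : Subgroup (alternatingGroup Ω)) :
    (M.map (alternatingGroup Ω).subtype).subgroupOf (alternatingGroup Ω) = M := by
  ext x
  rw [Subgroup.mem_subgroupOf]
  exact mem_map_subtype

lemma hallIn_map {π : Set ℕ} {M : Subgroup (alternatingGroup Ω)} (hM : Cfsg.IsPiHall π M) :
    HallIn π (M.map (alternatingGroup Ω).subtype) (alternatingGroup Ω) := by
  refine ⟨Subgroup.map_subtype_le M, ?_, ?_⟩
  · intro p hp hd
    apply hM.1 p hp
    rwa [← Nat.card_congr (Subgroup.equivMapOfInjective M _ Subtype.val_injective).toEquiv] at hd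
  · intro p hp hπ hd
    apply hM.2 p hp hπ
    have : (M.map (alternatingGroup Ω).subtype).relIndex (alternatingGroup Ω) = M.index := by
      show ((M.map (alternatingGroup Ω).subtype).subgroupOf (alternatingGroup Ω)).index = _
      rw [subgroupOf_map]
    rwa [this] at hd

theorem hall_alt_iff {π : Set ℕ} (M : Subgroup (alternatingGroup Ω)) :
    Cfsg.IsPiHall π M ↔ ∃ M₀ : Subgroup (Perm Ω), Cfsg.IsPiHall π M₀ ∧ M = M₀.subgroupOf (alternatingGroup Ω) := by
  constructor
  · intro hM
    obtain ⟨W, hW, hWA⟩ := extension _ (hallIn_map hM)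
    refine ⟨W, hW, ?_⟩
    ext x
    rw [Subgroup.mem_subgroupOf, ← mem_map_subtype, ← hWA]
    constructor
    · intro h
      exact h.1
    · intro h
      exact ⟨h, x.2⟩
  · rintro ⟨M₀, hM₀, rfl⟩
    have h1 := (inter_hall hM₀).subgroupOf
    rwa [Subgroup.inf_subgroupOf_right] at h1

end Cfsg.Agent.H11.HallS
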