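/-
Hall subgroups of symmetric and alternating groups: conjugacy.
-/
import Cfsg.Agent.Lib.H11.HallX8

set_option autoImplicit false

namespace Cfsg.Agent.H11.HallS

open Equiv Equiv.Perm MulAction
open scoped Nat Pointwise

section general
variable {G : Type*} [Group G] [Finite G]

theorem conj_of_single {π : Set ℕ}
    (hπ : ∀ p q : ℕ, p.Prime → q.Prime → p ∈ π → q ∈ π → p ∣ Nat.card G → q ∣ Nat.card G → p = q)
    {H K : Subgroup G} (hH : Cfsg.IsPiHall π H) (hK : Cfsg.IsPiHall π K) :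
    ∃ g : G, K = H.map (MulAut.conj g).toMonoidHom := by
  classical
  by_cases hex : ∃ p : ℕ, p.Prime ∧ p ∈ π ∧ p ∣ Nat.card G
  · obtain ⟨p, hp, hpπ, hpd⟩ := hex
    haveI : Fact p.Prime := ⟨hp⟩
    have hpg : ∀ L : Subgroup G, Cfsg.IsPiHall π L → IsPGroup p L := by
      intro L hL
      apply IsPGroup.of_card (n := (Nat.card L).primeFactorsList.length)
      apply Nat.eq_prime_pow_of_unique_prime_dvd Nat.card_pos.ne'
      intro d hd hdd
      exact hπ d p hd hp (hL.1 d hd hdd) hpπ (hdd.trans (Subgroup.card_subgroup_dvd_card L)) hpd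
    let P := (hpg H hH).toSylow (hH.2 p hp hpπ)
    let Q := (hpg K hK).toSylow (hK.2 p hp hpπ)
    obtain ⟨g, hg⟩ := MulAction.exists_smul_eq G P Q
    refine ⟨g, ?_⟩
    have h1 : (Q : Subgroup G) = K := rfl
    have h2 : (P : Subgroup G) = H := rfl
    rw [← h1, ← hg, ← h2]
    rfl
  · have htriv : ∀ L : Subgroup G, Cfsg.IsPiHall π L → L = ⊥ := by
      intro L hL
      apply Subgroup.eq_bot_of_card_eq
      by_contra hne
      obtain ⟨d, hd, hdd⟩ := Nat.exists_prime_and_dvd hne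
      exact hex ⟨d, hd, hL.1 d hd hdd, hdd.trans (Subgroup.card_subgroup_dvd_card L)⟩
    refine ⟨1, ?_⟩
    rw [htriv K hK, htriv H hH, Subgroup.map_bot]

lemma eq_of_hall_le {π : Set ℕ} {H L : Subgroup G} (hH : Cfsg.IsPiHall π H) (hHL : H ≤ L)
    (hL : ∀ p : ℕ, p.Prime → p ∣ Nat.card L → p ∈ π) : H = L := by
  have h1 := Subgroup.relIndex_mul_index hHL
  have h2 : H.relIndex L ∣ Nat.card L := by
    have := (H.subgroupOf L).card_mul_index
    exact ⟨_, this.symm.trans (mul_comm _ _)⟩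
  have h3 : H.relIndex L = 1 := by
    by_contra hne
    obtain ⟨p, hp, hd⟩ := Nat.exists_prime_and_dvd hne
    have hpπ := hL p hp (hd.trans h2)
    exact hH.2 p hp hpπ (by rw [← h1]; exact hd.trans (dvd_mul_right _ _))
  exact le_antisymm hHL (Subgroup.relIndex_eq_one.1 h3)

end general

variable {Ω : Type*} [Fintype Ω] [DecidableEq Ω]

lemma exists_perm_finset (S T : Finset Ω) (h : S.card = T.card) : ∃ g : Perm Ω, ∀ x, g x ∈ T ↔ x ∈ S := by
  classical
  let e : {x // x ∈ S} ≃ {x // x ∈ T} := Finset.equivOfCardEq h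
  refine ⟨e.extendSubtype, fun x => ?_⟩
  constructor
  · intro h1
    by_contra h2
    exact (Equiv.extendSubtype_not_mem e x h2) h1
  · intro h1
    exact Equiv.extendSubtype_mem e x h1

lemma mem_map_conj {g w : Perm Ω} {L : Subgroup (Perm Ω)} :
    w ∈ L.map (MulAut.conj g).toMonoidHom ↔ g⁻¹ * w * g ∈ L := by
  rw [Subgroup.mem_map_equiv, MulAut.conj_symm_apply]

lemma stab_conj {S T : Finset Ω} {g : Perm Ω} (hg : ∀ x, g x ∈ T ↔ x ∈ S) :
    stabilizer (Perm Ω) (T : Set Ω) = (stabilizer (Perm Ω) (S : Set Ω)).map (MulAut.conj g).toMonoidHom := by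
  ext w
  rw [mem_map_conj, mem_stab, mem_stab]
  simp only [Finset.mem_coe, Perm.mul_apply]
  constructor
  · intro h x
    rw [← hg, ← hg x]
    have e : g (g⁻¹ (w (g x))) = w (g x) := by simp
    rw [e]
    exact h (g x)
  · intro h y
    have h1 := h (g⁻¹ y)
    rw [← hg, ← hg (g⁻¹ y)] at h1
    have e : g (g⁻¹ y) = y := by simp
    rw [e] at h1
    have e2 : g (g⁻¹ (w y)) = w y := by simp
    rwa [e2] at h1

lemma K2_conj {S T : Finset Ω} {g : Perm Ω} (hg : ∀ x, g x ∈ T ↔ x ∈ S) :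
    K2 T = (K2 S).map (MulAut.conj g).toMonoidHom := by
  ext w
  rw [mem_map_conj, mem_K2, mem_K2]
  simp only [Perm.mul_apply]
  have e : ∀ y, g⁻¹ (w (g (g⁻¹ y))) ∈ S ↔ w y ∈ T := by
    intro y
    rw [← hg]
    simp
  have e' : ∀ y, g⁻¹ y ∈ S ↔ y ∈ T := by
    intro y
    rw [← hg]
    simp
  constructor
  · rintro (h | h)
    · left
      intro x
      have h1 := h (g x)
      rw [← hg, ← hg x]
      simpa using h1
    · right
      intro x
      have h1 := h (g x)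
      rw [← hg, ← hg x]
      simpa using h1
  · rintro (h | h)
    · left
      intro y
      have h1 := h (g⁻¹ y)
      rw [e, e'] at h1
      exact h1
    · right
      intro y
      have h1 := h (g⁻¹ y)
      rw [e, e'] at h1
      exact h1

/-- the order of the stabilizer of a 4|4 partition -/
lemma K2_primes {B : Finset Ω} (h8 : Fintype.card Ω = 8) (hB4 : B.card = 4) (x₀ : Ω) :
    ∀ p : ℕ, p.Prime → p ∣ Nat.card (K2 B) → p = 2 ∨ p = 3 := by
  obtain ⟨τ, hτ'⟩ := exists_perm_finset B Bᶜ (by rw [Finset.card_compl, hB4, h8])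
  have hτ : ∀ x, τ x ∈ B ↔ x ∉ B := by
    intro x
    have := hτ' x
    simp only [Finset.mem_compl] at this
    tauto
  have hi := index_K2 B hτ x₀
  rw [h8, hB4] at hi
  have h70 : Nat.choose 8 4 = 70 := by decide
  rw [h70] at hi
  have hidx : (K2 B).index = 35 := by omega
  have hc := (K2 B).card_mul_index
  rw [Nat.card_eq_fintype_card (α := Perm Ω), Fintype.card_perm, h8, hidx] at hc
  have h40320 : (8 : ℕ)! = 40320 := by decide
  rw [h40320] at hc
  have hcard : Nat.card (K2 B) = 2 ^ 7 * 3 ^ 2 := by omega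
  intro p hp hd
  rw [hcard] at hd
  rcases hp.dvd_mul.1 hd with h | h
  · exact Or.inl ((Nat.prime_dvd_prime_iff_eq hp Nat.prime_two).1 (hp.dvd_of_dvd_pow h))
  · exact Or.inr ((Nat.prime_dvd_prime_iff_eq hp Nat.prime_three).1 (hp.dvd_of_dvd_pow h))

lemma block_of_res {H : Subgroup (Perm Ω)} {x : Ω}
    {B : Finset ((orb H x : Finset Ω) : Set Ω)} (hB : Bl (res H ((orb H x : Finset Ω) : Set Ω)) B) :
    Bl H (B.map (Function.Embedding.subtype _)) := by
  intro g hg a ha hga b hb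
  obtain ⟨a', ha', rfl⟩ := Finset.mem_map.1 ha
  obtain ⟨c, hc, hca⟩ := Finset.mem_map.1 hga
  obtain ⟨b', hb', rfl⟩ := Finset.mem_map.1 hb
  have hst := orb_stab H x hg
  let f : Perm ((orb H x : Finset Ω) : Set Ω) := toPermHom _ _ (⟨g, hst⟩ : stabilizer (Perm Ω) ((orb H x : Finset Ω) : Set Ω))
  have hfv : ∀ y : ((orb H x : Finset Ω) : Set Ω), ((f y : ((orb H x : Finset Ω) : Set Ω)) : Ω) = g y := fun _ => rfl
  have hfm : f ∈ res H ((orb H x : Finset Ω) : Set Ω) := mem_res.2 ⟨g, hg, hst, hfv⟩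
  have hfa : f a' ∈ B := by
    have : f a' = c := Subtype.ext ((hfv a').trans hca.symm)
    rw [this]
    exact hc
  have := hB f hfm a' ha' hfa b' hb'
  exact Finset.mem_map.2 ⟨_, this, hfv b'⟩

/-- Hall subgroups of the symmetric group are conjugate. -/
theorem conj_sym {π : Set ℕ} {H K : Subgroup (Perm Ω)} (hH : Cfsg.IsPiHall π H) (hK : Cfsg.IsPiHall π K) :
    ∃ g : Perm Ω, K = H.map (MulAut.conj g).toMonoidHom := by
  classical
  have hle : ∀ p : ℕ, p.Prime → p ∣ Nat.card (Perm Ω) → p ≤ Fintype.card Ω := by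
    intro p hp hd
    rw [Nat.card_eq_fintype_card, Fintype.card_perm] at hd
    exact (hp.dvd_factorial).1 hd
  by_cases hsingle : ∀ p q : ℕ, p.Prime → q.Prime → p ∈ π → q ∈ π → p ≤ Fintype.card Ω → q ≤ Fintype.card Ω → p = q
  · apply conj_of_single (π := π) ?_ hH hK
    intro p q hp hq hpπ hqπ hpd hqd
    exact hsingle p q hp hq hpπ hqπ (hle p hp hpd) (hle q hq hqd)
  push_neg at hsingle
  obtain ⟨r', s', hr', hs', hrπ', hsπ', hrn', hsn', hne⟩ := hsingle
  obtain ⟨r, s, hr, hs, hrπ, hsπ, hrn, hsr⟩ : ∃ r s : ℕ, r.Prime ∧ s.Prime ∧ r ∈ π ∧ s ∈ π ∧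
      r ≤ Fintype.card Ω ∧ s < r := by
    rcases lt_or_gt_of_ne hne with h | h
    · exact ⟨s', r', hs', hr', hsπ', hrπ', hsn', h⟩
    · exact ⟨r', s', hr', hs', hrπ', hsπ', hrn', h⟩
  by_cases hall : ∀ q : ℕ, q.Prime → q ≤ Fintype.card Ω → q ∈ π
  · have htop : ∀ L : Subgroup (Perm Ω), Cfsg.IsPiHall π L → L = ⊤ := by
      intro L hL
      rw [← Subgroup.index_eq_one]
      by_contra hne
      obtain ⟨p, hp, hd⟩ := Nat.exists_prime_and_dvd hne
      exact hL.2 p hp (hall p hp (hle p hp (hd.trans (Subgroup.index_dvd_card L)))) hd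
    refine ⟨1, ?_⟩
    rw [htop K hK, htop H hH]
    ext w
    rw [mem_map_conj]
    simp
  push_neg at hall
  obtain ⟨q₀, hq₀, hq₀n, hq₀π⟩ := hall
  obtain ⟨x₀⟩ : Nonempty Ω := Fintype.card_pos_iff.1 (by have := hr.two_le; omega)
  -- the possible shapes
  have h7 : Fintype.card Ω = 7 → (∀ q : ℕ, q.Prime → q ≤ Fintype.card Ω → (q ∈ π ↔ q < Fintype.card Ω)) →
      (∀ q : ℕ, q.Prime → q ≤ 7 → (q ∈ π ↔ q = 2 ∨ q = 3)) → False := by
    intro h1 h2 h3
    have h4 := (h2 5 (by norm_num) (by omega)).2 (by omega)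
    have h5 := (h3 5 (by norm_num) (by norm_num)).1 h4
    omega
  have hnot8 : ¬ (8 : ℕ).Prime := by norm_num
  -- the Hall subgroups in each shape
  have hA : ∀ z : Ω, (∀ q : ℕ, q.Prime → q ≤ Fintype.card Ω → (q ∈ π ↔ q < Fintype.card Ω)) →
      ∀ L : Subgroup (Perm Ω), Cfsg.IsPiHall π L → (∀ g ∈ L, g z = z) →
      L = stabilizer (Perm Ω) (({z} : Finset Ω) : Set Ω) := by
    intro z hq L hL hfix
    apply eq_of_hall_le hL
    · intro g hg
      rw [mem_stab]
      intro y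
      simp only [Finset.coe_singleton, Set.mem_singleton_iff]
      constructor
      · intro h
        apply g.injective
        rw [h, hfix g hg]
      · rintro rfl
        exact hfix g hg
    · intro p hp hd
      have hc := card_stab ({z} : Finset Ω)
      rw [Finset.card_singleton, Nat.choose_one_right] at hc
      have hn0 : Fintype.card Ω ≠ 0 := (Fintype.card_pos_iff.2 ⟨z⟩).ne'
      have h3 : (Fintype.card Ω)! = Fintype.card Ω * (Fintype.card Ω - 1)! :=
        (Nat.mul_factorial_pred hn0).symm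
      rw [h3, mul_comm] at hc
      have h1 := Nat.eq_of_mul_eq_mul_left (Nat.pos_of_ne_zero hn0) hc
      rw [h1] at hd
      have h2 := (Nat.Prime.dvd_factorial hp).1 hd
      exact (hq p hp (by omega)).2 (by omega)
  have hB7 : ∀ D : Finset Ω, D.card = 4 → Fintype.card Ω = 7 →
      (∀ q : ℕ, q.Prime → q ≤ 7 → (q ∈ π ↔ q = 2 ∨ q = 3)) →
      ∀ L : Subgroup (Perm Ω), Cfsg.IsPiHall π L → L ≤ stabilizer (Perm Ω) (D : Set Ω) →
      L = stabilizer (Perm Ω) (D : Set Ω) := by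
    intro D hD h1 hq L hL hle'
    apply eq_of_hall_le hL hle'
    intro p hp hd
    have hc := card_stab D
    rw [hD, h1] at hc
    have h35 : Nat.choose 7 4 = 35 := by decide
    have h5040 : (7 : ℕ)! = 5040 := by decide
    rw [h35, h5040] at hc
    have hcard : Nat.card (stabilizer (Perm Ω) (D : Set Ω)) = 2 ^ 4 * 3 ^ 2 := by omega
    rw [hcard] at hd
    rcases hp.dvd_mul.1 hd with h | h
    · have h4 := (Nat.prime_dvd_prime_iff_eq hp Nat.prime_two).1 (hp.dvd_of_dvd_pow h)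
      exact (hq p hp (by omega)).2 (Or.inl h4)
    · have h4 := (Nat.prime_dvd_prime_iff_eq hp Nat.prime_three).1 (hp.dvd_of_dvd_pow h)
      exact (hq p hp (by omega)).2 (Or.inr h4)
  have hC8 : ∀ B : Finset Ω, B.card = 4 → Fintype.card Ω = 8 →
      (∀ q : ℕ, q.Prime → q ≤ 8 → (q ∈ π ↔ q = 2 ∨ q = 3)) →
      ∀ L : Subgroup (Perm Ω), Cfsg.IsPiHall π L → Bl L B → L = K2 B := by
    intro B hB h1 hq L hL hBl
    apply eq_of_hall_le hL
    · intro g hg
      rcases two_block_square hBl (by omega) hg with h | h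
      · exact stab_le_K2 B h
      · exact Or.inr h
    · intro p hp hd
      have h23 := K2_primes h1 hB x₀ p hp hd
      have : p ≤ 8 := by omega
      exact (hq p hp this).2 h23
  have hsh := hall_forward H π hH r s hr hs hsr hrπ hsπ hrn q₀ hq₀ hq₀n hq₀π
  have hsh' := hall_forward K π hK r s hr hs hsr hrπ hsπ hrn q₀ hq₀ hq₀n hq₀π
  rcases hsh with ⟨h1, h2, z, hz⟩ | ⟨h1, h2, D, hD4, hDs⟩ | ⟨h1, h2, x, hx, B, hB4, hB⟩ <;>
  rcases hsh' with ⟨h1', h2', z', hz'⟩ | ⟨h1', h2', D', hD4', hDs'⟩ | ⟨h1', h2', x', hx', B', hB4', hB'⟩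
  · rw [hA z h2 H hH hz, hA z' h2 K hK hz']
    obtain ⟨g, hg⟩ := exists_perm_finset ({z} : Finset Ω) ({z'} : Finset Ω) (by simp)
    exact ⟨g, stab_conj hg⟩
  · exact (h7 h1' h2 h2').elim
  · rw [h1'] at h1
    exact absurd h1 hnot8
  · exact (h7 h1 h2' h2).elim
  · rw [hB7 D hD4 h1 h2 H hH hDs, hB7 D' hD4' h1 h2 K hK hDs']
    obtain ⟨g, hg⟩ := exists_perm_finset D D' (by omega)
    exact ⟨g, stab_conj hg⟩
  · omega
  · rw [h1] at h1'
    exact absurd h1' hnot8
  · omega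
  · have hb1 := block_of_res hB
    have hb2 := block_of_res hB'
    have hc1 : (B.map (Function.Embedding.subtype _)).card = 4 := by rw [Finset.card_map, hB4]
    have hc2 : (B'.map (Function.Embedding.subtype _)).card = 4 := by rw [Finset.card_map, hB4']
    rw [hC8 _ hc1 h1 h2 H hH hb1, hC8 _ hc2 h1 h2 K hK hb2]
    obtain ⟨g, hg⟩ := exists_perm_finset (B.map (Function.Embedding.subtype _))
      (B'.map (Function.Embedding.subtype _)) (by omega)
    exact ⟨g, K2_conj hg⟩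

lemma not_le_alt {π : Set ℕ} {W : Subgroup (Perm Ω)} (hW : Cfsg.IsPiHall π W) (h2π : 2 ∈ π) (hnt : Nontrivial Ω) :
    ¬ W ≤ alternatingGroup Ω := by
  intro hle
  apply hW.2 2 Nat.prime_two h2π
  rw [← Subgroup.relIndex_mul_index hle, alternatingGroup.index_eq_two]
  exact dvd_mul_left _ _

/-- Hall subgroups of the alternating group are conjugate. -/
theorem conj_alt {π : Set ℕ} {M₁ M₂ : Subgroup (alternatingGroup Ω)} (h₁ : Cfsg.IsPiHall π M₁)
    (h₂ : Cfsg.IsPiHall π M₂) :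
    ∃ g : alternatingGroup Ω, M₂ = M₁.map (MulAut.conj g).toMonoidHom := by
  classical
  by_cases hsingle : ∀ p q : ℕ, p.Prime → q.Prime → p ∈ π → q ∈ π →
      p ∣ Nat.card (alternatingGroup Ω) → q ∣ Nat.card (alternatingGroup Ω) → p = q
  · exact conj_of_single hsingle h₁ h₂
  push_neg at hsingle
  obtain ⟨r', s', hr', hs', hrπ', hsπ', hrn', hsn', hne⟩ := hsingle
  have hlen : ∀ p : ℕ, p.Prime → p ∣ Nat.card (alternatingGroup Ω) → p ≤ Fintype.card Ω :=
    fun p hp hd => prime_le_of_dvd _ hp hd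
  obtain ⟨r, s, hr, hs, hrπ, hsπ, hrn, hsr⟩ : ∃ r s : ℕ, r.Prime ∧ s.Prime ∧ r ∈ π ∧ s ∈ π ∧
      r ≤ Fintype.card Ω ∧ s < r := by
    rcases lt_or_gt_of_ne hne with h | h
    · exact ⟨s', r', hs', hr', hsπ', hrπ', hlen _ hs' hsn', h⟩
    · exact ⟨r', s', hr', hs', hrπ', hsπ', hlen _ hr' hrn', h⟩
  have hr2 := hr.two_le
  have hs2 := hs.two_le
  haveI hnt : Nontrivial Ω := by
    rw [← Fintype.one_lt_card_iff_nontrivial]; omega
  obtain ⟨W₁, hW₁, hM₁⟩ := (hall_alt_iff M₁).1 h₁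
  obtain ⟨W₂, hW₂, hM₂⟩ := (hall_alt_iff M₂).1 h₂
  have h2π : 2 ∈ π := by
    by_contra h2
    rcases hall_forward W₁ π hW₁ r s hr hs hsr hrπ hsπ hrn 2 Nat.prime_two (by omega) h2 with
      ⟨h1, h3, -⟩ | ⟨h1, h3, -⟩ | ⟨h1, h3, -⟩
    · exact h2 ((h3 2 Nat.prime_two (by omega)).2 (by omega))
    · exact h2 ((h3 2 Nat.prime_two (by omega)).2 (Or.inl rfl))
    · exact h2 ((h3 2 Nat.prime_two (by omega)).2 (Or.inl rfl))
  obtain ⟨t, htW, htA⟩ := SetLike.not_le_iff_exists.1 (not_le_alt hW₁ h2π hnt)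
  obtain ⟨g, hg⟩ := conj_sym hW₁ hW₂
  obtain ⟨g', hg'A, hg'⟩ : ∃ g' ∈ alternatingGroup Ω, W₂ = W₁.map (MulAut.conj g').toMonoidHom := by
    by_cases hgA : g ∈ alternatingGroup Ω
    · exact ⟨g, hgA, hg⟩
    · refine ⟨g * t, ?_, ?_⟩
      · rw [Equiv.Perm.mem_alternatingGroup, map_mul]
        rw [Equiv.Perm.mem_alternatingGroup] at hgA htA
        rw [(Int.units_eq_one_or _).resolve_left hgA, (Int.units_eq_one_or _).resolve_left htA]
        decide
      · rw [hg]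
        ext w
        rw [mem_map_conj, mem_map_conj]
        constructor
        · intro h
          have := W₁.mul_mem (W₁.mul_mem (W₁.inv_mem htW) h) htW
          convert this using 1
          group
        · intro h
          have := W₁.mul_mem (W₁.mul_mem htW h) (W₁.inv_mem htW)
          convert this using 1
          group
  refine ⟨⟨g', hg'A⟩, ?_⟩
  rw [hM₁, hM₂, hg']
  ext x
  rw [Subgroup.mem_subgroupOf, mem_map_conj, Subgroup.mem_map_equiv, MulAut.conj_symm_apply,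
    Subgroup.mem_subgroupOf]
  rfl

theorem main_conj (π : Set ℕ) :
    (Cfsg.IsEPiGroup π (Perm Ω) ↔ Cfsg.IsCPiGroup π (Perm Ω)) ∧
    (Cfsg.IsEPiGroup π (Perm Ω) ↔ Cfsg.IsEPiGroup π (alternatingGroup Ω)) ∧
    (Cfsg.IsEPiGroup π (alternatingGroup Ω) ↔ Cfsg.IsCPiGroup π (alternatingGroup Ω)) := by
  refine ⟨⟨fun h => ⟨h, fun H K hH hK => conj_sym hH hK⟩, fun h => h.1⟩, ⟨?_, ?_⟩,
    ⟨fun h => ⟨h, fun H K hH hK => conj_alt hH hK⟩, fun h => h.1⟩⟩
  · rintro ⟨H, hH⟩
    exact ⟨_, (hall_alt_iff _).2 ⟨H, hH, rfl⟩⟩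
  · rintro ⟨M, hM⟩
    obtain ⟨M₀, h1, -⟩ := (hall_alt_iff M).1 hM
    exact ⟨M₀, h1⟩

end Cfsg.Agent.H11.HallS
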