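/-
Generating the alternating group by three-cycles on overlapping sets.
-/
import Cfsg.Agent.Lib.H11.HallX9
import Cfsg.Agent.Lib.H09.AltAut3

set_option autoImplicit false

namespace Cfsg.Agent.H11.MinA

open Equiv Equiv.Perm MulAction Cfsg.Agent.H09 Cfsg.Agent.H11.HallS

variable {Ω : Type*} [Fintype Ω] [DecidableEq Ω]

/-- all three-cycles on `Γ` lie in `Y` -/
def ALT (Y : Subgroup (Perm Ω)) (Γ : Finset Ω) : Prop :=
  ∀ a ∈ Γ, ∀ b ∈ Γ, ∀ c ∈ Γ, D3 a b c → t3 a b c ∈ Y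

variable {Y : Subgroup (Perm Ω)} {Γ : Finset Ω}

lemma alt_le (h : ALT Y Finset.univ) : alternatingGroup Ω ≤ Y := by
  rw [← closure_three_cycles_eq_alternating, Subgroup.closure_le]
  intro x hx
  obtain ⟨a, b, c, hd, rfl⟩ := exists_t3 hx
  exact h a (Finset.mem_univ _) b (Finset.mem_univ _) c (Finset.mem_univ _) hd

lemma t3_mem_alt {a b c : Ω} (h : D3 a b c) : t3 a b c ∈ alternatingGroup Ω :=
  (isThreeCycle_t3 h).mem_alternatingGroup

lemma conj_t3_mem {w : Perm Ω} (hw : w ∈ Y) {a b c : Ω} (h : t3 a b c ∈ Y) :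
    t3 (w a) (w b) (w c) ∈ Y := by
  rw [← t3_conj]
  exact Y.mul_mem (Y.mul_mem hw h) (Y.inv_mem hw)

lemma exists_other (h4 : 4 ≤ Γ.card) (u v w : Ω) : ∃ x ∈ Γ, x ≠ u ∧ x ≠ v ∧ x ≠ w := by
  classical
  have h1 : (({u, v, w} : Finset Ω)).card ≤ 3 := Finset.card_le_three
  obtain ⟨x, hx, hx'⟩ := Finset.exists_mem_notMem_of_card_lt_card (show ({u, v, w} : Finset Ω).card < Γ.card by omega)
  simp only [Finset.mem_insert, Finset.mem_singleton, not_or] at hx'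
  exact ⟨x, hx, hx'.1, hx'.2.1, hx'.2.2⟩

lemma move_r (h : ALT Y Γ) (h4 : 4 ≤ Γ.card) {p u v v' : Ω} (hp : p ∉ Γ) (hu : u ∈ Γ) (hv : v ∈ Γ)
    (hv' : v' ∈ Γ) (huv' : u ≠ v') (ht : t3 p u v ∈ Y) (huv : u ≠ v) : t3 p u v' ∈ Y := by
  by_cases he : v' = v
  · rwa [he]
  obtain ⟨x, hx, hx1, hx2, hx3⟩ := exists_other h4 u v v'
  have hd : D3 v v' x := ⟨Ne.symm he, hx3.symm, hx2.symm⟩
  have hg := h v hv v' hv' x hx hd
  have e1 : t3 v v' x p = p :=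
    t3_o hd (fun e => hp (e ▸ hv)) (fun e => hp (e ▸ hv')) (fun e => hp (e ▸ hx))
  have e2 : t3 v v' x u = u := t3_o hd huv huv' hx1.symm
  have e3 : t3 v v' x v = v' := t3_a hd
  have := conj_t3_mem hg ht
  rwa [e1, e2, e3] at this

lemma move_l (h : ALT Y Γ) (h4 : 4 ≤ Γ.card) {p u u' v : Ω} (hp : p ∉ Γ) (hu : u ∈ Γ) (hv : v ∈ Γ)
    (hu' : u' ∈ Γ) (hu'v : u' ≠ v) (ht : t3 p u v ∈ Y) (huv : u ≠ v) : t3 p u' v ∈ Y := by
  by_cases he : u' = u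
  · rwa [he]
  obtain ⟨x, hx, hx1, hx2, hx3⟩ := exists_other h4 u u' v
  have hd : D3 u u' x := ⟨Ne.symm he, hx2.symm, hx1.symm⟩
  have hg := h u hu u' hu' x hx hd
  have e1 : t3 u u' x p = p :=
    t3_o hd (fun e => hp (e ▸ hu)) (fun e => hp (e ▸ hu')) (fun e => hp (e ▸ hx))
  have e2 : t3 u u' x v = v := t3_o hd huv.symm hu'v.symm hx3.symm
  have e3 : t3 u u' x u = u' := t3_a hd
  have := conj_t3_mem hg ht
  rwa [e1, e3, e2] at this

/-- adding a point -/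
lemma ALT_insert (h : ALT Y Γ) (h4 : 4 ≤ Γ.card) {p q r : Ω} (hp : p ∉ Γ) (hq : q ∈ Γ) (hr : r ∈ Γ)
    (hqr : q ≠ r) (ht : t3 p q r ∈ Y) : ALT Y (insert p Γ) := by
  have key : ∀ b ∈ Γ, ∀ c ∈ Γ, b ≠ c → t3 p b c ∈ Y := by
    intro b hb c hc hbc
    by_cases hcq : c = q
    · obtain ⟨y, hy, hy1, hy2, -⟩ := exists_other h4 q r r
      have h1 := move_l h h4 hp hq hr hy hy2 ht hqr
      have h2 := move_r h h4 hp hy hr hq hy1 h1 hy2
      have h3 := move_l h h4 hp hy hq hb (by rw [← hcq]; exact hbc) h2 hy1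
      rwa [hcq]
    · have h1 := move_r h h4 hp hq hr hc (Ne.symm hcq) ht hqr
      exact move_l h h4 hp hq hc hb hbc h1 (Ne.symm hcq)
  intro a ha b hb c hc hd
  rw [Finset.mem_insert] at ha hb hc
  rcases ha with rfl | ha
  · have hb' : b ∈ Γ := hb.resolve_left (Ne.symm hd.ab)
    have hc' : c ∈ Γ := hc.resolve_left (Ne.symm hd.ac)
    exact key b hb' c hc' hd.bc
  rcases hb with rfl | hb
  · have hc' : c ∈ Γ := hc.resolve_left (Ne.symm hd.bc)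
    rw [← t3_rot hd]
    exact key c hc' a ha hd.ac.symm
  rcases hc with rfl | hc
  · have hd2 : D3 c a b := hd.rot.rot
    rw [t3_rot hd2]
    exact key a ha b hb hd.ab
  exact h a ha b hb c hc hd

/-- overlapping complements -/
theorem three_sets {O₁ O₂ Z : Finset Ω} (hZ : 3 ≤ Z.card) (h1 : Disjoint Z O₁) (h2 : Disjoint Z O₂)
    (h12 : Disjoint O₁ O₂) (hO₁ : O₁.Nonempty) (hY₁ : ALT Y O₁ᶜ) (hY₂ : ALT Y O₂ᶜ) :
    alternatingGroup Ω ≤ Y := by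
  classical
  have hsub : Z ∪ O₁ ⊆ O₂ᶜ := by
    intro x hx
    rw [Finset.mem_union] at hx
    rw [Finset.mem_compl]
    rcases hx with hx | hx
    · exact Finset.disjoint_left.1 h2 hx
    · exact Finset.disjoint_left.1 h12 hx
  have h4 : 4 ≤ (O₂ᶜ).card := by
    have h5 := Finset.card_le_card hsub
    rw [Finset.card_union_of_disjoint h1] at h5
    have := Finset.card_pos.2 hO₁
    omega
  obtain ⟨q, hq, r, hr, hqr⟩ := Finset.one_lt_card.1 (show 1 < Z.card by omega)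
  have hqO₂ : q ∈ O₂ᶜ := hsub (Finset.mem_union_left _ hq)
  have hrO₂ : r ∈ O₂ᶜ := hsub (Finset.mem_union_left _ hr)
  have hstep : ∀ S : Finset Ω, S ⊆ O₂ → ALT Y (O₂ᶜ ∪ S) := by
    intro S
    induction S using Finset.induction_on with
    | empty =>
      intro _
      simpa using hY₂
    | insert p S hpS ih =>
      intro hS
      have hpO₂ : p ∈ O₂ := hS (Finset.mem_insert_self _ _)
      have hih := ih (fun x hx => hS (Finset.mem_insert_of_mem hx))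
      have hp' : p ∉ O₂ᶜ ∪ S := by
        rw [Finset.mem_union, Finset.mem_compl, not_or, not_not]
        exact ⟨hpO₂, hpS⟩
      have hpO₁ : p ∉ O₁ := fun h => Finset.disjoint_left.1 h12 h hpO₂
      have hqO₁ : q ∈ O₁ᶜ := Finset.mem_compl.2 (Finset.disjoint_left.1 h1 hq)
      have hrO₁ : r ∈ O₁ᶜ := Finset.mem_compl.2 (Finset.disjoint_left.1 h1 hr)
      have hpq : p ≠ q := by
        rintro rfl
        exact (Finset.mem_compl.1 hqO₂) hpO₂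
      have hpr : p ≠ r := by
        rintro rfl
        exact (Finset.mem_compl.1 hrO₂) hpO₂
      have ht : t3 p q r ∈ Y := hY₁ p (Finset.mem_compl.2 hpO₁) q hqO₁ r hrO₁ ⟨hpq, hqr, hpr⟩
      have h5 := ALT_insert hih (le_trans h4 (Finset.card_le_card Finset.subset_union_left)) hp'
        (Finset.mem_union_left _ hqO₂) (Finset.mem_union_left _ hrO₂) hqr ht
      rwa [Finset.union_insert]
  have := hstep O₂ subset_rfl
  have e : O₂ᶜ ∪ O₂ = Finset.univ := by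
    ext x
    simp [em']
  rw [e] at this
  exact alt_le this

/-! ### Growing along a free element of order three -/

section tau
variable {τ : Perm Ω}

lemma pow_three_apply (h3 : ∀ x, τ (τ (τ x)) = x) (x : Ω) : (τ ^ 3) x = x := by
  simp only [pow_succ, pow_zero, one_mul, Perm.mul_apply]
  exact h3 x

lemma odisj (h3 : ∀ x, τ (τ (τ x)) = x) {u v : Ω} (h0 : v ≠ u) (h1 : v ≠ τ u) (h2 : v ≠ τ (τ u)) (i j : ℕ) :
    (τ ^ i) u ≠ (τ ^ j) v := by
  intro h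
  have hτ3 : τ ^ 3 = 1 := Equiv.ext (pow_three_apply h3)
  have e1 : v = (τ ^ (2 * j + i)) u := by
    rw [pow_add, Perm.mul_apply, h, ← Perm.mul_apply, ← pow_add,
      show 2 * j + j = 3 * j by ring, pow_mul, hτ3, one_pow]
    rfl
  have e2 : τ ^ (2 * j + i) = τ ^ ((2 * j + i) % 3) := by
    conv_lhs => rw [← Nat.div_add_mod (2 * j + i) 3, pow_add, pow_mul, hτ3, one_pow, one_mul]
  rw [e2] at e1
  have hlt : (2 * j + i) % 3 < 3 := Nat.mod_lt _ (by norm_num)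
  generalize (2 * j + i) % 3 = m at e1 hlt
  interval_cases m
  · exact h0 (by simpa using e1)
  · exact h1 (by simpa using e1)
  · exact h2 (by simpa [pow_two] using e1)

/-- exchange of two orbits -/
def bs (τ : Perm Ω) (u v : Ω) : Perm Ω := swap u v * swap (τ u) (τ v) * swap (τ (τ u)) (τ (τ v))

lemma swap_disj {a b c d : Ω} (h1 : a ≠ c) (h2 : a ≠ d) (h3 : b ≠ c) (h4 : b ≠ d) :
    Disjoint (swap a b) (swap c d) := by
  rw [Equiv.Perm.disjoint_iff_eq_or_eq]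
  intro x
  by_cases hx : x = a
  · right
    subst hx
    exact swap_apply_of_ne_of_ne h1 h2
  · by_cases hy : x = b
    · right
      subst hy
      exact swap_apply_of_ne_of_ne h3 h4
    · left
      exact swap_apply_of_ne_of_ne hx hy

lemma swap_conj (g : Perm Ω) (a b : Ω) : g * swap a b * g⁻¹ = swap (g a) (g b) :=
  (Equiv.swap_apply_apply g a b).symm

lemma tau_ne_two (h3 : ∀ x, τ (τ (τ x)) = x) (hfp : ∀ x, τ x ≠ x) (u : Ω) : τ (τ u) ≠ u := by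
  intro h
  have := h3 u
  rw [h] at this
  exact hfp u this

/-- the nine inequalities between two orbits -/
structure OD (τ : Perm Ω) (u v : Ω) : Prop where
  n00 : u ≠ v
  n01 : u ≠ τ v
  n02 : u ≠ τ (τ v)
  n10 : τ u ≠ v
  n11 : τ u ≠ τ v
  n12 : τ u ≠ τ (τ v)
  n20 : τ (τ u) ≠ v
  n21 : τ (τ u) ≠ τ v
  n22 : τ (τ u) ≠ τ (τ v)

lemma od_of (h3 : ∀ x, τ (τ (τ x)) = x) {u v : Ω} (h0 : v ≠ u) (h1 : v ≠ τ u) (h2 : v ≠ τ (τ u)) : OD τ u v := by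
  have hd := odisj h3 h0 h1 h2
  have e0 : ∀ x : Ω, (τ ^ 0) x = x := fun _ => rfl
  have e1 : ∀ x : Ω, (τ ^ 1) x = τ x := fun x => by rw [pow_one]
  have e2 : ∀ x : Ω, (τ ^ 2) x = τ (τ x) := fun x => by rw [pow_two]; rfl
  refine ⟨?_, ?_, ?_, ?_, ?_, ?_, ?_, ?_, ?_⟩
  · have := hd 0 0; rwa [e0, e0] at this
  · have := hd 0 1; rwa [e0, e1] at this
  · have := hd 0 2; rwa [e0, e2] at this
  · have := hd 1 0; rwa [e1, e0] at this
  · have := hd 1 1; rwa [e1, e1] at this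
  · have := hd 1 2; rwa [e1, e2] at this
  · have := hd 2 0; rwa [e2, e0] at this
  · have := hd 2 1; rwa [e2, e1] at this
  · have := hd 2 2; rwa [e2, e2] at this

lemma bs_comm (h3 : ∀ x, τ (τ (τ x)) = x) (hfp : ∀ x, τ x ≠ x) {u v : Ω} (hd : OD τ u v) :
    bs τ u v * τ = τ * bs τ u v := by
  have t2 := tau_ne_two h3 hfp
  have d01 : Disjoint (swap u v) (swap (τ u) (τ v)) :=
    swap_disj (hfp u).symm hd.n01 hd.n10.symm (hfp v).symm
  have d02 : Disjoint (swap u v) (swap (τ (τ u)) (τ (τ v))) :=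
    swap_disj (t2 u).symm hd.n02 hd.n20.symm (t2 v).symm
  have c1 : τ * bs τ u v * τ⁻¹ = bs τ u v := by
    unfold bs
    calc τ * (swap u v * swap (τ u) (τ v) * swap (τ (τ u)) (τ (τ v))) * τ⁻¹
        = (τ * swap u v * τ⁻¹) * (τ * swap (τ u) (τ v) * τ⁻¹) * (τ * swap (τ (τ u)) (τ (τ v)) * τ⁻¹) := by group
      _ = swap (τ u) (τ v) * swap (τ (τ u)) (τ (τ v)) * swap u v := by
          rw [swap_conj, swap_conj, swap_conj, h3, h3]
      _ = swap u v * (swap (τ u) (τ v) * swap (τ (τ u)) (τ (τ v))) :=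
          ((d01.symm.commute).mul_left (d02.symm.commute)).eq
      _ = _ := by rw [mul_assoc]
  calc bs τ u v * τ = (τ * bs τ u v * τ⁻¹) * τ := by rw [c1]
    _ = τ * bs τ u v := by group

lemma bs_sign (hfp : ∀ x, τ x ≠ x) {u v : Ω} (hd : OD τ u v) : sign (bs τ u v) = -1 := by
  unfold bs
  rw [map_mul, map_mul, sign_swap hd.n00, sign_swap hd.n11, sign_swap hd.n22]
  decide

lemma bs_left (h3 : ∀ x, τ (τ (τ x)) = x) (hfp : ∀ x, τ x ≠ x) {u v : Ω} (hd : OD τ u v) : bs τ u v u = v := by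
  have t2 := tau_ne_two h3 hfp
  unfold bs
  rw [Perm.mul_apply, Perm.mul_apply, swap_apply_of_ne_of_ne (t2 u).symm hd.n02,
    swap_apply_of_ne_of_ne (hfp u).symm hd.n01, swap_apply_left]

lemma bs_fix {u v x : Ω} (h0 : x ≠ u) (h1 : x ≠ v) (h2 : x ≠ τ u) (h3 : x ≠ τ v) (h4 : x ≠ τ (τ u))
    (h5 : x ≠ τ (τ v)) : bs τ u v x = x := by
  unfold bs
  rw [Perm.mul_apply, Perm.mul_apply, swap_apply_of_ne_of_ne h4 h5, swap_apply_of_ne_of_ne h2 h3,
    swap_apply_of_ne_of_ne h0 h1]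

theorem tau_grow (h3 : ∀ x, τ (τ (τ x)) = x) (hfp : ∀ x, τ x ≠ x)
    (hC : ∀ g : Perm Ω, g * τ = τ * g → sign g = 1 → g ∈ Y) {Γ₀ : Finset Ω} (h0 : ALT Y Γ₀)
    (hinv : ∀ x ∈ Γ₀, τ x ∈ Γ₀) (h9 : 9 ≤ Γ₀.card) : alternatingGroup Ω ≤ Y := by
  classical
  let 𝓕 : Finset (Finset Ω) := Finset.univ.filter (fun Γ => ALT Y Γ ∧ (∀ x ∈ Γ, τ x ∈ Γ) ∧ 9 ≤ Γ.card)
  have h𝓕 : 𝓕.Nonempty := ⟨Γ₀, by simp only [𝓕, Finset.mem_filter, Finset.mem_univ, true_and]; exact ⟨h0, hinv, h9⟩⟩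
  obtain ⟨Γ, hΓ𝓕, hmax⟩ := Finset.exists_max_image 𝓕 Finset.card h𝓕
  simp only [𝓕, Finset.mem_filter, Finset.mem_univ, true_and] at hΓ𝓕 hmax
  obtain ⟨hA, hI, hc⟩ := hΓ𝓕
  by_cases hG : Γ = Finset.univ
  · rw [hG] at hA
    exact alt_le hA
  exfalso
  obtain ⟨p, hp⟩ : ∃ p, p ∉ Γ := by
    by_contra hcon
    push_neg at hcon
    exact hG (Finset.eq_univ_of_forall hcon)
  have t2 := tau_ne_two h3 hfp
  have hout : ∀ x, x ∉ Γ → τ x ∉ Γ := by
    intro x hx h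
    apply hx
    have := hI _ (hI _ h)
    rwa [h3] at this
  have hp1 := hout _ hp
  have hp2 := hout _ hp1
  obtain ⟨b₁, hb₁⟩ : Γ.Nonempty := Finset.card_pos.1 (by omega)
  have hb₁1 := hI _ hb₁
  have hb₁2 := hI _ hb₁1
  obtain ⟨b₂, hb₂, h21, h22, h23⟩ := exists_other (by omega : 4 ≤ Γ.card) b₁ (τ b₁) (τ (τ b₁))
  have hb₂1 := hI _ hb₂
  have hb₂2 := hI _ hb₂1
  obtain ⟨b₃, hb₃, h31, h32, h33, h34, h35, h36⟩ : ∃ x ∈ Γ, x ≠ b₁ ∧ x ≠ τ b₁ ∧ x ≠ τ (τ b₁) ∧ x ≠ b₂ ∧ x ≠ τ b₂ ∧ x ≠ τ (τ b₂) := by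
    have h1 : (({b₁, τ b₁, τ (τ b₁), b₂, τ b₂, τ (τ b₂)} : Finset Ω)).card ≤ 6 := Finset.card_le_six
    obtain ⟨x, hx, hx'⟩ := Finset.exists_mem_notMem_of_card_lt_card
      (show ({b₁, τ b₁, τ (τ b₁), b₂, τ b₂, τ (τ b₂)} : Finset Ω).card < Γ.card by omega)
    simp only [Finset.mem_insert, Finset.mem_singleton, not_or] at hx'
    exact ⟨x, hx, hx'.1, hx'.2.1, hx'.2.2.1, hx'.2.2.2.1, hx'.2.2.2.2.1, hx'.2.2.2.2.2⟩
  have hb₃1 := hI _ hb₃
  have hb₃2 := hI _ hb₃1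
  have nein : ∀ x y, x ∈ Γ → y ∉ Γ → y ≠ x := by
    rintro x y hx hy rfl
    exact hy hx
  have od1 : OD τ b₁ p := od_of h3 (nein _ _ hb₁ hp) (nein _ _ hb₁1 hp) (nein _ _ hb₁2 hp)
  have od2 : OD τ b₂ b₃ := od_of h3 h34 h35 h36
  have od12 : OD τ b₁ b₂ := od_of h3 h21 h22 h23
  have od13 : OD τ b₁ b₃ := od_of h3 h31 h32 h33
  have od3p : OD τ b₃ p := od_of h3 (nein _ _ hb₃ hp) (nein _ _ hb₃1 hp) (nein _ _ hb₃2 hp)
  let w := bs τ b₁ p * bs τ b₂ b₃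
  have hwc : w * τ = τ * w := by
    show bs τ b₁ p * bs τ b₂ b₃ * τ = τ * (bs τ b₁ p * bs τ b₂ b₃)
    rw [mul_assoc, bs_comm h3 hfp od2, ← mul_assoc, bs_comm h3 hfp od1, mul_assoc]
  have hws : sign w = 1 := by
    show sign (bs τ b₁ p * bs τ b₂ b₃) = 1
    rw [map_mul, bs_sign hfp od1, bs_sign hfp od2]
    decide
  have hwY : w ∈ Y := hC w hwc hws
  have hwτ : ∀ x, w (τ x) = τ (w x) := fun x => by
    have := congrArg (fun f : Perm Ω => f x) hwc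
    simpa using this
  have hwb₁ : w b₁ = p := by
    show bs τ b₁ p (bs τ b₂ b₃ b₁) = p
    rw [bs_fix od12.n00 od13.n00 od12.n01 od13.n01 od12.n02 od13.n02, bs_left h3 hfp od1]
  have hwb₂ : w b₂ = b₃ := by
    show bs τ b₁ p (bs τ b₂ b₃ b₂) = b₃
    rw [bs_left h3 hfp od2,
      bs_fix od13.n00.symm od3p.n00 od13.n10.symm od3p.n01 od13.n20.symm od3p.n02]
  have hne23 : b₃ ≠ τ b₃ := (hfp b₃).symm
  have key : ∀ y ∈ Γ, y ≠ b₂ → y ≠ τ b₂ → t3 (w y) b₃ (τ b₃) ∈ Y := by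
    intro y hy h1 h2
    have hd : D3 y b₂ (τ b₂) := ⟨h1, (hfp b₂).symm, h2⟩
    have := conj_t3_mem hwY (hA y hy b₂ hb₂ (τ b₂) hb₂1 hd)
    rwa [hwτ, hwb₂] at this
  have k0 : t3 p b₃ (τ b₃) ∈ Y := by
    have := key b₁ hb₁ od12.n00 od12.n01
    rwa [hwb₁] at this
  have k1 : t3 (τ p) b₃ (τ b₃) ∈ Y := by
    have := key (τ b₁) hb₁1 od12.n10 od12.n11
    rwa [hwτ, hwb₁] at this
  have k2 : t3 (τ (τ p)) b₃ (τ b₃) ∈ Y := by
    have := key (τ (τ b₁)) hb₁2 od12.n20 od12.n21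
    rwa [hwτ, hwτ, hwb₁] at this
  have A1 := ALT_insert hA (by omega) hp hb₃ hb₃1 hne23 k0
  have hc1 : Γ.card + 1 = (insert p Γ).card := (Finset.card_insert_of_notMem hp).symm
  have hp1' : τ p ∉ insert p Γ := by
    rw [Finset.mem_insert, not_or]
    exact ⟨hfp p, hp1⟩
  have A2 := ALT_insert A1 (by omega) hp1' (Finset.mem_insert_of_mem hb₃) (Finset.mem_insert_of_mem hb₃1) hne23 k1
  have hc2 : (insert p Γ).card + 1 = (insert (τ p) (insert p Γ)).card := (Finset.card_insert_of_notMem hp1').symm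
  have hp2' : τ (τ p) ∉ insert (τ p) (insert p Γ) := by
    rw [Finset.mem_insert, Finset.mem_insert, not_or, not_or]
    exact ⟨hfp _, t2 p, hp2⟩
  have A3 := ALT_insert A2 (by omega) hp2' (Finset.mem_insert_of_mem (Finset.mem_insert_of_mem hb₃))
    (Finset.mem_insert_of_mem (Finset.mem_insert_of_mem hb₃1)) hne23 k2
  have hc3 : (insert (τ p) (insert p Γ)).card + 1 = (insert (τ (τ p)) (insert (τ p) (insert p Γ))).card :=
    (Finset.card_insert_of_notMem hp2').symm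
  have hinv3 : ∀ x ∈ insert (τ (τ p)) (insert (τ p) (insert p Γ)), τ x ∈ insert (τ (τ p)) (insert (τ p) (insert p Γ)) := by
    intro x hx
    simp only [Finset.mem_insert] at hx ⊢
    rcases hx with rfl | rfl | rfl | hx
    · right; right; left; exact h3 p
    · left; rfl
    · right; left; rfl
    · right; right; right; exact hI x hx
  have := hmax _ ⟨A3, hinv3, by omega⟩
  omega

end tau

end Cfsg.Agent.H11.MinA
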