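/-
Minimal parabolic type behaviour of Sylow 3-subgroups in alternating groups.
-/
import Cfsg.Agent.Lib.H11.HallZ1

set_option autoImplicit false

namespace Cfsg.Agent.H11.MinA

open Equiv Equiv.Perm MulAction Cfsg.Agent.H09 Cfsg.Agent.H11.HallS
open scoped Nat Pointwise

variable {Ω : Type*} [Fintype Ω] [DecidableEq Ω]

lemma orbit_eq (H : Subgroup (Perm Ω)) (x : Ω) : orbit H x = ((orb H x : Finset Ω) : Set Ω) := by
  ext y
  rw [Finset.mem_coe, mem_orb]
  constructor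
  · rintro ⟨g, rfl⟩
    exact ⟨g.1, g.2, rfl⟩
  · rintro ⟨g, hg, rfl⟩
    exact ⟨⟨g, hg⟩, rfl⟩

lemma orb_stab_card (L : Subgroup (Perm Ω)) (x : Ω) :
    (orb L x).card * Nat.card (L ⊓ stabilizer (Perm Ω) x : Subgroup (Perm Ω)) = Nat.card L := by
  have h1 := index_stabilizer L x
  rw [orbit_eq, Set.ncard_coe_finset] at h1
  have h2 := (stabilizer L x).card_mul_index
  rw [h1] at h2
  have h3 : Nat.card (stabilizer L x) = Nat.card (L ⊓ stabilizer (Perm Ω) x : Subgroup (Perm Ω)) :=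
    Nat.card_congr ⟨fun g => ⟨g.1.1, g.1.2, g.2⟩, fun g => ⟨⟨g.1, g.2.1⟩, g.2.2⟩, fun _ => rfl, fun _ => rfl⟩
  rw [h3] at h2
  rw [← h2, mul_comm]

lemma orb_card_dvd (H : Subgroup (Perm Ω)) (x : Ω) : (orb H x).card ∣ Nat.card H :=
  ⟨_, (orb_stab_card H x).symm⟩

/-- an element of order three commuting with a 3-group and free on an orbit -/
theorem orbit_tau {H : Subgroup (Perm Ω)} (hH : IsPGroup 3 H) {x : Ω} {g₀ : Perm Ω} (hg₀ : g₀ ∈ H)
    (hgx : g₀ x ≠ x) :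
    ∃ z : Perm Ω, (∀ u, z (z (z u)) = u) ∧ (∀ u ∈ orb H x, z u ≠ u ∧ z u ∈ orb H x) ∧
      (∀ u, u ∉ orb H x → z u = u) ∧ (∀ g ∈ H, g * z = z * g) ∧ ∃ h ∈ H, ∀ u ∈ orb H x, z u = h u := by
  classical
  haveI : Fact (Nat.Prime 3) := ⟨Nat.prime_three⟩
  let s : Set Ω := ((orb H x : Finset Ω) : Set Ω)
  have hmems : ∀ u, u ∈ s ↔ u ∈ orb H x := fun u => Finset.mem_coe
  have hst : ∀ g ∈ H, g ∈ stabilizer (Perm Ω) s := fun g hg => orb_stab H x hg
  let rs : ∀ g, g ∈ H → Perm s := fun g hg => toPermHom _ _ (⟨g, hst g hg⟩ : stabilizer (Perm Ω) s)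
  have hrsv : ∀ g hg (y : s), ((rs g hg y : s) : Ω) = g y := fun _ _ _ => rfl
  have hrsQ : ∀ g hg, rs g hg ∈ res H s := fun g hg => mem_res.2 ⟨g, hg, hst g hg, hrsv g hg⟩
  have hQ3 : IsPGroup 3 (res H s) := by
    obtain ⟨k, hk⟩ := IsPGroup.iff_card.1 hH
    have hd := card_res_dvd H s
    rw [hk] at hd
    obtain ⟨m, -, hm⟩ := (Nat.dvd_prime_pow Nat.prime_three).1 hd
    exact IsPGroup.of_card hm
  have hxs : x ∈ s := (hmems x).2 (self_mem_orb H x)
  haveI hntQ : Nontrivial (res H s) := by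
    refine ⟨⟨(⟨rs g₀ hg₀, hrsQ g₀ hg₀⟩ : res H s), 1, fun h => hgx ?_⟩⟩
    have h1 : rs g₀ hg₀ = 1 := congrArg Subtype.val h
    have h2 := hrsv g₀ hg₀ ⟨x, hxs⟩
    rw [h1] at h2
    exact h2.symm
  haveI := hQ3.center_nontrivial
  obtain ⟨c, hc⟩ : ∃ c : Subgroup.center (res H s), orderOf c = 3 := by
    have hp : IsPGroup 3 (Subgroup.center (res H s)) := hQ3.to_subgroup _
    obtain ⟨k, hk⟩ := IsPGroup.iff_card.1 hp
    have hk0 : k ≠ 0 := by
      rintro rfl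
      have := Finite.one_lt_card (α := Subgroup.center (res H s))
      rw [hk] at this
      simp at this
    have h3 : 3 ∣ Nat.card (Subgroup.center (res H s)) := by
      rw [hk]
      exact dvd_pow_self 3 hk0
    exact exists_prime_orderOf_dvd_card' 3 h3
  let f : Perm s := ((c : res H s) : Perm s)
  have hfQ : f ∈ res H s := (c : res H s).2
  have hf3 : f ^ 3 = 1 := by
    have h1 : c ^ 3 = 1 := by rw [← hc]; exact pow_orderOf_eq_one c
    have h2 := congrArg (fun t : Subgroup.center (res H s) => ((t : res H s) : Perm s)) h1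
    simpa using h2
  have hf1 : f ≠ 1 := by
    intro h
    have h1 : c = 1 := Subtype.ext (Subtype.ext h)
    rw [h1, orderOf_one] at hc
    omega
  have hcen : ∀ q ∈ res H s, q * f = f * q := by
    intro q hq
    have h1 := Subgroup.mem_center_iff.1 c.2 ⟨q, hq⟩
    exact congrArg Subtype.val h1
  have hfap : ∀ y : s, f (f (f y)) = y := by
    intro y
    have := congrArg (fun t : Perm s => t y) hf3
    simpa [pow_succ] using this
  have hfpf : ∀ y : s, f y ≠ y := by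
    intro u hu
    apply hf1
    ext v
    obtain ⟨g₁, hg₁, hg₁x⟩ := mem_orb.1 ((hmems _).1 u.2)
    obtain ⟨g₂, hg₂, hg₂x⟩ := mem_orb.1 ((hmems _).1 v.2)
    have hgm : g₂ * g₁⁻¹ ∈ H := H.mul_mem hg₂ (H.inv_mem hg₁)
    have hquv : rs (g₂ * g₁⁻¹) hgm u = v := by
      apply Subtype.ext
      show (g₂ * g₁⁻¹) (u : Ω) = v
      rw [Perm.mul_apply, ← hg₁x]
      simp [hg₂x]
    have hq := hrsQ (g₂ * g₁⁻¹) hgm
    have h1 := congrArg (fun t : Perm s => t u) (hcen _ hq)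
    simp only [Perm.mul_apply] at h1
    rw [hu, hquv] at h1
    rw [← h1]
    rfl
  let z : Perm Ω := ofSubtype (p := fun y => y ∈ s) f
  have hz1 : ∀ y : s, z y.1 = (f y).1 := by
    intro y
    exact ofSubtype_apply_coe f y
  have hz2 : ∀ u, u ∉ s → z u = u := fun u hu => ofSubtype_apply_of_not_mem f hu
  refine ⟨z, ?_, ?_, ?_, ?_, ?_⟩
  · intro u
    by_cases hu : u ∈ s
    · have h1 := hz1 ⟨u, hu⟩
      have h2 := hz1 (f ⟨u, hu⟩)
      have h3 := hz1 (f (f ⟨u, hu⟩))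
      rw [h1, h2, h3, hfap]
    · rw [hz2 u hu, hz2 u hu, hz2 u hu]
  · intro u hu
    have hu' : u ∈ s := (hmems u).2 hu
    have h1 := hz1 ⟨u, hu'⟩
    constructor
    · intro h
      apply hfpf ⟨u, hu'⟩
      apply Subtype.ext
      rw [← h1]
      exact h
    · have : z u ∈ s := by
        rw [show z u = (f ⟨u, hu'⟩).1 from h1]
        exact (f ⟨u, hu'⟩).2
      exact (hmems _).1 this
  · intro u hu
    exact hz2 u (fun h => hu ((hmems u).1 h))
  · intro g hg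
    ext u
    simp only [Perm.mul_apply]
    by_cases hu : u ∈ s
    · have h1 := hz1 ⟨u, hu⟩
      have h2 := hz1 (rs g hg ⟨u, hu⟩)
      have h3 := congrArg (fun t : Perm s => t ⟨u, hu⟩) (hcen _ (hrsQ g hg))
      simp only [Perm.mul_apply] at h3
      have h4 : g u = (rs g hg ⟨u, hu⟩).1 := rfl
      rw [h1, h4, h2, ← h3]
      rfl
    · have hgu : g u ∉ s := by
        intro h
        have := (mem_stab.1 (hst g hg) u).1 h
        exact hu this
      rw [hz2 u hu, hz2 _ hgu]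
  · obtain ⟨h, hh, -, hv⟩ := mem_res.1 hfQ
    refine ⟨h, hh, fun u hu => ?_⟩
    have hu' : u ∈ s := (hmems u).2 hu
    rw [show z u = (f ⟨u, hu'⟩).1 from hz1 ⟨u, hu'⟩, hv]

section main
variable {R M : Subgroup (Perm Ω)}

lemma t3_mem_stab {O : Finset Ω} {a b c : Ω} (hab : a ∈ O ↔ b ∈ O) (hbc : b ∈ O ↔ c ∈ O) :
    t3 a b c ∈ stabilizer (Perm Ω) (O : Set Ω) := by
  rw [mem_stab]
  intro y
  simp only [Finset.mem_coe]
  show swap a b (swap b c y) ∈ O ↔ y ∈ O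
  rw [swap_mem_iff hab, swap_mem_iff hbc]

lemma ms_le (huniq : ∀ M' : Subgroup (Perm Ω), M' ≤ alternatingGroup Ω → ¬ alternatingGroup Ω ≤ M' → R ≤ M' → M' ≤ M)
    (hRA : R ≤ alternatingGroup Ω) (h5 : 3 ≤ Fintype.card Ω) {y z : Ω} (hz : z ∉ orb R y) :
    stabilizer (Perm Ω) ((orb R y : Finset Ω) : Set Ω) ⊓ alternatingGroup Ω ≤ M := by
  classical
  apply huniq _ inf_le_right _ (le_inf (orb_stab R y) hRA)
  intro hle
  have hyz : y ≠ z := by
    rintro rfl
    exact hz (self_mem_orb R _)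
  obtain ⟨c, hc1, hc2⟩ : ∃ c, c ≠ y ∧ c ≠ z := by
    have h1 : (({y, z} : Finset Ω)).card ≤ 2 := Finset.card_le_two
    have h2 : ({y, z} : Finset Ω).card < (Finset.univ : Finset Ω).card := by
      rw [Finset.card_univ]; omega
    obtain ⟨c, -, hc⟩ := Finset.exists_mem_notMem_of_card_lt_card h2
    simp only [Finset.mem_insert, Finset.mem_singleton, not_or] at hc
    exact ⟨c, hc.1, hc.2⟩
  have hd : D3 y z c := ⟨hyz, hc2.symm, hc1.symm⟩
  have := (hle (t3_mem_alt hd)).1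
  have h1 := (mem_stab.1 this y).2 (Finset.mem_coe.2 (self_mem_orb R y))
  rw [t3_a hd] at h1
  exact hz (Finset.mem_coe.1 h1)

lemma alt_of_stab {O : Finset Ω} (hst : stabilizer (Perm Ω) (O : Set Ω) ⊓ alternatingGroup Ω ≤ M) :
    ALT M O ∧ ALT M Oᶜ := by
  constructor
  · intro a ha b hb c hc hd
    exact hst ⟨t3_mem_stab (iff_of_true ha hb) (iff_of_true hb hc), t3_mem_alt hd⟩
  · intro a ha b hb c hc hd
    rw [Finset.mem_compl] at ha hb hc
    exact hst ⟨t3_mem_stab (iff_of_false ha hb) (iff_of_false hb hc), t3_mem_alt hd⟩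

lemma orb_pow (hR3 : IsPGroup 3 R) (y : Ω) : ∃ k, (orb R y).card = 3 ^ k := by
  obtain ⟨k, hk⟩ := IsPGroup.iff_card.1 hR3
  have hd := orb_card_dvd R y
  rw [hk] at hd
  obtain ⟨m, -, hm⟩ := (Nat.dvd_prime_pow Nat.prime_three).1 hd
  exact ⟨m, hm⟩

lemma orb_ge (hR3 : IsPGroup 3 R) {y : Ω} {g : Perm Ω} (hg : g ∈ R) (hgy : g y ≠ y) : 3 ≤ (orb R y).card := by
  obtain ⟨k, hk⟩ := orb_pow hR3 y
  have h2 : 1 < (orb R y).card :=
    Finset.one_lt_card.2 ⟨y, self_mem_orb R y, g y, mem_orb.2 ⟨g, hg, rfl⟩, hgy.symm⟩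
  rw [hk] at h2 ⊢
  rcases k with _ | k
  · simp at h2
  · rw [pow_succ]
    have : 0 < 3 ^ k := by positivity
    omega

/-- two orbits -/
theorem two_case (huniq : ∀ M' : Subgroup (Perm Ω), M' ≤ alternatingGroup Ω → ¬ alternatingGroup Ω ≤ M' → R ≤ M' → M' ≤ M)
    (hRA : R ≤ alternatingGroup Ω) (hR3 : IsPGroup 3 R) (hcard : 5 ≤ Fintype.card Ω) {x y : Ω}
    (hy : y ∉ orb R x) (hall : ∀ u, u ∈ orb R x ∨ u ∈ orb R y) {g₁ g₂ : Perm Ω} (hg₁ : g₁ ∈ R) (hgx : g₁ x ≠ x)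
    (hg₂ : g₂ ∈ R) (hgy : g₂ y ≠ y) (h9 : 9 ≤ (orb R x).card) : alternatingGroup Ω ≤ M := by
  obtain ⟨z₁, a1, b1, c1, d1, -⟩ := orbit_tau hR3 hg₁ hgx
  obtain ⟨z₂, a2, b2, c2, d2, -⟩ := orbit_tau hR3 hg₂ hgy
  let τ := z₁ * z₂
  have hyx : ∀ u, u ∈ orb R x → u ∉ orb R y := fun u hu => orb_disj hy hu
  have hxy : ∀ u, u ∈ orb R y → u ∉ orb R x := fun u hu h => hyx u h hu
  have t1 : ∀ u ∈ orb R x, τ u = z₁ u := by
    intro u hu
    show z₁ (z₂ u) = z₁ u
    rw [c2 u (hyx u hu)]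
  have t2 : ∀ u ∈ orb R y, τ u = z₂ u := by
    intro u hu
    show z₁ (z₂ u) = z₂ u
    exact c1 _ (hxy _ (b2 u hu).2)
  have h3 : ∀ u, τ (τ (τ u)) = u := by
    intro u
    rcases hall u with hu | hu
    · rw [t1 u hu, t1 _ (b1 u hu).2, t1 _ (b1 _ (b1 u hu).2).2, a1]
    · rw [t2 u hu, t2 _ (b2 u hu).2, t2 _ (b2 _ (b2 u hu).2).2, a2]
  have hfp : ∀ u, τ u ≠ u := by
    intro u
    rcases hall u with hu | hu
    · rw [t1 u hu]; exact (b1 u hu).1
    · rw [t2 u hu]; exact (b2 u hu).1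
  have hRτ : ∀ g ∈ R, g * τ = τ * g := by
    intro g hg
    show g * (z₁ * z₂) = z₁ * z₂ * g
    rw [← mul_assoc, d1 g hg, mul_assoc, d2 g hg, mul_assoc]
  have hxx := self_mem_orb R x
  have hτx : τ x ∈ orb R x := by
    rw [t1 x hxx]
    exact (b1 x hxx).2
  have hτxx : τ (τ x) ∈ orb R x := by
    rw [t1 _ hτx]
    exact (b1 _ hτx).2
  have hC : ∀ g : Perm Ω, g * τ = τ * g → sign g = 1 → g ∈ M := by
    have hle : Subgroup.centralizer {τ} ⊓ alternatingGroup Ω ≤ M := by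
      refine huniq _ inf_le_right ?_ (le_inf ?_ hRA)
      · intro hle
        have hd : D3 x (τ x) y := ⟨(hfp x).symm, fun h => hy (h ▸ hτx), fun h => hy (h ▸ hxx)⟩
        have h1 : t3 x (τ x) y ∈ Subgroup.centralizer {τ} := (hle (t3_mem_alt hd)).1
        have h2 := Subgroup.mem_centralizer_singleton_iff.1 h1
        have h4 := congrArg (fun f : Perm Ω => f x) h2
        simp only [Perm.mul_apply] at h4
        rw [t3_a hd, t3_b hd] at h4
        exact hy (h4 ▸ hτxx)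
      · intro g hg
        show g ∈ Subgroup.centralizer {τ}
        rw [Subgroup.mem_centralizer_singleton_iff]
        exact hRτ g hg
    intro g h1 h2
    refine hle ⟨?_, Equiv.Perm.mem_alternatingGroup.2 h2⟩
    show g ∈ Subgroup.centralizer {τ}
    rw [Subgroup.mem_centralizer_singleton_iff]
    exact h1
  have hinv : ∀ u ∈ orb R x, τ u ∈ orb R x := by
    intro u hu
    rw [t1 u hu]
    exact (b1 u hu).2
  have hst := ms_le huniq hRA (by omega) hy
  exact tau_grow h3 hfp hC (alt_of_stab hst).1 hinv h9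

/-- three orbits -/
theorem three_case (huniq : ∀ M' : Subgroup (Perm Ω), M' ≤ alternatingGroup Ω → ¬ alternatingGroup Ω ≤ M' → R ≤ M' → M' ≤ M)
    (hRA : R ≤ alternatingGroup Ω) (hR3 : IsPGroup 3 R) (hcard : 5 ≤ Fintype.card Ω) {x y w : Ω}
    {g : Perm Ω} (hg : g ∈ R) (hgx : g x ≠ x) (hy : y ∉ orb R x) (hw : w ∉ orb R x) (hwy : w ∉ orb R y) :
    alternatingGroup Ω ≤ M := by
  have hZ := orb_ge hR3 hg hgx
  have h1 : Disjoint (orb R x) (orb R y) := Finset.disjoint_left.2 (fun u hu => orb_disj hy hu)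
  have h2 : Disjoint (orb R x) (orb R w) := Finset.disjoint_left.2 (fun u hu => orb_disj hw hu)
  have h12 : Disjoint (orb R y) (orb R w) := Finset.disjoint_left.2 (fun u hu => orb_disj hwy hu)
  have hxy : x ∉ orb R y := orb_disj hy (self_mem_orb R x)
  have hxw : x ∉ orb R w := orb_disj hw (self_mem_orb R x)
  exact three_sets hZ h1 h2 h12 ⟨y, self_mem_orb R y⟩
    (alt_of_stab (ms_le huniq hRA (by omega) hxy)).2 (alt_of_stab (ms_le huniq hRA (by omega) hxw)).2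

/-- one orbit -/
theorem one_case (huniq : ∀ M' : Subgroup (Perm Ω), M' ≤ alternatingGroup Ω → ¬ alternatingGroup Ω ≤ M' → R ≤ M' → M' ≤ M)
    (hRA : R ≤ alternatingGroup Ω) (hR3 : IsPGroup 3 R) {x₀ : Ω} {g₀ : Perm Ω} (hg₀ : g₀ ∈ R) (hgx : g₀ x₀ ≠ x₀)
    (hU : orb R x₀ = Finset.univ) (hc : 27 ≤ Fintype.card Ω) (a : ℕ) (ha : Fintype.card Ω = 3 ^ a) :
    alternatingGroup Ω ≤ M := by
  classical
  haveI : Fact (Nat.Prime 3) := ⟨Nat.prime_three⟩
  obtain ⟨z, a1, b1, c1, d1, h, hh, hz⟩ := orbit_tau hR3 hg₀ hgx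
  have hmemU : ∀ u, u ∈ orb R x₀ := fun u => by rw [hU]; exact Finset.mem_univ u
  have hzh : z = h := Equiv.ext (fun u => hz u (hmemU u))
  have hzR : z ∈ R := hzh ▸ hh
  have hfp : ∀ u, z u ≠ u := fun u => (b1 u (hmemU u)).1
  have hcz : ∀ g ∈ R, ∀ j : ℕ, g * z ^ j = z ^ j * g := by
    intro g hg j
    exact (Commute.pow_right (show Commute g z from d1 g hg) j).eq
  have hz3 : z ^ 3 = 1 := Equiv.ext (pow_three_apply a1)
  have hczap : ∀ g ∈ R, ∀ (j : ℕ) (u : Ω), g ((z ^ j) u) = (z ^ j) (g u) := by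
    intro g hg j u
    have := congrArg (fun f : Perm Ω => f u) (hcz g hg j)
    simpa using this
  let K₁ : Subgroup (Perm Ω) :=
    { carrier := {g | g ∈ R ∧ ∃ i : ℕ, g x₀ = (z ^ i) x₀}
      one_mem' := ⟨R.one_mem, 0, rfl⟩
      mul_mem' := by
        rintro a b ⟨ha, i, hi⟩ ⟨hb, j, hj⟩
        refine ⟨R.mul_mem ha hb, j + i, ?_⟩
        rw [Perm.mul_apply, hj, hczap a ha, hi, pow_add, Perm.mul_apply]
      inv_mem' := by
        rintro a ⟨ha, i, hi⟩
        refine ⟨R.inv_mem ha, 2 * i, ?_⟩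
        have h1 : (z ^ i) (a⁻¹ x₀) = x₀ := by
          apply a.injective
          have e : a (a⁻¹ x₀) = x₀ := by simp
          rw [hczap a ha, e, hi]
        have h2 : (z ^ (2 * i)) x₀ = a⁻¹ x₀ := by
          conv_lhs => rw [← h1]
          rw [← Perm.mul_apply, ← pow_add, show 2 * i + i = 3 * i by ring, pow_mul, hz3, one_pow]
          rfl
        exact h2.symm }
  have hSK₁ : R ⊓ stabilizer (Perm Ω) x₀ ≤ K₁ := fun g hg => ⟨hg.1, 0, by simpa using hg.2⟩
  have hzK₁ : z ∈ K₁ := ⟨hzR, 1, by simp⟩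
  have hK₁R : K₁ ≤ R := fun g hg => hg.1
  have t2 := tau_ne_two a1 hfp
  have horbK₁ : (orb K₁ x₀).card = 3 := by
    have e : orb K₁ x₀ = {x₀, z x₀, z (z x₀)} := by
      ext y
      rw [mem_orb]
      simp only [Finset.mem_insert, Finset.mem_singleton]
      constructor
      · rintro ⟨g, ⟨-, i, hi⟩, rfl⟩
        rw [hi]
        have e2 : z ^ i = z ^ (i % 3) := by
          conv_lhs => rw [← Nat.div_add_mod i 3, pow_add, pow_mul, hz3, one_pow, one_mul]
        rw [e2]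
        have hlt : i % 3 < 3 := Nat.mod_lt _ (by norm_num)
        generalize i % 3 = m at hlt
        interval_cases m
        · left; rfl
        · right; left; simp
        · right; right; simp [pow_two]
      · rintro (rfl | rfl | rfl)
        · exact ⟨1, K₁.one_mem, rfl⟩
        · exact ⟨z, hzK₁, rfl⟩
        · exact ⟨z * z, K₁.mul_mem hzK₁ hzK₁, rfl⟩
    rw [e]
    rw [Finset.card_eq_three]
    exact ⟨x₀, z x₀, z (z x₀), (hfp x₀).symm, (t2 x₀).symm, (hfp _).symm, rfl⟩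
  obtain ⟨c, hc'⟩ := IsPGroup.iff_card.1 (hR3.to_le (inf_le_left : R ⊓ stabilizer (Perm Ω) x₀ ≤ R))
  have hinf : ∀ L : Subgroup (Perm Ω), K₁ ≤ L → L ≤ R → L ⊓ stabilizer (Perm Ω) x₀ = R ⊓ stabilizer (Perm Ω) x₀ := by
    intro L h1 h2
    apply le_antisymm
    · exact inf_le_inf_right _ h2
    · exact le_inf (hSK₁.trans h1) inf_le_right
  have hcK₁ : Nat.card K₁ = 3 ^ (c + 1) := by
    rw [← orb_stab_card K₁ x₀, horbK₁, hinf K₁ le_rfl hK₁R, hc', pow_succ]
    ring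
  have hcR : Nat.card R = 3 ^ a * 3 ^ c := by
    rw [← orb_stab_card R x₀, hU, Finset.card_univ, ha, hc']
  have ha2 : 2 ≤ a := by
    by_contra hlt
    have : a ≤ 1 := by omega
    have h3 : 3 ^ a ≤ 3 ^ 1 := Nat.pow_le_pow_right (by norm_num) this
    omega
  have hdvd : 3 ^ (c + 2) ∣ Nat.card R := by
    rw [hcR, pow_add, mul_comm]
    exact Nat.mul_dvd_mul_right (pow_dvd_pow 3 ha2) _
  have hcsub : Nat.card (K₁.subgroupOf R) = 3 ^ (c + 1) := by
    rw [Nat.card_congr (Subgroup.subgroupOfEquivOfLe hK₁R).toEquiv, hcK₁]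
  obtain ⟨K', hK'c, hK'le⟩ := Sylow.exists_subgroup_card_pow_prime_le 3 hdvd (K₁.subgroupOf R) hcsub (by omega)
  let K₂ : Subgroup (Perm Ω) := K'.map R.subtype
  have hcK₂ : Nat.card K₂ = 3 ^ (c + 2) := by
    rw [← hK'c]
    exact (Nat.card_congr (Subgroup.equivMapOfInjective K' _ Subtype.val_injective).toEquiv).symm
  have hK₁K₂ : K₁ ≤ K₂ := by
    intro g hg
    exact ⟨⟨g, hg.1⟩, hK'le (Subgroup.mem_subgroupOf.2 hg), rfl⟩
  have hK₂R : K₂ ≤ R := Subgroup.map_subtype_le K'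
  have hcB : (orb K₂ x₀).card = 9 := by
    have h1 := orb_stab_card K₂ x₀
    rw [hinf K₂ hK₁K₂ hK₂R, hc', hcK₂, pow_add] at h1
    have h3c : 0 < 3 ^ c := by positivity
    have : (orb K₂ x₀).card * 3 ^ c = 9 * 3 ^ c := by rw [h1]; ring
    exact Nat.eq_of_mul_eq_mul_right h3c this
  have hB : Bl R (orb K₂ x₀) := by
    intro g hg u hu hgu v hv
    obtain ⟨k₁, hk₁, rfl⟩ := mem_orb.1 hu
    obtain ⟨k₂, hk₂, hk₂x⟩ := mem_orb.1 hgu
    obtain ⟨k₃, hk₃, rfl⟩ := mem_orb.1 hv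
    have hS : k₂⁻¹ * g * k₁ ∈ R ⊓ stabilizer (Perm Ω) x₀ := by
      refine ⟨R.mul_mem (R.mul_mem (R.inv_mem (hK₂R hk₂)) hg) (hK₂R hk₁), ?_⟩
      show (k₂⁻¹ * g * k₁) x₀ = x₀
      rw [Perm.mul_apply, Perm.mul_apply, ← hk₂x]
      simp
    have hgK : g ∈ K₂ := by
      have h1 := K₂.mul_mem (K₂.mul_mem hk₂ (hK₁K₂ (hSK₁ hS))) (K₂.inv_mem hk₁)
      have e : k₂ * (k₂⁻¹ * g * k₁) * k₁⁻¹ = g := by group
      rwa [e] at h1
    exact mem_orb.2 ⟨g * k₃, K₂.mul_mem hgK hk₃, rfl⟩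
  have hzK₂ := hK₁K₂ hzK₁
  have hinv : ∀ u ∈ orb K₂ x₀, z u ∈ orb K₂ x₀ := by
    intro u hu
    obtain ⟨k, hk, rfl⟩ := mem_orb.1 hu
    exact mem_orb.2 ⟨z * k, K₂.mul_mem hzK₂ hk, rfl⟩
  have htr : ∀ u v : Ω, ∃ g ∈ R, g u = v := by
    intro u v
    have h1 := orb_eq (hmemU u)
    have h2 := hmemU v
    rw [← h1] at h2
    exact mem_orb.1 h2
  have hb₀ : x₀ ∈ orb K₂ x₀ := self_mem_orb K₂ x₀
  have hn : (orb K₂ x₀).card < Fintype.card Ω := by omega
  obtain ⟨c₀, hc₀⟩ : ∃ c₀, c₀ ∉ orb K₂ x₀ := by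
    by_contra hcon
    push_neg at hcon
    have : orb K₂ x₀ = Finset.univ := Finset.eq_univ_of_forall hcon
    rw [this, Finset.card_univ] at hn
    omega
  have hother : ∀ u v w : Ω, ∃ d, d ≠ u ∧ d ≠ v ∧ d ≠ w := by
    intro u v w
    obtain ⟨d, -, h1, h2, h3⟩ := exists_other (Γ := Finset.univ) (by rw [Finset.card_univ]; omega) u v w
    exact ⟨d, h1, h2, h3⟩
  have hM₁ : W1 R (orb K₂ x₀) ⊓ alternatingGroup Ω ≤ M := by
    refine huniq _ inf_le_right ?_ (le_inf le_W1 hRA)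
    intro hle
    obtain ⟨a₁, ha₁, a₂, ha₂, h12⟩ := Finset.one_lt_card.1 (show 1 < (orb K₂ x₀).card by omega)
    obtain ⟨d, hd1, hd2, hd3⟩ := hother a₁ a₂ c₀
    have hne : ∀ u, u ∈ orb K₂ x₀ → u ≠ c₀ := by
      rintro u hu rfl
      exact hc₀ hu
    have hd : D3 a₁ c₀ d := ⟨hne _ ha₁, hd3.symm, hd1.symm⟩
    have h1 := (hle (t3_mem_alt hd)).1
    have h2 := (mem_W1.1 h1 a₁ a₂).1 ((eqv_mem hB ha₁).2 ha₂)
    rw [t3_a hd, t3_o hd h12.symm (hne _ ha₂) hd2.symm] at h2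
    exact hc₀ ((eqv_mem hB ha₂).1 (eqv_symm h2))
  have hALT : ALT M (orb K₂ x₀) := by
    intro a' ha' b' hb' c' hc' hd
    refine hM₁ ⟨mem_W1_of htr hB (fun x => ?_), t3_mem_alt hd⟩
    by_cases hx : x ∈ orb K₂ x₀
    · have hst := t3_mem_stab (iff_of_true ha' hb') (iff_of_true hb' hc')
      have h1 := (mem_stab.1 hst x).2 (Finset.mem_coe.2 hx)
      exact eqv_symm ((eqv_mem hB hx).2 (Finset.mem_coe.1 h1))
    · have e : t3 a' b' c' x = x := t3_o hd (fun h => hx (h ▸ ha')) (fun h => hx (h ▸ hb')) (fun h => hx (h ▸ hc'))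
      rw [e]
      exact eqv_refl htr hb₀ x
  have hC : ∀ g : Perm Ω, g * z = z * g → sign g = 1 → g ∈ M := by
    have hle : Subgroup.centralizer {z} ⊓ alternatingGroup Ω ≤ M := by
      refine huniq _ inf_le_right ?_ (le_inf ?_ hRA)
      · intro hle
        obtain ⟨d, hd1, hd2, hd3⟩ := hother x₀ (z x₀) (z (z x₀))
        have hd : D3 x₀ (z x₀) d := ⟨(hfp x₀).symm, hd2.symm, hd1.symm⟩
        have h1 : t3 x₀ (z x₀) d ∈ Subgroup.centralizer {z} := (hle (t3_mem_alt hd)).1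
        have h2 := Subgroup.mem_centralizer_singleton_iff.1 h1
        have h4 := congrArg (fun f : Perm Ω => f x₀) h2
        simp only [Perm.mul_apply] at h4
        rw [t3_a hd, t3_b hd] at h4
        exact hd3 h4
      · intro g hg
        show g ∈ Subgroup.centralizer {z}
        rw [Subgroup.mem_centralizer_singleton_iff]
        exact d1 g hg
    intro g h1 h2
    refine hle ⟨?_, Equiv.Perm.mem_alternatingGroup.2 h2⟩
    show g ∈ Subgroup.centralizer {z}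
    rw [Subgroup.mem_centralizer_singleton_iff]
    exact h1
  exact tau_grow a1 hfp hC hALT hinv (by omega)

/-- the degree of an alternating group in which a 3-subgroup lies in a unique maximal subgroup -/
theorem perm_main (hn : 5 ≤ Fintype.card Ω) (hR3 : IsPGroup 3 R) (hR1 : R ≠ ⊥)
    (hRA : R ≤ alternatingGroup Ω) (hMn : ¬ alternatingGroup Ω ≤ M)
    (huniq : ∀ M' : Subgroup (Perm Ω), M' ≤ alternatingGroup Ω → ¬ alternatingGroup Ω ≤ M' → R ≤ M' → M' ≤ M) :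
    Fintype.card Ω = 6 ∨ Fintype.card Ω = 9 ∨ ∃ a : ℕ, 2 ≤ a ∧ Fintype.card Ω = 3 ^ a + 1 := by
  classical
  by_contra hcon
  push_neg at hcon
  obtain ⟨h6, h9, h31⟩ := hcon
  apply hMn
  obtain ⟨g₀, hg₀, hg₀1⟩ := (Subgroup.bot_or_exists_ne_one R).resolve_left hR1
  obtain ⟨x₀, hx₀⟩ : ∃ x, g₀ x ≠ x := by
    by_contra h
    push_neg at h
    exact hg₀1 (Equiv.ext h)
  obtain ⟨a, hap⟩ := orb_pow hR3 x₀
  have h3 := orb_ge hR3 hg₀ hx₀
  have ha1 : 1 ≤ a := by
    rcases a with _ | a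
    · rw [pow_zero] at hap; omega
    · omega
  by_cases hU : ∃ y, y ∉ orb R x₀
  · obtain ⟨y, hy⟩ := hU
    by_cases hV : ∃ w, w ∉ orb R x₀ ∧ w ∉ orb R y
    · obtain ⟨w, hw, hwy⟩ := hV
      exact three_case huniq hRA hR3 hn hg₀ hx₀ hy hw hwy
    push_neg at hV
    have hall : ∀ u, u ∈ orb R x₀ ∨ u ∈ orb R y := by
      intro u
      by_cases hu : u ∈ orb R x₀
      · exact Or.inl hu
      · exact Or.inr (hV u hu)
    have hdis : Disjoint (orb R x₀) (orb R y) := Finset.disjoint_left.2 (fun u hu => orb_disj hy hu)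
    have hcn : Fintype.card Ω = (orb R x₀).card + (orb R y).card := by
      rw [← Finset.card_union_of_disjoint hdis, ← Finset.card_univ]
      congr 1
      ext u
      simp only [Finset.mem_univ, Finset.mem_union, true_iff]
      exact hall u
    obtain ⟨b, hbp⟩ := orb_pow hR3 y
    by_cases hfix : ∀ g ∈ R, g y = y
    · exfalso
      have h1 : (orb R y).card = 1 := by
        rw [Finset.card_eq_one]
        refine ⟨y, ?_⟩
        ext u
        rw [mem_orb, Finset.mem_singleton]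
        constructor
        · rintro ⟨g, hg, rfl⟩
          exact hfix g hg
        · rintro rfl
          exact ⟨1, R.one_mem, rfl⟩
      rw [h1, hap] at hcn
      by_cases ha2 : 2 ≤ a
      · exact h31 a ha2 hcn
      · have : a = 1 := by omega
        subst this
        omega
    push_neg at hfix
    obtain ⟨g₁, hg₁, hg₁y⟩ := hfix
    have h3' := orb_ge hR3 hg₁ hg₁y
    by_cases hL : 9 ≤ (orb R x₀).card
    · exact two_case huniq hRA hR3 hn hy hall hg₀ hx₀ hg₁ hg₁y hL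
    by_cases hL' : 9 ≤ (orb R y).card
    · have hx' : x₀ ∉ orb R y := orb_disj hy (self_mem_orb R x₀)
      exact two_case huniq hRA hR3 hn hx' (fun u => (hall u).symm) hg₁ hg₁y hg₀ hx₀ hL'
    exfalso
    -- both orbits have size three
    have key : ∀ m : ℕ, 3 ≤ 3 ^ m → 3 ^ m < 9 → 3 ^ m = 3 := by
      intro m h1 h2
      rcases m with _ | _ | m
      · simp at h1
      · rfl
      · exfalso
        have : 9 ≤ 3 ^ (m + 1 + 1) := by
          rw [pow_succ, pow_succ]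
          have : 0 < 3 ^ m := by positivity
          omega
        omega
    have e1 := key a (by omega) (by omega)
    have e2 := key b (by omega) (by omega)
    exact h6 (by omega)
  · push_neg at hU
    have hUniv : orb R x₀ = Finset.univ := Finset.eq_univ_of_forall hU
    have hcn : Fintype.card Ω = 3 ^ a := by
      rw [← Finset.card_univ, ← hUniv, hap]
    by_cases h27 : 27 ≤ Fintype.card Ω
    · exact one_case huniq hRA hR3 hg₀ hx₀ hUniv h27 a hcn
    · exfalso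
      rw [hcn] at h27 hn h9
      have ha3 : a < 3 := by
        by_contra hge
        have : 3 ^ 3 ≤ 3 ^ a := Nat.pow_le_pow_right (by norm_num) (by omega)
        omega
      interval_cases a
      · omega
      · omega

end main

end Cfsg.Agent.H11.MinA
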