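import Cfsg.Agent.Lib.H11.Spin7

set_option autoImplicit false

namespace Cfsg.Agent.H11

open Cfsg Matrix

section abstract

variable {n : Type} [Fintype n] [DecidableEq n] {F : Type*} [Field F]

/-- diagonal element with one non-trivial entry. -/
noncomputable def Dgl (i₀ : n) (c : Fˣ) : GL n F :=
  ⟨Matrix.diagonal (Function.update 1 i₀ (c : F)), Matrix.diagonal (Function.update 1 i₀ ((c⁻¹ : Fˣ) : F)),
    by
      rw [Matrix.diagonal_mul_diagonal, ← Matrix.diagonal_one]
      congr 1
      funext k
      by_cases hk : k = i₀
      · subst hk; simp
      · simp [Function.update_of_ne hk],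
    by
      rw [Matrix.diagonal_mul_diagonal, ← Matrix.diagonal_one]
      congr 1
      funext k
      by_cases hk : k = i₀
      · subst hk; simp
      · simp [Function.update_of_ne hk]⟩

lemma Dgl_mul (i₀ : n) (c d : Fˣ) : (Dgl i₀ c * Dgl i₀ d : GL n F) = Dgl i₀ (c * d) := by
  apply Units.ext
  change Matrix.diagonal _ * Matrix.diagonal _ = Matrix.diagonal _
  rw [Matrix.diagonal_mul_diagonal]
  congr 1
  funext k
  by_cases hk : k = i₀
  · subst hk; simp
  · simp [Function.update_of_ne hk]

lemma Dgl_one (i₀ : n) : (Dgl i₀ 1 : GL n F) = 1 := by
  apply Units.ext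
  change Matrix.diagonal _ = 1
  simp

/-- transposition matrix as a group element -/
noncomputable def swapGL (i j : n) : GL n F :=
  ⟨(Equiv.swap i j).toPEquiv.toMatrix, (Equiv.swap i j).toPEquiv.toMatrix,
    by
      rw [← PEquiv.toMatrix_trans, ← Equiv.toPEquiv_trans]
      simp,
    by
      rw [← PEquiv.toMatrix_trans, ← Equiv.toPEquiv_trans]
      simp⟩

lemma swap_mul_Dgl (i j : n) (c : Fˣ) :
    (swapGL i j * Dgl i c * swapGL i j : GL n F) = Dgl j c := by
  apply Units.ext
  change (Equiv.swap i j).toPEquiv.toMatrix * Matrix.diagonal _ * (Equiv.swap i j).toPEquiv.toMatrix = Matrix.diagonal _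
  rw [PEquiv.toMatrix_toPEquiv_mul, PEquiv.mul_toMatrix_toPEquiv]
  ext a b
  simp only [Matrix.submatrix_apply, Matrix.submatrix_submatrix, id, Function.comp, Equiv.symm_swap,
    Equiv.swap_apply_self, Matrix.diagonal_apply, EmbeddingLike.apply_eq_iff_eq]
  by_cases hab : a = b
  · subst hab
    simp only [if_true]
    by_cases h1 : a = j
    · subst h1; simp
    · by_cases h2 : a = i
      · subst h2
        rw [Equiv.swap_apply_left, Function.update_of_ne (Ne.symm h1), Function.update_of_ne h1]
        rfl
      · rw [Equiv.swap_apply_of_ne_of_ne h2 h1, Function.update_of_ne h2, Function.update_of_ne h1]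
  · simp [hab]

/-- abstract factorisation through the determinant. -/
lemma hom_factor_det {A : Type*} [CommGroup A] (h : GL n F →* A) (i₀ : n)
    (ht : ∀ (t : TransvectionStruct n F) (G : GL n F), G.val = t.toMatrix → h G = 1) (M : GL n F) :
    h M = h (Dgl i₀ (Matrix.GeneralLinearGroup.det M)) := by
  classical
  have hconj : ∀ (i : n) (c : Fˣ), h (Dgl i c) = h (Dgl i₀ c) := by
    intro i c
    have hs : h (swapGL i i₀) * h (swapGL i i₀) = 1 := by
      rw [← map_mul]
      have : (swapGL i i₀ * swapGL i i₀ : GL n F) = 1 := by
        apply Units.ext
        change (Equiv.swap i i₀).toPEquiv.toMatrix * (Equiv.swap i i₀).toPEquiv.toMatrix = 1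
        rw [← PEquiv.toMatrix_trans, ← Equiv.toPEquiv_trans]
        simp
      rw [this, map_one]
    rw [← swap_mul_Dgl i i₀ c, map_mul, map_mul]
    calc h (Dgl i c) = h (Dgl i c) * (h (swapGL i i₀) * h (swapGL i i₀)) := by rw [hs, mul_one]
      _ = _ := by ac_rfl
  let P : Matrix n n F → Prop := fun N => ∀ G : GL n F, G.val = N →
    h G = h (Dgl i₀ (Matrix.GeneralLinearGroup.det G))
  have hP : P M.val := by
    apply Matrix.diagonal_transvection_induction_of_det_ne_zero P M.val
    · have := M.det_ne_zero
      exact this
    · -- diagonal matrices
      intro D hD G hG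
      have hne : ∀ i, D i ≠ 0 := by
        intro i h0
        apply hD
        rw [Matrix.det_diagonal]
        exact Finset.prod_eq_zero (Finset.mem_univ i) h0
      let u : n → Fˣ := fun i => Units.mk0 (D i) (hne i)
      have hfin : ∀ s : Finset n, ∀ G' : GL n F,
          G'.val = Matrix.diagonal (fun k => if k ∈ s then D k else 1) → h G' = h (Dgl i₀ (∏ i ∈ s, u i)) := by
        intro s
        induction s using Finset.induction_on with
        | empty =>
          intro G' hG'
          have : G' = 1 := by
            apply Units.ext
            rw [hG']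
            simp
          rw [this]
          simp [Dgl_one]
        | insert a s ha ih =>
          intro G' hG'
          let G₁ : GL n F := ⟨Matrix.diagonal (fun k => if k ∈ s then D k else 1),
            Matrix.diagonal (fun k => if k ∈ s then (D k)⁻¹ else 1),
            by
              rw [Matrix.diagonal_mul_diagonal, ← Matrix.diagonal_one]
              congr 1
              funext k
              by_cases hk : k ∈ s
              · simp [hk, hne k]
              · simp [hk],
            by
              rw [Matrix.diagonal_mul_diagonal, ← Matrix.diagonal_one]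
              congr 1
              funext k
              by_cases hk : k ∈ s
              · simp [hk, hne k]
              · simp [hk]⟩
          have hG1 := ih G₁ rfl
          have hdec : G' = Dgl a (u a) * G₁ := by
            apply Units.ext
            rw [hG']
            change _ = Matrix.diagonal _ * Matrix.diagonal _
            rw [Matrix.diagonal_mul_diagonal]
            congr 1
            funext k
            by_cases hk : k = a
            · subst hk
              simp [ha, u]
            · simp only [Finset.mem_insert, hk, false_or, Function.update_of_ne hk, Pi.one_apply, one_mul]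
          rw [hdec, map_mul, hG1, hconj, ← map_mul, Dgl_mul, Finset.prod_insert ha]
      have h1 := hfin Finset.univ G (by rw [hG]; simp)
      rw [h1]
      congr 2
      apply Units.ext
      rw [Matrix.GeneralLinearGroup.val_det_apply, hG, Matrix.det_diagonal]
      simp [u]
    · intro t G hG
      rw [ht t G hG]
      have : Matrix.GeneralLinearGroup.det G = 1 := by
        apply Units.ext
        rw [Matrix.GeneralLinearGroup.val_det_apply, hG]
        exact t.det
      rw [this, Dgl_one, map_one]
    · intro X Y hX hY pX pY G hG
      let GX : GL n F := Matrix.GeneralLinearGroup.mkOfDetNeZero X hX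
      let GY : GL n F := Matrix.GeneralLinearGroup.mkOfDetNeZero Y hY
      have hdec : G = GX * GY := by
        apply Units.ext
        rw [hG]
        rfl
      rw [hdec, map_mul, pX GX rfl, pY GY rfl, ← map_mul, Dgl_mul, map_mul]
  exact hP M rfl

end abstract

end Cfsg.Agent.H11
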