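import Cfsg.Agent.Lib.H11.Levi

set_option autoImplicit false

namespace Cfsg.Agent.H11

open Cfsg Matrix
open Cfsg.Agent.H03 (reflection_mulVec reflection_isometry reflection_self reflection_det polarVec_dot)

variable {F : Type*} [Field F]

lemma quadFormPlus_eq_dot (m : ℕ) (v : Fin m ⊕ Fin m → F) :
    quadFormPlus m F v = (v ∘ Sum.inl) ⬝ᵥ (v ∘ Sum.inr) := rfl

/-- the Levi embedding `A ↦ diag(A, A⁻ᵀ)`. -/
noncomputable def leviHom (m : ℕ) (F : Type*) [Field F] :
    GL (Fin m) F →* ↥(isometryGroup F (quadFormPlus m F)) where
  toFun A := ⟨⟨Matrix.fromBlocks A.val 0 0 (A⁻¹).val.transpose, Matrix.fromBlocks (A⁻¹).val 0 0 A.val.transpose,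
      by
        rw [Matrix.fromBlocks_multiply]
        simp only [mul_zero, zero_mul, add_zero, zero_add, Units.mul_inv]
        rw [← Matrix.transpose_mul, Units.mul_inv]
        simp,
      by
        rw [Matrix.fromBlocks_multiply]
        simp only [mul_zero, zero_mul, add_zero, zero_add, Units.inv_mul]
        rw [← Matrix.transpose_mul, Units.inv_mul]
        simp⟩, by
      rw [mem_isometryGroup_iff]
      intro v
      change quadFormPlus m F _ = _
      simp only [Matrix.fromBlocks_mulVec, Matrix.zero_mulVec, add_zero, zero_add]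
      rw [quadFormPlus_eq_dot, quadFormPlus_eq_dot, Sum.elim_comp_inl, Sum.elim_comp_inr,
        Matrix.dotProduct_mulVec, ← Matrix.mulVec_transpose, Matrix.mulVec_mulVec,
        Matrix.transpose_transpose, Units.inv_mul]
      simp⟩
  map_one' := by
    apply Subtype.ext
    apply Units.ext
    change Matrix.fromBlocks _ 0 0 _ = _
    simp
  map_mul' := by
    intro a b
    apply Subtype.ext
    apply Units.ext
    change Matrix.fromBlocks _ 0 0 _ = Matrix.fromBlocks _ 0 0 _ * Matrix.fromBlocks _ 0 0 _
    rw [Matrix.fromBlocks_multiply]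
    simp only [mul_zero, zero_mul, add_zero, zero_add, Units.val_mul]
    rw [_root_.mul_inv_rev, Units.val_mul, Matrix.transpose_mul]

lemma leviHom_coe (m : ℕ) (A : GL (Fin m) F) :
    ((leviHom m F A : ↥(isometryGroup F (quadFormPlus m F))) : GL (Fin m ⊕ Fin m) F).val =
      Matrix.fromBlocks A.val 0 0 ((A.val)⁻¹).transpose := by
  change Matrix.fromBlocks A.val 0 0 (A⁻¹).val.transpose = _
  rw [Matrix.coe_units_inv]

/-- the transvection as a group element -/
noncomputable def Tr {m : ℕ} (i j : Fin m) (hij : i ≠ j) (c : F) : GL (Fin m) F :=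
  ⟨Matrix.transvection i j c, Matrix.transvection i j (-c),
    by rw [Matrix.transvection_mul_transvection_same _ _ hij]; simp,
    by rw [Matrix.transvection_mul_transvection_same _ _ hij]; simp⟩

lemma Tr_add {m : ℕ} (i j : Fin m) (hij : i ≠ j) (c d : F) :
    (Tr i j hij c * Tr i j hij d : GL (Fin m) F) = Tr i j hij (c + d) := by
  apply Units.ext
  exact Matrix.transvection_mul_transvection_same _ _ hij _ _

section

variable [Fintype F]

lemma exists_ne_zero_one (h : Fintype.card F ≠ 2) : ∃ a : F, a ≠ 0 ∧ a ≠ 1 := by
  classical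
  by_contra hcon
  push Not at hcon
  have h1 : (Finset.univ : Finset F) ⊆ {0, 1} := by
    intro x _
    by_cases hx : x = 0
    · simp [hx]
    · simp [hcon x hx]
  have h2 := Finset.card_le_card h1
  have h3 : (({0, 1} : Finset F)).card = 2 := Finset.card_pair zero_ne_one
  rw [h3, Finset.card_univ] at h2
  have h4 := Fintype.one_lt_card (α := F)
  omega

/-- all transvections die in an abelian quotient of `GL`. -/
lemma transv_trivial {m : ℕ} {A : Type*} [CommGroup A] (h : GL (Fin m) F →* A)
    (hq : Fintype.card F ≠ 2 ∨ m ≠ 2) (t : TransvectionStruct (Fin m) F) (G : GL (Fin m) F)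
    (hG : G.val = t.toMatrix) : h G = 1 := by
  obtain ⟨i, j, hij, c⟩ := t
  have hGT : G = Tr i j hij c := Units.ext hG
  subst hGT
  by_cases hF : Fintype.card F ≠ 2
  · obtain ⟨a, ha0, ha1⟩ := exists_ne_zero_one hF
    have haunit : (a - 1) ≠ 0 := sub_ne_zero.2 ha1
    set b := c / (a - 1) with hb
    have hab : a * b = b + c := by
      rw [hb]; field_simp; ring
    have hcomm : (Dgl i (Units.mk0 a ha0) * Tr i j hij b : GL (Fin m) F) = Tr i j hij (a * b) * Dgl i (Units.mk0 a ha0) := by
      apply Units.ext
      change Matrix.diagonal _ * Matrix.transvection i j b = Matrix.transvection i j (a * b) * Matrix.diagonal _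
      simp only [Matrix.transvection, mul_add, add_mul, mul_one, one_mul]
      congr 1
      ext x y
      by_cases hx : x = i
      · subst hx
        by_cases hy : y = j
        · subst hy
          simp [Matrix.diagonal_mul, Matrix.mul_diagonal, Function.update_of_ne hij.symm]
        · simp [Matrix.diagonal_mul, Matrix.mul_diagonal, Matrix.single_apply, hy, Ne.symm hy]
      · simp [Matrix.diagonal_mul, Matrix.mul_diagonal, Matrix.single_apply, hx, Ne.symm hx]
    have h1 := congrArg h hcomm
    rw [map_mul, map_mul, mul_comm] at h1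
    have h2 := mul_right_cancel h1
    rw [hab, ← Tr_add, map_mul] at h2
    exact (mul_eq_left.1 h2.symm)
  · have hm : m ≠ 2 := by
      rcases hq with h3 | h3
      · exact absurd h3 hF
      · exact h3
    have hm3 : 3 ≤ m := by
      have h1 := i.2
      have h2 := j.2
      have h3 : (i : ℕ) ≠ j := fun e => hij (Fin.ext e)
      omega
    obtain ⟨k, hki, hkj⟩ : ∃ k : Fin m, k ≠ i ∧ k ≠ j := by
      by_contra hcon
      push Not at hcon
      have : Fintype.card (Fin m) ≤ 2 := by
        have h4 : (Finset.univ : Finset (Fin m)) ⊆ {i, j} := by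
          intro x _
          by_cases hx : x = i
          · simp [hx]
          · simp [hcon x hx]
        have h5 := Finset.card_le_card h4
        rw [Finset.card_univ] at h5
        exact h5.trans (Finset.card_le_two)
      rw [Fintype.card_fin] at this
      omega
    have hcomm : (Tr i k hki.symm 1 * Tr k j hkj c : GL (Fin m) F) =
        Tr i j hij c * Tr k j hkj c * Tr i k hki.symm 1 := by
      apply Units.ext
      change Matrix.transvection i k 1 * Matrix.transvection k j c =
        Matrix.transvection i j c * Matrix.transvection k j c * Matrix.transvection i k 1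
      simp only [Matrix.transvection, mul_add, add_mul, mul_one, one_mul]
      simp [Matrix.single_mul_single_same, Matrix.single_mul_single_of_ne, hij, hkj, hki, Ne.symm hij, Ne.symm hkj, Ne.symm hki]
      abel
    have h1 := congrArg h hcomm
    simp only [map_mul] at h1
    have h2 : h (Tr i j hij c) * (h (Tr k j hkj c) * h (Tr i k hki.symm 1)) =
        1 * (h (Tr k j hkj c) * h (Tr i k hki.symm 1)) := by
      rw [one_mul, ← mul_assoc, ← h1, mul_comm]
    exact mul_right_cancel h2

end

end Cfsg.Agent.H11
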