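import Cfsg.Agent.Lib.H11.Levi2

set_option autoImplicit false

namespace Cfsg.Agent.H11

open Cfsg Matrix
open Cfsg.Agent.H03 (reflection_mulVec reflection_isometry reflection_self reflection_det polarVec_dot)

variable {F : Type*} [Field F]

section D

variable {m : ℕ} (i : Fin m) (c : Fˣ)

/-- the vector `e_i - c f_i` -/
noncomputable def hypVec (c : F) : Fin m ⊕ Fin m → F := Pi.single (Sum.inl i) 1 - c • Pi.single (Sum.inr i) 1

lemma Q_hypVec (c : F) : plusForm m F (hypVec i c) = -c := by
  have H := plus_pairs (F := F) m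
  have h1 : plusForm m F (Pi.single (Sum.inl i) 1 + -(c • Pi.single (Sum.inr i) 1)) =
      plusForm m F (Pi.single (Sum.inl i) 1) + plusForm m F (-(c • Pi.single (Sum.inr i) 1)) +
      QuadraticMap.polar (⇑(plusForm m F)) (Pi.single (Sum.inl i) 1) (-(c • Pi.single (Sum.inr i) 1)) := by
    unfold QuadraticMap.polar; ring
  rw [hypVec, sub_eq_add_neg, h1, QuadraticMap.map_neg, QuadraticMap.map_smul, H.Qp, H.Qq,
    QuadraticMap.polar_neg_right, QuadraticMap.polar_smul_right, H.pol_p]
  simp

lemma pol_hypVec (c : F) (x : Fin m ⊕ Fin m → F) :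
    QuadraticMap.polar (⇑(plusForm m F)) (hypVec i c) x = x (Sum.inr i) - c * x (Sum.inl i) := by
  have H := plus_pairs (F := F) m
  rw [hypVec, QuadraticMap.polar_sub_left, QuadraticMap.polar_smul_left, H.pol_p, H.pol_q]
  simp

lemma refl_hypVec (c : F) (hc : c ≠ 0) (x : Fin m ⊕ Fin m → F) :
    reflectionMatrix (⇑(plusForm m F)) (hypVec i c) *ᵥ x =
      fun k => if k = Sum.inl i then c⁻¹ * x (Sum.inr i) else if k = Sum.inr i then c * x (Sum.inl i) else x k := by
  rw [reflection_mulVec, Q_hypVec, pol_hypVec]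
  funext k
  simp only [hypVec, Pi.sub_apply, Pi.smul_apply, smul_eq_mul]
  by_cases h1 : k = Sum.inl i
  · subst h1
    simp
    field_simp
    ring
  · by_cases h2 : k = Sum.inr i
    · subst h2
      simp
      field_simp
      ring
    · simp [h1, h2, Pi.single_apply]

lemma levi_D : ((leviHom m F (Dgl i c) : ↥(isometryGroup F (quadFormPlus m F))) : GL (Fin m ⊕ Fin m) F).val =
    reflectionMatrix (⇑(plusForm m F)) (hypVec i 1) * reflectionMatrix (⇑(plusForm m F)) (hypVec i (c : F)) := by
  apply mat_ext_mulVec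
  intro x
  rw [← Matrix.mulVec_mulVec, refl_hypVec i _ c.ne_zero, refl_hypVec i 1 one_ne_zero]
  change (Matrix.fromBlocks (Matrix.diagonal _) 0 0 (Matrix.diagonal _).transpose) *ᵥ x = _
  rw [Matrix.diagonal_transpose, Matrix.fromBlocks_mulVec]
  simp only [Matrix.zero_mulVec, add_zero, zero_add]
  funext k
  rcases k with a | a
  · by_cases ha : a = i
    · subst ha
      simp [Matrix.mulVec_diagonal]
    · simp [ha, Matrix.mulVec_diagonal, Function.update_of_ne ha]
  · by_cases ha : a = i
    · subst ha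
      simp [Matrix.mulVec_diagonal]
    · simp [ha, Matrix.mulVec_diagonal, Function.update_of_ne ha]

end D

section main

variable [Fintype F]

/-- the image of a Levi element in the abelianisation. -/
noncomputable def leviAb (m : ℕ) (F : Type*) [Field F] :
    GL (Fin m) F →* Abelianization ↥(isometryGroup F (quadFormPlus m F)) :=
  (Abelianization.of).comp (leviHom m F)

lemma plus_coe (m : ℕ) : ⇑(plusForm m F) = quadFormPlus m F := rfl

lemma leviAb_sq {m : ℕ} (i : Fin m) (u : Fˣ) : leviAb m F (Dgl i u) * leviAb m F (Dgl i u) = 1 := by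
  have hne1 : plusForm m F (hypVec i 1) ≠ 0 := by
    rw [Q_hypVec]; simp
  have hne2 : plusForm m F (hypVec i (u : F)) ≠ 0 := by
    rw [Q_hypVec]; simp
  let r₁ : ↥(isometryGroup F (quadFormPlus m F)) := refl (plusForm m F) (hypVec i 1) hne1
  let r₂ : ↥(isometryGroup F (quadFormPlus m F)) := refl (plusForm m F) (hypVec i (u : F)) hne2
  have hdec : leviHom m F (Dgl i u) = r₁ * r₂ := isom_ext (levi_D i u)
  have h1 : leviAb m F (Dgl i u) = Abelianization.of r₁ * Abelianization.of r₂ := by
    change Abelianization.of (leviHom m F (Dgl i u)) = _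
    rw [hdec, map_mul]
  rw [h1]
  have h2 : ∀ (r : ↥(isometryGroup F (quadFormPlus m F))), r * r = 1 →
      (Abelianization.of r) * (Abelianization.of r) = 1 := by
    intro r hr
    rw [← map_mul, hr, map_one]
  have h3 := h2 r₁ (refl_mul_self (plusForm m F) (hypVec i 1) hne1)
  have h4 := h2 r₂ (refl_mul_self (plusForm m F) (hypVec i (u : F)) hne2)
  calc _ = (Abelianization.of r₁ * Abelianization.of r₁) * (Abelianization.of r₂ * Abelianization.of r₂) := by
        rw [mul_mul_mul_comm]
    _ = 1 := by rw [h3, h4, one_mul]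

lemma levi_mem_iff (m : ℕ) (A : GL (Fin m) F) :
    leviHom m F A ∈ Omega F (quadFormPlus m F) ↔ leviAb m F A = 1 :=
  (QuotientGroup.eq_one_iff _).symm

/-- if `det A` is a square the Levi element lies in `Ω`. -/
lemma levi_mem_of_isSquare {m : ℕ} (hm : 1 ≤ m) (hq : Fintype.card F ≠ 2 ∨ m ≠ 2) (A : GL (Fin m) F)
    (hA : IsSquare (A : Matrix (Fin m) (Fin m) F).det) :
    leviHom m F A ∈ Omega F (quadFormPlus m F) := by
  rw [levi_mem_iff]
  let i₀ : Fin m := ⟨0, hm⟩
  have h1 := hom_factor_det (leviAb m F) i₀ (transv_trivial (leviAb m F) hq) A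
  rw [h1]
  obtain ⟨t, ht⟩ := hA
  have ht0 : t ≠ 0 := by
    rintro rfl
    have : (A : Matrix (Fin m) (Fin m) F).det = 0 := by simpa using ht
    exact A.det_ne_zero this
  have hdet : Matrix.GeneralLinearGroup.det A = Units.mk0 t ht0 * Units.mk0 t ht0 := by
    apply Units.ext
    rw [Matrix.GeneralLinearGroup.val_det_apply, ht]
    rfl
  rw [hdet, ← Dgl_mul, map_mul]
  exact leviAb_sq i₀ _

end main

end Cfsg.Agent.H11
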