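import Cfsg.Agent.Lib.H11.MTS3

set_option autoImplicit false
set_option linter.unusedSectionVars false

namespace Cfsg.Agent.H11

open Cfsg Matrix Module
open Cfsg.Agent.H03 (reflection_mulVec reflection_isometry reflection_self reflection_det polarVec_dot)

variable {F : Type*} [Field F]

/-- `{y = 0}` -/
noncomputable abbrev U0 (m : ℕ) (F : Type*) [Field F] : Submodule F (Fin m ⊕ Fin m → F) :=
  LinearMap.ker (LinearMap.funLeft F F (Sum.inr : Fin m → Fin m ⊕ Fin m))

/-- `{x = 0}` -/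
noncomputable abbrev V0 (m : ℕ) (F : Type*) [Field F] : Submodule F (Fin m ⊕ Fin m → F) :=
  LinearMap.ker (LinearMap.funLeft F F (Sum.inl : Fin m → Fin m ⊕ Fin m))

lemma mem_U0 {m : ℕ} (x : Fin m ⊕ Fin m → F) : x ∈ U0 m F ↔ ∀ i, x (Sum.inr i) = 0 := by
  rw [LinearMap.mem_ker]
  constructor
  · intro h i
    exact congrFun h i
  · intro h
    funext i
    exact h i

lemma mem_V0 {m : ℕ} (x : Fin m ⊕ Fin m → F) : x ∈ V0 m F ↔ ∀ i, x (Sum.inl i) = 0 := by
  rw [LinearMap.mem_ker]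
  constructor
  · intro h i
    exact congrFun h i
  · intro h
    funext i
    exact h i

lemma card_sum (m : ℕ) : Fintype.card (Fin m ⊕ Fin m) = 2 * m := by
  simp; omega

lemma finrank_ker_funLeft {m : ℕ} (f : Fin m → Fin m ⊕ Fin m) (hf : Function.Injective f) :
    finrank F (LinearMap.ker (LinearMap.funLeft F F f)) = m := by
  have h1 := LinearMap.finrank_range_add_finrank_ker (LinearMap.funLeft F F f)
  have h2 : LinearMap.range (LinearMap.funLeft F F f) = ⊤ :=
    LinearMap.range_eq_top.2 (LinearMap.funLeft_surjective_of_injective F F f hf)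
  rw [h2, finrank_top, finrank_fintype_fun_eq_card, finrank_fintype_fun_eq_card, card_sum,
    Fintype.card_fin] at h1
  omega

lemma U0_mts (m : ℕ) : IsMTS (plusForm m F) m (U0 m F) where
  card := finrank_ker_funLeft _ Sum.inr_injective
  sing := by
    intro u hu
    have h := (mem_U0 u).1 hu
    change quadFormPlus m F u = 0
    simp [quadFormPlus, h]

lemma V0_mts (m : ℕ) : IsMTS (plusForm m F) m (V0 m F) where
  card := finrank_ker_funLeft _ Sum.inl_injective
  sing := by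
    intro u hu
    have h := (mem_V0 u).1 hu
    change quadFormPlus m F u = 0
    simp [quadFormPlus, h]

lemma U0_inf_V0 (m : ℕ) : (U0 m F ⊓ V0 m F : Submodule F (Fin m ⊕ Fin m → F)) = ⊥ := by
  rw [eq_bot_iff]
  rintro x ⟨h1, h2⟩
  rw [Submodule.mem_bot]
  funext k
  rcases k with i | i
  · exact (mem_V0 x).1 h2 i
  · exact (mem_U0 x).1 h1 i

/-- stabilizer of `U₀` has determinant one. -/
lemma det_of_stab {m : ℕ} (P : Matrix (Fin m ⊕ Fin m) (Fin m ⊕ Fin m) F)
    (hP : ∀ x, plusForm m F (P *ᵥ x) = plusForm m F x) (hU : ∀ x ∈ U0 m F, P *ᵥ x ∈ U0 m F) : P.det = 1 := by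
  have hcol : ∀ (j k : Fin m ⊕ Fin m), (P *ᵥ Pi.single j (1 : F)) k = P k j := by
    intro j k
    simp
  have h22 : ∀ i j, P (Sum.inr i) (Sum.inl j) = 0 := by
    intro i j
    have := (mem_U0 _).1 (hU (Pi.single (Sum.inl j) 1) ((mem_U0 _).2 (fun i => by simp))) i
    rwa [hcol] at this
  have h21 : P.toBlocks₂₁ = 0 := by
    ext i j
    exact h22 i j
  have hP' : P = Matrix.fromBlocks P.toBlocks₁₁ P.toBlocks₁₂ 0 P.toBlocks₂₂ := by
    conv_lhs => rw [← Matrix.fromBlocks_toBlocks P, h21]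
  have hAD : P.toBlocks₁₁.transpose * P.toBlocks₂₂ = 1 := by
    ext i j
    have h1 := isom_polar (plusForm m F) P hP (Pi.single (Sum.inl i) 1) (Pi.single (Sum.inr j) 1)
    have e : ⇑(plusForm m F) = quadFormPlus m F := rfl
    rw [e, polar_plus', polar_plus'] at h1
    simp only [hcol, h22, mul_zero, add_zero] at h1
    change ∑ k, P (Sum.inl k) (Sum.inl i) * P (Sum.inr k) (Sum.inr j) = _
    rw [h1, Matrix.one_apply]
    by_cases hij : i = j
    · subst hij
      simp [Pi.single_apply]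
    · simp [Pi.single_apply, hij, Ne.symm hij]
  rw [hP', Matrix.det_fromBlocks_zero₂₁]
  have := congrArg Matrix.det hAD
  rwa [Matrix.det_mul, Matrix.det_transpose, Matrix.det_one] at this

lemma plus_nondeg' (m : ℕ) : (QuadraticMap.polarBilin (plusForm m F)).Nondegenerate := plus_nondeg m

/-- decomposition of an isometry: `gU₀ = h U₀`, `h` a product of `m - dim(U₀ ⊓ g U₀)` reflections, the
rest stabilizes `U₀` -/
lemma exists_decomp {m : ℕ} (g : ↥(isometryGroup F (quadFormPlus m F))) :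
    ∃ L : List (Fin m ⊕ Fin m → F), (∀ v ∈ L, plusForm m F v ≠ 0) ∧
      L.length = m - finrank F (U0 m F ⊓ (U0 m F).map (Matrix.mulVecLin ((g : GL (Fin m ⊕ Fin m) F) : Matrix (Fin m ⊕ Fin m) (Fin m ⊕ Fin m) F)) :
        Submodule F (Fin m ⊕ Fin m → F)) ∧
      ∀ x ∈ U0 m F, (prodM (plusForm m F) L.reverse * ((g : GL (Fin m ⊕ Fin m) F) : Matrix (Fin m ⊕ Fin m) (Fin m ⊕ Fin m) F)) *ᵥ x ∈ U0 m F := by
  have hU := U0_mts (F := F) m
  have hgm : IsMTS (plusForm m F) m ((U0 m F).map (Matrix.mulVecLin ((g : GL (Fin m ⊕ Fin m) F) : Matrix (Fin m ⊕ Fin m) (Fin m ⊕ Fin m) F))) :=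
    hU.map_mat _ (mem_isometryGroup_iff.1 g.2) (gl_injective _)
  have hle := hU.inf_le (W := (U0 m F).map (Matrix.mulVecLin ((g : GL (Fin m ⊕ Fin m) F) : Matrix (Fin m ⊕ Fin m) (Fin m ⊕ Fin m) F)))
  obtain ⟨L, hL1, hL2, hL3⟩ := exists_list (card_sum m) (plus_nondeg' (F := F) m) _ hU hgm (Nat.sub_add_cancel hle)
  refine ⟨L, hL1, hL2, ?_⟩
  intro x hx
  have : ((g : GL (Fin m ⊕ Fin m) F) : Matrix (Fin m ⊕ Fin m) (Fin m ⊕ Fin m) F) *ᵥ x ∈ (U0 m F).map (prodM (plusForm m F) L).mulVecLin := by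
    rw [hL3]
    exact ⟨x, hx, rfl⟩
  obtain ⟨y, hy, hyx⟩ := this
  rw [← Matrix.mulVec_mulVec]
  rw [← hyx, Matrix.mulVecLin_apply, Matrix.mulVec_mulVec, prodM_inv' _ L hL1, Matrix.one_mulVec]
  exact hy

lemma det_prodM {ι : Type} [Fintype ι] [DecidableEq ι] (Q : QuadraticForm F (ι → F))
    (L : List (ι → F)) (hL : ∀ v ∈ L, Q v ≠ 0) : (prodM Q L).det = (-1) ^ L.length := by
  induction L with
  | nil => simp [prodM_nil]
  | cons a L ih =>
    rw [prodM_cons, Matrix.det_mul, reflection_det Q a (hL a List.mem_cons_self),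
      ih (fun v hv => hL v (List.mem_cons_of_mem _ hv)), List.length_cons, pow_succ]
    ring

/-- the statement S2629 -/
theorem even_iff_det (h2 : (2 : F) ≠ 0) {m : ℕ} (g : ↥(isometryGroup F (quadFormPlus m F))) :
    Even (m - finrank F (U0 m F ⊓ (U0 m F).map (Matrix.mulVecLin ((g : GL (Fin m ⊕ Fin m) F) : Matrix (Fin m ⊕ Fin m) (Fin m ⊕ Fin m) F)) :
        Submodule F (Fin m ⊕ Fin m → F))) ↔
      ((g : GL (Fin m ⊕ Fin m) F) : Matrix (Fin m ⊕ Fin m) (Fin m ⊕ Fin m) F).det = 1 := by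
  obtain ⟨L, hL1, hL2, hL3⟩ := exists_decomp g
  rw [← hL2]
  have hL1' : ∀ v ∈ L.reverse, plusForm m F v ≠ 0 := by simpa using hL1
  have h4 := det_of_stab (prodM (plusForm m F) L.reverse * ((g : GL (Fin m ⊕ Fin m) F) : Matrix (Fin m ⊕ Fin m) (Fin m ⊕ Fin m) F))
    (by
      intro x
      rw [← Matrix.mulVec_mulVec, prodM_isom _ _ hL1']
      exact (mem_isometryGroup_iff.1 g.2) x) hL3
  rw [Matrix.det_mul, det_prodM _ _ hL1', List.length_reverse] at h4
  have hne : (-1 : F) ≠ 1 := by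
    intro h
    apply h2
    linear_combination -h
  have h5 : ((g : GL (Fin m ⊕ Fin m) F) : Matrix (Fin m ⊕ Fin m) (Fin m ⊕ Fin m) F).det = (-1) ^ L.length := by
    have h6 : ((-1 : F) ^ L.length) * (-1) ^ L.length = 1 := by
      rw [← mul_pow]; simp
    calc _ = ((-1 : F) ^ L.length) * ((-1) ^ L.length) * ((g : GL (Fin m ⊕ Fin m) F) : Matrix (Fin m ⊕ Fin m) (Fin m ⊕ Fin m) F).det := by
          rw [h6, one_mul]
      _ = _ := by
          rw [mul_comm ((-1 : F) ^ L.length), mul_assoc, h4, mul_one]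
  rw [h5]
  constructor
  · intro h
    exact h.neg_one_pow
  · intro h
    by_contra hodd
    rw [Nat.not_even_iff_odd] at hodd
    rw [hodd.neg_one_pow] at h
    exact hne h

end Cfsg.Agent.H11
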