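import Cfsg.Agent.Lib.H11.MTS4
import Cfsg.Agent.Lib.H11.Levi3

set_option autoImplicit false
set_option linter.unusedSectionVars false

namespace Cfsg.Agent.H11

open Cfsg Matrix Module
open Cfsg.Agent.H03 (reflection_mulVec reflection_isometry reflection_self reflection_det polarVec_dot)

variable {ι : Type} [Fintype ι] [DecidableEq ι] {F : Type*} [Field F]
variable (Q : QuadraticForm F (ι → F))

/-- Step 1, second case: no assumption on the characteristic. -/
lemma refl_mul_refl_mem_of_ne {a b : ι → F} (ha : Q a ≠ 0) (hb : Q b ≠ 0)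
    (hab : Q a = Q b) (h0 : Q (a - b) ≠ 0) : refl Q b hb * refl Q a ha ∈ Omega F (⇑Q) := by
  have hpol : QuadraticMap.polar (⇑Q) a a = 2 * Q a := by
    rw [QuadraticMap.polar_self]; simp
  let h := refl Q (a - b) h0
  have hha : (h : GL ι F).val *ᵥ a = b := by
    change reflectionMatrix (⇑Q) (a - b) *ᵥ a = b
    rw [reflection_mulVec]
    have e1 : QuadraticMap.polar (⇑Q) (a - b) a = Q (a - b) := by
      have e0 : QuadraticMap.polar (⇑Q) (a - b) a = QuadraticMap.polar (⇑Q) a a - QuadraticMap.polar (⇑Q) b a :=
        by rw [QuadraticMap.polar_comm (⇑Q) (a - b) a, QuadraticMap.polar_sub_right,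
          QuadraticMap.polar_comm (⇑Q) a a, QuadraticMap.polar_comm (⇑Q) a b]
      rw [e0, hpol, QuadraticMap.polar_comm (⇑Q) b a]
      have e2 : Q (a - b) = Q a + Q b - QuadraticMap.polar (⇑Q) a b := by
        have : a - b = a + -b := sub_eq_add_neg a b
        have e3 : Q (a + -b) = Q a + Q (-b) + QuadraticMap.polar (⇑Q) a (-b) := by
          unfold QuadraticMap.polar; ring
        rw [this, e3, QuadraticMap.map_neg, QuadraticMap.polar_neg_right]
        ring
      rw [e2, ← hab]; ring
    rw [e1, inv_mul_cancel₀ h0, one_smul]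
    abel
  have hc := conj_refl Q h a ha (by rw [hha]; exact hb)
  have hr : refl Q ((h : GL ι F).val *ᵥ a) (by rw [hha]; exact hb) = refl Q b hb := by
    apply refl_congr
    rw [hha]
  rw [hr] at hc
  have hcomm : h * refl Q a ha * h⁻¹ * (refl Q a ha)⁻¹ = refl Q b hb * refl Q a ha := by
    rw [hc, refl_inv]
  rw [← hcomm]
  exact Subgroup.commutator_mem_commutator (Subgroup.mem_top h) (Subgroup.mem_top (refl Q a ha))

section char2

variable [Fintype F] (hc : (2 : F) = 0)
include hc

lemma polar_self_char2 (a : ι → F) : QuadraticMap.polar (⇑Q) a a = 0 := by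
  rw [QuadraticMap.polar_self]
  simp [two_smul, ← two_mul, hc]

lemma isSquare_char2 (x : F) : IsSquare x := by
  have hchar : ringChar F = 2 := by
    have h1 : ringChar F ∣ 2 := (CharP.cast_eq_zero_iff F (ringChar F) 2).1 (by exact_mod_cast hc)
    have h2 := (Nat.dvd_prime Nat.prime_two).1 h1
    rcases h2 with h2 | h2
    · exact absurd h2 (CharP.char_ne_one F (ringChar F))
    · exact h2
  exact FiniteField.isSquare_of_char_two hchar x

/-- scale to value 1 -/
lemma exists_scale {a : ι → F} (ha : Q a ≠ 0) : ∃ c : F, c ≠ 0 ∧ Q (c • a) = 1 := by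
  obtain ⟨t, ht⟩ := isSquare_char2 (F := F) hc (Q a)⁻¹
  have ht0 : t ≠ 0 := by
    rintro rfl
    have : (Q a)⁻¹ = 0 := by simpa using ht
    exact inv_ne_zero ha this
  refine ⟨t, ht0, ?_⟩
  rw [QuadraticMap.map_smul]
  simp only [smul_eq_mul]
  rw [← ht]
  exact inv_mul_cancel₀ ha

lemma step_polar_ne {a b : ι → F} (ha : Q a = 1) (hb : Q b = 1) (h : QuadraticMap.polar (⇑Q) a b ≠ 0)
    (ha' : Q a ≠ 0) (hb' : Q b ≠ 0) : refl Q b hb' * refl Q a ha' ∈ Omega F (⇑Q) := by
  apply refl_mul_refl_mem_of_ne Q ha' hb' (ha.trans hb.symm)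
  have e3 : Q (a + -b) = Q a + Q (-b) + QuadraticMap.polar (⇑Q) a (-b) := by
    unfold QuadraticMap.polar; ring
  rw [sub_eq_add_neg, e3, QuadraticMap.map_neg, QuadraticMap.polar_neg_right, ha, hb]
  have : (1 + 1 : F) = 0 := by rw [one_add_one_eq_two, hc]
  rw [this, zero_add]
  exact neg_ne_zero.2 h

end char2

section orth

variable {Q}
variable (hQ : (QuadraticMap.polarBilin Q).Nondegenerate)
include hQ

lemma pb_isRefl : (Pb Q).IsRefl := by
  intro x y h
  change QuadraticMap.polar (⇑Q) x y = 0 at h
  change QuadraticMap.polar (⇑Q) y x = 0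
  rwa [QuadraticMap.polar_comm]

/-- separating vector -/
lemma exists_separating {a b : ι → F} (hab : a ∉ Submodule.span F {b}) :
    ∃ x, QuadraticMap.polar (⇑Q) b x = 0 ∧ QuadraticMap.polar (⇑Q) a x = 1 := by
  let S : Submodule F (ι → F) := Submodule.span F {b}
  have h1 : (Pb Q).orthogonal ((Pb Q).orthogonal S) = S :=
    LinearMap.BilinForm.orthogonal_orthogonal hQ (pb_isRefl hQ) S
  have h2 : a ∉ (Pb Q).orthogonal ((Pb Q).orthogonal S) := by
    rw [h1]; exact hab
  have h3 : ∃ x ∈ (Pb Q).orthogonal S, QuadraticMap.polar (⇑Q) x a ≠ 0 := by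
    by_contra hcon
    push Not at hcon
    exact h2 hcon
  obtain ⟨x, hx, hxa⟩ := h3
  have hxb : QuadraticMap.polar (⇑Q) b x = 0 := hx b (Submodule.mem_span_singleton_self b)
  have hax : QuadraticMap.polar (⇑Q) a x ≠ 0 := by rwa [QuadraticMap.polar_comm]
  refine ⟨(QuadraticMap.polar (⇑Q) a x)⁻¹ • x, ?_, ?_⟩
  · rw [QuadraticMap.polar_smul_right, hxb]; simp
  · rw [QuadraticMap.polar_smul_right]
    simp [hax]

end orth

section main

variable [Fintype F] (hc : (2 : F) = 0) {Q} (hQ : (QuadraticMap.polarBilin Q).Nondegenerate)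
  {m : ℕ} (hdim : Fintype.card ι = 2 * m) (hq : Fintype.card F ≠ 2 ∨ m ≠ 2)
include hc hQ hdim hq

/-- the vector `z'` in the main case -/
lemma exists_common {a b : ι → F} (ha : Q a = 1) (hb : Q b = 1) (hab : QuadraticMap.polar (⇑Q) a b = 0)
    (hind : a ∉ Submodule.span F {b}) (hb0 : b ≠ 0) :
    ∃ z, Q z ≠ 0 ∧ QuadraticMap.polar (⇑Q) a z ≠ 0 ∧ QuadraticMap.polar (⇑Q) b z ≠ 0 := by
  have hind' : b ∉ Submodule.span F {a} := by
    intro h
    obtain ⟨c, rfl⟩ := Submodule.mem_span_singleton.1 h
    apply hind
    have hc0 : c ≠ 0 := by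
      rintro rfl
      simp at hb0
    rw [Submodule.mem_span_singleton]
    refine ⟨c⁻¹, ?_⟩
    rw [smul_smul, inv_mul_cancel₀ hc0, one_smul]
  obtain ⟨x, hx1, hx2⟩ := exists_separating hQ hind
  obtain ⟨y, hy1, hy2⟩ := exists_separating hQ hind'
  set z := x + y with hz
  have hza : QuadraticMap.polar (⇑Q) a z = 1 := by
    rw [hz, QuadraticMap.polar_add_right, hx2, hy1, add_zero]
  have hzb : QuadraticMap.polar (⇑Q) b z = 1 := by
    rw [hz, QuadraticMap.polar_add_right, hx1, hy2, zero_add]
  have haa := polar_self_char2 Q hc a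
  have hbb := polar_self_char2 Q hc b
  have hba : QuadraticMap.polar (⇑Q) b a = 0 := by rwa [QuadraticMap.polar_comm]
  by_cases hQz : Q z = 0
  · by_cases hF : Fintype.card F ≠ 2
    · obtain ⟨s, hs0, hs1⟩ := exists_ne_zero_one hF
      refine ⟨z + s • a, ?_, ?_, ?_⟩
      · have e : Q (z + s • a) = Q z + Q (s • a) + QuadraticMap.polar (⇑Q) z (s • a) := by
          unfold QuadraticMap.polar; ring
        rw [e, hQz, QuadraticMap.map_smul, ha, QuadraticMap.polar_smul_right, QuadraticMap.polar_comm (⇑Q) z a, hza]
        simp only [smul_eq_mul, mul_one, zero_add]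
        have : s + 1 ≠ 0 := by
          intro h
          apply hs1
          have h3 : (1 + 1 : F) = 0 := by rw [one_add_one_eq_two, hc]
          linear_combination h - h3
        have h4 := mul_ne_zero hs0 this
        intro h5
        apply h4
        linear_combination h5
      · rw [QuadraticMap.polar_add_right, hza, QuadraticMap.polar_smul_right, haa]
        simp
      · rw [QuadraticMap.polar_add_right, hzb, QuadraticMap.polar_smul_right, hba]
        simp
    · -- `m ≠ 2`
      have hm2 : m ≠ 2 := by
        rcases hq with h | h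
        · exact absurd h hF
        · exact h
      -- the subspace `S = ⟨a, b⟩`, `K = S^⊥`
      let S : Submodule F (ι → F) := Submodule.span F {a, b}
      let K := (Pb Q).orthogonal S
      have hmemK : ∀ w, w ∈ K → QuadraticMap.polar (⇑Q) a w = 0 ∧ QuadraticMap.polar (⇑Q) b w = 0 := by
        intro w hw
        exact ⟨hw a (Submodule.subset_span (by simp)), hw b (Submodule.subset_span (by simp))⟩
      by_contra hcon
      push Not at hcon
      have hzw : ∀ w ∈ K, Q (z + w) = 0 := by
        intro w hw
        by_contra hne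
        have h1 := hcon (z + w) hne
        rw [QuadraticMap.polar_add_right, hza, (hmemK w hw).1, add_zero] at h1
        have h2 := h1 one_ne_zero
        rw [QuadraticMap.polar_add_right, hzb, (hmemK w hw).2, add_zero] at h2
        exact one_ne_zero h2
      have hQw : ∀ w ∈ K, Q w = - QuadraticMap.polar (⇑Q) z w := by
        intro w hw
        have h1 := hzw w hw
        have e : Q (z + w) = Q z + Q w + QuadraticMap.polar (⇑Q) z w := by
          unfold QuadraticMap.polar; ring
        rw [e, hQz, zero_add] at h1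
        linear_combination h1
      have hKK : K ≤ (Pb Q).orthogonal K := by
        intro w hw v hv
        change QuadraticMap.polar (⇑Q) v w = 0
        unfold QuadraticMap.polar
        rw [hQw _ (K.add_mem hv hw), hQw _ hw, hQw _ hv, QuadraticMap.polar_add_right]
        ring
      have hOO : (Pb Q).orthogonal K = S :=
        LinearMap.BilinForm.orthogonal_orthogonal hQ (pb_isRefl hQ) S
      have hSK : S ≤ K := by
        intro v hv
        refine Submodule.span_induction (p := fun v _ => v ∈ K) ?_ K.zero_mem (fun _ _ _ _ h1 h2 => K.add_mem h1 h2)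
          (fun _ _ _ h => K.smul_mem _ h) hv
        intro u hu
        intro w hw
        obtain ⟨c1, c2, rfl⟩ : ∃ c1 c2 : F, w = c1 • a + c2 • b := by
          obtain ⟨c1, c2, h⟩ := Submodule.mem_span_pair.1 hw
          exact ⟨c1, c2, h.symm⟩
        change QuadraticMap.polar (⇑Q) (c1 • a + c2 • b) u = 0
        rw [QuadraticMap.polar_add_left, QuadraticMap.polar_smul_left, QuadraticMap.polar_smul_left]
        rcases (by simpa using hu : u = a ∨ u = b) with rfl | rfl
        · rw [haa, hba]; simp
        · rw [hab, hbb]; simp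
      have hKS : K = S := le_antisymm (hKK.trans hOO.le) hSK
      have hfr : finrank F K + finrank F S = 2 * m := by
        have h5 := LinearMap.BilinForm.finrank_orthogonal hQ S
        have h6 : finrank F S ≤ finrank F (ι → F) := Submodule.finrank_le S
        rw [finrank_fintype_fun_eq_card, hdim] at h5 h6
        change finrank F K = _ at h5
        omega
      have hS2 : finrank F S = 2 := by
        have hli : LinearIndependent F ![a, b] := by
          rw [LinearIndependent.pair_iff]
          intro s t hst
          by_cases ht : t = 0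
          · subst ht
            have ha0 : a ≠ 0 := by
              rintro rfl
              simp at ha
            simp only [zero_smul, add_zero, smul_eq_zero] at hst
            exact ⟨hst.resolve_right ha0, rfl⟩
          · exfalso
            apply hind'
            rw [Submodule.mem_span_singleton]
            refine ⟨-(t⁻¹ * s), ?_⟩
            have : t • b = -(s • a) := by
              rw [eq_neg_iff_add_eq_zero, add_comm]; exact hst
            have h9 : b = t⁻¹ • (t • b) := by
              rw [smul_smul, inv_mul_cancel₀ ht, one_smul]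
            rw [h9, this, smul_neg, smul_smul, neg_smul]
        have := finrank_span_eq_card hli
        have e : Set.range ![a, b] = {a, b} := by
          ext x
          simp [eq_comm, or_comm]
        rw [e] at this
        simpa using this
      rw [hKS] at hfr
      omega
  · exact ⟨z, hQz, by rw [hza]; exact one_ne_zero, by rw [hzb]; exact one_ne_zero⟩

/-- **All products of two reflections lie in Ω** in characteristic 2 (except O⁺₄(2)). -/
theorem refl_mul_refl_mem_char2 {a b : ι → F} (ha : Q a ≠ 0) (hb : Q b ≠ 0) :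
    refl Q b hb * refl Q a ha ∈ Omega F (⇑Q) := by
  obtain ⟨s, hs0, hsa⟩ := exists_scale Q hc ha
  obtain ⟨t, ht0, htb⟩ := exists_scale Q hc hb
  have hne : ∀ {x : ι → F}, Q x = 1 → Q x ≠ 0 := fun h => by rw [h]; exact one_ne_zero
  have e1 : refl Q a ha = refl Q (s • a) (hne hsa) :=
    refl_congr Q ha (hne hsa) (reflMat_smul Q s hs0 a ha).symm
  have e2 : refl Q b hb = refl Q (t • b) (hne htb) :=
    refl_congr Q hb (hne htb) (reflMat_smul Q t ht0 b hb).symm
  rw [e1, e2]
  generalize s • a = a' at hsa
  generalize t • b = b' at htb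
  by_cases hpol : QuadraticMap.polar (⇑Q) a' b' = 0
  · by_cases hind : a' ∈ Submodule.span F {b'}
    · obtain ⟨c, hc'⟩ := Submodule.mem_span_singleton.1 hind
      have hc0 : c ≠ 0 := by
        rintro rfl
        rw [zero_smul] at hc'
        rw [← hc'] at hsa
        simp at hsa
      have e : refl Q b' (hne htb) = refl Q a' (hne hsa) :=
        refl_congr Q _ _ (by rw [← hc']; exact (reflMat_smul Q c hc0 b' (hne htb)).symm)
      rw [e, refl_mul_self]
      exact Subgroup.one_mem _
    · have hb0 : b' ≠ 0 := by
        rintro rfl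
        simp at htb
      obtain ⟨z, hz1, hz2, hz3⟩ := exists_common hc hQ hdim hq hsa htb hpol hind hb0
      obtain ⟨u, hu0, huz⟩ := exists_scale Q hc hz1
      have h1 := step_polar_ne Q hc hsa huz (by
        rw [QuadraticMap.polar_smul_right]
        exact smul_ne_zero hu0 hz2) (hne hsa) (hne huz)
      have h2 := step_polar_ne Q hc huz htb (by
        rw [QuadraticMap.polar_comm, QuadraticMap.polar_smul_right]
        exact smul_ne_zero hu0 hz3) (hne huz) (hne htb)
      have h3 := Subgroup.mul_mem _ h2 h1
      have e : refl Q b' (hne htb) * refl Q (u • z) (hne huz) * (refl Q (u • z) (hne huz) * refl Q a' (hne hsa)) =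
          refl Q b' (hne htb) * refl Q a' (hne hsa) := by
        rw [mul_assoc, ← mul_assoc (refl Q (u • z) (hne huz)), refl_mul_self, one_mul]
      rwa [e] at h3
  · exact step_polar_ne Q hc hsa htb hpol (hne hsa) (hne htb)

/-- even products of reflections lie in Ω -/
theorem exists_omega_of_even (n : ℕ) : ∀ (L : List (ι → F)), (∀ v ∈ L, Q v ≠ 0) → L.length = 2 * n →
    ∃ g : ↥(isometryGroup F (⇑Q)), g ∈ Omega F (⇑Q) ∧ (g : GL ι F).val = prodM Q L := by
  induction n with
  | zero =>
    intro L _ hL
    have : L = [] := List.length_eq_zero_iff.1 (by omega)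
    subst this
    exact ⟨1, Subgroup.one_mem _, rfl⟩
  | succ n ih =>
    intro L hL hlen
    match L, hL, hlen with
    | a :: b :: L', hL, hlen =>
      have ha := hL a (by simp)
      have hb := hL b (by simp)
      obtain ⟨g, hg1, hg2⟩ := ih L' (fun v hv => hL v (by simp [hv])) (by simp at hlen; omega)
      refine ⟨refl Q a ha * refl Q b hb * g, Subgroup.mul_mem _ (refl_mul_refl_mem_char2 hc hQ hdim hq hb ha) hg1, ?_⟩
      rw [prodM_cons, prodM_cons, ← mul_assoc, ← hg2]
      rfl

end main

end Cfsg.Agent.H11
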