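import Cfsg.Agent.Lib.H11.MTS5

set_option autoImplicit false
set_option linter.unusedSectionVars false

namespace Cfsg.Agent.H11

open Cfsg Matrix Module
open Cfsg.Agent.H03 (reflection_mulVec reflection_isometry reflection_self reflection_det polarVec_dot)

variable {F : Type*} [Field F]

lemma exists_elem {ι : Type} [Fintype ι] [DecidableEq ι] (Q : QuadraticForm F (ι → F)) (L : List (ι → F))
    (hL : ∀ v ∈ L, Q v ≠ 0) : ∃ g : ↥(isometryGroup F (⇑Q)), (g : GL ι F).val = prodM Q L := by
  obtain ⟨g, h, _⟩ := exists_prod_refl.{0} Q L hL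
  exact ⟨g, h⟩

variable [Fintype F]

/-- Ω is transitive on each class. -/
theorem exists_omega_carry {m : ℕ} (hm : 1 ≤ m) (hq : Fintype.card F ≠ 2 ∨ m ≠ 2)
    {U W : Submodule F (Fin m ⊕ Fin m → F)} (hU : IsMTS (plusForm m F) m U) (hW : IsMTS (plusForm m F) m W)
    (he : Even (m - finrank F (U ⊓ W : Submodule F (Fin m ⊕ Fin m → F)))) :
    ∃ g : ↥(isometryGroup F (quadFormPlus m F)), g ∈ Omega F (quadFormPlus m F) ∧
      U.map (Matrix.mulVecLin ((g : GL (Fin m ⊕ Fin m) F) : Matrix (Fin m ⊕ Fin m) (Fin m ⊕ Fin m) F)) = W := by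
  classical
  obtain ⟨L, hL1, hL2, hL3⟩ := exists_list (card_sum m) (plus_nondeg' (F := F) m) _ hU hW
    (Nat.sub_add_cancel hU.inf_le)
  by_cases h2 : (2 : F) = 0
  · obtain ⟨n, hn⟩ := he
    obtain ⟨g, hg1, hg2⟩ := exists_omega_of_even h2 (plus_nondeg' m) (card_sum m) hq n L hL1 (by omega)
    exact ⟨g, hg1, by rw [hg2]; exact hL3⟩
  · obtain ⟨L₁, hL₁1, _, hL₁3⟩ := exists_list (card_sum m) (plus_nondeg' (F := F) m) _ (U0_mts m) hW
      (Nat.sub_add_cancel (U0_mts m).inf_le)
    obtain ⟨h₁, hh₁⟩ := exists_elem (plusForm m F) L₁ hL₁1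
    set s := (L.map (fun v => plusForm m F v)).prod with hs
    have hs0 : s ≠ 0 := by
      intro h
      rw [hs, List.prod_eq_zero_iff] at h
      obtain ⟨v, hv, hv0⟩ := List.mem_map.1 h
      exact hL1 v hv hv0
    let i₀ : Fin m := ⟨0, hm⟩
    set v₁ := hypVec i₀ (1 : F) with hv₁
    set v₂ := hypVec i₀ s with hv₂
    have hQ₁ : plusForm m F v₁ = -1 := Q_hypVec i₀ 1
    have hQ₂ : plusForm m F v₂ = -s := Q_hypVec i₀ s
    set w₁ := (h₁ : GL (Fin m ⊕ Fin m) F).val *ᵥ v₁ with hw₁
    set w₂ := (h₁ : GL (Fin m ⊕ Fin m) F).val *ᵥ v₂ with hw₂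
    have hisom := mem_isometryGroup_iff.1 h₁.2
    have hQw₁ : plusForm m F w₁ = -1 := by rw [← hQ₁]; exact hisom v₁
    have hQw₂ : plusForm m F w₂ = -s := by rw [← hQ₂]; exact hisom v₂
    have hL₂ : ∀ v ∈ w₁ :: w₂ :: L, plusForm m F v ≠ 0 := by
      intro v hv
      rcases List.mem_cons.1 hv with rfl | hv
      · rw [hQw₁]; simp
      · rcases List.mem_cons.1 hv with rfl | hv
        · rw [hQw₂]; exact neg_ne_zero.2 hs0
        · exact hL1 v hv
    obtain ⟨g, hg⟩ := exists_elem (plusForm m F) (w₁ :: w₂ :: L) hL₂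
    refine ⟨g, ?_, ?_⟩
    · refine (spinor_criterion h2 (by rw [card_sum]; omega) (plusForm m F) (plus_nondeg' m) g _ hL₂ hg).2 ⟨?_, ?_⟩
      · rw [List.length_cons, List.length_cons, hL2]
        obtain ⟨n, hn⟩ := he
        exact ⟨n + 1, by omega⟩
      · have : ((w₁ :: w₂ :: L).map (fun v => plusForm m F v)).prod = s * s := by
          simp only [List.map_cons, List.prod_cons]
          rw [hQw₁, hQw₂, ← hs]
          ring
        rw [this]
        exact ⟨s, rfl⟩
    · have hgm : ((g : GL (Fin m ⊕ Fin m) F) : Matrix (Fin m ⊕ Fin m) (Fin m ⊕ Fin m) F) =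
          reflectionMatrix (⇑(plusForm m F)) w₁ * reflectionMatrix (⇑(plusForm m F)) w₂ * prodM (plusForm m F) L := by
        rw [hg, prodM_cons, prodM_cons, mul_assoc]
      have hconj : ((h₁ : GL (Fin m ⊕ Fin m) F) : Matrix (Fin m ⊕ Fin m) (Fin m ⊕ Fin m) F) *
          (reflectionMatrix (⇑(plusForm m F)) v₁ * reflectionMatrix (⇑(plusForm m F)) v₂) =
          reflectionMatrix (⇑(plusForm m F)) w₁ * reflectionMatrix (⇑(plusForm m F)) w₂ *
            ((h₁ : GL (Fin m ⊕ Fin m) F) : Matrix (Fin m ⊕ Fin m) (Fin m ⊕ Fin m) F) := by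
        rw [← mul_assoc, isom_mul_refl (plusForm m F) h₁ v₁, mul_assoc, isom_mul_refl (plusForm m F) h₁ v₂,
          ← mul_assoc]
      have hstab : ∀ x ∈ W, (reflectionMatrix (⇑(plusForm m F)) w₁ * reflectionMatrix (⇑(plusForm m F)) w₂) *ᵥ x ∈ W := by
        intro x hx
        rw [← hL₁3] at hx
        obtain ⟨u, hu, rfl⟩ := hx
        rw [Matrix.mulVecLin_apply, ← hh₁, Matrix.mulVec_mulVec, ← hconj, ← hL₁3]
        refine ⟨(reflectionMatrix (⇑(plusForm m F)) v₁ * reflectionMatrix (⇑(plusForm m F)) v₂) *ᵥ u, ?_, ?_⟩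
        · have h3 := levi_D i₀ (Units.mk0 s hs0)
          rw [Units.val_mk0] at h3
          rw [← hv₁, ← hv₂] at h3
          rw [← h3, leviHom_coe]
          change _ ∈ U0 m F
          rw [mem_U0]
          intro i
          rw [Matrix.fromBlocks_mulVec]
          simp only [Sum.elim_inr, Matrix.zero_mulVec, zero_add]
          have : (u ∘ Sum.inr) = 0 := by
            funext j
            exact (mem_U0 u).1 hu j
          rw [this]
          simp
        · rw [Matrix.mulVecLin_apply, ← hh₁, Matrix.mulVec_mulVec]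
      apply Submodule.eq_of_le_of_finrank_eq
      · rintro _ ⟨x, hx, rfl⟩
        rw [Matrix.mulVecLin_apply, hgm, ← Matrix.mulVec_mulVec]
        apply hstab
        rw [← hL3]
        exact ⟨x, hx, rfl⟩
      · rw [finrank_map_inj _ (gl_injective _), hU.card, hW.card]

/-- the swap element -/
lemma prodM_swap {m : ℕ} (l : List (Fin m)) (hl : l.Nodup) (x : Fin m ⊕ Fin m → F) (k : Fin m ⊕ Fin m) :
    (prodM (plusForm m F) (l.map (fun i => hypVec i (1 : F))) *ᵥ x) k =
      if Sum.elim id id k ∈ l then x (Sum.swap k) else x k := by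
  induction l generalizing k with
  | nil => simp [prodM_nil]
  | cons a l ih =>
    rw [List.nodup_cons] at hl
    rw [List.map_cons, prodM_cons, ← Matrix.mulVec_mulVec, refl_hypVec a 1 one_ne_zero]
    by_cases h1 : k = Sum.inl a
    · subst h1
      have := ih hl.2 (Sum.inr a)
      simp only [Sum.elim_inr, id, hl.1, if_false] at this
      simp [this]
    · by_cases h2 : k = Sum.inr a
      · subst h2
        have := ih hl.2 (Sum.inl a)
        simp only [Sum.elim_inl, id, hl.1, if_false] at this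
        simp [this]
      · have h3 : Sum.elim id id k ≠ a := by
          rcases k with b | b
          · simp only [Sum.elim_inl, id]
            rintro rfl
            exact h1 rfl
          · simp only [Sum.elim_inr, id]
            rintro rfl
            exact h2 rfl
        simp only [if_neg h1, if_neg h2, List.mem_cons, h3, false_or]
        exact ih hl.2 k

theorem swap_iff {m : ℕ} (hm : 1 ≤ m) (hq : Fintype.card F ≠ 2 ∨ m ≠ 2) :
    (∃ g : ↥(isometryGroup F (quadFormPlus m F)), g ∈ Omega F (quadFormPlus m F) ∧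
      (∀ v : Fin m ⊕ Fin m → F, (∀ i, v (Sum.inr i) = 0) → ∀ i, (((g : GL (Fin m ⊕ Fin m) F) : Matrix (Fin m ⊕ Fin m) (Fin m ⊕ Fin m) F).mulVec v) (Sum.inl i) = 0) ∧
      (∀ v : Fin m ⊕ Fin m → F, (∀ i, v (Sum.inl i) = 0) → ∀ i, (((g : GL (Fin m ⊕ Fin m) F) : Matrix (Fin m ⊕ Fin m) (Fin m ⊕ Fin m) F).mulVec v) (Sum.inr i) = 0)) ↔ Even m := by
  classical
  constructor
  · rintro ⟨g, hg, h1, _⟩
    have h3 := dick_omega (card_sum m) (plus_nondeg' (F := F) m) (U0_mts m) hg
    have h4 : (U0 m F ⊓ imG (Q := plusForm m F) g (U0 m F) : Submodule F (Fin m ⊕ Fin m → F)) = ⊥ := by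
      rw [eq_bot_iff, ← U0_inf_V0 (F := F) m]
      apply inf_le_inf_left
      rintro _ ⟨u, hu, rfl⟩
      rw [mem_V0]
      exact h1 u ((mem_U0 u).1 hu)
    rw [h4, finrank_bot, add_zero] at h3
    exact h3
  · intro hev
    let L : List (Fin m ⊕ Fin m → F) := (List.finRange m).map (fun i => hypVec i (1 : F))
    have hL : ∀ v ∈ L, plusForm m F v ≠ 0 := by
      intro v hv
      obtain ⟨i, _, rfl⟩ := List.mem_map.1 hv
      rw [Q_hypVec]
      simp
    have hlen : L.length = m := by simp [L]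
    have hact : ∀ x k, (prodM (plusForm m F) L *ᵥ x) k = x (Sum.swap k) := by
      intro x k
      rw [prodM_swap _ (List.nodup_finRange m)]
      simp
    have hmem : ∃ g : ↥(isometryGroup F (quadFormPlus m F)), g ∈ Omega F (quadFormPlus m F) ∧
        (g : GL (Fin m ⊕ Fin m) F).val = prodM (plusForm m F) L := by
      by_cases h2 : (2 : F) = 0
      · obtain ⟨n, hn⟩ := hev
        exact exists_omega_of_even h2 (plus_nondeg' m) (card_sum m) hq n L hL (by omega)
      · obtain ⟨g, hg⟩ := exists_elem (plusForm m F) L hL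
        refine ⟨g, (spinor_criterion h2 (by rw [card_sum]; omega) (plusForm m F) (plus_nondeg' m) g _ hL hg).2 ⟨?_, ?_⟩, hg⟩
        · rwa [hlen]
        · have : (L.map (fun v => plusForm m F v)).prod = (-1) ^ m := by
            simp only [L, List.map_map]
            have : ((fun v => (plusForm m F) v) ∘ fun i => hypVec i (1 : F)) = fun _ => (-1 : F) := by
              funext i
              exact Q_hypVec i 1
            rw [this, List.map_const', List.prod_replicate, List.length_finRange]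
          rw [this, hev.neg_one_pow]
          exact ⟨1, by simp⟩
    obtain ⟨g, hg1, hg2⟩ := hmem
    refine ⟨g, hg1, ?_, ?_⟩
    · intro v hv i
      change ((g : GL (Fin m ⊕ Fin m) F).val *ᵥ v) (Sum.inl i) = 0
      rw [hg2, hact]
      exact hv i
    · intro v hv i
      change ((g : GL (Fin m ⊕ Fin m) F).val *ᵥ v) (Sum.inr i) = 0
      rw [hg2, hact]
      exact hv i

end Cfsg.Agent.H11
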