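import Cfsg.Agent.Lib.H11.MTS6

set_option autoImplicit false
set_option linter.unusedSectionVars false

namespace Cfsg.Agent.H11

open Cfsg Matrix Module

variable {F : Type*} [Field F] {m : ℕ}

/-- alternating matrices -/
def AltM (S : Matrix (Fin m) (Fin m) F) : Prop := ∀ y, (S *ᵥ y) ⬝ᵥ y = 0

lemma AltM.neg {S : Matrix (Fin m) (Fin m) F} (h : AltM S) : AltM (-S) := by
  intro y
  rw [Matrix.neg_mulVec, neg_dotProduct, h y, neg_zero]

/-- unipotent matrices -/
noncomputable abbrev uM (S : Matrix (Fin m) (Fin m) F) : Matrix (Fin m ⊕ Fin m) (Fin m ⊕ Fin m) F :=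
  Matrix.fromBlocks 1 S 0 1

lemma uM_mul (S T : Matrix (Fin m) (Fin m) F) : uM S * uM T = uM (T + S) := by
  rw [uM, uM, Matrix.fromBlocks_multiply]
  simp [uM]

lemma uM_zero : uM (0 : Matrix (Fin m) (Fin m) F) = 1 := by
  simp [uM]

/-- the unipotent element -/
noncomputable def uEl (S : Matrix (Fin m) (Fin m) F) (hS : AltM S) : ↥(isometryGroup F (quadFormPlus m F)) :=
  ⟨⟨uM S, uM (-S), by rw [uM_mul]; simp [uM_zero], by rw [uM_mul]; simp [uM_zero]⟩, by
    rw [mem_isometryGroup_iff]
    intro v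
    change quadFormPlus m F _ = _
    simp only [uM, Matrix.fromBlocks_mulVec, Matrix.one_mulVec, Matrix.zero_mulVec, zero_add]
    rw [quadFormPlus_eq_dot, quadFormPlus_eq_dot, Sum.elim_comp_inl, Sum.elim_comp_inr,
      add_dotProduct, hS, add_zero]⟩

lemma uEl_val (S : Matrix (Fin m) (Fin m) F) (hS : AltM S) :
    ((uEl S hS : ↥(isometryGroup F (quadFormPlus m F))) : GL (Fin m ⊕ Fin m) F).val = uM S := rfl

lemma uEl_inv_val (S : Matrix (Fin m) (Fin m) F) (hS : AltM S) :
    (((uEl S hS)⁻¹ : ↥(isometryGroup F (quadFormPlus m F))) : GL (Fin m ⊕ Fin m) F).val = uM (-S) := rfl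

/-- elements of `Ω` of unipotent type -/
def InOm (S : Matrix (Fin m) (Fin m) F) : Prop :=
  ∃ g : ↥(isometryGroup F (quadFormPlus m F)), g ∈ Omega F (quadFormPlus m F) ∧
    (g : GL (Fin m ⊕ Fin m) F).val = uM S

lemma InOm.add {S T : Matrix (Fin m) (Fin m) F} (hS : InOm S) (hT : InOm T) : InOm (S + T) := by
  obtain ⟨g, hg1, hg2⟩ := hS
  obtain ⟨h, hh1, hh2⟩ := hT
  refine ⟨h * g, Subgroup.mul_mem _ hh1 hg1, ?_⟩
  change (h : GL (Fin m ⊕ Fin m) F).val * (g : GL (Fin m ⊕ Fin m) F).val = _
  rw [hg2, hh2, uM_mul]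

lemma InOm.zero : InOm (0 : Matrix (Fin m) (Fin m) F) :=
  ⟨1, Subgroup.one_mem _, uM_zero.symm⟩

lemma InOm.sum {ι : Type*} (s : Finset ι) (f : ι → Matrix (Fin m) (Fin m) F) (h : ∀ i ∈ s, InOm (f i)) :
    InOm (∑ i ∈ s, f i) :=
  Finset.sum_induction _ InOm (fun _ _ => InOm.add) InOm.zero h

lemma altM_conj (A : GL (Fin m) F) {S : Matrix (Fin m) (Fin m) F} (hS : AltM S) :
    AltM (A.val * S * A.val.transpose) := by
  intro y
  rw [← Matrix.mulVec_mulVec, ← Matrix.mulVec_mulVec, dotProduct_comm, Matrix.dotProduct_mulVec,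
    ← Matrix.mulVec_transpose, dotProduct_comm]
  exact hS _

/-- commutators of Levi and unipotent elements -/
lemma inOm_comm (A : GL (Fin m) F) {S : Matrix (Fin m) (Fin m) F} (hS : AltM S) :
    InOm (A.val * S * A.val.transpose - S) := by
  let a := leviHom m F A
  let b := uEl S hS
  refine ⟨a * b * a⁻¹ * b⁻¹, Subgroup.commutator_mem_commutator (Subgroup.mem_top a) (Subgroup.mem_top b), ?_⟩
  have h1 : ((a⁻¹ : ↥(isometryGroup F (quadFormPlus m F))) : GL (Fin m ⊕ Fin m) F).val =
      Matrix.fromBlocks (A⁻¹).val 0 0 A.val.transpose := rfl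
  have h2 : (a : GL (Fin m ⊕ Fin m) F).val = Matrix.fromBlocks A.val 0 0 (A⁻¹).val.transpose := rfl
  change (a : GL (Fin m ⊕ Fin m) F).val * (b : GL (Fin m ⊕ Fin m) F).val *
    ((a⁻¹ : ↥(isometryGroup F (quadFormPlus m F))) : GL (Fin m ⊕ Fin m) F).val *
    ((b⁻¹ : ↥(isometryGroup F (quadFormPlus m F))) : GL (Fin m ⊕ Fin m) F).val = _
  rw [uEl_val, uEl_inv_val, h1, h2, uM, uM, uM, Matrix.fromBlocks_multiply, Matrix.fromBlocks_multiply,
    Matrix.fromBlocks_multiply]
  have e1 : (A⁻¹).val.transpose * A.val.transpose = 1 := by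
    rw [← Matrix.transpose_mul, Units.mul_inv, Matrix.transpose_one]
  simp only [mul_one, mul_zero, zero_mul, add_zero, zero_add, Units.mul_inv, e1, mul_neg, one_mul, neg_zero]
  rw [sub_eq_add_neg, add_comm]

/-- scalar element of `GL` -/
noncomputable def Dsc (t : F) (ht : t ≠ 0) : GL (Fin m) F :=
  ⟨t • 1, t⁻¹ • 1, by simp [smul_smul, ht], by simp [smul_smul, ht]⟩

/-- elementary alternating matrices -/
noncomputable abbrev EE (c : F) (i j : Fin m) : Matrix (Fin m) (Fin m) F :=
  Matrix.single i j c - Matrix.single j i c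

lemma altM_EE (c : F) (i j : Fin m) : AltM (EE c i j) := by
  intro y
  rw [EE, Matrix.sub_mulVec, Matrix.single_mulVec_eq, Matrix.single_mulVec_eq, sub_dotProduct,
    smul_dotProduct, smul_dotProduct, single_one_dotProduct, single_one_dotProduct]
  simp only [smul_eq_mul]
  ring

/-- `u(c(E_ij - E_ji)) ∈ Ω`, char 2. -/
lemma inOm_EE [Fintype F] (hc : (2 : F) = 0) (hq : Fintype.card F ≠ 2 ∨ m ≠ 2) (c : F) (i j : Fin m) (hij : i ≠ j) :
    InOm (EE c i j) := by
  classical
  by_cases hF : Fintype.card F ≠ 2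
  · obtain ⟨t, ht0, ht1⟩ := exists_ne_zero_one hF
    have ht2 : t ^ 2 - 1 ≠ 0 := by
      have : t ^ 2 - 1 = (t - 1) * (t - 1) := by linear_combination (t - 1) * hc
      rw [this]
      exact mul_ne_zero (sub_ne_zero.2 ht1) (sub_ne_zero.2 ht1)
    let d := (t ^ 2 - 1)⁻¹ * c
    have h1 := inOm_comm (Dsc t ht0) (altM_EE d i j)
    have h2 : (Dsc t ht0 : GL (Fin m) F).val * EE d i j * (Dsc t ht0 : GL (Fin m) F).val.transpose - EE d i j = EE c i j := by
      ext a b
      have e : (Dsc t ht0 : GL (Fin m) F).val = t • (1 : Matrix (Fin m) (Fin m) F) := rfl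
      rw [e]
      simp only [Matrix.transpose_smul, Matrix.transpose_one, Matrix.smul_mul, Matrix.mul_smul, mul_one, one_mul,
        Matrix.sub_apply, Matrix.smul_apply, smul_eq_mul, Matrix.single_apply, d]
      split_ifs <;> field_simp <;> ring
    rwa [h2] at h1
  · have hm2 : m ≠ 2 := by
      rcases hq with h | h
      · exact absurd h hF
      · exact h
    have hm3 : 3 ≤ m := by
      have h1 : (i : ℕ) < m := i.2
      have h2 : (j : ℕ) < m := j.2
      have h3 : (i : ℕ) ≠ j := fun h => hij (Fin.ext h)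
      omega
    obtain ⟨k, hki, hkj⟩ : ∃ k : Fin m, k ≠ i ∧ k ≠ j := by
      by_contra hcon
      push Not at hcon
      have h1 : (Finset.univ : Finset (Fin m)) ⊆ {i, j} := by
        intro x _
        by_cases hx : x = i
        · simp [hx]
        · simp [hcon x hx]
      have h2 := Finset.card_le_card h1
      rw [Finset.card_univ, Fintype.card_fin, Finset.card_pair hij] at h2
      omega
    have h1 := inOm_comm (Tr i k hki.symm (1 : F)) (altM_EE c k j)
    have h2 : (Tr i k hki.symm (1 : F) : GL (Fin m) F).val * EE c k j * (Tr i k hki.symm (1 : F) : GL (Fin m) F).val.transpose - EE c k j = EE c i j := by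
      change Matrix.transvection i k (1 : F) * EE c k j * (Matrix.transvection i k (1 : F)).transpose - EE c k j = EE c i j
      simp only [Matrix.transvection, Matrix.transpose_add, Matrix.transpose_one, Matrix.transpose_single, EE,
        add_mul, mul_add, one_mul, mul_one, mul_sub, sub_mul]
      simp [hkj, hki, hkj.symm, hki.symm]
      abel
    rwa [h2] at h1

/-- `u(S) ∈ Ω` for every alternating `S`, char 2. -/
lemma inOm_of_alt [Fintype F] (hc : (2 : F) = 0) (hq : Fintype.card F ≠ 2 ∨ m ≠ 2)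
    (S : Matrix (Fin m) (Fin m) F) (hS : AltM S) : InOm S := by
  classical
  let T : Matrix (Fin m) (Fin m) F := Matrix.of fun i j => if i < j then S i j else 0
  have hdiag : ∀ i, S i i = 0 := by
    intro i
    have := hS (Pi.single i 1)
    simpa [Matrix.mulVec_single_one] using this
  have hskew : ∀ i j, i ≠ j → S j i = - S i j := by
    intro i j hij
    have := hS (Pi.single i 1 + Pi.single j 1)
    simp only [Matrix.mulVec_add, add_dotProduct, dotProduct_add, Matrix.mulVec_single_one, dotProduct_single] at this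
    simp [hdiag] at this
    linear_combination this
  have hST : S = T - T.transpose := by
    ext i j
    simp only [Matrix.sub_apply, Matrix.transpose_apply, T, Matrix.of_apply]
    rcases lt_trichotomy i j with h | h | h
    · simp [h, not_lt.2 h.le]
    · subst h; simp [hdiag]
    · simp only [h, not_lt.2 h.le, if_true, if_false, zero_sub]
      rw [hskew j i h.ne]
  have hT : T - T.transpose = ∑ i, ∑ j, EE (T i j) i j := by
    conv_lhs => rw [Matrix.matrix_eq_sum_single T, Matrix.transpose_sum]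
    simp only [Matrix.transpose_sum, Matrix.transpose_single, EE, Finset.sum_sub_distrib]
  rw [hST, hT]
  apply InOm.sum
  intro i _
  apply InOm.sum
  intro j _
  by_cases hij : i < j
  · exact inOm_EE hc hq _ i j hij.ne
  · have : T i j = 0 := by simp [T, hij]
    rw [this]
    simpa [EE] using InOm.zero

end Cfsg.Agent.H11
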