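import Mathlib

set_option autoImplicit false
set_option linter.unusedSectionVars false

namespace Cfsg.Agent.H11.Mers

open Matrix

variable {F : Type*} [Field F]

abbrev M2 (F : Type*) [Field F] := Matrix (Fin 2) (Fin 2) F

/-- elements commuting or anticommuting with `M` -/
def SS (M : M2 F) : Subgroup (GL (Fin 2) F) where
  carrier := {B | (B : M2 F) * M = M * B ∨ (B : M2 F) * M = -(M * B)}
  mul_mem' := by
    rintro a b (h1 | h1) (h2 | h2)
    · left
      rw [Units.val_mul, mul_assoc, h2, ← mul_assoc, h1, mul_assoc]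
    · right
      rw [Units.val_mul, mul_assoc, h2, mul_neg, ← mul_assoc, h1, mul_assoc]
    · right
      rw [Units.val_mul, mul_assoc, h2, ← mul_assoc, h1, neg_mul, mul_assoc]
    · left
      rw [Units.val_mul, mul_assoc, h2, mul_neg, ← mul_assoc, h1, neg_mul, neg_neg, mul_assoc]
  one_mem' := by
    left
    simp
  inv_mem' := by
    intro a ha
    have h1 : ((a⁻¹ : GL (Fin 2) F) : M2 F) * (a : M2 F) = 1 := by
      rw [← Units.val_mul, inv_mul_cancel, Units.val_one]
    have h2 : (a : M2 F) * ((a⁻¹ : GL (Fin 2) F) : M2 F) = 1 := by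
      rw [← Units.val_mul, mul_inv_cancel, Units.val_one]
    set b : M2 F := ((a⁻¹ : GL (Fin 2) F) : M2 F) with hb
    rcases ha with ha | ha
    · left
      change b * M = M * b
      calc b * M = b * M * (a * b) := by rw [h2, mul_one]
        _ = b * (M * a) * b := by simp only [mul_assoc]
        _ = b * (a * M) * b := by rw [ha]
        _ = (b * a) * M * b := by simp only [mul_assoc]
        _ = _ := by rw [h1, one_mul]
    · right
      change b * M = -(M * b)
      have ha' : M * a = -((a : M2 F) * M) := by rw [ha, neg_neg]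
      calc b * M = b * M * (a * b) := by rw [h2, mul_one]
        _ = b * (M * a) * b := by simp only [mul_assoc]
        _ = b * (-((a : M2 F) * M)) * b := by rw [ha']
        _ = -((b * a) * M * b) := by simp only [mul_assoc, mul_neg, neg_mul]
        _ = _ := by rw [h1, one_mul]

lemma mem_SS {M : M2 F} {B : GL (Fin 2) F} :
    B ∈ SS M ↔ (B : M2 F) * M = M * B ∨ (B : M2 F) * M = -(M * B) := Iff.rfl

/-- conjugation -/
lemma conj_mem_SS {M : M2 F} {A B : GL (Fin 2) F} (hB : B ∈ SS ((A : M2 F) * M * ((A⁻¹ : GL (Fin 2) F) : M2 F))) :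
    A⁻¹ * B * A ∈ SS M := by
  have h1 : ((A⁻¹ : GL (Fin 2) F) : M2 F) * (A : M2 F) = 1 := by
    rw [← Units.val_mul, inv_mul_cancel, Units.val_one]
  have h2 : (A : M2 F) * ((A⁻¹ : GL (Fin 2) F) : M2 F) = 1 := by
    rw [← Units.val_mul, mul_inv_cancel, Units.val_one]
  set a : M2 F := ((A⁻¹ : GL (Fin 2) F) : M2 F) with ha
  rw [mem_SS] at hB ⊢
  simp only [Units.val_mul]
  rcases hB with hB | hB
  · left
    calc a * B * A * M = a * (B * (A * M * a)) * A := by
          simp only [mul_assoc, h1, mul_one]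
      _ = a * ((A * M * a) * B) * A := by rw [hB]
      _ = (a * A) * M * (a * B * A) := by simp only [mul_assoc]
      _ = _ := by rw [h1, one_mul]
  · right
    calc a * B * A * M = a * (B * (A * M * a)) * A := by
          simp only [mul_assoc, h1, mul_one]
      _ = a * (-((A * M * a) * B)) * A := by rw [hB]
      _ = -((a * A) * M * (a * B * A)) := by simp only [mul_assoc, mul_neg, neg_mul]
      _ = _ := by rw [h1, one_mul]

section common

variable (hn : ∀ c : F, c * c ≠ -1) (h2 : (2 : F) ≠ 0)
include hn h2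

lemma no_eig {M : M2 F} (hM : M * M = -1) {v : Fin 2 → F} (hv : v ≠ 0) :
    v 0 * (M *ᵥ v) 1 - v 1 * (M *ᵥ v) 0 ≠ 0 := by
  intro h
  obtain ⟨lam, hlam⟩ : ∃ c : F, M *ᵥ v = c • v := by
    generalize M *ᵥ v = w at h
    by_cases h0 : v 0 = 0
    · have h1 : v 1 ≠ 0 := by
        intro h1
        apply hv
        funext i
        fin_cases i
        · exact h0
        · exact h1
      refine ⟨w 1 / v 1, ?_⟩
      rw [h0] at h
      have h3 : w 0 = 0 := by
        have : v 1 * w 0 = 0 := by linear_combination -h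
        exact (mul_eq_zero.1 this).resolve_left h1
      funext i
      fin_cases i
      · simp [h3, h0]
      · simp; field_simp
    · refine ⟨w 0 / v 0, ?_⟩
      funext i
      fin_cases i
      · simp; field_simp
      · simp
        field_simp
        linear_combination h
  have h5 : M *ᵥ (M *ᵥ v) = -v := by
    rw [Matrix.mulVec_mulVec, hM, Matrix.neg_mulVec, Matrix.one_mulVec]
  rw [hlam, Matrix.mulVec_smul, hlam, smul_smul] at h5
  obtain ⟨i, hi⟩ := Function.ne_iff.1 hv
  have h6 := congrFun h5 i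
  simp only [Pi.smul_apply, smul_eq_mul, Pi.neg_apply] at h6
  apply hn lam
  have hi' : v i ≠ 0 := hi
  apply mul_right_cancel₀ hi'
  linear_combination h6

/-- the key lemma -/
lemma common {M₁ M₂ : M2 F} (h₁ : M₁ * M₁ = -1) (h₂ : M₂ * M₂ = -1) :
    ∃ B : GL (Fin 2) F, B ∈ SS M₁ ∧ B ∈ SS M₂ ∧ ¬ ∃ c : F, (B : M2 F) = c • 1 := by
  classical
  set N := M₁ * M₂ - M₂ * M₁ with hN
  by_cases hN0 : N = 0
  · have hc : M₁ * M₂ = M₂ * M₁ := sub_eq_zero.1 hN0
    let B : GL (Fin 2) F := ⟨M₁, -M₁, by rw [mul_neg, h₁, neg_neg], by rw [neg_mul, h₁, neg_neg]⟩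
    refine ⟨B, Or.inl rfl, Or.inl hc, ?_⟩
    rintro ⟨c, hc'⟩
    apply hn c
    have h3 : (B : M2 F) = M₁ := rfl
    rw [h3] at hc'
    have := congrFun (congrFun h₁ 0) 0
    rw [hc'] at this
    simpa [Matrix.mul_apply, Fin.sum_univ_two] using this
  · have hanti1 : N * M₁ = -(M₁ * N) := by
      rw [hN, sub_mul, mul_sub, mul_assoc M₂, h₁, ← mul_assoc M₁ M₁, h₁]
      noncomm_ring
    have hanti2 : N * M₂ = -(M₂ * N) := by
      rw [hN, sub_mul, mul_sub, mul_assoc M₁, h₂, ← mul_assoc M₂ M₂, h₂]
      noncomm_ring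
    have hdet : N.det ≠ 0 := by
      intro h0
      obtain ⟨v, hv, hNv⟩ := Matrix.exists_mulVec_eq_zero_iff.2 h0
      have hw : N *ᵥ (M₁ *ᵥ v) = 0 := by
        rw [Matrix.mulVec_mulVec, hanti1, Matrix.neg_mulVec, ← Matrix.mulVec_mulVec, hNv]
        simp
      have hd := no_eig hn h2 h₁ hv
      set w := M₁ *ᵥ v with hw'
      have hent : ∀ i, N i 0 * v 0 + N i 1 * v 1 = 0 ∧ N i 0 * w 0 + N i 1 * w 1 = 0 := by
        intro i
        have e1 := congrFun hNv i
        have e2 := congrFun hw i
        simp only [Matrix.mulVec, dotProduct, Fin.sum_univ_two, Pi.zero_apply] at e1 e2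
        exact ⟨e1, e2⟩
      apply hN0
      ext i j
      obtain ⟨e1, e2⟩ := hent i
      fin_cases j
      · have : N i 0 * (v 0 * w 1 - v 1 * w 0) = 0 := by linear_combination (w 1) * e1 - (v 1) * e2
        exact (mul_eq_zero.1 this).resolve_right hd
      · have : N i 1 * (v 0 * w 1 - v 1 * w 0) = 0 := by linear_combination (v 0) * e2 - (w 0) * e1
        exact (mul_eq_zero.1 this).resolve_right hd
    let B : GL (Fin 2) F := Matrix.GeneralLinearGroup.mkOfDetNeZero N hdet
    have hB : (B : M2 F) = N := rfl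
    refine ⟨B, Or.inr hanti1, Or.inr hanti2, ?_⟩
    rintro ⟨c, hc⟩
    rw [hB] at hc
    apply hN0
    have h3 : c = 0 := by
      by_contra hc0
      rw [hc] at hanti1
      have h4 : ∀ i j, c * M₁ i j = - (c * M₁ i j) := by
        intro i j
        have := congrFun (congrFun hanti1 i) j
        simpa [Matrix.smul_mul, Matrix.mul_smul] using this
      have h5 : ∀ i j, M₁ i j = 0 := by
        intro i j
        have h6 := h4 i j
        have h7 : 2 * c * M₁ i j = 0 := by linear_combination h6
        exact (mul_eq_zero.1 h7).resolve_left (mul_ne_zero h2 hc0)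
      have h8 : M₁ = 0 := by
        ext i j
        exact h5 i j
      have h9 := congrFun (congrFun h₁ 0) 0
      rw [h8] at h9
      simp at h9
    rw [hc, h3, zero_smul]

end common

section count

variable (F)

/-- the standard element of order four -/
def M0 : M2 F := !![0, 1; -1, 0]

lemma M0_sq : M0 F * M0 F = -1 := by
  ext i j
  fin_cases i <;> fin_cases j <;> simp [M0, Matrix.mul_apply, Fin.sum_univ_two]

variable {F}
variable (hn : ∀ c : F, c * c ≠ -1) (h2 : (2 : F) ≠ 0)
include hn

lemma norm_ne {a b : F} (hp : (a, b) ≠ 0) : a * a + b * b ≠ 0 := by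
  intro h
  by_cases hb : b = 0
  · subst hb
    have ha : a = 0 := by simpa using h
    subst ha
    exact hp rfl
  · apply hn (a / b)
    field_simp
    linear_combination h

/-- parametrisation of the `SS` group -/
noncomputable def ffun (p : {p : F × F // p ≠ 0}) (s : Bool) : GL (Fin 2) F :=
  match s with
  | true => Matrix.GeneralLinearGroup.mkOfDetNeZero !![p.1.1, p.1.2; -p.1.2, p.1.1] (by
      rw [Matrix.det_fin_two_of]
      have := norm_ne hn (a := p.1.1) (b := p.1.2) p.2
      intro h
      apply this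
      linear_combination h)
  | false => Matrix.GeneralLinearGroup.mkOfDetNeZero !![p.1.1, p.1.2; p.1.2, -p.1.1] (by
      rw [Matrix.det_fin_two_of]
      have := norm_ne hn (a := p.1.1) (b := p.1.2) p.2
      intro h
      apply this
      linear_combination -h)

lemma ffun_true (p : {p : F × F // p ≠ 0}) :
    ((ffun hn p true : GL (Fin 2) F) : M2 F) = !![p.1.1, p.1.2; -p.1.2, p.1.1] := rfl

lemma ffun_false (p : {p : F × F // p ≠ 0}) :
    ((ffun hn p false : GL (Fin 2) F) : M2 F) = !![p.1.1, p.1.2; p.1.2, -p.1.1] := rfl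

lemma ffun_mem (p : {p : F × F // p ≠ 0}) (s : Bool) : ffun hn p s ∈ SS (M0 F) := by
  rw [mem_SS]
  cases s
  · right
    rw [ffun_false]
    ext i j
    fin_cases i <;> fin_cases j <;> simp [M0, Matrix.mul_apply, Fin.sum_univ_two]
  · left
    rw [ffun_true]
    ext i j
    fin_cases i <;> fin_cases j <;> simp [M0, Matrix.mul_apply, Fin.sum_univ_two]

include h2

lemma card_SS [Finite F] : Nat.card (SS (M0 F)) = 2 * (Nat.card F ^ 2 - 1) := by
  classical
  let f : {p : F × F // p ≠ 0} × Bool → SS (M0 F) := fun x => ⟨ffun hn x.1 x.2, ffun_mem hn x.1 x.2⟩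
  have hf : Function.Bijective f := by
    constructor
    · rintro ⟨⟨⟨a, b⟩, hp⟩, s⟩ ⟨⟨⟨c, d⟩, hq⟩, t⟩ h
      have h' : ((ffun hn ⟨(a, b), hp⟩ s : GL (Fin 2) F) : M2 F) = (ffun hn ⟨(c, d), hq⟩ t : GL (Fin 2) F) :=
        congrArg (fun z : SS (M0 F) => ((z : GL (Fin 2) F) : M2 F)) h
      have hst : ∀ (a b c d : F), (a, b) ≠ 0 → (!![a, b; -b, a] : M2 F) = !![c, d; d, -c] → False := by
        intro a b c d hp h
        have e1 := congrFun (congrFun h 0) 0
        have e2 := congrFun (congrFun h 0) 1
        have e3 := congrFun (congrFun h 1) 0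
        have e4 := congrFun (congrFun h 1) 1
        simp at e1 e2 e3 e4
        subst e1 e2
        have ha : a = 0 := by
          have : 2 * a = 0 := by linear_combination e4
          exact (mul_eq_zero.1 this).resolve_left h2
        have hb : b = 0 := by
          have : 2 * b = 0 := by linear_combination -e3
          exact (mul_eq_zero.1 this).resolve_left h2
        exact hp (by simp [ha, hb])
      cases s <;> cases t
      · rw [ffun_false, ffun_false] at h'
        have e1 := congrFun (congrFun h' 0) 0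
        have e2 := congrFun (congrFun h' 0) 1
        simp at e1 e2
        subst e1 e2
        rfl
      · rw [ffun_false, ffun_true] at h'
        exact (hst c d a b hq h'.symm).elim
      · rw [ffun_true, ffun_false] at h'
        exact (hst a b c d hp h').elim
      · rw [ffun_true, ffun_true] at h'
        have e1 := congrFun (congrFun h' 0) 0
        have e2 := congrFun (congrFun h' 0) 1
        simp at e1 e2
        subst e1 e2
        rfl
    · rintro ⟨B, hB⟩
      set a := (B : M2 F) 0 0 with ha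
      set b := (B : M2 F) 0 1 with hb
      set c := (B : M2 F) 1 0 with hc
      set d := (B : M2 F) 1 1 with hd
      have hBe : (B : M2 F) = !![a, b; c, d] := by
        ext i j
        fin_cases i <;> fin_cases j <;> rfl
      have hdet : a * d - b * c ≠ 0 := by
        have h3 : IsUnit (B : M2 F).det := (Matrix.isUnit_iff_isUnit_det _).1 B.isUnit
        rw [hBe, Matrix.det_fin_two_of] at h3
        exact h3.ne_zero
      rw [mem_SS, hBe] at hB
      rcases hB with hB | hB
      · have e1 := congrFun (congrFun hB 0) 0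
        have e2 := congrFun (congrFun hB 0) 1
        simp [M0, Matrix.mul_apply, Fin.sum_univ_two] at e1 e2
        have hp : (a, b) ≠ 0 := by
          intro h
          have h3 : a = 0 := congrArg Prod.fst h
          have h4 : b = 0 := congrArg Prod.snd h
          apply hdet
          rw [h3, h4]
          ring
        refine ⟨(⟨(a, b), hp⟩, true), ?_⟩
        apply Subtype.ext
        apply Units.ext
        change ((ffun hn ⟨(a, b), hp⟩ true : GL (Fin 2) F) : M2 F) = (B : M2 F)
        rw [ffun_true, hBe]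
        ext i j
        fin_cases i <;> fin_cases j <;> simp [e1, e2]
      · have e1 := congrFun (congrFun hB 0) 0
        have e2 := congrFun (congrFun hB 0) 1
        simp [M0, Matrix.mul_apply, Fin.sum_univ_two] at e1 e2
        have hp : (a, b) ≠ 0 := by
          intro h
          have h3 : a = 0 := congrArg Prod.fst h
          have h4 : b = 0 := congrArg Prod.snd h
          apply hdet
          rw [h3, h4]
          ring
        refine ⟨(⟨(a, b), hp⟩, false), ?_⟩
        apply Subtype.ext
        apply Units.ext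
        change ((ffun hn ⟨(a, b), hp⟩ false : GL (Fin 2) F) : M2 F) = (B : M2 F)
        rw [ffun_false, hBe]
        ext i j
        fin_cases i <;> fin_cases j <;> simp [e1, e2]
  rw [← Nat.card_congr (Equiv.ofBijective f hf), Nat.card_prod]
  have h1 : Nat.card Bool = 2 := by simp
  have h3 : Nat.card {p : F × F // p ≠ 0} = Nat.card F ^ 2 - 1 := by
    have := Fintype.ofFinite F
    rw [Nat.card_eq_fintype_card, Nat.card_eq_fintype_card, Fintype.card_subtype_compl]
    simp [sq]
  rw [h1, h3, mul_comm]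

end count

section quot

variable (F) in
/-- the projective group -/
abbrev PG := GL (Fin 2) F ⧸ Subgroup.center (GL (Fin 2) F)

lemma card_center [Finite F] : Nat.card (Subgroup.center (GL (Fin 2) F)) = Nat.card F - 1 := by
  classical
  rw [Matrix.GeneralLinearGroup.center_eq_range_scalar]
  have hinj : Function.Injective (Matrix.GeneralLinearGroup.scalar (Fin 2) : Fˣ →* GL (Fin 2) F) := by
    intro a b h
    have h1 : ((Matrix.GeneralLinearGroup.scalar (Fin 2) a : GL (Fin 2) F) : M2 F) 0 0
        = ((Matrix.GeneralLinearGroup.scalar (Fin 2) b : GL (Fin 2) F) : M2 F) 0 0 := by rw [h]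
    rw [Matrix.GeneralLinearGroup.coe_scalar, Matrix.GeneralLinearGroup.coe_scalar] at h1
    simp at h1
    exact Units.ext h1
  rw [Nat.card_congr (MonoidHom.ofInjective hinj).toEquiv.symm, Nat.card_units]

lemma center_le_SS {M : M2 F} : Subgroup.center (GL (Fin 2) F) ≤ SS M := by
  intro z hz
  rw [Matrix.GeneralLinearGroup.mem_center_iff_val_mem_range_scalar] at hz
  obtain ⟨c, hc⟩ := hz
  left
  rw [← hc]
  exact (Matrix.scalar_commute c (fun r => Commute.all c r) M)

/-- image of `SS` -/
def PS (M : M2 F) : Subgroup (PG F) :=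
  (SS M).map (QuotientGroup.mk' (Subgroup.center (GL (Fin 2) F)))

lemma card_PS_mul [Finite F] (M : M2 F) :
    Nat.card (PS M) * (Nat.card F - 1) = Nat.card (SS M) := by
  classical
  let f : SS M →* PG F := (QuotientGroup.mk' (Subgroup.center (GL (Fin 2) F))).comp (SS M).subtype
  have hrange : f.range = PS M := by
    rw [PS, MonoidHom.range_comp, Subgroup.range_subtype]
  have hker : f.ker = (Subgroup.center (GL (Fin 2) F)).subgroupOf (SS M) := by
    ext z
    simp [f, MonoidHom.mem_ker, Subgroup.mem_subgroupOf]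
  have h1 : Nat.card f.ker = Nat.card F - 1 := by
    rw [hker, ← card_center]
    exact Nat.card_congr (Subgroup.subgroupOfEquivOfLe center_le_SS).toEquiv
  have h2 := Subgroup.card_mul_index f.ker
  rw [Subgroup.index_ker, hrange, h1] at h2
  rw [← h2, mul_comm]

lemma card_PG_mul [Finite F] :
    Nat.card (PG F) * (Nat.card F - 1) = Nat.card F * (Nat.card F ^ 2 - 1) * (Nat.card F - 1) := by
  classical
  have := Fintype.ofFinite F
  have h1 := Subgroup.card_mul_index (Subgroup.center (GL (Fin 2) F))
  rw [card_center] at h1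
  have h2 : Nat.card (PG F) = (Subgroup.center (GL (Fin 2) F)).index := rfl
  have h3 := Matrix.card_GL_field (𝔽 := F) 2
  rw [Fin.prod_univ_two] at h3
  simp only [Fin.val_zero, Fin.val_one, pow_zero, pow_one] at h3
  rw [← Nat.card_eq_fintype_card] at h3
  rw [h2, mul_comm, h1, h3]
  have hq : 1 ≤ Nat.card F := Nat.card_pos
  have : Nat.card F ^ 2 - Nat.card F = Nat.card F * (Nat.card F - 1) := by
    rw [Nat.mul_sub, mul_one, sq]
  rw [this]
  ring

end quot

section main

open scoped Pointwise

lemma conj_mk_mem {M : M2 F} {A B : GL (Fin 2) F}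
    (hB : B ∈ SS ((A : M2 F) * M * ((A⁻¹ : GL (Fin 2) F) : M2 F))) :
    (QuotientGroup.mk B : PG F) ∈ MulAut.conj (QuotientGroup.mk A : PG F) • PS M := by
  rw [Subgroup.mem_smul_pointwise_iff_exists]
  refine ⟨QuotientGroup.mk (A⁻¹ * B * A), ⟨_, conj_mem_SS hB, rfl⟩, ?_⟩
  rw [MulAut.smul_def, MulAut.conj_apply, ← QuotientGroup.mk_inv, ← QuotientGroup.mk_mul,
    ← QuotientGroup.mk_mul]
  congr 1
  group

theorem main_thm [Finite F] (hn : ∀ c : F, c * c ≠ -1) (h2 : (2 : F) ≠ 0) {k : ℕ}
    (hk : Nat.card F + 1 = 2 ^ k) (hodd : Odd ((Nat.card F - 1) / 2)) (hq2 : 2 ≤ Nat.card F)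
    (H : Sylow 2 (PG F)) (x : PG F) :
    (H : Subgroup (PG F)) ⊓ MulAut.conj x • (H : Subgroup _) ≠ ⊥ := by
  classical
  set q := Nat.card F with hq
  have hq1 : 0 < q - 1 := by omega
  -- the Sylow subgroup
  have hcard : Nat.card (PS (M0 F)) = 2 ^ (k + 1) := by
    have h3 := card_PS_mul (M0 F)
    rw [card_SS hn h2, ← hq] at h3
    apply Nat.eq_of_mul_eq_mul_right hq1
    rw [h3, pow_succ (2 : ℕ) k, ← hk]
    have : q ^ 2 - 1 = (q + 1) * (q - 1) := by
      obtain ⟨r, hr⟩ : ∃ r, q = r + 1 := ⟨q - 1, by omega⟩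
      rw [hr]
      simp only [Nat.add_sub_cancel]
      have : (r + 1) ^ 2 = (r + 1 + 1) * r + 1 := by ring
      rw [this, Nat.add_sub_cancel]
    rw [this]
    ring
  have hcardG : Nat.card (PG F) = q * (q + 1) * (q - 1) := by
    have h3 := card_PG_mul (F := F)
    rw [← hq] at h3
    apply Nat.eq_of_mul_eq_mul_right hq1
    rw [h3]
    have : q ^ 2 - 1 = (q + 1) * (q - 1) := by
      obtain ⟨r, hr⟩ : ∃ r, q = r + 1 := ⟨q - 1, by omega⟩
      rw [hr]
      simp only [Nat.add_sub_cancel]
      have : (r + 1) ^ 2 = (r + 1 + 1) * r + 1 := by ring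
      rw [this, Nat.add_sub_cancel]
    rw [this]
    ring
  have hpg : IsPGroup 2 (PS (M0 F)) := IsPGroup.of_card hcard
  have hind : ¬ 2 ∣ (PS (M0 F)).index := by
    have h3 := Subgroup.card_mul_index (PS (M0 F))
    rw [hcard, hcardG] at h3
    obtain ⟨d, hd⟩ := hodd
    have hq12 : q - 1 = 2 * (2 * d + 1) := by
      have : 2 ∣ q - 1 := by
        by_contra hnd
        have h4 : (q - 1) / 2 = 0 ∨ ¬ Odd ((q - 1)/2) ∨ True := by simp
        have h5 : q % 2 = 0 := by omega
        have h6 : q % 2 = 1 := by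
          have h7 : (q + 1) % 2 = 0 := by
            rw [hk]
            rcases k with _ | k
            · omega
            · rw [pow_succ]; omega
          omega
        omega
      omega
    have hodd2 : ¬ 2 ∣ q := by
      have h7 : (q + 1) % 2 = 0 := by
        rw [hk]
        rcases k with _ | k
        · omega
        · rw [pow_succ]; omega
      omega
    have h4 : (PS (M0 F)).index = q * (2 * d + 1) := by
      have h5 : 2 ^ (k + 1) * (PS (M0 F)).index = 2 ^ (k + 1) * (q * (2 * d + 1)) := by
        rw [h3, hq12, pow_succ, ← hk]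
        ring
      exact Nat.eq_of_mul_eq_mul_left (by positivity) h5
    rw [h4, Nat.Prime.dvd_mul Nat.prime_two]
    rintro (h5 | h5)
    · exact hodd2 h5
    · omega
  let P : Sylow 2 (PG F) := hpg.toSylow hind
  obtain ⟨g, hg⟩ := MulAction.exists_smul_eq (PG F) P H
  have hH : (H : Subgroup (PG F)) = MulAut.conj g • PS (M0 F) := by
    rw [← hg, Sylow.coe_subgroup_smul]
    rfl
  have hH' : MulAut.conj x • (H : Subgroup (PG F)) = MulAut.conj (x * g) • PS (M0 F) := by
    rw [hH, map_mul, mul_smul]
  obtain ⟨A, rfl⟩ := QuotientGroup.mk_surjective g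
  obtain ⟨A', hA'⟩ := QuotientGroup.mk_surjective (x * (QuotientGroup.mk A : PG F))
  have hAsq : ∀ A : GL (Fin 2) F, ((A : M2 F) * M0 F * ((A⁻¹ : GL (Fin 2) F) : M2 F)) *
      ((A : M2 F) * M0 F * ((A⁻¹ : GL (Fin 2) F) : M2 F)) = -1 := by
    intro A
    have h1 : ((A⁻¹ : GL (Fin 2) F) : M2 F) * (A : M2 F) = 1 := by
      rw [← Units.val_mul, inv_mul_cancel, Units.val_one]
    have h3 : (A : M2 F) * ((A⁻¹ : GL (Fin 2) F) : M2 F) = 1 := by
      rw [← Units.val_mul, mul_inv_cancel, Units.val_one]
    calc _ = (A : M2 F) * M0 F * (((A⁻¹ : GL (Fin 2) F) : M2 F) * A) * M0 F * ((A⁻¹ : GL (Fin 2) F) : M2 F) := by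
          simp only [mul_assoc]
      _ = (A : M2 F) * (M0 F * M0 F) * ((A⁻¹ : GL (Fin 2) F) : M2 F) := by
          rw [h1]; simp only [mul_one, mul_assoc]
      _ = _ := by
          rw [M0_sq]
          simp only [mul_neg, neg_mul, mul_one, h3]
  obtain ⟨B, hB1, hB2, hB3⟩ := common hn h2 (hAsq A) (hAsq A')
  rw [hH', ← hA', hH]
  intro hbot
  have hmem := Subgroup.mem_inf.2 ⟨conj_mk_mem hB1, conj_mk_mem hB2⟩
  rw [hbot, Subgroup.mem_bot, QuotientGroup.eq_one_iff,
    Matrix.GeneralLinearGroup.mem_center_iff_val_mem_range_scalar] at hmem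
  obtain ⟨c, hc⟩ := hmem
  exact hB3 ⟨c, by rw [← hc]; simp [Matrix.smul_one_eq_diagonal]⟩

end main

end Cfsg.Agent.H11.Mers
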