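import Mathlib

set_option autoImplicit false
set_option linter.unusedSectionVars false

namespace Cfsg.Agent.H11.OppSyl

open scoped Pointwise

variable {p a : ℕ} [Fact p.Prime] {G T : Type*} [Group G] [Finite G] [Group T] [Finite T]
  {N : Subgroup G} [N.Normal] (e : N ≃* T)

/-- the conjugation action of `G` transported to `T` -/
noncomputable def rho : G →* MulAut T where
  toFun g := e.symm.trans ((MulAut.conjNormal g).trans e)
  map_one' := by ext t; simp
  map_mul' g h := by
    ext t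
    simp [MulAut.mul_def]

lemma rho_apply (g : G) (t : T) :
    rho e g t = e (MulAut.conjNormal g (e.symm t)) := rfl

lemma coe_symm_rho (g : G) (t : T) :
    ((e.symm (rho e g t) : N) : G) = g * (e.symm t : N) * g⁻¹ := by
  rw [rho_apply, MulEquiv.symm_apply_apply, MulAut.conjNormal_apply]

lemma rho_coe (n : N) : rho e (n : G) = MulAut.conj (e n) := by
  ext t
  rw [rho_apply, MulAut.conj_apply]
  apply e.symm.injective
  apply Subtype.ext
  simp [MulAut.conjNormal_apply]

/-- the image of a subgroup in `T` -/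
def im (H : Subgroup G) : Subgroup T := (H.subgroupOf N).map e.toMonoidHom

lemma mem_im {H : Subgroup G} {t : T} : t ∈ im e H ↔ ((e.symm t : N) : G) ∈ H := by
  constructor
  · rintro ⟨n, hn, rfl⟩
    simpa [Subgroup.mem_subgroupOf] using hn
  · intro h
    exact ⟨e.symm t, by simpa [Subgroup.mem_subgroupOf] using h, by simp⟩

lemma card_im (H : Subgroup G) : Nat.card (im e H) = Nat.card (H ⊓ N : Subgroup G) := by
  rw [im, Subgroup.card_map_of_injective e.injective,
    ← Subgroup.inf_subgroupOf_right H N]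
  exact Nat.card_congr (Subgroup.subgroupOfEquivOfLe inf_le_right).toEquiv

lemma card_inf_mul (M : Subgroup G) :
    Nat.card (M ⊓ N : Subgroup G) * N.relIndex M = Nat.card M := by
  have h := Subgroup.card_mul_index (N.subgroupOf M)
  rw [← Subgroup.inf_subgroupOf_left N M,
    Nat.card_congr (Subgroup.subgroupOfEquivOfLe (inf_le_left : M ⊓ N ≤ M)).toEquiv] at h
  rw [← h]
  congr 1
  rw [Subgroup.inf_subgroupOf_left]
  rfl

include e in
lemma card_inf_sylow (hidx : N.index = p ^ a) (H : Sylow p G) :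
    Nat.card (H ⊓ N : Subgroup G) = p ^ (Nat.card T).factorization p ∧
    Nat.card (H : Subgroup G) = p ^ ((Nat.card T).factorization p + a) := by
  have hp : p.Prime := Fact.out
  have hT : Nat.card T = Nat.card N := Nat.card_congr e.toEquiv.symm
  have hG : Nat.card G = Nat.card T * p ^ a := by
    rw [hT, ← hidx, Subgroup.card_mul_index]
  have hcH : Nat.card (H : Subgroup G) = p ^ ((Nat.card T).factorization p + a) := by
    rw [Sylow.card_eq_multiplicity, hG, Nat.factorization_mul Nat.card_pos.ne'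
      (pow_ne_zero _ hp.ne_zero), Nat.factorization_pow, hp.factorization]
    simp
  refine ⟨?_, hcH⟩
  have h1 := card_inf_mul (N := N) (H : Subgroup G)
  have h2 : N.relIndex (H : Subgroup G) ∣ p ^ a := by
    rw [← hidx]
    exact Subgroup.relIndex_dvd_index_of_normal _ _
  obtain ⟨r, hr, hr'⟩ := (Nat.dvd_prime_pow hp).1 h2
  have h3 : Nat.card (H ⊓ N : Subgroup G) ∣ Nat.card (H : Subgroup G) := ⟨_, h1.symm⟩
  rw [hcH] at h3
  obtain ⟨s, hs, hs'⟩ := (Nat.dvd_prime_pow hp).1 h3
  have h4 : Nat.card (H ⊓ N : Subgroup G) ∣ Nat.card T := by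
    rw [hT]
    exact Subgroup.card_dvd_of_le inf_le_right
  rw [hs', hr', hcH, ← pow_add] at h1
  have h5 := Nat.pow_right_injective hp.two_le h1
  rw [hs'] at h4 ⊢
  have h6 : s ≤ (Nat.card T).factorization p := by
    exact (hp.pow_dvd_iff_le_factorization Nat.card_pos.ne').1 h4
  congr 1
  omega

/-- the Sylow subgroup of `T` attached to a Sylow subgroup of `G` -/
noncomputable def sl (hidx : N.index = p ^ a) (H : Sylow p G) : Sylow p T :=
  Sylow.ofCard (im e H) (by rw [card_im]; exact (card_inf_sylow e hidx H).1)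

lemma coe_sl (hidx : N.index = p ^ a) (H : Sylow p G) :
    (sl e hidx H : Subgroup T) = im e H := rfl

lemma rho_smul_im (g : G) (H : Subgroup G) :
    rho e g • im e H = im e (MulAut.conj g • H) := by
  ext t
  rw [Subgroup.mem_pointwise_smul_iff_inv_smul_mem, mem_im, mem_im,
    Subgroup.mem_pointwise_smul_iff_inv_smul_mem, MulAut.smul_def, MulAut.smul_def, ← map_inv,
    coe_symm_rho, ← map_inv, MulAut.conj_apply]

lemma rho_smul_sl (hidx : N.index = p ^ a) (g : G) (H : Sylow p G) :
    rho e g • sl e hidx H = sl e hidx (g • H) := by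
  apply Sylow.ext
  rw [Sylow.pointwise_smul_def, coe_sl, coe_sl, Sylow.coe_subgroup_smul, rho_smul_im]

include e in
/-- the abstract reduction -/
theorem reduction (hidx : N.index = p ^ a)
    (R : Sylow p T → Sylow p T → Prop)
    (hR : ∀ (φ : MulAut T) (P Q : Sylow p T), R (φ • P) (φ • Q) ↔ R P Q)
    (hnorm : ∀ (P : Sylow p T) (g : T), g • P = P → g ∈ P)
    (hcount : ∀ P Q₂ : Sylow p T,
      Nat.card {Q : Sylow p T // (Q : Subgroup T) ⊓ P = ⊥ ∧ (R P Q ↔ R P Q₂)} < p ^ a * Nat.card P)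
    (H₁ H₂ : Sylow p G) : (H₁ : Subgroup G) ⊓ H₂ ≠ ⊥ := by
  classical
  intro hbot
  have hp : p.Prime := Fact.out
  set P := sl e hidx H₁ with hP
  set Q₂ := sl e hidx H₂ with hQ₂
  -- `H₁` fixes `P`
  have hfix : ∀ h ∈ (H₁ : Subgroup G), rho e h • P = P := by
    intro h hh
    rw [hP, rho_smul_sl]
    congr 1
    exact Sylow.smul_eq_iff_mem_normalizer.2 (Subgroup.le_normalizer hh)
  have hPQ : (Q₂ : Subgroup T) ⊓ P = ⊥ := by
    rw [eq_bot_iff]
    intro t ht
    obtain ⟨h1, h2⟩ := Subgroup.mem_inf.1 ht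
    rw [hQ₂, coe_sl, mem_im] at h1
    rw [hP, coe_sl, mem_im] at h2
    have h3 : ((e.symm t : N) : G) ∈ (H₁ : Subgroup G) ⊓ H₂ := Subgroup.mem_inf.2 ⟨h2, h1⟩
    rw [hbot, Subgroup.mem_bot] at h3
    have h4 : e.symm t = 1 := Subtype.ext h3
    rw [Subgroup.mem_bot]
    simpa using h4
  let Φ : H₁ → {Q : Sylow p T // (Q : Subgroup T) ⊓ P = ⊥ ∧ (R P Q ↔ R P Q₂)} := fun h =>
    ⟨rho e (h : G) • Q₂, by
      have h0 := hfix h h.2
      have h1 : (rho e (h : G) • (P : Subgroup T)) = (P : Subgroup T) := by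
        conv_rhs => rw [← h0]
        rfl
      rw [Sylow.pointwise_smul_def]
      rw [← h1, ← Subgroup.smul_inf, hPQ]
      simp, by
      have h0 := hfix h h.2
      conv_lhs => rw [← h0]
      exact hR _ _ _⟩
  have hinj : Function.Injective Φ := by
    intro h h' hEq
    have hEq' : rho e (h : G) • Q₂ = rho e (h' : G) • Q₂ := congrArg Subtype.val hEq
    set k : G := (h : G)⁻¹ * h' with hk
    have hkH₁ : k ∈ (H₁ : Subgroup G) := H₁.toSubgroup.mul_mem (H₁.toSubgroup.inv_mem h.2) h'.2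
    have hkfix : rho e k • Q₂ = Q₂ := by
      rw [hk, map_mul, map_inv, mul_smul, ← hEq', ← mul_smul, inv_mul_cancel, one_smul]
    -- `k` normalizes `H₂ ⊓ N`
    let M : Subgroup G := Subgroup.normalizer (((H₂ : Subgroup G) ⊓ N : Subgroup G) : Set G)
    have hMem : ∀ y : G, y ∈ M ↔ ∀ z, z ∈ (H₂ : Subgroup G) ⊓ N ↔ y * z * y⁻¹ ∈ (H₂ : Subgroup G) ⊓ N := by
      intro y
      exact Subgroup.mem_normalizer_iff
    have hle : (H₂ : Subgroup G) ≤ M := by
      intro y hy
      rw [hMem]
      intro z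
      have hconjN : y * z * y⁻¹ ∈ N ↔ z ∈ N := by
        constructor
        · intro h3
          have := (inferInstance : N.Normal).conj_mem _ h3 y⁻¹
          simpa [mul_assoc] using this
        · intro h3
          exact (inferInstance : N.Normal).conj_mem _ h3 y
      have hconjH : y * z * y⁻¹ ∈ (H₂ : Subgroup G) ↔ z ∈ (H₂ : Subgroup G) := by
        constructor
        · intro h3
          have h4 := (H₂ : Subgroup G).mul_mem ((H₂ : Subgroup G).mul_mem ((H₂ : Subgroup G).inv_mem hy) h3) hy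
          simpa [mul_assoc] using h4
        · intro h3
          exact (H₂ : Subgroup G).mul_mem ((H₂ : Subgroup G).mul_mem hy h3) ((H₂ : Subgroup G).inv_mem hy)
      simp only [Subgroup.mem_inf, hconjN, hconjH]
    have hkM : k ∈ M := by
      rw [hMem]
      intro z
      have hQ : ∀ t : T, t ∈ (Q₂ : Subgroup T) ↔ ((e.symm t : N) : G) ∈ (H₂ : Subgroup G) := by
        intro t
        rw [hQ₂, coe_sl, mem_im]
      have hkfix' : ∀ t : T, t ∈ (Q₂ : Subgroup T) ↔ rho e k t ∈ (Q₂ : Subgroup T) := by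
        intro t
        have h5 : (rho e k • (Q₂ : Subgroup T)) = (Q₂ : Subgroup T) := by
          conv_rhs => rw [← hkfix]
          rfl
        constructor
        · intro ht
          rw [← h5]
          exact Subgroup.smul_mem_pointwise_smul _ _ _ ht
        · intro ht
          rw [← h5, Subgroup.mem_pointwise_smul_iff_inv_smul_mem] at ht
          simpa using ht
      constructor
      · intro hz
        obtain ⟨hz1, hz2⟩ := Subgroup.mem_inf.1 hz
        refine Subgroup.mem_inf.2 ⟨?_, (inferInstance : N.Normal).conj_mem _ hz2 k⟩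
        have h6 := (hkfix' (e ⟨z, hz2⟩)).1 ((hQ _).2 (by rw [MulEquiv.symm_apply_apply]; exact hz1))
        rw [hQ, coe_symm_rho, MulEquiv.symm_apply_apply] at h6
        exact h6
      · intro hz
        obtain ⟨hz1, hz2⟩ := Subgroup.mem_inf.1 hz
        have hz3 : z ∈ N := by
          have := (inferInstance : N.Normal).conj_mem _ hz2 k⁻¹
          simpa [mul_assoc] using this
        refine Subgroup.mem_inf.2 ⟨?_, hz3⟩
        have h6 := (hkfix' (e ⟨z, hz3⟩)).2 (by
          rw [hQ, coe_symm_rho, MulEquiv.symm_apply_apply]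
          exact hz1)
        rw [hQ, MulEquiv.symm_apply_apply] at h6
        exact h6
    have hMN : M ⊓ N ≤ (H₂ : Subgroup G) ⊓ N := by
      rintro y ⟨hy1, hy2⟩
      refine ⟨?_, hy2⟩
      have h7 : e ⟨y, hy2⟩ • Q₂ = Q₂ := by
        rw [Sylow.smul_def, ← rho_coe e ⟨y, hy2⟩]
        apply Sylow.ext
        rw [Sylow.pointwise_smul_def]
        ext t
        rw [Subgroup.mem_pointwise_smul_iff_inv_smul_mem, hQ₂, coe_sl, mem_im, mem_im,
          MulAut.smul_def, ← map_inv, coe_symm_rho]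
        have h8 := ((hMem y).1 hy1) ((y⁻¹ * (e.symm t : N) * y))
        have h8' : y * (y⁻¹ * (e.symm t : N) * y) * y⁻¹ = (e.symm t : N) := by group
        rw [h8'] at h8
        have h8n : y⁻¹ * (e.symm t : N) * y ∈ N := by
          have := (inferInstance : N.Normal).conj_mem _ (e.symm t).2 y⁻¹
          simpa using this
        simp only [Subgroup.mem_inf] at h8
        constructor
        · intro h
          rw [inv_inv] at h
          exact (h8.1 ⟨h, h8n⟩).1
        · intro h
          rw [inv_inv]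
          exact (h8.2 ⟨h, (e.symm t).2⟩).1
      have h9 := hnorm Q₂ _ h7
      have h10 : e ⟨y, hy2⟩ ∈ (Q₂ : Subgroup T) := h9
      rw [hQ₂, coe_sl, mem_im, MulEquiv.symm_apply_apply] at h10
      exact h10
    have hMcard : Nat.card M ≤ Nat.card (H₂ : Subgroup G) := by
      rw [← card_inf_mul (N := N) M, (card_inf_sylow e hidx H₂).2, pow_add,
        ← (card_inf_sylow e hidx H₂).1]
      apply Nat.mul_le_mul
      · exact Subgroup.card_le_of_le hMN
      · rw [← hidx]
        exact Nat.le_of_dvd (by rw [hidx]; exact pow_pos hp.pos _) (Subgroup.relIndex_dvd_index_of_normal _ _)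
    have hMeq : (H₂ : Subgroup G) = M := Subgroup.eq_of_le_of_card_ge hle hMcard
    have hkH₂ : k ∈ (H₂ : Subgroup G) := by rw [hMeq]; exact hkM
    have hk1 : k ∈ (H₁ : Subgroup G) ⊓ H₂ := Subgroup.mem_inf.2 ⟨hkH₁, hkH₂⟩
    rw [hbot, Subgroup.mem_bot] at hk1
    apply Subtype.ext
    have : (h : G)⁻¹ * h' = 1 := hk1
    exact (inv_mul_eq_one.1 this)
  have hle := Nat.card_le_card_of_injective Φ hinj
  have hlt := hcount P Q₂
  have hcP : Nat.card (P : Subgroup T) = p ^ (Nat.card T).factorization p := by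
    rw [hP, coe_sl, card_im]
    exact (card_inf_sylow e hidx H₁).1
  have hcH : Nat.card (H₁ : Subgroup G) = p ^ a * Nat.card (P : Subgroup T) := by
    rw [(card_inf_sylow e hidx H₁).2, hcP, pow_add, mul_comm]
  have hlt' : Nat.card {Q : Sylow p T // (Q : Subgroup T) ⊓ P = ⊥ ∧ (R P Q ↔ R P Q₂)} <
      p ^ a * Nat.card (P : Subgroup T) := hlt
  have hle' : Nat.card (H₁ : Subgroup G) ≤
      Nat.card {Q : Sylow p T // (Q : Subgroup T) ⊓ P = ⊥ ∧ (R P Q ↔ R P Q₂)} := hle
  omega

include e in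
/-- reduction to a single Sylow subgroup of `T` -/
theorem reduction' (hidx : N.index = p ^ a)
    (R : Sylow p T → Sylow p T → Prop)
    (hR : ∀ (φ : MulAut T) (P Q : Sylow p T), R (φ • P) (φ • Q) ↔ R P Q)
    (P₀ : Sylow p T)
    (hnorm : ∀ g : T, g • P₀ = P₀ → g ∈ P₀)
    (hcount : ∀ Q₂ : Sylow p T,
      Nat.card {Q : Sylow p T // (Q : Subgroup T) ⊓ P₀ = ⊥ ∧ (R P₀ Q ↔ R P₀ Q₂)} <
        p ^ a * Nat.card P₀)
    (H₁ H₂ : Sylow p G) : (H₁ : Subgroup G) ⊓ H₂ ≠ ⊥ := by
  classical
  refine reduction e hidx R hR ?_ ?_ H₁ H₂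
  · intro P g hg
    obtain ⟨u, rfl⟩ := MulAction.exists_smul_eq T P₀ P
    have h1 : (u⁻¹ * g * u) • P₀ = P₀ := by
      rw [mul_smul, mul_smul, hg, inv_smul_smul]
    have h2 := hnorm _ h1
    have h3 : g ∈ (u • P₀ : Sylow p T) := by
      change g ∈ ((u • P₀ : Sylow p T) : Subgroup T)
      rw [Sylow.coe_subgroup_smul, Subgroup.mem_pointwise_smul_iff_inv_smul_mem, MulAut.smul_def,
        ← map_inv, MulAut.conj_apply, inv_inv]
      exact h2
    exact h3
  · intro P Q₂
    obtain ⟨u, rfl⟩ := MulAction.exists_smul_eq T P₀ P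
    have hu : ∀ X : Sylow p T, u • X = MulAut.conj u • X := fun _ => rfl
    have hcard : Nat.card ((u • P₀ : Sylow p T) : Subgroup T) = Nat.card (P₀ : Subgroup T) := by
      rw [Sylow.coe_subgroup_smul]
      exact Nat.card_congr (Subgroup.equivSMul (MulAut.conj u) (P₀ : Subgroup T)).toEquiv.symm
    have hle : Nat.card {Q : Sylow p T // (Q : Subgroup T) ⊓ (u • P₀ : Sylow p T) = ⊥ ∧
          (R (u • P₀) Q ↔ R (u • P₀) Q₂)} ≤
        Nat.card {Q : Sylow p T // (Q : Subgroup T) ⊓ P₀ = ⊥ ∧ (R P₀ Q ↔ R P₀ (u⁻¹ • Q₂))} := by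
      let g : {Q : Sylow p T // (Q : Subgroup T) ⊓ (u • P₀ : Sylow p T) = ⊥ ∧
          (R (u • P₀) Q ↔ R (u • P₀) Q₂)} →
          {Q : Sylow p T // (Q : Subgroup T) ⊓ P₀ = ⊥ ∧ (R P₀ Q ↔ R P₀ (u⁻¹ • Q₂))} := fun Q =>
        ⟨u⁻¹ • Q.1, by
          have h1 : (Q.1 : Subgroup T) ⊓ (MulAut.conj u • (P₀ : Subgroup T)) = ⊥ := Q.2.1
          rw [Sylow.coe_subgroup_smul, eq_bot_iff]
          intro t ht
          obtain ⟨h3, h4⟩ := Subgroup.mem_inf.1 ht
          have h5 : u * t * u⁻¹ ∈ (Q.1 : Subgroup T) ⊓ (MulAut.conj u • (P₀ : Subgroup T)) := by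
            refine Subgroup.mem_inf.2 ⟨?_, ?_⟩
            · rw [Subgroup.mem_pointwise_smul_iff_inv_smul_mem, MulAut.smul_def, ← map_inv,
                MulAut.conj_apply, inv_inv] at h3
              exact h3
            · rw [Subgroup.mem_pointwise_smul_iff_inv_smul_mem, MulAut.smul_def, ← map_inv,
                MulAut.conj_apply]
              simpa [mul_assoc] using h4
          rw [h1, Subgroup.mem_bot] at h5
          rw [Subgroup.mem_bot]
          have h6 : u⁻¹ * (u * t * u⁻¹) * u = 1 := by rw [h5]; group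
          simpa [mul_assoc] using h6, by
          have h1 := Q.2.2
          have key : ∀ X : Sylow p T, R (u • P₀) (u • X) ↔ R P₀ X := fun X => hR (MulAut.conj u) P₀ X
          have h2 := key (u⁻¹ • Q.1)
          have h3 := key (u⁻¹ • Q₂)
          rw [smul_inv_smul] at h2 h3
          rw [← h2, ← h3]
          exact h1⟩
      refine Nat.card_le_card_of_injective g ?_
      intro Q Q' h
      apply Subtype.ext
      have h1 : u⁻¹ • Q.1 = u⁻¹ • Q'.1 := congrArg Subtype.val h
      exact smul_left_cancel _ h1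
    rw [hcard]
    exact lt_of_le_of_lt hle (hcount _)

/-- the relation: a nontrivial element of `P` commutes with a nontrivial element of `Q` -/
def CommRel (P Q : Sylow p T) : Prop :=
  ∃ x ∈ (P : Subgroup T), x ≠ 1 ∧ ∃ y ∈ (Q : Subgroup T), y ≠ 1 ∧ x * y = y * x

lemma commRel_smul (φ : MulAut T) (P Q : Sylow p T) : CommRel (φ • P) (φ • Q) ↔ CommRel P Q := by
  constructor
  · rintro ⟨x, hx, hx1, y, hy, hy1, hxy⟩
    rw [Sylow.pointwise_smul_def, Subgroup.mem_pointwise_smul_iff_inv_smul_mem] at hx hy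
    refine ⟨_, hx, ?_, _, hy, ?_, ?_⟩
    · simpa using hx1
    · simpa using hy1
    · simp only [MulAut.smul_def]
      rw [← map_mul, ← map_mul, hxy]
  · rintro ⟨x, hx, hx1, y, hy, hy1, hxy⟩
    refine ⟨φ • x, ?_, ?_, φ • y, ?_, ?_, ?_⟩
    · rw [Sylow.pointwise_smul_def]
      exact Subgroup.smul_mem_pointwise_smul _ _ _ hx
    · simpa [MulAut.smul_def] using hx1
    · rw [Sylow.pointwise_smul_def]
      exact Subgroup.smul_mem_pointwise_smul _ _ _ hy
    · simpa [MulAut.smul_def] using hy1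
    · simp only [MulAut.smul_def]
      rw [← map_mul, ← map_mul, hxy]

end Cfsg.Agent.H11.OppSyl
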