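import Cfsg.Agent.Lib.H11.PSU3b
import Cfsg.Agent.Lib.H11.PrimeGr3

/-! Orders of elements of `PSL_3(q)`: the upper bound. -/

set_option autoImplicit false
set_option linter.unusedSectionVars false
set_option linter.unusedVariables false

namespace Cfsg.Agent.H11.PSL3

open Polynomial Matrix
open Cfsg.Agent.H11.PSU3

variable {F : Type*} [Field F] [Fintype F] {p : ℕ}

local notation "q" => Fintype.card F

theorem q_ge : 2 ≤ Fintype.card F := Fintype.one_lt_card

theorem nat_a (k : ℕ) (hk : 2 ≤ k) : k ^ 2 + k + 1 = (k - 1) * (k + 2) + 3 := by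
  obtain ⟨m, rfl⟩ : ∃ m, k = m + 1 := ⟨k - 1, by omega⟩
  simp
  ring

theorem nat_b (k : ℕ) (hk : 2 ≤ k) : k ^ 2 - 1 = (k - 1) * (k + 1) := by
  obtain ⟨m, rfl⟩ : ∃ m, k = m + 1 := ⟨k - 1, by omega⟩
  simp
  ring_nf
  omega

theorem frob_rh {E : Type*} [Field E] [CharP E p] [Fact p.Prime] [CharP F p] :
    ∃ ρ : E →+* E, ∀ x, ρ x = x ^ (Fintype.card F) := by
  obtain ⟨n, hn⟩ := FiniteField.card F p
  refine ⟨iterateFrobenius E p n, fun x => ?_⟩
  rw [iterateFrobenius_def, hn.2]

/-- the irreducible cubic -/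
theorem cubic_field {E : Type*} [Field E] [Fintype E] [Algebra F E] [Fact p.Prime] [CharP F p] [CharP E p]
    (hE : Fintype.card E = (Fintype.card F) ^ 3) {τ τ' : F} {ζ : E}
    (hζ : ζ ^ 3 - algebraMap F E τ * ζ ^ 2 + algebraMap F E τ' * ζ - 1 = 0) (hnot : ∀ c : F, algebraMap F E c ≠ ζ) :
    ∃ c : F, ζ ^ (((Fintype.card F) ^ 2 + (Fintype.card F) + 1) / Nat.gcd 3 ((Fintype.card F) - 1)) = algebraMap F E c := by
  set k := Fintype.card F with hk
  have hk2 : 2 ≤ k := q_ge
  obtain ⟨ρ, hρ⟩ := frob_rh (F := F) (E := E) (p := p)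
  have h3 : ∀ x : E, x ^ (k ^ 3) = x := fun x => by rw [← hE, FiniteField.pow_card]
  have hfix : ∀ a : F, ρ (algebraMap F E a) = algebraMap F E a := by
    intro a
    rw [hρ, ← map_pow, FiniteField.pow_card]
  have hroot : ∀ y : E, y ^ 3 - algebraMap F E τ * y ^ 2 + algebraMap F E τ' * y - 1 = 0 →
      (y ^ k) ^ 3 - algebraMap F E τ * (y ^ k) ^ 2 + algebraMap F E τ' * y ^ k - 1 = 0 := by
    intro y hy
    have h1 := congrArg ρ hy
    rw [map_sub, map_add, map_sub, map_mul, map_mul, map_pow, map_pow, hfix, hfix, hρ, map_one, map_zero] at h1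
    exact h1
  set r₁ := ζ ^ k with hr₁
  set r₂ := r₁ ^ k with hr₂
  have hR1 := hroot ζ hζ
  have hR2 := hroot r₁ hR1
  have hr₃ : r₂ ^ k = ζ := by
    rw [hr₂, hr₁, ← pow_mul, ← pow_mul, show k * (k * k) = k ^ 3 by ring, h3]
  have hne1 : ζ ≠ r₁ := by
    intro h
    obtain ⟨c, hc⟩ := Cfsg.Agent.H10.mem_range_algebraMap_of_pow_card ζ h.symm
    exact hnot c hc
  have hne2 : ζ ≠ r₂ := by
    intro h
    apply hne1
    rw [hr₁]
    conv_rhs => rw [h]
    rw [h] at hr₃
    rw [hr₃]
    exact h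
  have hne3 : r₁ ≠ r₂ := by
    intro h
    apply hne2
    have h1 : r₁ ^ k = r₁ := h.symm
    have h2 : r₂ = r₁ := h.symm
    rw [h2, h1] at hr₃
    rw [h2]
    exact hr₃.symm
  obtain ⟨-, -, v3⟩ := vieta _ _ ζ r₁ r₂ hζ hR1 hR2 hne1 hne2 hne3
  have hnorm : ζ ^ (k ^ 2 + k + 1) = 1 := by
    rw [hr₂, hr₁, ← pow_mul] at v3
    rw [← v3, pow_succ, pow_add]
    have : k * k = k ^ 2 := by ring
    rw [this]
    ring
  set d := Nat.gcd 3 (k - 1) with hd
  have hd1 : d ∣ k - 1 := Nat.gcd_dvd_right _ _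
  have hd3 : d ∣ 3 := Nat.gcd_dvd_left _ _
  have hd0 : 0 < d := Nat.pos_of_dvd_of_pos hd3 (by norm_num)
  have hdA : d ∣ k ^ 2 + k + 1 := by
    have h1 : k ^ 2 + k + 1 = (k - 1) * (k + 2) + 3 := nat_a k hk2
    rw [h1]
    exact Dvd.dvd.add (Dvd.dvd.mul_right hd1 _) hd3
  obtain ⟨B, hB⟩ := hdA
  have hBeq : (k ^ 2 + k + 1) / d = B := by
    rw [hB]
    exact Nat.mul_div_cancel_left _ hd0
  rw [hBeq]
  obtain ⟨e, he⟩ := hd1
  have hfix2 : (ζ ^ B) ^ k = ζ ^ B := by
    have h1 : k = d * e + 1 := by omega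
    have e1 : (ζ ^ B) ^ d = 1 := by rw [← pow_mul, mul_comm B d, ← hB, hnorm]
    conv_lhs => rw [h1]
    rw [pow_succ, pow_mul, e1, one_pow, one_mul]
  obtain ⟨c, hc⟩ := Cfsg.Agent.H10.mem_range_algebraMap_of_pow_card _ hfix2
  exact ⟨c, hc.symm⟩

/-- the irreducible quadratic -/
theorem quad_field {E : Type*} [Field E] [Fintype E] [Algebra F E] [Fact p.Prime] [CharP F p] [CharP E p]
    (hE : Fintype.card E = (Fintype.card F) ^ 2) {s a : F} {ζ : E} (ha : a ≠ 0)
    (hζ : ζ ^ 2 - algebraMap F E s * ζ + algebraMap F E a⁻¹ = 0) (hnot : ∀ c : F, algebraMap F E c ≠ ζ) :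
    ζ ^ (((Fintype.card F) ^ 2 - 1) / Nat.gcd 3 ((Fintype.card F) - 1)) =
      algebraMap F E (a ^ (((Fintype.card F) ^ 2 - 1) / Nat.gcd 3 ((Fintype.card F) - 1))) := by
  set k := Fintype.card F with hk
  have hk2 : 2 ≤ k := q_ge
  obtain ⟨ρ, hρ⟩ := frob_rh (F := F) (E := E) (p := p)
  have hfix : ∀ a : F, ρ (algebraMap F E a) = algebraMap F E a := by
    intro a
    rw [hρ, ← map_pow, FiniteField.pow_card]
  set r := ζ ^ k with hr
  have hR : r ^ 2 - algebraMap F E s * r + algebraMap F E a⁻¹ = 0 := by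
    have h1 := congrArg ρ hζ
    rw [map_add, map_sub, map_mul, map_pow, hfix, hfix, hρ, map_zero] at h1
    exact h1
  have hne : ζ ≠ r := by
    intro h
    obtain ⟨c, hc⟩ := Cfsg.Agent.H10.mem_range_algebraMap_of_pow_card ζ h.symm
    exact hnot c hc
  have hs : algebraMap F E s = ζ + r := by
    have h1 : ζ + r - algebraMap F E s = 0 := by
      apply mul_left_cancel₀ (sub_ne_zero.2 hne)
      linear_combination hζ - hR
    linear_combination - h1
  have hprod : ζ * r = algebraMap F E a⁻¹ := by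
    rw [hs] at hζ
    linear_combination - hζ
  have hζ0 : ζ ≠ 0 := by
    rintro rfl
    have h1 := hnot 0
    simp at h1
  have hu : (ζ ^ (k + 1)) * algebraMap F E a = 1 := by
    rw [pow_succ', ← hr, hprod, ← map_mul, inv_mul_cancel₀ ha, map_one]
  have hN : ζ ^ (k ^ 2 - 1) = 1 := by
    rw [← hE]
    exact FiniteField.pow_card_sub_one_eq_one ζ hζ0
  set d := Nat.gcd 3 (k - 1) with hd
  have hd1 : d ∣ k - 1 := Nat.gcd_dvd_right _ _
  have hd3 : d ∣ 3 := Nat.gcd_dvd_left _ _
  have hd0 : 0 < d := Nat.pos_of_dvd_of_pos hd3 (by norm_num)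
  have hkk : k ^ 2 - 1 = (k - 1) * (k + 1) := nat_b k hk2
  have hd2 : d ∣ k ^ 2 - 1 := by
    rw [hkk]
    exact Dvd.dvd.mul_right hd1 _
  have hd4 : d ∣ k + 2 := by
    have h1 : k + 2 = (k - 1) + 3 := by omega
    rw [h1]
    exact Dvd.dvd.add hd1 hd3
  obtain ⟨f, hf⟩ := hd2
  have hfeq : (k ^ 2 - 1) / d = f := by
    rw [hf]
    exact Nat.mul_div_cancel_left _ hd0
  rw [hfeq]
  obtain ⟨g, hg⟩ := hd4
  have h5 : (ζ ^ f) ^ (k + 2) = 1 := by
    rw [hg, ← pow_mul, show f * (d * g) = d * f * g by ring, ← hf, pow_mul, hN, one_pow]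
  have h6 : (ζ ^ (k + 1)) ^ f * algebraMap F E (a ^ f) = 1 := by
    rw [map_pow, ← mul_pow, hu, one_pow]
  have h7 : (ζ ^ (k + 1)) ^ f * ζ ^ f = 1 := by
    rw [← h5, ← pow_mul, ← pow_mul, ← pow_add]
    congr 1
    ring
  have h8 : (ζ ^ (k + 1)) ^ f ≠ 0 := pow_ne_zero _ (pow_ne_zero _ hζ0)
  exact mul_left_cancel₀ h8 (h7.trans h6.symm)

/-- The upper bound on matrices. -/
theorem upper [Fact p.Prime] [CharP F p] (M : Matrix (Fin 3) (Fin 3) F) (hdet : M.det = 1) :
    ∃ c : F, M ^ ((Fintype.card F ^ 2 + Fintype.card F + 1) / Nat.gcd 3 (Fintype.card F - 1)) = c • 1 ∨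
      M ^ ((Fintype.card F ^ 2 - 1) / Nat.gcd 3 (Fintype.card F - 1)) = c • 1 ∨
      M ^ (Fintype.card F - 1) = c • 1 ∨
      M ^ (p * ((Fintype.card F - 1) / Nat.gcd 3 (Fintype.card F - 1))) = c • 1 ∨ (p = 2 ∧ M ^ 4 = c • 1) := by
  classical
  have hpP : p.Prime := Fact.out
  set k := Fintype.card F with hk
  have hk2 : 2 ≤ k := q_ge
  set t := M 0 0 + M 1 1 + M 2 2 with ht
  set e := M 0 0 * M 1 1 - M 0 1 * M 1 0 + M 0 0 * M 2 2 - M 0 2 * M 2 0 + M 1 1 * M 2 2 - M 1 2 * M 2 1 with he
  have hch := ch3 M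
  rw [← ht, ← he, hdet] at hch
  set P : F[X] := X ^ 3 - C t * X ^ 2 + C e * X - C 1 with hP
  have hPM : aeval M P = 0 := by
    rw [hP, map_sub, map_add, map_sub, map_mul, map_mul, map_pow, map_pow, aeval_X, aeval_C, aeval_C, aeval_C]
    simp only [Algebra.algebraMap_eq_smul_one, smul_mul_assoc, one_mul]
    exact hch
  have hPdeg : P.natDegree = 3 := by
    rw [hP]
    compute_degree!
  have hPmonic : P.Monic := by
    rw [hP]
    monicity!
  have hcube : ∀ y : F, IsRoot P y ↔ y ^ 3 - t * y ^ 2 + e * y - 1 = 0 := by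
    intro y
    rw [IsRoot.def, hP]
    simp
  by_cases hroot : ∃ a : F, IsRoot P a
  · obtain ⟨a, ha⟩ := hroot
    have ha' := (hcube a).1 ha
    have ha0 : a ≠ 0 := by
      rintro rfl
      simp at ha'
    set s := t - a with hs
    have hPfac : P = (X - C a) * (X ^ 2 - C s * X + C a⁻¹) := by
      have e1 : e = s * a + a⁻¹ := by
        apply mul_right_cancel₀ ha0
        rw [add_mul, inv_mul_cancel₀ ha0, hs]
        linear_combination ha'
      have e2 : t = s + a := by rw [hs]; ring
      have e3 : a * a⁻¹ = 1 := mul_inv_cancel₀ ha0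
      rw [hP, e1, e2, show (C 1 : F[X]) = C a * C a⁻¹ by rw [← C_mul, e3]]
      simp only [C_add, C_mul]
      ring
    by_cases hQ : ∃ b : F, b ^ 2 - s * b + a⁻¹ = 0
    · obtain ⟨b, hb⟩ := hQ
      set c := s - b with hc
      have e1 : a⁻¹ = b * c := by
        rw [hc]
        linear_combination hb
      have hPfac2 : P = (X - C a) * (X - C b) * (X - C c) := by
        rw [hPfac, e1, mul_assoc]
        congr 1
        have e2 : s = b + c := by rw [hc]; ring
        rw [e2]
        simp only [C_add, C_mul]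
        ring
      have hprod : a * b * c = 1 := by
        rw [mul_assoc, ← e1, mul_inv_cancel₀ ha0]
      rw [hPfac2] at hPM
      have hb0 : b ≠ 0 := by
        rintro rfl
        simp at hprod
      have hc0 : c ≠ 0 := by
        rintro h
        rw [h] at hprod
        simp at hprod
      have hq1 : ∀ x : F, x ≠ 0 → x ^ (k - 1) = 1 := fun x hx => FiniteField.pow_card_sub_one_eq_one x hx
      -- repeated roots
      have hrep : ∀ a' c' : F, a' * a' * c' = 1 → aeval M ((X - C a') * (X - C a') * (X - C c')) = 0 →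
          ∃ c : F, M ^ ((k ^ 2 + k + 1) / Nat.gcd 3 (k - 1)) = c • 1 ∨
            M ^ ((k ^ 2 - 1) / Nat.gcd 3 (k - 1)) = c • 1 ∨
            M ^ (k - 1) = c • 1 ∨
            M ^ (p * ((k - 1) / Nat.gcd 3 (k - 1))) = c • 1 ∨ (p = 2 ∧ M ^ 4 = c • 1) := by
        intro a' c' h1 h2
        have ha'0 : a' ≠ 0 := by
          rintro rfl
          simp at h1
        set d := Nat.gcd 3 (k - 1) with hd
        have hd1 : d ∣ k - 1 := Nat.gcd_dvd_right _ _
        have hd3 : d ∣ 3 := Nat.gcd_dvd_left _ _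
        have hd0 : 0 < d := Nat.pos_of_dvd_of_pos hd3 (by norm_num)
        obtain ⟨e', he'⟩ := hd1
        obtain ⟨d', hd'⟩ := hd3
        have heq : (k - 1) / d = e' := by
          rw [he']
          exact Nat.mul_div_cancel_left _ hd0
        rw [heq]
        have h3e : a' ^ (3 * e') = 1 := by
          rw [hd', show d * d' * e' = d * e' * d' by ring, ← he', pow_mul, hq1 a' ha'0, one_pow]
        have hce : c' ^ e' = a' ^ e' := by
          have h3 : (a' * a' * c') ^ e' = 1 := by rw [h1, one_pow]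
          rw [mul_pow, mul_pow] at h3
          have h4 : a' ^ e' * a' ^ e' * a' ^ e' = 1 := by
            rw [← h3e]
            ring
          have h5 : a' ^ e' * a' ^ e' ≠ 0 := mul_ne_zero (pow_ne_zero _ ha'0) (pow_ne_zero _ ha'0)
          exact mul_left_cancel₀ h5 (h3.trans h4.symm)
        set y := a' ^ e' with hy
        let g : F[X] := X ^ e' - C y
        have hga : (X - C a') ∣ g := dvd_iff_isRoot.2 (by simp [g, IsRoot.def, hy])
        have hgc : (X - C c') ∣ g := dvd_iff_isRoot.2 (by simp [g, IsRoot.def, hce])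
        have hgp : g ^ p = (X ^ (p * e') - C (y ^ p) : F[X]) := by
          change (X ^ e' - C y) ^ p = _
          rw [sub_pow_char, ← C_pow, ← pow_mul, mul_comm e' p]
        by_cases hac : a' = c'
        · by_cases hp2 : p = 2
          · refine ⟨a' ^ 4, Or.inr (Or.inr (Or.inr (Or.inr ⟨hp2, ?_⟩)))⟩
            apply pow_eq_of_aeval
            apply scal_of_dvd h2
            rw [← hac]
            subst hp2
            have h6 : (X ^ 4 - C (a' ^ 4) : F[X]) = (X - C a') ^ 4 := by
              rw [show 4 = 2 ^ 2 by norm_num, sub_pow_char_pow, C_pow]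
            rw [h6]
            exact ⟨X - C a', by ring⟩
          · have hp3 : 3 ≤ p := by
              have := hpP.two_le
              omega
            refine ⟨y ^ p, Or.inr (Or.inr (Or.inr (Or.inl ?_)))⟩
            apply pow_eq_of_aeval
            apply scal_of_dvd h2
            rw [← hgp, ← hac]
            have h6 : (X - C a') * (X - C a') * (X - C a') ∣ g ^ 3 := by
              rw [show g ^ 3 = g * g * g by ring]
              exact mul_dvd_mul (mul_dvd_mul hga hga) hga
            exact h6.trans (pow_dvd_pow _ hp3)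
        · refine ⟨y ^ p, Or.inr (Or.inr (Or.inr (Or.inl ?_)))⟩
          apply pow_eq_of_aeval
          apply scal_of_dvd h2
          rw [← hgp]
          have h6 : (X - C a') * (X - C c') ∣ g := by
            have hcop : IsCoprime (X - C a') (X - C c') :=
              isCoprime_X_sub_C_of_isUnit_sub (sub_ne_zero.2 hac).isUnit
            exact hcop.mul_dvd hga hgc
          have h7 : (X - C a') * (X - C a') * (X - C c') ∣ g ^ 2 := by
            rw [mul_assoc, sq]
            exact mul_dvd_mul hga h6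
          exact h7.trans (pow_dvd_pow _ hpP.two_le)
      by_cases hab : a = b
      · rw [← hab] at hPM hprod
        exact hrep a c hprod hPM
      by_cases hac : a = c
      · rw [← hac] at hPM hprod
        apply hrep a b (by rw [← hprod]; ring)
        rw [show (X - C a) * (X - C a) * (X - C b) = (X - C a) * (X - C b) * (X - C a) by ring]
        exact hPM
      by_cases hbc : b = c
      · rw [← hbc] at hPM hprod
        apply hrep b a (by rw [← hprod]; ring)
        rw [show (X - C b) * (X - C b) * (X - C a) = (X - C a) * (X - C b) * (X - C b) by ring]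
        exact hPM
      refine ⟨1, Or.inr (Or.inr (Or.inl (pow_eq_of_aeval (scal_of_dvd hPM (prod_dvd a b c hab hac hbc _ ?_ ?_ ?_)))))⟩ <;>
        simp [hq1, ha0, hb0, hc0]
    · -- irreducible quadratic
      set Q : F[X] := X ^ 2 - C s * X + C a⁻¹ with hQd
      have hQdeg : Q.natDegree = 2 := by
        rw [hQd]
        compute_degree!
      have hQroot : ∀ x : F, ¬ IsRoot Q x := by
        intro x hx
        apply hQ
        refine ⟨x, ?_⟩
        rw [IsRoot.def, hQd] at hx
        simpa using hx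
      have hirr : Irreducible Q := irreducible_of_degree_le_three_of_not_isRoot (by rw [hQdeg]; simp) hQroot
      haveI : Fact (Irreducible Q) := ⟨hirr⟩
      set E := AdjoinRoot Q with hE
      set ζ : E := AdjoinRoot.root Q with hζ
      haveI : Module.Finite F E := (AdjoinRoot.powerBasis hirr.ne_zero).finite
      haveI : Finite E := Module.finite_of_finite F
      letI : Fintype E := Fintype.ofFinite E
      have hcard : Fintype.card E = k ^ 2 := by
        have h1 := Module.card_eq_pow_finrank (K := F) (V := E)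
        rw [h1, (AdjoinRoot.powerBasis hirr.ne_zero).finrank]
        simp [hQdeg]
        rfl
      haveI : CharP E p := charP_of_injective_algebraMap (algebraMap F E).injective p
      have hζR : ζ ^ 2 - algebraMap F E s * ζ + algebraMap F E a⁻¹ = 0 := by
        have h2 : AdjoinRoot.mk Q (X ^ 2 - C s * X + C a⁻¹) = 0 := by
          rw [← hQd]
          exact AdjoinRoot.mk_self
        rw [map_add, map_sub, map_mul, map_pow, AdjoinRoot.mk_X, AdjoinRoot.mk_C, AdjoinRoot.mk_C] at h2
        exact h2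
      have hnot : ∀ c : F, algebraMap F E c ≠ ζ := by
        intro c hc
        apply hQ
        refine ⟨c, ?_⟩
        rw [← hc] at hζR
        apply (algebraMap F E).injective
        rw [map_zero, ← hζR]
        simp
      have hf := quad_field hcard ha0 hζR hnot
      set f := (k ^ 2 - 1) / Nat.gcd 3 (k - 1) with hfd
      refine ⟨a ^ f, Or.inr (Or.inl ?_)⟩
      apply pow_eq_of_aeval (scal_of_dvd hPM ?_)
      rw [hPfac]
      have h1 : (X - C a) ∣ (X ^ f - C (a ^ f) : F[X]) := dvd_iff_isRoot.2 (by simp [IsRoot.def])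
      have h2 : Q ∣ (X ^ f - C (a ^ f) : F[X]) := by
        rw [← AdjoinRoot.mk_eq_zero, map_sub, map_pow, AdjoinRoot.mk_X, AdjoinRoot.mk_C, sub_eq_zero]
        exact hf
      have hcop : IsCoprime (X - C a) Q := by
        apply (irreducible_X_sub_C a).coprime_iff_not_dvd.2
        intro h3
        rw [dvd_iff_isRoot] at h3
        exact hQroot a h3
      exact hcop.mul_dvd h1 h2
  · -- irreducible cubic
    have hirr : Irreducible P := irreducible_of_degree_le_three_of_not_isRoot (by rw [hPdeg]; simp) (fun x hx => hroot ⟨x, hx⟩)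
    haveI : Fact (Irreducible P) := ⟨hirr⟩
    set E := AdjoinRoot P with hE
    set ζ : E := AdjoinRoot.root P with hζ
    haveI : Module.Finite F E := (AdjoinRoot.powerBasis hirr.ne_zero).finite
    haveI : Finite E := Module.finite_of_finite F
    letI : Fintype E := Fintype.ofFinite E
    have hcard : Fintype.card E = k ^ 3 := by
      have h1 := Module.card_eq_pow_finrank (K := F) (V := E)
      rw [h1, (AdjoinRoot.powerBasis hirr.ne_zero).finrank]
      simp [hPdeg]
      rfl
    haveI : CharP E p := charP_of_injective_algebraMap (algebraMap F E).injective p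
    have hζR : ζ ^ 3 - algebraMap F E t * ζ ^ 2 + algebraMap F E e * ζ - 1 = 0 := by
      have h2 : AdjoinRoot.mk P (X ^ 3 - C t * X ^ 2 + C e * X - C 1) = 0 := by
        rw [← hP]
        exact AdjoinRoot.mk_self
      rw [map_sub, map_add, map_sub, map_mul, map_mul, map_pow, map_pow, AdjoinRoot.mk_X, AdjoinRoot.mk_C, AdjoinRoot.mk_C,
        AdjoinRoot.mk_C, map_one] at h2
      exact h2
    have hnot : ∀ c : F, algebraMap F E c ≠ ζ := by
      intro c hc
      apply hroot
      refine ⟨c, ?_⟩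
      rw [hcube]
      rw [← hc] at hζR
      apply (algebraMap F E).injective
      rw [map_zero, ← hζR]
      simp
    obtain ⟨c, hc⟩ := cubic_field hcard hζR hnot
    refine ⟨c, Or.inl ?_⟩
    apply pow_eq_of_aeval (scal_of_dvd hPM ?_)
    rw [← AdjoinRoot.mk_eq_zero, map_sub, map_pow, AdjoinRoot.mk_X, AdjoinRoot.mk_C, sub_eq_zero]
    exact hc

end Cfsg.Agent.H11.PSL3
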