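import Cfsg.Agent.Lib.H11.PSL3a

/-! Orders of elements of `PSL_3(q)`: the existence part and the spectrum. -/

set_option autoImplicit false
set_option linter.unusedSectionVars false
set_option linter.unusedVariables false

namespace Cfsg.Agent.H11.PSL3

open Matrix Module
open Cfsg.Agent.H11.PrimeGr

variable {F : Type*} [Field F] [Fintype F] {p : ℕ}

/-- The regular representation of an extension of degree `d`. -/
theorem exists_ext [Fact p.Prime] [CharP F p] (d : ℕ) (hd : 1 ≤ d) :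
    ∃ (E : Type) (_ : Field E) (_ : Fintype E) (_ : Algebra F E) (φ : E →ₐ[F] Matrix (Fin d) (Fin d) F),
      Fintype.card E = Fintype.card F ^ d ∧ Module.finrank F E = d ∧ ∀ x, (φ x).det = Algebra.norm F x := by
  classical
  have hne : NeZero d := ⟨by omega⟩
  let E := FiniteField.Extension F p d
  have hfr : Module.finrank F E = d := FiniteField.finrank_extension F p d
  haveI : Fintype E := Fintype.ofFinite E
  let b := Module.finBasisOfFinrankEq F E hfr
  refine ⟨E, inferInstance, inferInstance, inferInstance, Algebra.leftMulMatrix b, ?_, hfr, ?_⟩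
  · rw [← Nat.card_eq_fintype_card, FiniteField.natCard_extension, Nat.card_eq_fintype_card]
  · intro x
    exact (Algebra.norm_eq_matrix_det b x).symm

/-- element of order `(q^2 + q + 1) / d` -/
theorem element_A [Fact p.Prime] [CharP F p] :
    ∃ y : Matrix.ProjectiveSpecialLinearGroup (Fin 3) F,
      orderOf y = (Fintype.card F ^ 2 + Fintype.card F + 1) / Nat.gcd 3 (Fintype.card F - 1) := by
  classical
  set k := Fintype.card F with hk
  have hk2 : 2 ≤ k := q_ge
  obtain ⟨E, _, _, _, φ, hcard, hfr, hdet⟩ := exists_ext (F := F) (p := p) 3 (by norm_num)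
  obtain ⟨w₀, hw₀⟩ := IsCyclic.exists_generator (α := Eˣ)
  have hord : orderOf w₀ = k ^ 3 - 1 := by
    rw [orderOf_eq_card_of_forall_mem_zpowers hw₀, Nat.card_eq_fintype_card, Fintype.card_units, hcard]
  set A := k ^ 2 + k + 1 with hA
  have hA0 : A ≠ 0 := by omega
  have hDA : k ^ 3 - 1 = (k - 1) * A := by
    have h1 : (k - 1) * A + 1 = k ^ 3 := by
      obtain ⟨m, hm⟩ : ∃ m, k = m + 1 := ⟨k - 1, by omega⟩
      rw [hA, hm]
      simp
      ring
    omega
  have hD0 : k - 1 ≠ 0 := by omega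
  let zu : Eˣ := w₀ ^ (k - 1)
  have hzu : orderOf zu = A := by
    simp only [zu]
    rw [orderOf_pow_of_dvd hD0 ⟨A, by rw [hord, hDA]⟩, hord, hDA]
    exact Nat.mul_div_cancel_left _ (Nat.pos_of_ne_zero hD0)
  let z : E := zu
  have hz : orderOf z = A := by rw [← hzu]; exact orderOf_units
  have hz0 : z ≠ 0 := zu.ne_zero
  have hzA : z ^ A = 1 := by rw [← hz, pow_orderOf_eq_one]
  let x : GL (Fin 3) F := Units.map (φ : E →* Matrix (Fin 3) (Fin 3) F) zu
  have hxm : ∀ m : ℕ, ((x ^ m : GL (Fin 3) F) : Matrix (Fin 3) (Fin 3) F) = φ (z ^ m) := by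
    intro m
    rw [Units.val_pow_eq_pow_val, map_pow]
    rfl
  have hdetx : (x : Matrix (Fin 3) (Fin 3) F).det = 1 := by
    have h1 := hxm 1
    rw [pow_one, pow_one] at h1
    rw [h1, hdet]
    have h2 : z = (w₀ : E) ^ (k - 1) := by
      simp only [z, zu]
      rw [Units.val_pow_eq_pow_val]
    rw [h2, map_pow]
    exact FiniteField.pow_card_sub_one_eq_one _ (Algebra.norm_ne_zero_iff.2 w₀.ne_zero)
  apply psl_of_gl2 (by norm_num) x hdetx
  intro m
  set d := Nat.gcd 3 (k - 1) with hdd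
  have hgcd : Nat.gcd A (k - 1) = d := by
    rw [hA, nat_a k hk2, Nat.gcd_comm, hdd, Nat.gcd_comm 3]
    simp [Nat.gcd_mul_left_add_right]
  have hd3 : d ∣ 3 := Nat.gcd_dvd_left _ _
  have hd0 : 0 < d := Nat.pos_of_dvd_of_pos hd3 (by norm_num)
  obtain ⟨B', hB'⟩ : d ∣ A := by
    rw [← hgcd]
    exact Nat.gcd_dvd_left _ _
  obtain ⟨f, hf⟩ : d ∣ k - 1 := by
    rw [← hgcd]
    exact Nat.gcd_dvd_right _ _
  have hBeq : A / d = B' := by
    rw [hB']
    exact Nat.mul_div_cancel_left _ hd0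
  have hcop : Nat.Coprime B' f := by
    have h1 := hgcd
    rw [hB', hf, Nat.gcd_mul_left] at h1
    exact Nat.eq_of_mul_eq_mul_left hd0 (by rw [h1, mul_one])
  rw [hBeq]
  have hstep : (∃ c : F, z ^ m = algebraMap F E c) ↔ B' ∣ m := by
    constructor
    · rintro ⟨c, hc⟩
      have h1 : (z ^ m) ^ k = z ^ m := by
        rw [hc, ← map_pow, hk, FiniteField.pow_card]
      have h2 : (z ^ m) ^ (k - 1) = 1 := by
        have h3 : (z ^ m) ^ (k - 1) * z ^ m = z ^ m := by
          rw [← pow_succ, Nat.sub_add_cancel (by omega), h1]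
        exact mul_right_cancel₀ (pow_ne_zero _ hz0) (by rw [h3, one_mul])
      rw [← pow_mul, ← orderOf_dvd_iff_pow_eq_one, hz, hB', hf] at h2
      have h3 : d * B' ∣ d * (m * f) := by
        convert h2 using 1
        ring
      have h4 := Nat.dvd_of_mul_dvd_mul_left hd0 h3
      exact hcop.dvd_of_dvd_mul_right h4
    · rintro ⟨l, rfl⟩
      have h1 : (z ^ B') ^ Fintype.card F = z ^ B' := by
        rw [← hk]
        have h3 : k = (k - 1) + 1 := by omega
        conv_lhs => rw [h3]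
        rw [pow_succ, ← pow_mul]
        have h2 : z ^ (B' * (k - 1)) = 1 := by
          rw [hf, show B' * (d * f) = d * B' * f by ring, ← hB', pow_mul, hzA, one_pow]
        rw [h2, one_mul]
      obtain ⟨c, hc⟩ := Cfsg.Agent.H10.mem_range_algebraMap_of_pow_card _ h1
      exact ⟨c ^ l, by rw [pow_mul, ← hc, map_pow]⟩
  rw [← hstep]
  apply exists_congr
  intro c
  rw [hxm]
  have h5 : (Matrix.scalar (Fin 3)) c = φ (algebraMap F E c) := by
    rw [AlgHom.commutes]
    rfl
  rw [h5]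
  have hinj : Function.Injective φ := φ.toRingHom.injective
  exact hinj.eq_iff

theorem gcd_b (k : ℕ) (hk : 2 ≤ k) : Nat.gcd (k ^ 2 - 1) (k + 2) = Nat.gcd 3 (k - 1) := by
  obtain ⟨n, rfl⟩ : ∃ n, k = n + 2 := ⟨k - 2, by omega⟩
  have e1 : (n + 2) ^ 2 - 1 = (n + 4) * n + 3 := by
    have : (n + 2) ^ 2 = (n + 4) * n + 3 + 1 := by ring
    omega
  have e2 : n + 2 + 2 = n + 4 := rfl
  have e3 : n + 2 - 1 = n + 1 := rfl
  rw [e1, e2, e3, Nat.gcd_comm, Nat.gcd_comm 3]
  have e4 : n + 4 = (n + 1) + 3 := rfl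
  have e5 : Nat.gcd (n + 4) ((n + 4) * n + 3) = Nat.gcd (n + 4) 3 := by simp
  rw [e5, e4]
  simp

/-- element of order `(q^2 - 1) / d` -/
theorem element_B [Fact p.Prime] [CharP F p] :
    ∃ y : Matrix.ProjectiveSpecialLinearGroup (Fin 3) F,
      orderOf y = (Fintype.card F ^ 2 - 1) / Nat.gcd 3 (Fintype.card F - 1) := by
  classical
  set k := Fintype.card F with hk
  have hk2 : 2 ≤ k := q_ge
  obtain ⟨E, _, _, _, φ, hcard, hfr, hdet⟩ := exists_ext (F := F) (p := p) 2 (by norm_num)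
  obtain ⟨w₀, hw₀⟩ := IsCyclic.exists_generator (α := Eˣ)
  have hord : orderOf w₀ = k ^ 2 - 1 := by
    rw [orderOf_eq_card_of_forall_mem_zpowers hw₀, Nat.card_eq_fintype_card, Fintype.card_units, hcard]
  let w : E := w₀
  have hw0 : w ≠ 0 := w₀.ne_zero
  have hordw : orderOf w = k ^ 2 - 1 := by rw [← hord]; exact orderOf_units
  set N₀ := Algebra.norm F w with hN₀
  have hN₀0 : N₀ ≠ 0 := Algebra.norm_ne_zero_iff.2 hw0
  have hnorm : algebraMap F E N₀ = w ^ (k + 1) := by
    rw [hN₀, FiniteField.algebraMap_norm_eq_pow, Nat.card_eq_fintype_card, Nat.card_eq_fintype_card, hcard, ← hk]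
    congr 1
    rw [nat_b k hk2]
    exact Nat.mul_div_cancel_left _ (by omega)
  let A : GL (Fin 2) F := Units.map (φ : E →* Matrix (Fin 2) (Fin 2) F) w₀
  have hAm : ∀ m : ℕ, ((A ^ m : GL (Fin 2) F) : Matrix (Fin 2) (Fin 2) F) = φ (w ^ m) := by
    intro m
    rw [Units.val_pow_eq_pow_val, map_pow]
    rfl
  have hdetA : (A : Matrix (Fin 2) (Fin 2) F).det = N₀ := by
    have h1 := hAm 1
    rw [pow_one, pow_one] at h1
    rw [h1, hdet]
  let u : Fˣ := Units.mk0 N₀ hN₀0
  let C : GL (Fin 1) F := Matrix.GeneralLinearGroup.scalar (Fin 1) u⁻¹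
  obtain ⟨f', hf', hfdet, hfs⟩ := exists_blk (F := F) 2 1 3 rfl
  let x := f' (A, C)
  have hxm : ∀ m : ℕ, x ^ m = f' (A ^ m, C ^ m) := by
    intro m
    change (f' (A, C)) ^ m = _
    rw [← map_pow, Prod.pow_mk]
  have hCm : ∀ m : ℕ, C ^ m = Matrix.GeneralLinearGroup.scalar (Fin 1) (u⁻¹ ^ m) := by
    intro m
    exact (map_pow _ _ _).symm
  apply psl_of_gl2 (by norm_num) x
  · change ((f' (A, C) : GL (Fin 3) F) : Matrix (Fin 3) (Fin 3) F).det = 1
    rw [hfdet]
    simp only [hdetA, C, Matrix.GeneralLinearGroup.coe_scalar, Matrix.scalar_apply, Matrix.det_diagonal]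
    simp [u, hN₀0]
  · intro m
    set d := Nat.gcd 3 (k - 1) with hdd
    have hd3 : d ∣ 3 := Nat.gcd_dvd_left _ _
    have hd1 : d ∣ k - 1 := Nat.gcd_dvd_right _ _
    have hd0 : 0 < d := Nat.pos_of_dvd_of_pos hd3 (by norm_num)
    have hgcd : Nat.gcd (k ^ 2 - 1) (k + 2) = d := gcd_b k hk2
    obtain ⟨f, hf⟩ : d ∣ k ^ 2 - 1 := by
      rw [← hgcd]
      exact Nat.gcd_dvd_left _ _
    obtain ⟨g, hg⟩ : d ∣ k + 2 := by
      rw [← hgcd]
      exact Nat.gcd_dvd_right _ _
    have hfeq : (k ^ 2 - 1) / d = f := by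
      rw [hf]
      exact Nat.mul_div_cancel_left _ hd0
    have hcop : Nat.Coprime f g := by
      have h1 := hgcd
      rw [hf, hg, Nat.gcd_mul_left] at h1
      exact Nat.eq_of_mul_eq_mul_left hd0 (by rw [h1, mul_one])
    rw [hfeq]
    have hinj : Function.Injective φ := φ.toRingHom.injective
    have h5 : ∀ c : F, (Matrix.scalar (Fin 2)) c = φ (algebraMap F E c) := by
      intro c
      rw [AlgHom.commutes]
      rfl
    have hiff : (∃ c : F, ((x ^ m : GL (Fin 3) F) : Matrix (Fin 3) (Fin 3) F) = Matrix.scalar (Fin 3) c) ↔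
        w ^ m = algebraMap F E (((u⁻¹ ^ m : Fˣ) : F)) := by
      constructor
      · rintro ⟨c, hc⟩
        rw [hxm, hfs] at hc
        obtain ⟨h1, h2⟩ := hc
        simp only at h1 h2
        rw [hAm, h5] at h1
        have h3 := hinj h1
        rw [hCm, Matrix.GeneralLinearGroup.coe_scalar] at h2
        have h4 := congrFun (congrFun h2 0) 0
        simp only [Matrix.scalar_apply, Matrix.diagonal_apply_eq] at h4
        rw [h3, h4]
      · intro h
        refine ⟨((u⁻¹ ^ m : Fˣ) : F), ?_⟩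
        rw [hxm, hfs]
        refine ⟨?_, ?_⟩
        · simp only
          rw [hAm, h5, h]
        · simp only
          rw [hCm, Matrix.GeneralLinearGroup.coe_scalar]
    rw [hiff]
    have hval : algebraMap F E (((u⁻¹ ^ m : Fˣ) : F)) * (w ^ (k + 1)) ^ m = 1 := by
      rw [← hnorm, ← map_pow, ← map_mul]
      have : (((u⁻¹ ^ m : Fˣ) : F)) * N₀ ^ m = 1 := by
        have h1 : (u⁻¹ ^ m * u ^ m : Fˣ) = 1 := by
          rw [← mul_pow, inv_mul_cancel, one_pow]
        have h2 := Units.ext_iff.1 h1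
        rw [Units.val_mul, Units.val_pow_eq_pow_val u] at h2
        exact h2
      rw [this, map_one]
    have hne : (w ^ (k + 1)) ^ m ≠ 0 := pow_ne_zero _ (pow_ne_zero _ hw0)
    have hstep : w ^ m = algebraMap F E (((u⁻¹ ^ m : Fˣ) : F)) ↔ w ^ ((k + 2) * m) = 1 := by
      have e3 : w ^ ((k + 2) * m) = w ^ m * (w ^ (k + 1)) ^ m := by
        rw [← pow_mul, ← pow_add]
        congr 1
        ring
      rw [e3]
      constructor
      · intro h
        rw [h, hval]
      · intro h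
        exact mul_right_cancel₀ hne (h.trans hval.symm)
    rw [hstep, ← orderOf_dvd_iff_pow_eq_one, hordw, hf, hg, mul_assoc]
    rw [Nat.mul_dvd_mul_iff_left hd0]
    constructor
    · intro h
      exact hcop.dvd_of_dvd_mul_left h
    · intro h
      exact Dvd.dvd.mul_left h _

/-- element of order `q - 1` -/
theorem element_C [Fact p.Prime] [CharP F p] :
    ∃ y : Matrix.ProjectiveSpecialLinearGroup (Fin 3) F, orderOf y = Fintype.card F - 1 := by
  classical
  obtain ⟨a, ha⟩ := exists_unit_order (F := F) (Fintype.card F - 1) dvd_rfl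
  have ha0 : (a : F) ≠ 0 := a.ne_zero
  let X : Matrix (Fin 3) (Fin 3) F := Matrix.diagonal ![(a : F), (a : F)⁻¹, 1]
  have hXdet : X.det = 1 := by
    simp [X, Matrix.det_diagonal, Fin.prod_univ_three, ha0]
  let x : GL (Fin 3) F := Matrix.GeneralLinearGroup.mkOfDetNeZero X (by rw [hXdet]; exact one_ne_zero)
  have hxm : ∀ m : ℕ, ((x ^ m : GL (Fin 3) F) : Matrix (Fin 3) (Fin 3) F) = X ^ m := by
    intro m
    rw [Units.val_pow_eq_pow_val]
    rfl
  apply psl_of_gl2 (by norm_num) x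
  · exact hXdet
  · intro m
    rw [← ha, orderOf_dvd_iff_pow_eq_one]
    constructor
    · rintro ⟨c, hc⟩
      rw [hxm, Matrix.diagonal_pow] at hc
      have h1 := congrFun (congrFun hc 0) 0
      have h2 := congrFun (congrFun hc 2) 2
      simp at h1 h2
      apply Units.ext
      simp only [Units.val_pow_eq_pow_val, Units.val_one]
      rw [h1, ← h2]
    · intro h
      refine ⟨1, ?_⟩
      have h' : (a : F) ^ m = 1 := by
        have := congrArg (fun t : Fˣ => (t : F)) h
        simpa using this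
      rw [hxm, Matrix.diagonal_pow, map_one, ← Matrix.diagonal_one]
      congr 1
      funext i
      fin_cases i <;> simp [h']

/-- the twisted block in degree three -/
theorem exists_rp3_gen [Fact p.Prime] [CharP F p] {r : ℕ} (hcop : r.Coprime p) (a : Fˣ) (ha : orderOf (a ^ 3) = r) :
    ∃ y : Matrix.ProjectiveSpecialLinearGroup (Fin 3) F, orderOf y = r * p := by
  classical
  obtain ⟨J, hJ, hJdet, hJs⟩ := exists_J (F := F) p
  obtain ⟨f, hf, hfdet, hfs⟩ := exists_blk (F := F) 2 1 3 rfl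
  let B : GL (Fin 2) F := Matrix.GeneralLinearGroup.scalar (Fin 2) a * J
  let C : GL (Fin 1) F := Matrix.GeneralLinearGroup.scalar (Fin 1) ((a⁻¹) ^ 2)
  let x := f (B, C)
  have hBpow : ∀ m : ℕ, B ^ m = Matrix.GeneralLinearGroup.scalar (Fin 2) (a ^ m) * J ^ m := by
    intro m
    have hc : Commute (Matrix.GeneralLinearGroup.scalar (Fin 2) a) J := Matrix.GeneralLinearGroup.scalar_commute a J
    change (Matrix.GeneralLinearGroup.scalar (Fin 2) a * J) ^ m = _
    rw [hc.mul_pow, map_pow]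
  have hCpow : ∀ m : ℕ, C ^ m = Matrix.GeneralLinearGroup.scalar (Fin 1) (((a⁻¹) ^ 2) ^ m) := by
    intro m
    change (Matrix.GeneralLinearGroup.scalar (Fin 1) ((a⁻¹) ^ 2)) ^ m = _
    exact (map_pow _ _ _).symm
  have hpow : ∀ m : ℕ, x ^ m = f (B ^ m, C ^ m) := by
    intro m
    change (f (B, C)) ^ m = _
    rw [← map_pow, Prod.pow_mk]
  apply psl_of_gl2 (by omega) x
  · change ((f (B, C) : GL (Fin 3) F) : Matrix (Fin 3) (Fin 3) F).det = 1
    rw [hfdet]
    simp only [B, C, Units.val_mul, Matrix.det_mul, hJdet, Matrix.GeneralLinearGroup.coe_scalar, Matrix.scalar_apply, Matrix.det_diagonal]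
    simp
  · intro m
    have hsplit : ∀ c : F, ((x ^ m : GL (Fin 3) F) : Matrix (Fin 3) (Fin 3) F) = Matrix.scalar (Fin 3) c ↔
        (((Matrix.GeneralLinearGroup.scalar (Fin 2) (a ^ m) * J ^ m : GL (Fin 2) F) : Matrix (Fin 2) (Fin 2) F) = Matrix.scalar (Fin 2) c ∧
         ((Matrix.GeneralLinearGroup.scalar (Fin 1) (((a⁻¹) ^ 2) ^ m) : GL (Fin 1) F) : Matrix (Fin 1) (Fin 1) F) = Matrix.scalar (Fin 1) c) := by
      intro c
      rw [hpow, hfs, hBpow, hCpow]
    constructor
    · rintro ⟨c, hc⟩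
      obtain ⟨h1, h2⟩ := (hsplit c).1 hc
      have ham : (a ^ m : Fˣ) * (a⁻¹ ^ m : Fˣ) = 1 := by rw [← mul_pow, mul_inv_cancel, one_pow]
      have h3 : ((J ^ m : GL (Fin 2) F) : Matrix (Fin 2) (Fin 2) F) = Matrix.scalar (Fin 2) ((a⁻¹ ^ m : Fˣ) * c) := by
        have h4 : ((Matrix.GeneralLinearGroup.scalar (Fin 2) (a⁻¹ ^ m) * (Matrix.GeneralLinearGroup.scalar (Fin 2) (a ^ m) * J ^ m) : GL (Fin 2) F) : Matrix (Fin 2) (Fin 2) F) =
            Matrix.scalar (Fin 2) ((a⁻¹ ^ m : Fˣ) * c) := by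
          rw [Units.val_mul, h1, Matrix.GeneralLinearGroup.coe_scalar, map_mul]
        rw [← mul_assoc, ← map_mul, mul_comm (a⁻¹ ^ m), ham, map_one, one_mul] at h4
        exact h4
      obtain ⟨h5, h6⟩ := hJs m _ h3
      have hc2 : c = ((a ^ m : Fˣ) : F) := by
        have h7 := congrArg (fun t => ((a ^ m : Fˣ) : F) * t) h5
        change ((a ^ m : Fˣ) : F) * (((a⁻¹ ^ m : Fˣ) : F) * c) = ((a ^ m : Fˣ) : F) * 1 at h7
        rw [← mul_assoc, ← Units.val_mul, ham] at h7
        simpa using h7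
      have h8 := congrFun (congrFun h2 0) 0
      rw [Matrix.GeneralLinearGroup.coe_scalar] at h8
      simp only [Matrix.scalar_apply, Matrix.diagonal_apply_eq] at h8
      rw [hc2] at h8
      have h9 : ((a⁻¹) ^ 2) ^ m = a ^ m := Units.ext h8
      have h10 : (a ^ 3) ^ m = 1 := by
        have h11 : ((a ^ 2) ^ m) * ((a⁻¹ ^ 2) ^ m) = 1 := by
          rw [← mul_pow, ← mul_pow, mul_inv_cancel, one_pow, one_pow]
        rw [h9] at h11
        rw [← h11, ← pow_mul, ← pow_mul, ← pow_add]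
        congr 1
        ring
      have h12 : r ∣ m := by
        rw [← ha]
        exact orderOf_dvd_of_pow_eq_one h10
      exact hcop.mul_dvd_of_dvd_of_dvd h12 h6
    · intro h
      obtain ⟨h12, h6⟩ := And.intro (dvd_of_mul_right_dvd h) (dvd_of_mul_left_dvd h)
      refine ⟨((a ^ m : Fˣ) : F), (hsplit _).2 ⟨?_, ?_⟩⟩
      · have hJm : J ^ m = 1 := by
          rw [← orderOf_dvd_iff_pow_eq_one, hJ]
          exact h6
        rw [hJm, mul_one, Matrix.GeneralLinearGroup.coe_scalar]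
      · have h10 : (a ^ 3) ^ m = 1 := by
          rw [← orderOf_dvd_iff_pow_eq_one, ha]
          exact h12
        have h9 : ((a⁻¹) ^ 2) ^ m = a ^ m := by
          have h11 : ((a ^ 2) ^ m) * ((a⁻¹ ^ 2) ^ m) = 1 := by
            rw [← mul_pow, ← mul_pow, mul_inv_cancel, one_pow, one_pow]
          have h13 : (a ^ 3) ^ m = (a ^ 2) ^ m * a ^ m := by
            rw [← pow_mul, ← pow_mul, ← pow_add]
            congr 1
            ring
          rw [h13] at h10
          exact mul_left_cancel (h11.trans h10.symm)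
        rw [Matrix.GeneralLinearGroup.coe_scalar, h9]

/-- element of order `p (q - 1) / d` -/
theorem element_D [Fact p.Prime] [CharP F p] :
    ∃ y : Matrix.ProjectiveSpecialLinearGroup (Fin 3) F,
      orderOf y = p * ((Fintype.card F - 1) / Nat.gcd 3 (Fintype.card F - 1)) := by
  classical
  have hpP : p.Prime := Fact.out
  obtain ⟨a, ha⟩ := exists_unit_order (F := F) (Fintype.card F - 1) dvd_rfl
  have hk2 : 2 ≤ Fintype.card F := q_ge
  have hd1 : Nat.gcd 3 (Fintype.card F - 1) ∣ Fintype.card F - 1 := Nat.gcd_dvd_right _ _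
  have ha3 : orderOf (a ^ 3) = (Fintype.card F - 1) / Nat.gcd 3 (Fintype.card F - 1) := by
    rw [orderOf_pow, ha, Nat.gcd_comm]
  have hcop : ((Fintype.card F - 1) / Nat.gcd 3 (Fintype.card F - 1)).Coprime p := by
    apply Nat.Coprime.symm
    rw [Nat.Prime.coprime_iff_not_dvd hpP]
    intro h
    have h1 : p ∣ Fintype.card F - 1 := h.trans (Nat.div_dvd_of_dvd hd1)
    have h2 : p ∣ Fintype.card F := (ZMod.natCast_eq_zero_iff _ _).1 (card_cast_zero p)
    have h3 : p ∣ 1 := by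
      have := Nat.dvd_sub h2 h1
      rwa [show Fintype.card F - (Fintype.card F - 1) = 1 by omega] at this
    exact hpP.one_lt.ne' (Nat.dvd_one.1 h3)
  obtain ⟨y, hy⟩ := exists_rp3_gen hcop a ha3
  exact ⟨y, by rw [hy, mul_comm]⟩

/-- element of order four in characteristic two -/
theorem element_E [CharP F 2] :
    ∃ y : Matrix.ProjectiveSpecialLinearGroup (Fin 3) F, orderOf y = 4 := by
  classical
  have h2 : (2 : F) = 0 := CharTwo.two_eq_zero
  let X : Matrix (Fin 3) (Fin 3) F := !![1, 1, 0; 0, 1, 1; 0, 0, 1]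
  have hXdet : X.det = 1 := by
    rw [Matrix.det_fin_three]
    simp [X]
  have hX2 : X ^ 2 = !![1, 0, 1; 0, 1, 0; 0, 0, 1] := by
    ext i j
    fin_cases i <;> fin_cases j <;> simp [X, sq, Matrix.mul_apply, Fin.sum_univ_three, h2, ← two_mul]
  have hX3 : X ^ 3 = !![1, 1, 1; 0, 1, 1; 0, 0, 1] := by
    rw [pow_succ, hX2]
    ext i j
    fin_cases i <;> fin_cases j <;> simp [X, Matrix.mul_apply, Fin.sum_univ_three, h2, ← two_mul]
  have hX4 : X ^ 4 = 1 := by
    rw [show 4 = 2 + 2 by norm_num, pow_add, hX2]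
    ext i j
    fin_cases i <;> fin_cases j <;> simp [Matrix.mul_apply, Fin.sum_univ_three, h2, ← two_mul]
  let x : GL (Fin 3) F := Matrix.GeneralLinearGroup.mkOfDetNeZero X (by rw [hXdet]; exact one_ne_zero)
  have hxm : ∀ m : ℕ, ((x ^ m : GL (Fin 3) F) : Matrix (Fin 3) (Fin 3) F) = X ^ m := by
    intro m
    rw [Units.val_pow_eq_pow_val]
    rfl
  apply psl_of_gl2 (by norm_num) x
  · exact hXdet
  · intro m
    have hmod : X ^ m = X ^ (m % 4) := by
      conv_lhs => rw [← Nat.div_add_mod m 4, pow_add, pow_mul, hX4, one_pow, one_mul]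
    have hlt : m % 4 < 4 := Nat.mod_lt _ (by norm_num)
    constructor
    · rintro ⟨c, hc⟩
      rw [hxm, hmod] at hc
      apply Nat.dvd_of_mod_eq_zero
      by_contra h0
      have hcases : m % 4 = 1 ∨ m % 4 = 2 ∨ m % 4 = 3 := by omega
      rcases hcases with h | h | h
      · rw [h, pow_one] at hc
        have := congrFun (congrFun hc 0) 1
        simp [X] at this
      · rw [h, hX2] at hc
        have := congrFun (congrFun hc 0) 2
        simp at this
      · rw [h, hX3] at hc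
        have := congrFun (congrFun hc 0) 1
        simp at this
    · intro h
      refine ⟨1, ?_⟩
      rw [hxm, hmod, Nat.mod_eq_zero_of_dvd h, pow_zero, map_one]

/-- The spectrum of `PSL_3(q)`. -/
theorem spectrum [Fact p.Prime] [CharP F p] :
    Set.range (orderOf : Matrix.ProjectiveSpecialLinearGroup (Fin 3) F → ℕ) =
      {m : ℕ | m ∣ (Fintype.card F ^ 2 + Fintype.card F + 1) / Nat.gcd 3 (Fintype.card F - 1) ∨
        m ∣ (Fintype.card F ^ 2 - 1) / Nat.gcd 3 (Fintype.card F - 1) ∨ m ∣ Fintype.card F - 1 ∨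
        m ∣ p * (Fintype.card F - 1) / Nat.gcd 3 (Fintype.card F - 1) ∨ (p = 2 ∧ m ∣ 4)} := by
  classical
  have hdvd : Nat.gcd 3 (Fintype.card F - 1) ∣ Fintype.card F - 1 := Nat.gcd_dvd_right _ _
  have hmul : p * (Fintype.card F - 1) / Nat.gcd 3 (Fintype.card F - 1) = p * ((Fintype.card F - 1) / Nat.gcd 3 (Fintype.card F - 1)) :=
    Nat.mul_div_assoc p hdvd
  rw [hmul]
  have hsub : ∀ N : ℕ, (∃ y : Matrix.ProjectiveSpecialLinearGroup (Fin 3) F, orderOf y = N) → ∀ s, s ∣ N →
      ∃ y : Matrix.ProjectiveSpecialLinearGroup (Fin 3) F, orderOf y = s := by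
    rintro N ⟨y, rfl⟩ s hs
    have hpos : 0 < orderOf y := orderOf_pos y
    obtain ⟨k, hk⟩ := hs
    have hk0 : k ≠ 0 := by
      rintro rfl
      omega
    have hs0 : 0 < k := Nat.pos_of_ne_zero hk0
    refine ⟨y ^ k, ?_⟩
    rw [orderOf_pow_of_dvd hk0 ⟨s, by rw [hk]; ring⟩, hk]
    exact Nat.mul_div_cancel _ hs0
  have hdvd2 : ∀ (g : Matrix.SpecialLinearGroup (Fin 3) F) (N : ℕ) (c : F), (g : Matrix (Fin 3) (Fin 3) F) ^ N = c • 1 →
      orderOf (QuotientGroup.mk g : Matrix.ProjectiveSpecialLinearGroup (Fin 3) F) ∣ N := by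
    intro g N c h
    rw [orderOf_dvd_iff_pow_eq_one, ← QuotientGroup.mk_pow, QuotientGroup.eq_one_iff, Matrix.SpecialLinearGroup.mem_center_iff]
    have hcoe : ((g ^ N : Matrix.SpecialLinearGroup (Fin 3) F) : Matrix (Fin 3) (Fin 3) F) = c • 1 := by
      rw [← h, Matrix.SpecialLinearGroup.coe_pow]
    refine ⟨c, ?_, ?_⟩
    · have h1 := (g ^ N).2
      rw [hcoe] at h1
      simpa using h1
    · rw [hcoe, scalar_eq_smul_one]
  ext s
  simp only [Set.mem_range, Set.mem_setOf_eq]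
  constructor
  · rintro ⟨y, rfl⟩
    obtain ⟨g, rfl⟩ := QuotientGroup.mk_surjective y
    obtain ⟨c, h⟩ := upper (p := p) (g : Matrix (Fin 3) (Fin 3) F) g.2
    rcases h with h | h | h | h | ⟨h2, h⟩
    · exact Or.inl (hdvd2 g _ c h)
    · exact Or.inr (Or.inl (hdvd2 g _ c h))
    · exact Or.inr (Or.inr (Or.inl (hdvd2 g _ c h)))
    · exact Or.inr (Or.inr (Or.inr (Or.inl (hdvd2 g _ c h))))
    · exact Or.inr (Or.inr (Or.inr (Or.inr ⟨h2, hdvd2 g _ c h⟩)))
  · rintro (h | h | h | h | ⟨h2, h⟩)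
    · exact hsub _ (element_A (p := p)) s h
    · exact hsub _ (element_B (p := p)) s h
    · exact hsub _ (element_C (p := p)) s h
    · exact hsub _ (element_D (p := p)) s h
    · subst h2
      exact hsub _ element_E s h

end Cfsg.Agent.H11.PSL3
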