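import Cfsg.Agent.Lib.H11.OppSyl

set_option autoImplicit false
set_option linter.unusedSectionVars false

namespace Cfsg.Agent.H11.SLn2

open Matrix
open scoped Pointwise

variable {n : ℕ}

/-- matrices -/
abbrev Mt (n : ℕ) := Matrix (Fin n) (Fin n) (ZMod 2)
/-- the special linear group -/
abbrev SS (n : ℕ) := Matrix.SpecialLinearGroup (Fin n) (ZMod 2)

lemma eq_one_of_ne {x : ZMod 2} (h : x ≠ 0) : x = 1 := by
  revert x
  decide

lemma two_add (x : ZMod 2) : x + x = 0 := CharTwo.add_self_eq_zero x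

lemma inv_mem_finite {G : Type*} [Group G] [Finite G] (S : Submonoid G) {g : G} (hg : g ∈ S) :
    g⁻¹ ∈ S := by
  have h1 : g ^ (orderOf g) = 1 := pow_orderOf_eq_one g
  have h2 : 0 < orderOf g := orderOf_pos g
  have h3 : g⁻¹ = g ^ (orderOf g - 1) := by
    apply inv_eq_of_mul_eq_one_left
    rw [← pow_succ, Nat.sub_add_cancel h2, h1]
  rw [h3]
  exact S.pow_mem hg _

/-- upper triangular submonoid -/
def U0M (n : ℕ) : Submonoid (SS n) where
  carrier := {g | ∀ i j, j < i → (g : Mt n) i j = 0}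
  one_mem' := by
    intro i j hij
    have : i ≠ j := ne_of_gt hij
    simp [Matrix.one_apply_ne this]
  mul_mem' := by
    intro a b ha hb i j hij
    rw [Matrix.SpecialLinearGroup.coe_mul, Matrix.mul_apply]
    apply Finset.sum_eq_zero
    intro l _
    by_cases hl : l < i
    · rw [ha i l hl, zero_mul]
    · rw [hb l j (lt_of_lt_of_le hij (not_lt.1 hl)), mul_zero]

/-- lower triangular submonoid -/
def L0M (n : ℕ) : Submonoid (SS n) where
  carrier := {g | ∀ i j, i < j → (g : Mt n) i j = 0}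
  one_mem' := by
    intro i j hij
    have : i ≠ j := ne_of_lt hij
    simp [Matrix.one_apply_ne this]
  mul_mem' := by
    intro a b ha hb i j hij
    rw [Matrix.SpecialLinearGroup.coe_mul, Matrix.mul_apply]
    apply Finset.sum_eq_zero
    intro l _
    by_cases hl : i < l
    · rw [ha i l hl, zero_mul]
    · rw [hb l j (lt_of_le_of_lt (not_lt.1 hl) hij), mul_zero]

/-- upper triangular subgroup -/
def U0 (n : ℕ) : Subgroup (SS n) where
  toSubmonoid := U0M n
  inv_mem' := fun hg => inv_mem_finite (U0M n) hg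

/-- lower triangular subgroup -/
def L0 (n : ℕ) : Subgroup (SS n) where
  toSubmonoid := L0M n
  inv_mem' := fun hg => inv_mem_finite (L0M n) hg

lemma mem_U0 {g : SS n} : g ∈ U0 n ↔ ∀ i j, j < i → (g : Mt n) i j = 0 := Iff.rfl
lemma mem_L0 {g : SS n} : g ∈ L0 n ↔ ∀ i j, i < j → (g : Mt n) i j = 0 := Iff.rfl

lemma U0_diag {g : SS n} (hg : g ∈ U0 n) (i : Fin n) : (g : Mt n) i i = 1 := by
  have h1 : (g : Mt n).det = 1 := g.2
  have h2 : (g : Mt n).IsUpperTriangular := fun a b hab => hg a b hab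
  rw [Matrix.det_of_isUpperTriangular h2] at h1
  apply eq_one_of_ne
  intro h
  have h3 : ∏ a, (g : Mt n) a a = 0 := Finset.prod_eq_zero (Finset.mem_univ i) h
  rw [h3] at h1
  exact zero_ne_one h1

lemma L0_diag {g : SS n} (hg : g ∈ L0 n) (i : Fin n) : (g : Mt n) i i = 1 := by
  have h1 : (g : Mt n).det = 1 := g.2
  have h2 : (g : Mt n).IsLowerTriangular := fun a b hab => hg a b hab
  rw [Matrix.det_of_isLowerTriangular _ h2] at h1
  apply eq_one_of_ne
  intro h
  have h3 : ∏ a, (g : Mt n) a a = 0 := Finset.prod_eq_zero (Finset.mem_univ i) h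
  rw [h3] at h1
  exact zero_ne_one h1

/-- build an element of the upper triangular group -/
def mkU (A : Mt n) (h : ∀ i j, j < i → A i j = 0) (hd : ∀ i, A i i = 1) : SS n :=
  ⟨A, by
    have h2 : A.IsUpperTriangular := fun a b hab => h a b hab
    rw [Matrix.det_of_isUpperTriangular h2]
    simp [hd]⟩

/-- build an element of the lower triangular group -/
def mkL (A : Mt n) (h : ∀ i j, i < j → A i j = 0) (hd : ∀ i, A i i = 1) : SS n :=
  ⟨A, by
    have h2 : A.IsLowerTriangular := fun a b hab => h a b hab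
    rw [Matrix.det_of_isLowerTriangular _ h2]
    simp [hd]⟩

lemma mkU_mem (A : Mt n) (h : ∀ i j, j < i → A i j = 0) (hd : ∀ i, A i i = 1) :
    mkU A h hd ∈ U0 n := h

lemma mkL_mem (A : Mt n) (h : ∀ i j, i < j → A i j = 0) (hd : ∀ i, A i i = 1) :
    mkL A h hd ∈ L0 n := h

/-- matrix product with a column-type elementary matrix -/
lemma mul_col (a : Fin n → ZMod 2) (k : Fin n) (X : Mt n) (i j : Fin n) :
    ((1 + Matrix.of (fun i j => if j = k then a i else 0) : Mt n) * X) i j
      = X i j + a i * X k j := by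
  rw [Matrix.add_mul, Matrix.one_mul, Matrix.add_apply, Matrix.mul_apply]
  congr 1
  rw [Finset.sum_eq_single k]
  · simp
  · intro b _ hb
    simp [hb]
  · simp

/-- matrix product with a row-type elementary matrix -/
lemma mul_row (b : Fin n → ZMod 2) (k : Fin n) (X : Mt n) (i j : Fin n) :
    (X * (1 + Matrix.of (fun i j => if i = k then b j else 0) : Mt n)) i j
      = X i j + X i k * b j := by
  rw [Matrix.mul_add, Matrix.mul_one, Matrix.add_apply, Matrix.mul_apply]
  congr 1
  rw [Finset.sum_eq_single k]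
  · simp
  · intro c _ hc
    simp [hc]
  · simp

/-- one step: if the pivot vanishes we obtain a nontrivial element -/
lemma pivot_ne (g : SS n) (k : Fin n)
    (hid : ∀ i j : Fin n, (i < k ∨ j < k) → (g : Mt n) i j = (1 : Mt n) i j)
    (hg : (g : Mt n) k k = 0) :
    ∃ t ∈ U0 n, t ≠ 1 ∧ g * t * g⁻¹ ∈ L0 n := by
  classical
  have hg1 : ((g : Mt n)) * ((g⁻¹ : SS n) : Mt n) = 1 := by
    rw [← Matrix.SpecialLinearGroup.coe_mul, mul_inv_cancel, Matrix.SpecialLinearGroup.coe_one]
  have hg2 : (((g⁻¹ : SS n) : Mt n)) * (g : Mt n) = 1 := by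
    rw [← Matrix.SpecialLinearGroup.coe_mul, inv_mul_cancel, Matrix.SpecialLinearGroup.coe_one]
  -- the element `t = 1 + E_kk g`
  let E : Mt n := Matrix.single k k 1
  let A : Mt n := 1 + E * (g : Mt n)
  have hEg : ∀ i j, (E * (g : Mt n)) i j = if i = k then (g : Mt n) k j else 0 := by
    intro i j
    split_ifs with h
    · subst h
      rw [Matrix.single_mul_apply_same, one_mul]
    · exact Matrix.single_mul_apply_of_ne _ _ _ _ _ h _
  have hgE : ∀ i j, ((g : Mt n) * E) i j = if j = k then (g : Mt n) i k else 0 := by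
    intro i j
    split_ifs with h
    · subst h
      rw [Matrix.mul_single_apply_same, mul_one]
    · exact Matrix.mul_single_apply_of_ne _ _ _ _ _ h _
  have hAe : ∀ i j, A i j = (1 : Mt n) i j + (if i = k then (g : Mt n) k j else 0) := by
    intro i j
    rw [← hEg]
    rfl
  have hA1 : ∀ i j, j < i → A i j = 0 := by
    intro i j hij
    rw [hAe, Matrix.one_apply_ne (ne_of_gt hij), zero_add]
    split_ifs with h
    · subst h
      rw [hid i j (Or.inr hij), Matrix.one_apply_ne (ne_of_gt hij)]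
    · rfl
  have hA2 : ∀ i, A i i = 1 := by
    intro i
    rw [hAe, Matrix.one_apply_eq]
    split_ifs with h
    · subst h
      rw [hg, add_zero]
    · rw [add_zero]
  let t : SS n := mkU A hA1 hA2
  have ht : (t : Mt n) = A := rfl
  refine ⟨t, mkU_mem A hA1 hA2, ?_, ?_⟩
  · intro h1
    have h2 : A = 1 := by
      rw [← ht, h1, Matrix.SpecialLinearGroup.coe_one]
    have h3 : ∀ j, (g : Mt n) k j = 0 := by
      intro j
      have h4 := congrFun (congrFun h2 k) j
      rw [hAe, if_pos rfl] at h4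
      by_cases hjk : k = j
      · subst hjk
        exact hg
      · rw [Matrix.one_apply_ne hjk] at h4
        simpa using h4
    have h5 := congrFun (congrFun hg1 k) k
    rw [Matrix.mul_apply, Matrix.one_apply_eq] at h5
    rw [Finset.sum_eq_zero (fun j _ => by rw [h3 j, zero_mul])] at h5
    exact zero_ne_one h5
  · -- value of the conjugate
    intro i j hij
    have h6 : (((g * t * g⁻¹ : SS n)) : Mt n) = 1 + (g : Mt n) * E := by
      rw [Matrix.SpecialLinearGroup.coe_mul, Matrix.SpecialLinearGroup.coe_mul, ht]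
      change (g : Mt n) * (1 + E * (g : Mt n)) * ((g⁻¹ : SS n) : Mt n) = _
      rw [Matrix.mul_add, Matrix.mul_one, Matrix.add_mul, hg1, Matrix.mul_assoc, Matrix.mul_assoc,
        hg1, Matrix.mul_one]
    rw [h6, Matrix.add_apply, hgE, Matrix.one_apply_ne (ne_of_lt hij), zero_add]
    split_ifs with h
    · subst h
      rw [hid i j (Or.inl hij), Matrix.one_apply_ne (ne_of_lt hij)]
    · rfl

/-- one elimination step -/
lemma elim_step (g : SS n) (k : Fin n)
    (hid : ∀ i j : Fin n, (i < k ∨ j < k) → (g : Mt n) i j = (1 : Mt n) i j)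
    (hg : (g : Mt n) k k = 1) :
    ∃ l ∈ L0 n, ∃ u ∈ U0 n, ∀ i j : Fin n, (i ≤ k ∨ j ≤ k) →
      ((l * g * u : SS n) : Mt n) i j = (1 : Mt n) i j := by
  classical
  let a : Fin n → ZMod 2 := fun i => if k < i then (g : Mt n) i k else 0
  let b : Fin n → ZMod 2 := fun j => if k < j then (g : Mt n) k j else 0
  let lA : Mt n := 1 + Matrix.of (fun i j => if j = k then a i else 0)
  let uA : Mt n := 1 + Matrix.of (fun i j => if i = k then b j else 0)
  have ha : ∀ i, ¬ k < i → a i = 0 := fun i hi => if_neg hi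
  have hb : ∀ j, ¬ k < j → b j = 0 := fun j hj => if_neg hj
  have hL1 : ∀ i j, i < j → lA i j = 0 := by
    intro i j hij
    change (1 : Mt n) i j + (if j = k then a i else 0) = 0
    rw [Matrix.one_apply_ne (ne_of_lt hij), zero_add]
    split_ifs with h
    · subst h
      exact ha i (not_lt.2 hij.le)
    · rfl
  have hL2 : ∀ i, lA i i = 1 := by
    intro i
    change (1 : Mt n) i i + (if i = k then a i else 0) = 1
    rw [Matrix.one_apply_eq]
    split_ifs with h
    · subst h
      rw [ha i (lt_irrefl _), add_zero]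
    · rw [add_zero]
  have hU1 : ∀ i j, j < i → uA i j = 0 := by
    intro i j hij
    change (1 : Mt n) i j + (if i = k then b j else 0) = 0
    rw [Matrix.one_apply_ne (ne_of_gt hij), zero_add]
    split_ifs with h
    · subst h
      exact hb j (not_lt.2 hij.le)
    · rfl
  have hU2 : ∀ i, uA i i = 1 := by
    intro i
    change (1 : Mt n) i i + (if i = k then b i else 0) = 1
    rw [Matrix.one_apply_eq]
    split_ifs with h
    · subst h
      rw [hb i (lt_irrefl _), add_zero]
    · rw [add_zero]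
  refine ⟨mkL lA hL1 hL2, mkL_mem _ _ _, mkU uA hU1 hU2, mkU_mem _ _ _, ?_⟩
  intro i j hij
  have h1 : ((mkL lA hL1 hL2 * g * mkU uA hU1 hU2 : SS n) : Mt n) = lA * (g : Mt n) * uA := rfl
  rw [h1]
  have h2 : (lA * (g : Mt n) * uA) i j = (g : Mt n) i j + a i * (g : Mt n) k j +
      ((g : Mt n) i k + a i * (g : Mt n) k k) * b j := by
    have := mul_row b k (lA * (g : Mt n)) i j
    rw [mul_col, mul_col] at this
    exact this
  rw [h2, hg, mul_one]
  -- case analysis
  have hgik : ∀ i, i < k → (g : Mt n) i k = 0 := by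
    intro i hi
    rw [hid i k (Or.inl hi), Matrix.one_apply_ne (ne_of_lt hi)]
  have hgkj : ∀ j, j < k → (g : Mt n) k j = 0 := by
    intro j hj
    rw [hid k j (Or.inr hj), Matrix.one_apply_ne (ne_of_gt hj)]
  rcases lt_trichotomy i k with hik | hik | hik
  · rw [ha i (not_lt.2 hik.le), hgik i hik]
    simp only [zero_mul, add_zero]
    exact hid i j (Or.inl hik)
  · subst hik
    rw [ha i (lt_irrefl _), hg]
    simp only [zero_mul, add_zero]
    rcases lt_trichotomy j i with hj | hj | hj
    · rw [hgkj j hj, hb j (not_lt.2 hj.le), Matrix.one_apply_ne (ne_of_gt hj)]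
      simp
    · subst hj
      rw [hg, hb j (lt_irrefl _), Matrix.one_apply_eq]
      simp
    · have hb' : b j = (g : Mt n) i j := if_pos hj
      rw [hb', one_mul, two_add, Matrix.one_apply_ne (ne_of_lt hj)]
  · have hj : j ≤ k := by
      rcases hij with h | h
      · exact absurd h (not_le.2 hik)
      · exact h
    have hai : a i = (g : Mt n) i k := if_pos hik
    rcases lt_or_eq_of_le hj with hj | hj
    · rw [hgkj j hj, mul_zero, add_zero, hb j (not_lt.2 hj.le), mul_zero, add_zero]
      exact hid i j (Or.inr hj)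
    · subst hj
      rw [hg, mul_one, hb j (lt_irrefl _), mul_zero, add_zero, hai, two_add,
        Matrix.one_apply_ne (ne_of_gt hik)]

/-- the `LU` factorisation -/
theorem exists_LU (m : SS n) (hm : ∀ t ∈ U0 n, m * t * m⁻¹ ∈ L0 n → t = 1) :
    ∃ l ∈ L0 n, ∃ u ∈ U0 n, m = l * u := by
  classical
  have key : ∀ k : ℕ, k ≤ n → ∃ l ∈ L0 n, ∃ u ∈ U0 n, ∀ i j : Fin n, (i.val < k ∨ j.val < k) →
      ((l * m * u : SS n) : Mt n) i j = (1 : Mt n) i j := by
    intro k
    induction k with
    | zero =>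
      intro _
      refine ⟨1, (L0 n).one_mem, 1, (U0 n).one_mem, ?_⟩
      rintro i j (h | h) <;> omega
    | succ k ih =>
      intro hk
      obtain ⟨l, hl, u, hu, hid⟩ := ih (by omega)
      let K : Fin n := ⟨k, by omega⟩
      set g : SS n := l * m * u with hg
      have hid' : ∀ i j : Fin n, (i < K ∨ j < K) → (g : Mt n) i j = (1 : Mt n) i j := hid
      have hpivot : (g : Mt n) K K = 1 := by
        apply eq_one_of_ne
        intro h0
        obtain ⟨t, ht, ht1, ht2⟩ := pivot_ne g K hid' h0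
        apply ht1
        have h1 : u * t * u⁻¹ = 1 := by
          apply hm _ (Subgroup.mul_mem _ (Subgroup.mul_mem _ hu ht) (Subgroup.inv_mem _ hu))
          have h2 : m * (u * t * u⁻¹) * m⁻¹ = l⁻¹ * (g * t * g⁻¹) * l := by
            rw [hg]
            group
          rw [h2]
          exact Subgroup.mul_mem _ (Subgroup.mul_mem _ (Subgroup.inv_mem _ hl) ht2) hl
        have h3 : t = u⁻¹ * (u * t * u⁻¹) * u := by group
        rw [h3, h1]
        group
      obtain ⟨l', hl', u', hu', hid2⟩ := elim_step g K hid' hpivot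
      refine ⟨l' * l, Subgroup.mul_mem _ hl' hl, u * u', Subgroup.mul_mem _ hu hu', ?_⟩
      intro i j hij
      have h4 : l' * l * m * (u * u') = l' * g * u' := by
        rw [hg]
        group
      rw [h4]
      apply hid2
      rcases hij with h | h
      · left
        exact Fin.le_def.2 (by change i.val ≤ k; omega)
      · right
        exact Fin.le_def.2 (by change j.val ≤ k; omega)
  obtain ⟨l, hl, u, hu, hid⟩ := key n le_rfl
  refine ⟨l⁻¹, Subgroup.inv_mem _ hl, u⁻¹, Subgroup.inv_mem _ hu, ?_⟩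
  have h5 : l * m * u = 1 := by
    apply Subtype.ext
    ext i j
    rw [hid i j (Or.inl i.2), Matrix.SpecialLinearGroup.coe_one]
  have h6 : m = l⁻¹ * (l * m * u) * u⁻¹ := by group
  rw [h6, h5]
  group

lemma inf_trivial {t : SS n} (h1 : t ∈ U0 n) (h2 : t ∈ L0 n) : t = 1 := by
  apply Subtype.ext
  ext i j
  rw [Matrix.SpecialLinearGroup.coe_one]
  rcases lt_trichotomy i j with h | h | h
  · rw [h2 i j h, Matrix.one_apply_ne (ne_of_lt h)]
  · subst h
    rw [U0_diag h1, Matrix.one_apply_eq]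
  · rw [h1 i j h, Matrix.one_apply_ne (ne_of_gt h)]

/-- lower unitriangular elements normalizing `U0` are trivial -/
lemma L0_norm {l : SS n} (hl : l ∈ L0 n) (hn : ∀ t ∈ U0 n, l * t * l⁻¹ ∈ U0 n) : l = 1 := by
  classical
  apply inf_trivial _ hl
  intro i j hij
  -- suppose `l i j` nonzero with `j < i`
  by_contra hne
  have hlij : (l : Mt n) i j = 1 := eq_one_of_ne hne
  let E : Mt n := Matrix.single j i 1
  let A : Mt n := 1 + E
  have hA1 : ∀ a b, b < a → A a b = 0 := by
    intro a b hab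
    change (1 : Mt n) a b + E a b = 0
    rw [Matrix.one_apply_ne (ne_of_gt hab), zero_add]
    apply Matrix.single_apply_of_ne
    rintro ⟨rfl, rfl⟩
    exact absurd (lt_trans hab hij) (lt_irrefl _)
  have hA2 : ∀ a, A a a = 1 := by
    intro a
    change (1 : Mt n) a a + E a a = 1
    have hE : E a a = 0 := by
      apply Matrix.single_apply_of_ne
      rintro ⟨rfl, h⟩
      exact absurd hij (by rw [h]; exact lt_irrefl _)
    rw [Matrix.one_apply_eq, hE, add_zero]
  let t : SS n := mkU A hA1 hA2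
  have ht := hn t (mkU_mem A hA1 hA2)
  have h1 := U0_diag ht i
  have hl1 : (l : Mt n) * ((l⁻¹ : SS n) : Mt n) = 1 := by
    rw [← Matrix.SpecialLinearGroup.coe_mul, mul_inv_cancel, Matrix.SpecialLinearGroup.coe_one]
  have h2 : ((l * t * l⁻¹ : SS n) : Mt n) = 1 + (l : Mt n) * E * ((l⁻¹ : SS n) : Mt n) := by
    rw [Matrix.SpecialLinearGroup.coe_mul, Matrix.SpecialLinearGroup.coe_mul]
    change (l : Mt n) * (1 + E) * ((l⁻¹ : SS n) : Mt n) = _
    rw [Matrix.mul_add, Matrix.mul_one, Matrix.add_mul, hl1]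
  rw [h2, Matrix.add_apply, Matrix.one_apply_eq] at h1
  have h3 : ((l : Mt n) * E * ((l⁻¹ : SS n) : Mt n)) i i = 1 := by
    rw [Matrix.mul_apply, Finset.sum_eq_single i]
    · rw [Matrix.mul_single_apply_same, mul_one, hlij, one_mul]
      exact L0_diag (Subgroup.inv_mem _ hl) i
    · intro b _ hb
      rw [Matrix.mul_single_apply_of_ne _ _ _ _ _ hb, zero_mul]
    · simp
  rw [h3] at h1
  revert h1
  decide

/-- the normalizer of `U0` -/
theorem U0_norm {g : SS n} (hn : ∀ t ∈ U0 n, g * t * g⁻¹ ∈ U0 n) : g ∈ U0 n := by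
  obtain ⟨l, hl, u, hu, rfl⟩ := exists_LU g (by
    intro t ht ht2
    have h1 := inf_trivial (hn t ht) ht2
    have h2 : t = g⁻¹ * (g * t * g⁻¹) * g := by group
    rw [h2, h1]
    group)
  have h1 : l = 1 := by
    apply L0_norm hl
    intro t ht
    have h2 : l * t * l⁻¹ = (l * u) * (u⁻¹ * t * u) * (l * u)⁻¹ := by group
    rw [h2]
    exact hn _ (Subgroup.mul_mem _ (Subgroup.mul_mem _ (Subgroup.inv_mem _ hu) ht) hu)
  rw [h1, one_mul]
  exact hu

/-- `U0` is a 2-group -/
theorem U0_isPGroup [NeZero n] : IsPGroup 2 (U0 n) := by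
  classical
  rintro ⟨g, hg⟩
  refine ⟨n, ?_⟩
  apply Subtype.ext
  apply Subtype.ext
  change ((g ^ 2 ^ n : SS n) : Mt n) = _
  rw [Matrix.SpecialLinearGroup.coe_pow]
  set A : Mt n := (g : Mt n) - 1 with hA
  have hA1 : ∀ i j, j ≤ i → A i j = 0 := by
    intro i j hij
    rcases lt_or_eq_of_le hij with h | h
    · rw [hA, Matrix.sub_apply, hg i j h, Matrix.one_apply_ne (ne_of_gt h), sub_zero]
    · subst h
      rw [hA, Matrix.sub_apply, U0_diag hg, Matrix.one_apply_eq, sub_self]
  have hpow : ∀ k : ℕ, ∀ i j : Fin n, j.val < i.val + k → (A ^ k) i j = 0 := by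
    intro k
    induction k with
    | zero =>
      intro i j hij
      rw [pow_zero, Matrix.one_apply_ne]
      intro h
      rw [h] at hij
      omega
    | succ k ih =>
      intro i j hij
      rw [pow_succ, Matrix.mul_apply]
      apply Finset.sum_eq_zero
      intro l _
      by_cases hl : l.val < i.val + k
      · rw [ih i l hl, zero_mul]
      · rw [hA1 l j (Fin.le_def.2 (by omega)), mul_zero]
  have hAn : A ^ n = 0 := by
    ext i j
    exact hpow n i j (by have := j.2; simp; omega)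
  have hA2 : A ^ 2 ^ n = 0 := by
    have h1 : n ≤ 2 ^ n := Nat.lt_two_pow_self.le
    rw [← Nat.sub_add_cancel h1, pow_add, hAn, mul_zero]
  have h3 : (g : Mt n) = 1 + A := by rw [hA]; abel
  rw [h3, add_pow_char_pow_of_commute 2 n (Commute.one_left _), hA2, one_pow, add_zero]
  rfl

/-- `U0` is a Sylow subgroup -/
theorem U0_eq_sylow [NeZero n] : ∃ P : Sylow 2 (SS n), (P : Subgroup (SS n)) = U0 n := by
  classical
  obtain ⟨P, hP⟩ := (U0_isPGroup (n := n)).exists_le_sylow
  refine ⟨P, ?_⟩
  by_contra hne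
  have hlt : U0 n < P := lt_of_le_of_ne hP (Ne.symm hne)
  haveI : Group.IsNilpotent (P : Subgroup (SS n)) := P.isPGroup'.isNilpotent
  let H : Subgroup (P : Subgroup (SS n)) := (U0 n).subgroupOf P
  have hH : H < ⊤ := by
    apply lt_top_iff_ne_top.2
    intro h
    apply hne
    apply le_antisymm _ hP
    intro x hx
    have h1 : (⟨x, hx⟩ : (P : Subgroup (SS n))) ∈ H := by rw [h]; trivial
    exact h1
  have h2 := Group.normalizerCondition_of_isNilpotent H hH
  obtain ⟨x, hx, hxH⟩ := SetLike.exists_of_lt h2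
  apply hxH
  change (x : SS n) ∈ U0 n
  apply U0_norm
  intro t ht
  have h3 := (Subgroup.mem_normalizer_iff.1 hx ⟨t, hP ht⟩).1 ht
  exact h3

/-- transposition -/
def trEquiv : U0 n ≃ L0 n where
  toFun g := ⟨g.1.transpose, fun i j hij => g.2 j i hij⟩
  invFun g := ⟨g.1.transpose, fun i j hij => g.2 j i hij⟩
  left_inv g := by
    apply Subtype.ext
    apply Subtype.ext
    rfl
  right_inv g := by
    apply Subtype.ext
    apply Subtype.ext
    rfl

/-- the main theorem for groups containing `SL_n(2)` with index 2 -/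
theorem main_thm [NeZero n] {G : Type*} [Group G] [Finite G] (N : Subgroup G) [N.Normal]
    (e : N ≃* SS n) (hidx : N.index = 2 ^ 1) (H₁ H₂ : Sylow 2 G) :
    (H₁ : Subgroup G) ⊓ H₂ ≠ ⊥ := by
  classical
  obtain ⟨P₀, hP₀⟩ := U0_eq_sylow (n := n)
  let L₀ : Sylow 2 (SS n) := Sylow.ofCard (L0 n) (by
    rw [← Nat.card_congr (trEquiv (n := n)), ← hP₀, P₀.card_eq_multiplicity])
  have hL₀ : (L₀ : Subgroup (SS n)) = L0 n := rfl
  refine OppSyl.reduction' e hidx (fun _ _ => True) (fun _ _ _ => Iff.rfl) P₀ ?_ ?_ H₁ H₂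
  · intro g hg
    have h1 : g ∈ (P₀ : Subgroup (SS n)) := by
      rw [hP₀]
      apply U0_norm
      intro t ht
      rw [← hP₀] at ht ⊢
      exact (Subgroup.mem_normalizer_iff.1 (Sylow.smul_eq_iff_mem_normalizer.1 hg) t).1 ht
    exact h1
  · intro Q₂
    have key : ∀ Q : Sylow 2 (SS n), (Q : Subgroup (SS n)) ⊓ P₀ = ⊥ →
        ∃ u : U0 n, (u : SS n) • L₀ = Q := by
      intro Q hQ
      obtain ⟨g, rfl⟩ := MulAction.exists_smul_eq (SS n) L₀ Q
      have hH : ∀ t ∈ U0 n, g⁻¹ * t * g⁻¹⁻¹ ∈ L0 n → t = 1 := by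
        intro t ht ht2
        have h1 : t ∈ (g • L₀ : Sylow 2 (SS n)) := by
          change t ∈ ((g • L₀ : Sylow 2 (SS n)) : Subgroup (SS n))
          rw [Sylow.coe_subgroup_smul, Subgroup.mem_pointwise_smul_iff_inv_smul_mem, MulAut.smul_def,
            ← map_inv, MulAut.conj_apply, hL₀]
          exact ht2
        have h2 : t ∈ ((g • L₀ : Sylow 2 (SS n)) : Subgroup (SS n)) ⊓ P₀ :=
          Subgroup.mem_inf.2 ⟨h1, by rw [hP₀]; exact ht⟩
        rw [hQ, Subgroup.mem_bot] at h2
        exact h2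
      obtain ⟨l, hl, u, hu, hlu⟩ := exists_LU g⁻¹ hH
      refine ⟨⟨u⁻¹, Subgroup.inv_mem _ hu⟩, ?_⟩
      have h3 : g = u⁻¹ * l⁻¹ := by
        have : g = (g⁻¹)⁻¹ := by group
        rw [this, hlu]
        group
      have h4 : l⁻¹ • L₀ = L₀ := by
        apply Sylow.smul_eq_iff_mem_normalizer.2
        apply Subgroup.le_normalizer
        rw [hL₀]
        exact Subgroup.inv_mem _ hl
      change u⁻¹ • L₀ = g • L₀
      rw [h3, mul_smul, h4]
    choose! s hs using key
    have hle : Nat.card {Q : Sylow 2 (SS n) // (Q : Subgroup (SS n)) ⊓ P₀ = ⊥ ∧ (True ↔ True)} ≤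
        Nat.card (U0 n) := by
      refine Nat.card_le_card_of_injective (fun Q => s Q.1) ?_
      intro Q Q' h
      apply Subtype.ext
      have h5 := hs Q.1 Q.2.1
      have h6 := hs Q'.1 Q'.2.1
      have h7 : s Q.1 = s Q'.1 := h
      rw [← h5, ← h6, h7]
    have h8 : Nat.card (P₀ : Subgroup (SS n)) = Nat.card (U0 n) := by rw [hP₀]
    have h9 : 0 < Nat.card (U0 n) := Nat.card_pos
    change Nat.card {Q : Sylow 2 (SS n) // (Q : Subgroup (SS n)) ⊓ P₀ = ⊥ ∧ (True ↔ True)} <
      2 ^ 1 * Nat.card (P₀ : Subgroup (SS n))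
    rw [h8]
    omega

end Cfsg.Agent.H11.SLn2
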