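import Cfsg.Agent.Lib.H11.Spec12
import Cfsg.Agent.Lib.H13.Zsigmondy

/-! The Singer cycle, commutants of cyclic matrices, and the arithmetic of elements of order `q^l ± 1`. -/

set_option autoImplicit false
set_option linter.unusedSectionVars false
set_option linter.unusedVariables false

namespace Cfsg.Agent.H11.Spec

open Polynomial Matrix Module

section arith

/-- arithmetic: the positive case -/
theorem arith_pos {Q S A l n m : ℕ} (hQ : 0 < Q) (hn : n = 2 * l) (hl : 0 < l)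
    (hS : ∀ d, d ∣ Q → (d ∣ S ↔ d ∣ l)) (hA : ∀ c, c ∣ Q → Odd c → Nat.Coprime A c)
    (hvw : padicValNat 2 Q < padicValNat 2 n) (hm : S * A ∣ Q * m) : A ∣ m := by
  haveI : Fact (Nat.Prime 2) := ⟨Nat.prime_two⟩
  set v := padicValNat 2 Q with hv
  have h1 : 2 ^ v ∣ Q := pow_padicValNat_dvd
  obtain ⟨c, hc⟩ := h1
  have hcodd : Odd c := by
    rw [← Nat.not_even_iff_odd]
    rintro ⟨c', rfl⟩
    have h2 : 2 ^ (v + 1) ∣ Q := by
      rw [hc, pow_succ]
      exact ⟨c', by ring⟩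
    have := (padicValNat_dvd_iff_le (p := 2) hQ.ne').1 h2
    omega
  have h2 : 2 ^ (v + 1) ∣ n := by
    rw [padicValNat_dvd_iff_le (p := 2) (by omega)]
    omega
  have h3 : 2 ^ v ∣ l := by
    rw [hn, pow_succ, mul_comm] at h2
    exact Nat.dvd_of_mul_dvd_mul_left (by norm_num) h2
  have h4 : 2 ^ v ∣ S := (hS _ ⟨c, hc⟩).2 h3
  obtain ⟨S', rfl⟩ := h4
  have hc0 : 0 < 2 ^ v := by positivity
  rw [hc, mul_assoc, mul_assoc] at hm
  have h5 := Nat.dvd_of_mul_dvd_mul_left hc0 hm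
  have h6 : A ∣ c * m := (Dvd.intro_left _ rfl).trans h5
  exact (hA c ⟨2 ^ v, by rw [hc, mul_comm]⟩ hcodd).dvd_of_dvd_mul_left h6

/-- arithmetic: the negative case -/
theorem arith_neg {Q S A l n : ℕ} (hQ : 0 < Q) (hn : n = 2 * l) (hl : 0 < l) (hA0 : 0 < A) (hAe : Even A)
    (hS : ∀ d, d ∣ Q → (d ∣ S ↔ d ∣ l))
    (hvw : padicValNat 2 n ≤ padicValNat 2 Q) : ∃ M, ¬ A ∣ M ∧ S * A ∣ Q * M := by
  haveI : Fact (Nat.Prime 2) := ⟨Nat.prime_two⟩
  set w := padicValNat 2 n with hw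
  have hn0 : n ≠ 0 := by omega
  have hw1 : 1 ≤ w := by
    rw [hw]
    have : 2 ^ 1 ∣ n := ⟨l, by omega⟩
    exact (padicValNat_dvd_iff_le (p := 2) hn0).1 this
  have h1 : 2 ^ w ∣ Q := (padicValNat_dvd_iff_le (p := 2) hQ.ne').2 hvw
  have h2 : 2 ^ w ∣ n := pow_padicValNat_dvd
  have hpw : 2 ^ w = 2 ^ (w - 1) * 2 := by
    rw [← pow_succ]
    congr 1
    omega
  have h3 : 2 ^ (w - 1) ∣ l := by
    rw [hn, mul_comm, hpw] at h2
    exact Nat.dvd_of_mul_dvd_mul_right (by norm_num) h2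
  have h4 : ¬ 2 ^ w ∣ l := by
    intro hd
    have h5 : 2 ^ (w + 1) ∣ n := by
      rw [hn, pow_succ, mul_comm]
      exact Nat.mul_dvd_mul_left 2 hd
    have := (padicValNat_dvd_iff_le (p := 2) hn0).1 h5
    omega
  have h5 : 2 ^ (w - 1) ∣ Q := (pow_dvd_pow 2 (by omega)).trans h1
  obtain ⟨S', hS'⟩ := (hS _ h5).2 h3
  have h6 : ¬ 2 ∣ S' := by
    rintro ⟨s, rfl⟩
    apply h4
    apply (hS _ h1).1
    rw [hS', hpw]
    exact ⟨s, by ring⟩
  obtain ⟨A', hA'⟩ := hAe
  have hA'p : 0 < A' := by omega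
  refine ⟨A' * S', ?_, ?_⟩
  · intro hd
    apply h6
    have h7 : A' * 2 ∣ A' * S' := by
      have : A = A' * 2 := by omega
      rwa [this] at hd
    exact Nat.dvd_of_mul_dvd_mul_left hA'p h7
  · obtain ⟨Q', hQ'⟩ := h1
    refine ⟨Q', ?_⟩
    rw [hS', hA', hQ', hpw]
    ring

/-- the geometric sum -/
theorem geom_facts (Q l : ℕ) : ∃ S, Q * S + 1 = (Q + 1) ^ l ∧ ∀ d, d ∣ Q → (d ∣ S ↔ d ∣ l) := by
  have key : ∀ l : ℕ, ∃ S k, Q * S + 1 = (Q + 1) ^ l ∧ S = l + Q * k := by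
    intro l
    induction l with
    | zero => exact ⟨0, 0, by simp, by simp⟩
    | succ l ih =>
      obtain ⟨S, k, h1, h2⟩ := ih
      refine ⟨S + (Q + 1) ^ l, k + S, ?_, ?_⟩
      · rw [pow_succ, ← h1]
        ring
      · rw [← h1, h2]
        ring
  obtain ⟨S, k, h1, h2⟩ := key l
  refine ⟨S, h1, ?_⟩
  intro d hd
  rw [h2]
  exact Nat.dvd_add_iff_left (hd.trans (Dvd.intro _ rfl)) |>.symm

end arith

variable {F : Type*} [Field F] [Fintype F]

/-- an element of prime order has an irreducible factor of the expected degree -/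
theorem exists_irr_factor {n r : ℕ} (hr : r.Prime) (hrF : (r : F) ≠ 0) (b : Matrix (Fin n) (Fin n) F)
    (hb : b ^ r = 1) (hb1 : b ≠ 1) :
    ∃ R : F[X], Irreducible R ∧ R ∣ minpoly F b ∧ r ∣ Fintype.card F ^ R.natDegree - 1 ∧ ¬ R ∣ (X - 1 : F[X]) := by
  classical
  haveI : Fact r.Prime := ⟨hr⟩
  set Q : F[X] := X - 1 with hQ
  set Φ : F[X] := ∑ j ∈ Finset.range r, X ^ j with hΦ
  have hP : Φ * Q = X ^ r - 1 := by
    rw [hΦ, hQ, geom_sum_mul]
  have hsep : (X ^ r - C (1 : F)).Separable := separable_X_pow_sub_C (1 : F) hrF one_ne_zero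
  rw [C_1] at hsep
  have hcop : IsCoprime Φ Q := by
    rw [← hP] at hsep
    exact hsep.isCoprime
  set M := minpoly F b with hM
  have hint : IsIntegral F b := Algebra.IsIntegral.isIntegral b
  have hMdiv : M ∣ Φ * Q := by
    rw [hP]
    apply minpoly.dvd
    simp [hb]
  have hMQ : ¬ M ∣ Q := by
    intro hd
    have h0 : aeval b Q = 0 := by
      obtain ⟨c, hc⟩ := hd
      rw [hc, map_mul, minpoly.aeval, zero_mul]
    apply hb1
    have : aeval b Q = b - 1 := by
      simp [hQ]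
    rw [this] at h0
    exact sub_eq_zero.1 h0
  have hnc : ¬ IsCoprime M Φ := by
    intro hc
    exact hMQ (hc.dvd_of_dvd_mul_left hMdiv)
  have hM0 : M ≠ 0 := minpoly.ne_zero hint
  have hg : ¬ IsUnit (EuclideanDomain.gcd M Φ) := by
    intro hu
    apply hnc
    exact EuclideanDomain.gcd_isUnit_iff.1 hu
  have hg0 : EuclideanDomain.gcd M Φ ≠ 0 := by
    intro h0
    have := EuclideanDomain.gcd_eq_zero_iff.1 h0
    exact hM0 this.1
  obtain ⟨R, hRi, hRd⟩ := WfDvdMonoid.exists_irreducible_factor hg hg0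
  have hRM : R ∣ M := hRd.trans (EuclideanDomain.gcd_dvd_left M Φ)
  have hRΦ : R ∣ Φ := hRd.trans (EuclideanDomain.gcd_dvd_right M Φ)
  have hRQ : ¬ R ∣ Q := by
    intro hd
    exact hRi.not_isUnit (hcop.isUnit_of_dvd' hRΦ hd)
  haveI : Fact (Irreducible R) := ⟨hRi⟩
  let K := AdjoinRoot R
  have hR0 : R ≠ 0 := hRi.ne_zero
  let pb := AdjoinRoot.powerBasis hR0
  haveI : Module.Finite F K := pb.finite
  have hfin : Module.finrank F K = R.natDegree := by
    rw [pb.finrank]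
    exact AdjoinRoot.powerBasis_dim hR0
  haveI : Finite K := Module.finite_of_finite F
  haveI : Fintype K := Fintype.ofFinite K
  have hcard : Fintype.card K = Fintype.card F ^ R.natDegree := by
    rw [← hfin]
    exact Module.card_eq_pow_finrank (K := F) (V := K)
  let x : K := AdjoinRoot.root R
  have hx : ∀ f : F[X], aeval x f = AdjoinRoot.mk R f := fun f => AdjoinRoot.aeval_eq f
  have hxΦ : aeval x Φ = 0 := by
    rw [hx]
    exact AdjoinRoot.mk_eq_zero.2 hRΦ
  have hxQ : aeval x Q ≠ 0 := by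
    rw [hx]
    intro h0
    exact hRQ (AdjoinRoot.mk_eq_zero.1 h0)
  have hx1 : x ^ r = 1 := by
    have : aeval x (Φ * Q) = 0 := by rw [map_mul, hxΦ, zero_mul]
    rw [hP] at this
    simp only [map_sub, map_pow, aeval_X, map_one] at this
    exact sub_eq_zero.1 this
  have hx2 : x ≠ 1 := by
    intro h0
    apply hxQ
    simp only [hQ, map_sub, aeval_X, map_one]
    rw [h0, sub_self]
  have hxo : orderOf x = r := orderOf_eq_prime hx1 hx2
  have hx0 : x ≠ 0 := by
    intro h0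
    rw [h0, zero_pow hr.ne_zero] at hx1
    exact zero_ne_one hx1
  refine ⟨R, hRi, hRM, ?_, hRQ⟩
  rw [← hxo, ← hcard]
  exact orderOf_dvd_of_pow_eq_one (FiniteField.pow_card_sub_one_eq_one x hx0)

/-- commutant of a cyclic matrix -/
theorem commutant_of_cyclic {n : ℕ} (t Y : Matrix (Fin n) (Fin n) F) (v : Fin n → F)
    (hd : (minpoly F t).natDegree = n) (hv : ∀ f : F[X], aeval t f *ᵥ v = 0 → minpoly F t ∣ f)
    (hc : Commute Y t) : ∃ f : F[X], Y = aeval t f := by
  classical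
  let L : F[X] →ₗ[F] (Fin n → F) :=
    { toFun := fun f => aeval t f *ᵥ v
      map_add' := fun f g => by rw [map_add, Matrix.add_mulVec]
      map_smul' := fun c f => by rw [map_smul, Matrix.smul_mulVec, RingHom.id_apply] }
  let Ψ : degreeLT F n →ₗ[F] (Fin n → F) := L.domRestrict (degreeLT F n)
  have hM0 : minpoly F t ≠ 0 := minpoly.ne_zero (Algebra.IsIntegral.isIntegral t)
  have hinj : Function.Injective Ψ := by
    rw [← LinearMap.ker_eq_bot, LinearMap.ker_eq_bot']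
    rintro ⟨f, hf⟩ h0
    have h1 : minpoly F t ∣ f := hv f h0
    have h2 : f.degree < n := Polynomial.mem_degreeLT.1 hf
    have h3 : f = 0 := by
      by_contra hne
      have h4 := Polynomial.degree_le_of_dvd h1 hne
      rw [Polynomial.degree_eq_natDegree hM0, hd] at h4
      exact absurd h2 (not_lt.2 h4)
    exact Subtype.ext h3
  have hfr : finrank F (degreeLT F n) = finrank F (Fin n → F) := by
    rw [(Polynomial.degreeLTEquiv F n).finrank_eq]
  have hsurj : Function.Surjective Ψ := (LinearMap.injective_iff_surjective_of_finrank_eq_finrank hfr).1 hinj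
  obtain ⟨⟨f, hf⟩, hfv⟩ := hsurj (Y *ᵥ v)
  have hfv' : aeval t f *ᵥ v = Y *ᵥ v := hfv
  refine ⟨f, ?_⟩
  apply Matrix.ext_of_mulVec_single
  intro i
  obtain ⟨⟨h, hh⟩, hhv⟩ := hsurj (Pi.single i 1)
  have hhv' : aeval t h *ᵥ v = Pi.single i 1 := hhv
  rw [← hhv', Matrix.mulVec_mulVec, Matrix.mulVec_mulVec]
  have hYh : Y * aeval t h = aeval t h * Y := (aeval_commute_of (F := F) hc h).eq
  have hfh : aeval t f * aeval t h = aeval t h * aeval t f := by
    rw [← map_mul, ← map_mul, mul_comm]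
  rw [hYh, hfh, ← Matrix.mulVec_mulVec, ← Matrix.mulVec_mulVec, hfv']

/-- conjugation and polynomials -/
theorem aeval_conj_gl {n : ℕ} (c : GL (Fin n) F) (A : Matrix (Fin n) (Fin n) F) (f : F[X]) :
    aeval ((c : Matrix (Fin n) (Fin n) F) * A * ((c⁻¹ : GL (Fin n) F) : Matrix (Fin n) (Fin n) F)) f =
      (c : Matrix (Fin n) (Fin n) F) * aeval A f * ((c⁻¹ : GL (Fin n) F) : Matrix (Fin n) (Fin n) F) := by
  have hcc : ((c⁻¹ : GL (Fin n) F) : Matrix (Fin n) (Fin n) F) * (c : Matrix (Fin n) (Fin n) F) = 1 := by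
    rw [← Units.val_mul, inv_mul_cancel, Units.val_one]
  have hcc' : (c : Matrix (Fin n) (Fin n) F) * ((c⁻¹ : GL (Fin n) F) : Matrix (Fin n) (Fin n) F) = 1 := by
    rw [← Units.val_mul, mul_inv_cancel, Units.val_one]
  induction f using Polynomial.induction_on' with
  | add p q hp hq => rw [map_add, map_add, hp, hq, mul_add, add_mul]
  | monomial k a =>
    rw [aeval_monomial, aeval_monomial]
    have hk : ∀ k : ℕ, ((c : Matrix (Fin n) (Fin n) F) * A * ((c⁻¹ : GL (Fin n) F) : Matrix (Fin n) (Fin n) F)) ^ k =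
        (c : Matrix (Fin n) (Fin n) F) * A ^ k * ((c⁻¹ : GL (Fin n) F) : Matrix (Fin n) (Fin n) F) := by
      intro k
      induction k with
      | zero => rw [pow_zero, pow_zero, mul_one, hcc']
      | succ k ih =>
        rw [pow_succ, ih, pow_succ]
        calc (c : Matrix (Fin n) (Fin n) F) * A ^ k * ((c⁻¹ : GL (Fin n) F) : Matrix (Fin n) (Fin n) F) *
              ((c : Matrix (Fin n) (Fin n) F) * A * ((c⁻¹ : GL (Fin n) F) : Matrix (Fin n) (Fin n) F))
            = (c : Matrix (Fin n) (Fin n) F) * A ^ k * (((c⁻¹ : GL (Fin n) F) : Matrix (Fin n) (Fin n) F) * (c : Matrix (Fin n) (Fin n) F)) * A * ((c⁻¹ : GL (Fin n) F) : Matrix (Fin n) (Fin n) F) := by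
              simp only [mul_assoc]
          _ = _ := by
              rw [hcc, mul_one]
              simp only [mul_assoc]
    rw [hk]
    rw [Algebra.algebraMap_eq_smul_one]
    simp only [smul_mul_assoc, one_mul, mul_smul_comm]

/-- the cyclic vector hypothesis for an irreducible minimal polynomial -/
theorem cyclic_of_irr {n : ℕ} (hn : 1 ≤ n) (t : Matrix (Fin n) (Fin n) F) (hM : Irreducible (minpoly F t)) :
    ∀ f : F[X], aeval t f *ᵥ (fun _ : Fin n => (1 : F)) = 0 → minpoly F t ∣ f := by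
  intro f hf
  by_contra hnd
  have hco : IsCoprime (minpoly F t) f := (hM.coprime_iff_not_dvd).2 hnd
  obtain ⟨a, b, hab⟩ := hco
  have h1 : aeval t (a * minpoly F t + b * f) = 1 := by rw [hab, map_one]
  rw [map_add, map_mul, map_mul, minpoly.aeval, mul_zero, zero_add] at h1
  have h2 : (fun _ : Fin n => (1 : F)) = 0 := by
    have h3 : (aeval t b * aeval t f) *ᵥ (fun _ : Fin n => (1 : F)) = (fun _ : Fin n => (1 : F)) := by
      rw [h1, Matrix.one_mulVec]
    rw [← Matrix.mulVec_mulVec, hf, Matrix.mulVec_zero] at h3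
    exact h3.symm
  have h3 := congrFun h2 ⟨0, by omega⟩
  simp at h3

end Cfsg.Agent.H11.Spec
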