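import Cfsg.Agent.Lib.H11.Spec19

/-! The Singer cycle in `GL_n(q)` and the elements of order `q^(n/2) + 1` in `PSL_n(q)`. -/

set_option autoImplicit false
set_option linter.unusedSectionVars false
set_option linter.unusedVariables false

namespace Cfsg.Agent.H11.Spec

open Polynomial Matrix Module

variable {F : Type*} [Field F] [Fintype F]

/-- the Singer cycle -/
theorem singer_all {p n : ℕ} [hpf : Fact p.Prime] [CharP F p] (hn : 1 ≤ n) :
    ∃ γ : GL (Fin n) F,
      (∀ m : ℕ, ((Fintype.card F ^ n - 1) / (Fintype.card F - 1)) ∣ m →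
        ∃ c : F, (γ : Matrix (Fin n) (Fin n) F) ^ m = c • 1) ∧
      (∀ (m : ℕ) (c : F), (γ : Matrix (Fin n) (Fin n) F) ^ m = c • 1 →
        ((Fintype.card F ^ n - 1) / (Fintype.card F - 1)) ∣ m) ∧
      (∀ m : ℕ, Fintype.card F - 1 ∣ m ↔ ((γ : Matrix (Fin n) (Fin n) F) ^ m).det = 1) ∧
      (∀ G Y : GL (Fin n) F, (orderOf G).Coprime p → Irreducible (minpoly F (G : Matrix (Fin n) (Fin n) F)) →
        (minpoly F (G : Matrix (Fin n) (Fin n) F)).natDegree = n → Commute Y G →
        ∃ (j : ℕ) (c : GL (Fin n) F), Y = c * γ ^ j * c⁻¹) := by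
  classical
  have hp : p.Prime := Fact.out
  haveI : Nonempty (Fin n) := ⟨⟨0, by omega⟩⟩
  obtain ⟨K, _, _, _, hKc, hKf⟩ := exists_field_ext (F := F) n hn
  haveI : Module.Finite F K := Module.finite_of_finrank_pos (by omega)
  let b := Module.finBasisOfFinrankEq F K hKf
  let φ : K →ₐ[F] Matrix (Fin n) (Fin n) F := Algebra.leftMulMatrix b
  have hφ : Function.Injective φ := Algebra.leftMulMatrix_injective b
  obtain ⟨gen, hgen⟩ := IsCyclic.exists_generator (α := Kˣ)
  set q := Fintype.card F with hq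
  have hq1 : 1 < q := Fintype.one_lt_card
  have hqn : 1 < q ^ n := Nat.one_lt_pow (by omega) hq1
  let γ : GL (Fin n) F := Units.map (φ : K →* Matrix (Fin n) (Fin n) F) gen
  have hγ : ∀ m : ℕ, (γ : Matrix (Fin n) (Fin n) F) ^ m = φ ((gen : K) ^ m) := by
    intro m
    rw [map_pow]
    rfl
  have hdv : q - 1 ∣ q ^ n - 1 := by
    have := Nat.sub_dvd_pow_sub_pow q 1 n
    rwa [one_pow] at this
  set R := (q ^ n - 1) / (q - 1) with hR
  have hRm : R * (q - 1) = q ^ n - 1 := Nat.div_mul_cancel hdv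
  have hord : orderOf gen = q ^ n - 1 := by
    rw [orderOf_eq_card_of_forall_mem_zpowers hgen, Nat.card_eq_fintype_card, Fintype.card_units, hKc]
  have hpow1 : ∀ m : ℕ, (gen : K) ^ m = 1 ↔ q ^ n - 1 ∣ m := by
    intro m
    rw [← hord, orderOf_dvd_iff_pow_eq_one, Units.ext_iff]
    simp
  have hnorm : ∀ x : K, algebraMap F K (Algebra.norm F x) = x ^ R := by
    intro x
    have := FiniteField.algebraMap_norm_eq_pow (K := F) (K' := K) (x := x)
    rw [Nat.card_eq_fintype_card, Nat.card_eq_fintype_card, hKc] at this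
    exact this
  have hdet : ∀ x : K, (φ x).det = Algebra.norm F x := fun x => (Algebra.norm_eq_matrix_det b x).symm
  have hR0 : 0 < R := by
    rcases Nat.eq_zero_or_pos R with h | h
    · rw [h, zero_mul] at hRm
      omega
    · exact h
  refine ⟨γ, ?_, ?_, ?_, ?_⟩
  · rintro m ⟨s, rfl⟩
    refine ⟨(Algebra.norm F (gen : K)) ^ s, ?_⟩
    rw [hγ, pow_mul, ← hnorm, ← map_pow, AlgHom.commutes, Algebra.algebraMap_eq_smul_one]
  · intro m c hc
    rw [hγ] at hc
    have h1 : φ ((gen : K) ^ m) = φ (algebraMap F K c) := by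
      rw [hc, AlgHom.commutes, Algebra.algebraMap_eq_smul_one]
    have h2 := hφ h1
    have hc0 : c ≠ 0 := by
      rintro rfl
      rw [map_zero] at h2
      exact pow_ne_zero m (Units.ne_zero gen) h2
    have h3 : (gen : K) ^ (m * (q - 1)) = 1 := by
      rw [pow_mul, h2, ← map_pow, FiniteField.pow_card_sub_one_eq_one c hc0, map_one]
    have h4 := (hpow1 _).1 h3
    rw [← hRm, mul_comm m] at h4
    have h5 : R * (q - 1) ∣ m * (q - 1) := by
      rwa [mul_comm m]
    exact Nat.dvd_of_mul_dvd_mul_right (by omega) h5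
  · intro m
    rw [hγ, hdet]
    have h1 : Algebra.norm F ((gen : K) ^ m) = 1 ↔ (gen : K) ^ (m * R) = 1 := by
      rw [pow_mul, ← hnorm, ← map_one (algebraMap F K)]
      exact ((algebraMap F K).injective.eq_iff).symm
    rw [h1, hpow1, ← hRm, mul_comm m]
    exact ⟨fun h => Nat.mul_dvd_mul_left R h, fun h => Nat.dvd_of_mul_dvd_mul_left hR0 h⟩
  · intro G Y hGo hPi hPd hc
    set P := minpoly F (G : Matrix (Fin n) (Fin n) F) with hPdef
    have hint : IsIntegral F (G : Matrix (Fin n) (Fin n) F) := Algebra.IsIntegral.isIntegral _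
    have hPm : P.Monic := minpoly.monic hint
    -- a root in `K`
    haveI : Fact (Irreducible P) := ⟨hPi⟩
    let pb := AdjoinRoot.powerBasis hPi.ne_zero
    haveI : Module.Finite F (AdjoinRoot P) := pb.finite
    have hfin : Module.finrank F (AdjoinRoot P) = P.natDegree := by
      rw [pb.finrank]
      exact AdjoinRoot.powerBasis_dim hPi.ne_zero
    haveI : Finite (AdjoinRoot P) := Module.finite_of_finite F
    obtain ⟨φ₀⟩ := FiniteField.nonempty_algHom_of_finrank_dvd (F := F) (K := AdjoinRoot P) (L := K) (by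
      rw [hfin, hKf, hPd])
    let t₀ : K := φ₀ (AdjoinRoot.root P)
    have ht₀ : aeval t₀ P = 0 := by
      have := Polynomial.aeval_algHom_apply φ₀ (AdjoinRoot.root P) P
      rw [AdjoinRoot.aeval_eq, AdjoinRoot.mk_self, map_zero] at this
      exact this
    let τ := φ t₀
    have hτ : aeval τ P = 0 := by
      have := Polynomial.aeval_algHom_apply φ t₀ P
      rw [ht₀, map_zero] at this
      exact this
    have hτm : minpoly F τ = P := (minpoly.eq_of_irreducible_of_monic hPi hτ hPm).symm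
    have ht0 : t₀ ≠ 0 := by
      intro h0
      have h1 : aeval (G : Matrix (Fin n) (Fin n) F) P = 0 := minpoly.aeval F _
      have h2 : P.coeff 0 = 0 := by
        have := Polynomial.coeff_zero_eq_aeval_zero' (A := K) P
        rw [← h0, ht₀] at this
        exact (map_eq_zero _).1 this
      obtain ⟨g, hg⟩ := Polynomial.X_dvd_iff.2 h2
      have hg0 : g ≠ 0 := by
        rintro rfl
        rw [mul_zero] at hg
        exact hPi.ne_zero hg
      have h3 : aeval (G : Matrix (Fin n) (Fin n) F) g = 0 := by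
        rw [hg, map_mul, aeval_X] at h1
        exact (Units.mul_right_eq_zero G).1 h1
      have h4 : P ∣ g := minpoly.dvd F _ h3
      have h5 := natDegree_le_of_dvd h4 hg0
      rw [hg, natDegree_X_mul hg0] at h5
      omega
    let t : Kˣ := Units.mk0 t₀ ht0
    let T : GL (Fin n) F := Units.map (φ : K →* Matrix (Fin n) (Fin n) F) t
    have hTv : (T : Matrix (Fin n) (Fin n) F) = τ := rfl
    haveI : CharP K p := charP_of_injective_algebraMap (algebraMap F K).injective p
    have hTo : (orderOf T).Coprime p := by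
      apply coprime_of_pow_eq_one hp _ (Fintype.card K - 1) _ (not_dvd_card_sub_one hp)
      have : t ^ (Fintype.card K - 1) = 1 := by
        apply Units.ext
        simp only [Units.val_pow_eq_pow_val, Units.val_one, t, Units.val_mk0]
        exact FiniteField.pow_card_sub_one_eq_one _ ht0
      change (Units.map (φ : K →* Matrix (Fin n) (Fin n) F)) t ^ _ = 1
      rw [← map_pow, this, map_one]
    obtain ⟨k, hk⟩ := charpoly_of_irr (G : Matrix (Fin n) (Fin n) F) hPi
    obtain ⟨k', hk'⟩ := charpoly_of_irr τ (by rw [hτm]; exact hPi)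
    rw [← hPdef] at hk
    rw [hτm] at hk'
    have hdeg : n = k * P.natDegree := by
      have h1 := Matrix.charpoly_natDegree_eq_dim (G : Matrix (Fin n) (Fin n) F)
      rw [hk, natDegree_pow, Fintype.card_fin] at h1
      exact h1.symm
    have hdeg' : n = k' * P.natDegree := by
      have h1 := Matrix.charpoly_natDegree_eq_dim τ
      rw [hk', natDegree_pow, Fintype.card_fin] at h1
      exact h1.symm
    have hPd0 : 0 < P.natDegree := hPi.natDegree_pos
    have hkk : k = k' := Nat.eq_of_mul_eq_mul_right hPd0 (by omega)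
    have hcc : (G : Matrix (Fin n) (Fin n) F).charpoly = (T : Matrix (Fin n) (Fin n) F).charpoly := by
      rw [hk, hTv, hk', hkk]
    obtain ⟨c, hc'⟩ := isConj_iff.1 (Cfsg.Agent.H10.isConj_of_charpoly_eq p G T hGo hTo hcc)
    -- `c G c⁻¹ = T`, `Y = f(G)`
    obtain ⟨f, hf⟩ := commutant_of_cyclic (G : Matrix (Fin n) (Fin n) F) (Y : Matrix (Fin n) (Fin n) F) (fun _ => 1) hPd
      (cyclic_of_irr hn _ hPi) (by
        have := congrArg (fun u : GL (Fin n) F => (u : Matrix (Fin n) (Fin n) F)) hc.eq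
        exact this)
    have hGT : (G : Matrix (Fin n) (Fin n) F) = ((c⁻¹ : GL (Fin n) F) : Matrix (Fin n) (Fin n) F) * τ * ((c⁻¹⁻¹ : GL (Fin n) F) : Matrix (Fin n) (Fin n) F) := by
      rw [← hTv, ← hc', inv_inv]
      simp only [← Units.val_mul]
      congr 1
      group
    have hY : (Y : Matrix (Fin n) (Fin n) F) = ((c⁻¹ : GL (Fin n) F) : Matrix (Fin n) (Fin n) F) * φ (aeval t₀ f) * ((c⁻¹⁻¹ : GL (Fin n) F) : Matrix (Fin n) (Fin n) F) := by
      rw [hf, hGT, aeval_conj_gl, Polynomial.aeval_algHom_apply]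
    have ha0 : aeval t₀ f ≠ 0 := by
      intro h0
      rw [h0, map_zero, mul_zero, zero_mul] at hY
      have h1 := Y.isUnit
      rw [hY] at h1
      exact not_isUnit_zero h1
    have hmem : Units.mk0 (aeval t₀ f) ha0 ∈ Submonoid.powers gen := mem_powers_iff_mem_zpowers.2 (hgen _)
    obtain ⟨j, hj⟩ := hmem
    have hj' : (gen : K) ^ j = aeval t₀ f := by
      have := congrArg (fun u : Kˣ => (u : K)) hj
      simpa using this
    refine ⟨j, c⁻¹, ?_⟩
    apply Units.ext
    rw [hY, Units.val_mul, Units.val_mul, Units.val_pow_eq_pow_val, hγ, hj']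

/-- the main statement -/
theorem psl_even_order {q : ℕ} (hF : Fintype.card F = q) (hodd : Odd q) {n : ℕ} (hn : 4 ≤ n) (heven : Even n) :
    (∃ g : Matrix.ProjectiveSpecialLinearGroup (Fin n) F, orderOf g = q ^ (n / 2) + 1) ↔
      padicValNat 2 (q - 1) < padicValNat 2 n := by
  classical
  obtain ⟨p, hpc⟩ := CharP.exists F
  obtain ⟨a, hp, hqa⟩ := FiniteField.card F p
  haveI : Fact p.Prime := ⟨hp⟩
  subst hF
  set q := Fintype.card F with hq
  obtain ⟨l, hl⟩ := heven
  have hl2 : n / 2 = l := by omega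
  rw [hl2]
  have hn' : n = 2 * l := by omega
  have hq1 : 1 < q := Fintype.one_lt_card
  obtain ⟨Q, hQ⟩ : ∃ Q, q = Q + 1 := ⟨q - 1, by omega⟩
  have hQ1 : q - 1 = Q := by omega
  have hQ0 : 0 < Q := by omega
  obtain ⟨S, hS1, hS⟩ := geom_facts Q l
  rw [← hQ] at hS1
  rw [hQ1]
  have hA : q ^ l + 1 = Q * S + 2 := by omega
  set A := q ^ l + 1 with hAdef
  have hqn : q ^ n = (Q * S + 1) ^ 2 := by
    rw [hn', mul_comm, pow_mul, hS1]
  have hqn1 : q ^ n - 1 = Q * (S * A) := by
    rw [hqn, hA]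
    have : (Q * S + 1) ^ 2 = Q * (S * (Q * S + 2)) + 1 := by ring
    omega
  have hR : (q ^ n - 1) / (q - 1) = S * A := by
    rw [hqn1, hQ1]
    exact Nat.mul_div_cancel_left _ hQ0
  have hcop : ∀ c, c ∣ Q → Odd c → Nat.Coprime A c := by
    intro c hc hco
    have h1 : Nat.gcd A c ∣ Q * S := (Nat.gcd_dvd_right _ _).trans (hc.trans (Dvd.intro _ rfl))
    have h2 : Nat.gcd A c ∣ 2 := by
      have h3 : Nat.gcd A c ∣ Q * S + 2 := by
        rw [← hA]
        exact Nat.gcd_dvd_left _ _
      exact (Nat.dvd_add_right h1).1 h3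
    have h3 : Nat.gcd A c ∣ Nat.gcd c 2 := Nat.dvd_gcd (Nat.gcd_dvd_right _ _) h2
    have h4 : Nat.gcd c 2 = 1 := Nat.Coprime.symm (Nat.coprime_two_left.2 hco)
    rw [h4] at h3
    exact Nat.dvd_one.1 h3
  have hAe : Even A := (hodd.pow).add_one
  have hA0 : 0 < A := by omega
  have hl0 : 0 < l := by omega
  obtain ⟨γ, hγ1, hγ2, hγ3, hγ4⟩ := singer_all (F := F) (p := p) (n := n) (by omega)
  rw [hR] at hγ1 hγ2
  rw [hQ1] at hγ3
  have hn1 : 1 ≤ n := by omega
  constructor
  · -- no such element when the valuation is small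
    rintro ⟨x, hx⟩
    by_contra hvw
    push Not at hvw
    obtain ⟨M, hM1, hM2⟩ := arith_neg hQ0 hn' hl0 hA0 hAe hS hvw
    obtain ⟨g, rfl⟩ := QuotientGroup.mk'_surjective _ x
    change orderOf (piL n F g) = A at hx
    obtain ⟨r, hr, hr1, hr2⟩ := Cfsg.Agent.H13.Zsig.zsigmondy q n hq1 (by omega)
      (by
        rintro ⟨h2, -⟩
        rw [h2] at hodd
        exact (by decide : ¬ Odd 2) hodd)
      (by
        rintro ⟨h2, -⟩
        omega)
    have hrA : r ∣ A := by
      rw [hqn1, ← mul_assoc] at hr1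
      rcases (Nat.Prime.dvd_mul hr).1 hr1 with h | h
      · exfalso
        apply hr2 l hl0 (by omega)
        have : q ^ l - 1 = Q * S := by omega
        rw [this]
        exact h
      · exact h
    obtain ⟨A', hA'⟩ := hrA
    have hrQ : ¬ r ∣ Q := by
      have := hr2 1 (by omega) (by omega)
      rw [pow_one, hQ1] at this
      exact this
    have hrF : (r : F) ≠ 0 := by
      intro h0
      have h1 : p ∣ r := (CharP.cast_eq_zero_iff F p r).1 h0
      have h2 : p = r := (Nat.prime_dvd_prime_iff_eq hp hr).1 h1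
      subst h2
      have h3 : p ∣ q ^ n := by
        rw [hqa]
        exact Dvd.dvd.pow (dvd_pow_self _ a.pos.ne') (by omega)
      have h4 : 1 < q ^ n := Nat.one_lt_pow (by omega) hq1
      have h5 : p ∣ 1 := by
        have := Nat.dvd_sub h3 hr1
        rwa [Nat.sub_sub_self (by omega)] at this
      exact hp.one_lt.ne' (Nat.dvd_one.1 h5)
    have hrp : ¬ p ∣ r := by
      intro h1
      exact hrF ((CharP.cast_eq_zero_iff F p r).2 h1)
    -- scalar
    have hgA : piL n F (g ^ A) = 1 := by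
      rw [map_pow, ← hx, pow_orderOf_eq_one]
    obtain ⟨c, hc⟩ := (piL_eq_one_iff hn1 _).1 hgA
    have hc0 : c ≠ 0 := by
      rintro rfl
      have h1 : ((g ^ A : Matrix.SpecialLinearGroup (Fin n) F) : Matrix (Fin n) (Fin n) F).det = 1 := (g ^ A).2
      haveI : Nonempty (Fin n) := ⟨⟨0, by omega⟩⟩
      rw [hc, zero_smul, Matrix.det_zero] at h1
      exact zero_ne_one h1
    let t₀ : Matrix.SpecialLinearGroup (Fin n) F := g ^ (A' * Q)
    have ht₀v : (t₀ : Matrix (Fin n) (Fin n) F) = (g : Matrix (Fin n) (Fin n) F) ^ (A' * Q) := by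
      simp [t₀]
    have hgAv : (g : Matrix (Fin n) (Fin n) F) ^ A = c • 1 := by
      rw [← hc]
      simp
    have ht1 : (t₀ : Matrix (Fin n) (Fin n) F) ^ r = 1 := by
      rw [ht₀v, ← pow_mul]
      have : A' * Q * r = A * Q := by
        rw [hA']
        ring
      rw [this, pow_mul, hgAv, _root_.smul_pow, one_pow]
      have hc1 : c ^ Q = 1 := by
        rw [← hQ1]
        exact FiniteField.pow_card_sub_one_eq_one c hc0
      rw [hc1, one_smul]
    have ht2 : (t₀ : Matrix (Fin n) (Fin n) F) ≠ 1 := by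
      intro h1
      have h2 : t₀ = 1 := by
        apply Subtype.ext
        exact h1
      have h3 : piL n F g ^ (A' * Q) = 1 := by
        rw [← map_pow]
        change piL n F t₀ = 1
        rw [h2, map_one]
      have h4 := orderOf_dvd_of_pow_eq_one h3
      rw [hx, hA', mul_comm r] at h4
      have hA'0 : 0 < A' := by
        rcases Nat.eq_zero_or_pos A' with h | h
        · rw [h] at hA'
          omega
        · exact h
      exact hrQ (Nat.dvd_of_mul_dvd_mul_left hA'0 h4)
    obtain ⟨R, hRi, hRd, hRr, -⟩ := exists_irr_factor hr hrF _ ht1 ht2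
    have hint : IsIntegral F (t₀ : Matrix (Fin n) (Fin n) F) := Algebra.IsIntegral.isIntegral _
    have hM0 : minpoly F (t₀ : Matrix (Fin n) (Fin n) F) ≠ 0 := minpoly.ne_zero hint
    have hMn : (minpoly F (t₀ : Matrix (Fin n) (Fin n) F)).natDegree ≤ n := by
      have h1 := natDegree_le_of_dvd (Matrix.minpoly_dvd_charpoly (t₀ : Matrix (Fin n) (Fin n) F)) (Matrix.charpoly_monic _).ne_zero
      rwa [Matrix.charpoly_natDegree_eq_dim, Fintype.card_fin] at h1
    have hRn : n ≤ R.natDegree := by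
      by_contra hlt
      push Not at hlt
      exact hr2 _ hRi.natDegree_pos hlt hRr
    have hRMdeg := natDegree_le_of_dvd hRd hM0
    have hassoc : Associated R (minpoly F (t₀ : Matrix (Fin n) (Fin n) F)) :=
      Polynomial.associated_of_dvd_of_natDegree_le hRd hM0 (by omega)
    have hMi : Irreducible (minpoly F (t₀ : Matrix (Fin n) (Fin n) F)) := hassoc.irreducible hRi
    have hMd : (minpoly F (t₀ : Matrix (Fin n) (Fin n) F)).natDegree = n := by omega
    let G : GL (Fin n) F := Matrix.SpecialLinearGroup.toGL t₀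
    let Y : GL (Fin n) F := Matrix.SpecialLinearGroup.toGL g
    have hGo : (orderOf G).Coprime p := by
      apply coprime_of_pow_eq_one hp _ r _ hrp
      apply Units.ext
      rw [Units.val_pow_eq_pow_val]
      exact ht1
    have hcomm : Commute Y G := by
      have h1 : Commute g t₀ := (Commute.refl g).pow_right _
      exact (Commute.map h1 (Matrix.SpecialLinearGroup.toGL))
    obtain ⟨j, c₁, hc₁⟩ := hγ4 G Y hGo hMi hMd hcomm
    have hYv : (g : Matrix (Fin n) (Fin n) F) = (c₁ : Matrix (Fin n) (Fin n) F) * (γ : Matrix (Fin n) (Fin n) F) ^ j * ((c₁⁻¹ : GL (Fin n) F) : Matrix (Fin n) (Fin n) F) := by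
      have h1 := congrArg (fun u : GL (Fin n) F => (u : Matrix (Fin n) (Fin n) F)) hc₁
      simp only [Units.val_mul, Units.val_pow_eq_pow_val] at h1
      exact h1
    have hdet : ((γ : Matrix (Fin n) (Fin n) F) ^ j).det = 1 := by
      have h1 : (g : Matrix (Fin n) (Fin n) F).det = 1 := g.2
      rw [hYv, Matrix.det_units_conj] at h1
      exact h1
    obtain ⟨j', rfl⟩ := (hγ3 j).2 hdet
    obtain ⟨d, hd⟩ := hγ1 (Q * M) hM2
    apply hM1
    rw [← hx]
    apply orderOf_dvd_of_pow_eq_one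
    rw [← map_pow, piL_eq_one_iff hn1]
    refine ⟨d ^ j', ?_⟩
    have hg0 : ((g ^ M : Matrix.SpecialLinearGroup (Fin n) F) : Matrix (Fin n) (Fin n) F) = (g : Matrix (Fin n) (Fin n) F) ^ M := by simp
    rw [hg0, hYv]
    have hpw : ∀ k : ℕ, ((c₁ : Matrix (Fin n) (Fin n) F) * (γ : Matrix (Fin n) (Fin n) F) ^ (Q * j') * ((c₁⁻¹ : GL (Fin n) F) : Matrix (Fin n) (Fin n) F)) ^ k =
        (c₁ : Matrix (Fin n) (Fin n) F) * ((γ : Matrix (Fin n) (Fin n) F) ^ (Q * j')) ^ k * ((c₁⁻¹ : GL (Fin n) F) : Matrix (Fin n) (Fin n) F) := by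
      intro k
      have h1 := conj_pow (a := c₁) (b := γ ^ (Q * j')) (i := k)
      have h2 := congrArg (fun u : GL (Fin n) F => (u : Matrix (Fin n) (Fin n) F)) h1
      simp only [Units.val_mul, Units.val_pow_eq_pow_val] at h2
      exact h2
    rw [hpw, ← pow_mul]
    have : Q * j' * M = (Q * M) * j' := by ring
    rw [this, pow_mul, hd, _root_.smul_pow, one_pow, mul_smul_comm, mul_one, smul_mul_assoc, ← Units.val_mul, mul_inv_cancel, Units.val_one]
  · -- existence
    intro hvw
    have h1 : ((γ : Matrix (Fin n) (Fin n) F) ^ Q).det = 1 := (hγ3 Q).1 dvd_rfl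
    let w₀ : Matrix.SpecialLinearGroup (Fin n) F := ⟨(γ : Matrix (Fin n) (Fin n) F) ^ Q, h1⟩
    have hw : ∀ m : ℕ, ((w₀ ^ m : Matrix.SpecialLinearGroup (Fin n) F) : Matrix (Fin n) (Fin n) F) = (γ : Matrix (Fin n) (Fin n) F) ^ (Q * m) := by
      intro m
      rw [pow_mul]
      induction m with
      | zero => simp
      | succ m ih => rw [pow_succ, pow_succ, ← ih]; rfl
    have h2 : A ∣ orderOf (piL n F w₀) := by
      have h3 : piL n F (w₀ ^ orderOf (piL n F w₀)) = 1 := by
        rw [map_pow, pow_orderOf_eq_one]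
      obtain ⟨c, hc⟩ := (piL_eq_one_iff hn1 _).1 h3
      rw [hw] at hc
      exact arith_pos hQ0 hn' hl0 hS hcop hvw (hγ2 _ _ hc)
    exact exists_order_of_dvd _ h2

end Cfsg.Agent.H11.Spec
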