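import Cfsg.Agent.Lib.H11.Spec20

/-! Tools for the elements of order `q^(n/2) ± 1` in `PSU_n(q)`. -/

set_option autoImplicit false
set_option linter.unusedSectionVars false
set_option linter.unusedVariables false

namespace Cfsg.Agent.H11.Spec

open Polynomial Matrix Module Cfsg.Agent.H11.GUC

section arith

/-- the alternating geometric sum -/
theorem alt_geom (q l : ℕ) : ∃ (Z k : ℤ), ((q : ℤ) + 1) * Z = 1 - (-(q : ℤ)) ^ l ∧ Z = l + ((q : ℤ) + 1) * k := by
  induction l with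
  | zero => exact ⟨0, 0, by simp, by simp⟩
  | succ l ih =>
    obtain ⟨Z, k, h1, h2⟩ := ih
    have h3 : (-(q : ℤ)) ^ l = 1 - ((q : ℤ) + 1) * Z := by linarith
    refine ⟨Z + (-(q : ℤ)) ^ l, k - Z, ?_, ?_⟩
    · rw [pow_succ, h3]
      ring
    · rw [h3, h2]
      push_cast
      ring

/-- the arithmetic for the unitary group -/
theorem su_geom {q l : ℕ} (hq : 1 < q) (hl : 1 ≤ l) :
    ∃ S B : ℕ, B = (if Even l then q ^ l + 1 else q ^ l - 1) ∧ (q + 1) * (S * B) + 1 = q ^ (2 * l) ∧ 0 < B ∧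
      (∀ d, d ∣ q + 1 → (d ∣ S ↔ d ∣ l)) ∧ (∀ c, c ∣ q + 1 → Odd c → Nat.Coprime B c) := by
  obtain ⟨Z, k, h1, h2⟩ := alt_geom q l
  have hql : 1 < q ^ l := Nat.one_lt_pow (by omega) hq
  refine ⟨Z.natAbs, _, rfl, ?_, ?_, ?_, ?_⟩
  · split_ifs with he
    · have h3 : (-(q : ℤ)) ^ l = (q : ℤ) ^ l := he.neg_pow _
      rw [h3] at h1
      have h4 : Z ≤ 0 := by
        by_contra hZ
        push Not at hZ
        have h5 : (0 : ℤ) < ((q : ℤ) + 1) * Z := by positivity
        have h6 : (1 : ℤ) < (q : ℤ) ^ l := by exact_mod_cast hql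
        linarith
      zify
      rw [abs_of_nonpos h4, pow_mul']
      push_cast
      have h7 : ((q : ℤ) + 1) * -Z = (q : ℤ) ^ l - 1 := by linarith
      calc ((q : ℤ) + 1) * (-Z * ((q : ℤ) ^ l + 1)) + 1 = (((q : ℤ) + 1) * -Z) * ((q : ℤ) ^ l + 1) + 1 := by ring
        _ = ((q : ℤ) ^ l) ^ 2 := by rw [h7]; ring
    · have h3 : (-(q : ℤ)) ^ l = -(q : ℤ) ^ l := (Nat.not_even_iff_odd.1 he).neg_pow _
      rw [h3] at h1
      have h4 : 0 ≤ Z := by
        by_contra hZ
        push Not at hZ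
        have h5 : ((q : ℤ) + 1) * Z < 0 := mul_neg_of_pos_of_neg (by positivity) hZ
        have h6 : (0 : ℤ) < (q : ℤ) ^ l := by positivity
        linarith
      zify [show 1 ≤ q ^ l by omega]
      rw [abs_of_nonneg h4, pow_mul']
      have h7 : ((q : ℤ) + 1) * Z = (q : ℤ) ^ l + 1 := by linarith
      calc ((q : ℤ) + 1) * (Z * ((q : ℤ) ^ l - 1)) + 1 = (((q : ℤ) + 1) * Z) * ((q : ℤ) ^ l - 1) + 1 := by ring
        _ = ((q : ℤ) ^ l) ^ 2 := by rw [h7]; ring
  · split_ifs <;> omega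
  · intro d hd
    have hd' : (d : ℤ) ∣ (q : ℤ) + 1 := by exact_mod_cast hd
    have h3 : (d : ℤ) ∣ ((q : ℤ) + 1) * k := hd'.mul_right k
    rw [← Int.natCast_dvd_natCast (m := d) (n := l), ← Int.natCast_dvd_natCast (m := d) (n := Z.natAbs), Int.dvd_natAbs, h2]
    exact (dvd_add_left h3)
  · intro c hc hco
    have h3 : (q + 1) ∣ q ^ l + 1 ∨ (q + 1) ∣ q ^ l - 1 := by
      by_cases he : Even l
      · right
        obtain ⟨l', rfl⟩ := he
        have h5 : (q + 1) ∣ q ^ 2 - 1 := by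
          have : q ^ 2 - 1 = (q + 1) * (q - 1) := by
            obtain ⟨u, rfl⟩ : ∃ u, q = u + 1 := ⟨q - 1, by omega⟩
            simp only [Nat.add_sub_cancel]
            have : (u + 1) ^ 2 = (u + 1 + 1) * u + 1 := by ring
            omega
          rw [this]
          exact Dvd.intro _ rfl
        have h6 : q ^ (l' + l') = (q ^ 2) ^ l' := by rw [← pow_mul]; congr 1; omega
        rw [h6]
        have := Nat.sub_dvd_pow_sub_pow (q ^ 2) 1 l'
        rw [one_pow] at this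
        exact h5.trans this
      · left
        exact Odd.nat_add_dvd_pow_add_pow q 1 (Nat.not_even_iff_odd.1 he) |> (by simpa using ·)
    split_ifs with he
    · -- `q ^ l + 1` with `l` even
      have h4 : (q + 1) ∣ q ^ l - 1 := by
        obtain ⟨l', rfl⟩ := he
        have h5 : (q + 1) ∣ q ^ 2 - 1 := by
          have : q ^ 2 - 1 = (q + 1) * (q - 1) := by
            obtain ⟨u, rfl⟩ : ∃ u, q = u + 1 := ⟨q - 1, by omega⟩
            simp only [Nat.add_sub_cancel]
            have : (u + 1) ^ 2 = (u + 1 + 1) * u + 1 := by ring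
            omega
          rw [this]
          exact Dvd.intro _ rfl
        have h6 : q ^ (l' + l') = (q ^ 2) ^ l' := by rw [← pow_mul]; congr 1; omega
        rw [h6]
        have := Nat.sub_dvd_pow_sub_pow (q ^ 2) 1 l'
        rw [one_pow] at this
        exact h5.trans this
      have h5 : Nat.gcd (q ^ l + 1) c ∣ q ^ l - 1 := (Nat.gcd_dvd_right _ _).trans (hc.trans h4)
      have h6 : q ^ l + 1 = (q ^ l - 1) + 2 := by omega
      have h7 : Nat.gcd (q ^ l + 1) c ∣ 2 := by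
        have h8 : Nat.gcd (q ^ l + 1) c ∣ (q ^ l - 1) + 2 := by
          rw [← h6]
          exact Nat.gcd_dvd_left _ _
        exact (Nat.dvd_add_right h5).1 h8
      have h8 : Nat.gcd (q ^ l + 1) c ∣ Nat.gcd c 2 := Nat.dvd_gcd (Nat.gcd_dvd_right _ _) h7
      have h9 : Nat.gcd c 2 = 1 := Nat.Coprime.symm (Nat.coprime_two_left.2 hco)
      rw [h9] at h8
      exact Nat.dvd_one.1 h8
    · -- `q ^ l - 1` with `l` odd
      have h4 : (q + 1) ∣ q ^ l + 1 := by
        have := Odd.nat_add_dvd_pow_add_pow q 1 (Nat.not_even_iff_odd.1 he)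
        simpa using this
      have h5 : Nat.gcd (q ^ l - 1) c ∣ q ^ l + 1 := (Nat.gcd_dvd_right _ _).trans (hc.trans h4)
      have h6 : q ^ l + 1 = (q ^ l - 1) + 2 := by omega
      have h7 : Nat.gcd (q ^ l - 1) c ∣ 2 := by
        rw [h6] at h5
        exact (Nat.dvd_add_right (Nat.gcd_dvd_left _ _)).1 h5
      have h8 : Nat.gcd (q ^ l - 1) c ∣ Nat.gcd c 2 := Nat.dvd_gcd (Nat.gcd_dvd_right _ _) h7
      have h9 : Nat.gcd c 2 = 1 := Nat.Coprime.symm (Nat.coprime_two_left.2 hco)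
      rw [h9] at h8
      exact Nat.dvd_one.1 h8

/-- the primes used for the unitary group -/
theorem exists_ppd_su {q l : ℕ} (hq : 1 < q) (hodd : Odd q) (hl : 2 ≤ l) :
    ∃ r : ℕ, r.Prime ∧ r ∣ (if Even l then q ^ l + 1 else q ^ l - 1) ∧ ¬ r ∣ q ∧
      (∀ d, 0 < d → r ∣ q ^ (2 * d) - 1 → l ≤ d) ∧ (∀ d, Odd d → ¬ r ∣ q ^ d + 1) := by
  have hq2 : ∀ k, 1 ≤ q ^ k := fun k => Nat.one_le_pow _ _ (by omega)
  have hne2 : q ≠ 2 := by
    rintro rfl
    exact (by decide : ¬ Odd 2) hodd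
  have hsq : ∀ d, q ^ (2 * d) - 1 = (q ^ d - 1) * (q ^ d + 1) := by
    intro d
    have h1 := hq2 d
    obtain ⟨u, hu⟩ : ∃ u, q ^ d = u + 1 := ⟨q ^ d - 1, by omega⟩
    rw [pow_mul', hu]
    simp only [Nat.add_sub_cancel]
    have : (u + 1) ^ 2 = u * (u + 1 + 1) + 1 := by ring
    omega
  by_cases he : Even l
  · obtain ⟨r, hr, hr1, hr2⟩ := Cfsg.Agent.H13.Zsig.zsigmondy q (2 * l) hq (by omega)
      (by
        rintro ⟨h2, -⟩
        exact hne2 h2)
      (by
        rintro ⟨h2, -⟩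
        omega)
    refine ⟨r, hr, ?_, ?_, ?_, ?_⟩
    · rw [if_pos he]
      rw [hsq] at hr1
      rcases (Nat.Prime.dvd_mul hr).1 hr1 with h | h
      · exact absurd h (hr2 l (by omega) (by omega))
      · exact h
    · intro hd
      have h1 : r ∣ q ^ (2 * l) := Dvd.dvd.pow hd (by omega)
      have h2 : r ∣ 1 := by
        have := Nat.dvd_sub h1 hr1
        rwa [Nat.sub_sub_self (hq2 _)] at this
      exact hr.one_lt.ne' (Nat.dvd_one.1 h2)
    · intro d hd h
      by_contra hlt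
      push Not at hlt
      exact hr2 (2 * d) (by omega) (by omega) h
    · intro d hd h
      have h1 : r ∣ q ^ (2 * d) - 1 := by
        rw [hsq]
        exact h.mul_left _
      have h2 : r ∣ Nat.gcd (q ^ (2 * d) - 1) (q ^ (2 * l) - 1) := Nat.dvd_gcd h1 hr1
      rw [Nat.pow_sub_one_gcd_pow_sub_one, Nat.gcd_mul_left] at h2
      have hg : 0 < Nat.gcd d l := Nat.gcd_pos_of_pos_right _ (by omega)
      have hgl : Nat.gcd d l = l := by
        by_contra hne
        have hle : Nat.gcd d l ≤ l := Nat.gcd_le_right _ (by omega)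
        exact hr2 (2 * Nat.gcd d l) (by omega) (by omega) h2
      have hld : l ∣ d := by
        rw [← hgl]
        exact Nat.gcd_dvd_left _ _
      have : Even d := he.trans_dvd hld
      exact (Nat.not_even_iff_odd.2 hd) this
  · have hlo : Odd l := Nat.not_even_iff_odd.1 he
    have hl3 : 3 ≤ l := by
      obtain ⟨l', rfl⟩ := hlo
      omega
    obtain ⟨r, hr, hr1, hr2⟩ := Cfsg.Agent.H13.Zsig.zsigmondy q l hq (by omega)
      (by
        rintro ⟨h2, -⟩
        exact hne2 h2)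
      (by
        rintro ⟨h2, -⟩
        omega)
    have hkey : ∀ d, 0 < d → r ∣ q ^ (2 * d) - 1 → l ∣ d := by
      intro d hd h
      have h2 : r ∣ Nat.gcd (q ^ (2 * d) - 1) (q ^ l - 1) := Nat.dvd_gcd h hr1
      rw [Nat.pow_sub_one_gcd_pow_sub_one] at h2
      have hg : 0 < Nat.gcd (2 * d) l := Nat.gcd_pos_of_pos_right _ (by omega)
      have hgl : Nat.gcd (2 * d) l = l := by
        by_contra hne
        have hle : Nat.gcd (2 * d) l ≤ l := Nat.gcd_le_right _ (by omega)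
        exact hr2 _ hg (by omega) h2
      have hld : l ∣ 2 * d := by
        rw [← hgl]
        exact Nat.gcd_dvd_left _ _
      have hc : Nat.Coprime l 2 := Nat.Coprime.symm (Nat.coprime_two_left.2 hlo)
      exact hc.dvd_of_dvd_mul_left hld
    refine ⟨r, hr, ?_, ?_, ?_, ?_⟩
    · rw [if_neg he]
      exact hr1
    · intro hd
      have h1 : r ∣ q ^ l := Dvd.dvd.pow hd (by omega)
      have h2 : r ∣ 1 := by
        have := Nat.dvd_sub h1 hr1
        rwa [Nat.sub_sub_self (hq2 _)] at this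
      exact hr.one_lt.ne' (Nat.dvd_one.1 h2)
    · intro d hd h
      exact Nat.le_of_dvd hd (hkey d hd h)
    · intro d hd h
      have h0 : 0 < d := hd.pos
      have h1 : r ∣ q ^ (2 * d) - 1 := by
        rw [hsq]
        exact h.mul_left _
      obtain ⟨s, rfl⟩ := hkey d h0 h1
      have h3 : q ^ l - 1 ∣ q ^ (l * s) - 1 := by
        have := Nat.sub_dvd_pow_sub_pow (q ^ l) 1 s
        rwa [one_pow, ← pow_mul] at this
      have h4 : r ∣ q ^ (l * s) - 1 := hr1.trans h3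
      have h5 : r ∣ 2 := by
        have h6 : q ^ (l * s) + 1 = (q ^ (l * s) - 1) + 2 := by
          have := Nat.one_lt_pow (n := l * s) (by
            rintro h0'
            omega) hq
          omega
        rw [h6] at h
        exact (Nat.dvd_add_right h4).1 h
      have h6 : r = 2 := (Nat.prime_dvd_prime_iff_eq hr Nat.prime_two).1 h5
      have h7 := hr2 1 (by omega) (by omega)
      apply h7
      rw [pow_one, h6]
      obtain ⟨u, rfl⟩ := hodd
      simp

end arith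

variable {F : Type*} [Field F] [Fintype F]

/-- roots of unity of prime order -/
theorem r_dvd_of_dvd {r N : ℕ} (hr : r.Prime) {R : F[X]} (h1 : R ∣ X ^ r - 1) (h2 : ¬ R ∣ (X - 1 : F[X])) (h3 : R ∣ X ^ N - 1) :
    r ∣ N := by
  by_contra hn
  have hc : Nat.gcd r N = 1 := (Nat.Prime.coprime_iff_not_dvd hr).2 hn
  have hx : ∀ m : ℕ, R ∣ X ^ m - 1 → (AdjoinRoot.root R) ^ m = 1 := by
    intro m hm
    have := AdjoinRoot.mk_eq_zero.2 hm
    rw [map_sub, map_pow, AdjoinRoot.mk_X, map_one] at this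
    exact sub_eq_zero.1 this
  have h4 := (pow_gcd_eq_one (a := AdjoinRoot.root R) (m := r) (n := N)).2 ⟨hx r h1, hx N h3⟩
  rw [hc, pow_one] at h4
  apply h2
  apply AdjoinRoot.mk_eq_zero.1
  rw [map_sub, AdjoinRoot.mk_X, map_one, h4, sub_self]

/-- the monic version of the irreducible factor -/
theorem exists_irr_factor_monic {n r : ℕ} (hr : r.Prime) (hrF : (r : F) ≠ 0) (b : Matrix (Fin n) (Fin n) F)
    (hb : b ^ r = 1) (hb1 : b ≠ 1) :
    ∃ R : F[X], R.Monic ∧ Irreducible R ∧ R ∣ minpoly F b ∧ r ∣ Fintype.card F ^ R.natDegree - 1 ∧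
      ∀ N : ℕ, R ∣ X ^ N - 1 → r ∣ N := by
  obtain ⟨R, hRi, hRd, hRr, hR1⟩ := exists_irr_factor hr hrF b hb hb1
  have hR0 : R ≠ 0 := hRi.ne_zero
  have hlc : R.leadingCoeff⁻¹ ≠ 0 := inv_ne_zero (leadingCoeff_ne_zero.2 hR0)
  have hu : IsUnit (C (R.leadingCoeff)⁻¹ : F[X]) := isUnit_C.2 (IsUnit.mk0 _ hlc)
  have hdv : ∀ Z : F[X], R * C (R.leadingCoeff)⁻¹ ∣ Z ↔ R ∣ Z := fun Z => hu.mul_right_dvd
  have hM : R ∣ X ^ r - 1 := by
    apply hRd.trans
    apply minpoly.dvd
    simp [hb]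
  refine ⟨R * C (R.leadingCoeff)⁻¹, monic_mul_leadingCoeff_inv hR0, (irreducible_mul_isUnit hu).2 hRi,
    (hdv _).2 hRd, ?_, ?_⟩
  · rw [natDegree_mul_C hlc]
    exact hRr
  · intro N hN
    exact r_dvd_of_dvd hr hM hR1 ((hdv _).1 hN)

theorem eq_zero_of_coprime {n : ℕ} (t : Matrix (Fin n) (Fin n) F) {A B : F[X]} (h : IsCoprime A B) (y : Fin n → F)
    (hA : aeval t A *ᵥ y = 0) (hB : aeval t B *ᵥ y = 0) : y = 0 := by
  obtain ⟨a, b, hab⟩ := h
  have h1 : aeval t (a * A + b * B) *ᵥ y = y := by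
    rw [hab, map_one, Matrix.one_mulVec]
  rw [map_add, map_mul, map_mul, Matrix.add_mulVec, ← Matrix.mulVec_mulVec, ← Matrix.mulVec_mulVec, hA, hB,
    Matrix.mulVec_zero, Matrix.mulVec_zero, add_zero] at h1
  exact h1.symm

theorem exists_ne_mulVec {n : ℕ} (A : Matrix (Fin n) (Fin n) F) (h : A ≠ 0) : ∃ w : Fin n → F, A *ᵥ w ≠ 0 := by
  by_contra hcon
  push Not at hcon
  apply h
  apply Matrix.ext_of_mulVec_single
  intro i
  rw [hcon, Matrix.zero_mulVec]

/-- a cyclic vector when the minimal polynomial is a product of two coprime irreducibles -/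
theorem cyclic_of_pair {n : ℕ} (t : Matrix (Fin n) (Fin n) F) {P P' : F[X]} (hP : Irreducible P) (hP' : Irreducible P')
    (hco : IsCoprime P P') (hM : minpoly F t = P * P') :
    ∃ v : Fin n → F, ∀ f : F[X], aeval t f *ᵥ v = 0 → minpoly F t ∣ f := by
  have h0 : aeval t (P * P') = 0 := by
    rw [← hM]
    exact minpoly.aeval F t
  have h1 : aeval t P' ≠ 0 := by
    intro h
    have h2 : P * P' ∣ P' := by
      rw [← hM]
      exact minpoly.dvd F t h
    have h3 : P ∣ 1 := by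
      have h4 : P * P' ∣ 1 * P' := by rwa [one_mul]
      exact (mul_dvd_mul_iff_right hP'.ne_zero).1 h4
    exact hP.not_isUnit (isUnit_of_dvd_one h3)
  have h2 : aeval t P ≠ 0 := by
    intro h
    have h2 : P * P' ∣ P := by
      rw [← hM]
      exact minpoly.dvd F t h
    have h3 : P' ∣ 1 := by
      have h4 : P * P' ∣ P * 1 := by rwa [mul_one]
      exact (mul_dvd_mul_iff_left hP.ne_zero).1 h4
    exact hP'.not_isUnit (isUnit_of_dvd_one h3)
  obtain ⟨w, hw⟩ := exists_ne_mulVec _ h1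
  obtain ⟨w', hw'⟩ := exists_ne_mulVec _ h2
  set v₁ := aeval t P' *ᵥ w with hv₁
  set v₂ := aeval t P *ᵥ w' with hv₂
  have hc : ∀ f g : F[X], aeval t f * aeval t g = aeval t g * aeval t f := by
    intro f g
    rw [← map_mul, ← map_mul, mul_comm]
  have h3 : aeval t P *ᵥ v₁ = 0 := by
    rw [hv₁, Matrix.mulVec_mulVec, ← map_mul, h0, Matrix.zero_mulVec]
  have h4 : aeval t P' *ᵥ v₂ = 0 := by
    rw [hv₂, Matrix.mulVec_mulVec, ← map_mul, mul_comm, h0, Matrix.zero_mulVec]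
  refine ⟨v₁ + v₂, ?_⟩
  intro f hf
  rw [Matrix.mulVec_add] at hf
  set y₁ := aeval t f *ᵥ v₁ with hy₁
  set y₂ := aeval t f *ᵥ v₂ with hy₂
  have h5 : aeval t P *ᵥ y₁ = 0 := by
    rw [hy₁, Matrix.mulVec_mulVec, hc, ← Matrix.mulVec_mulVec, h3, Matrix.mulVec_zero]
  have h6 : aeval t P' *ᵥ y₂ = 0 := by
    rw [hy₂, Matrix.mulVec_mulVec, hc, ← Matrix.mulVec_mulVec, h4, Matrix.mulVec_zero]
  have h7 : y₂ = -y₁ := (neg_eq_of_add_eq_zero_right hf).symm
  have h8 : aeval t P *ᵥ y₂ = 0 := by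
    rw [h7, Matrix.mulVec_neg, h5, neg_zero]
  have h9 : y₂ = 0 := eq_zero_of_coprime t hco y₂ h8 h6
  have h10 : y₁ = 0 := by
    rw [h7] at h9
    exact neg_eq_zero.1 h9
  rw [hM]
  apply hco.mul_dvd
  · by_contra hnd
    exact hw (eq_zero_of_coprime t ((hP.coprime_iff_not_dvd).2 hnd) v₁ h3 h10)
  · by_contra hnd
    exact hw' (eq_zero_of_coprime t ((hP'.coprime_iff_not_dvd).2 hnd) v₂ h4 h9)

end Cfsg.Agent.H11.Spec
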