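import Cfsg.Agent.Lib.H11.Spec21

/-! The torus of order `q^n - 1` of `GU_n(q)`, `n` even, in detail. -/

set_option autoImplicit false
set_option linter.unusedSectionVars false
set_option linter.unusedVariables false

namespace Cfsg.Agent.H11.Spec

open Polynomial Matrix Module Cfsg.Agent.H11.GUC

variable {F : Type*} [Field F] [Fintype F] {n q : ℕ}

theorem aeval_prod_mk {L : Type*} [Field L] [Algebra F L] (u v : L) (f : F[X]) :
    aeval ((u, v) : L × L) f = (aeval u f, aeval v f) := by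
  apply Prod.ext
  · exact (Polynomial.aeval_algHom_apply (AlgHom.fst F L L) (u, v) f).symm
  · exact (Polynomial.aeval_algHom_apply (AlgHom.snd F L L) (u, v) f).symm

theorem aeval_map_frob {L : Type*} [Field L] [Algebra F L] {ρ : F →+* F} (ι : L →+* L)
    (hιF : ∀ c : F, ι (algebraMap F L c) = algebraMap F L (ρ c)) (t : L) (f : F[X]) :
    aeval (ι t) (f.map ρ) = ι (aeval t f) := by
  rw [aeval_def, aeval_def, eval₂_map, Polynomial.hom_eval₂]
  congr 1
  ext c
  exact (hιF c).symm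

/-- the torus of order `q^n - 1` -/
theorem torus_even_all {p a l : ℕ} [hpf : Fact p.Prime] [CharP F p] {ρ : F →+* F} (hρq : ∀ x, ρ x = x ^ q) (hρ : ∀ x, ρ (ρ x) = x)
    (hne : ∃ c, ρ c ≠ c) (hF : Fintype.card F = q ^ 2) (hq : q = p ^ a) (ha : 1 ≤ a) (hq1 : 1 < q) (hl : 1 ≤ l) (hn : n = 2 * l) :
    ∃ D₀ : GL (Fin n) F, (orderOf D₀).Coprime p ∧
      dag ρ (D₀ : Matrix (Fin n) (Fin n) F).charpoly = (D₀ : Matrix (Fin n) (Fin n) F).charpoly ∧
      (∀ m : ℕ, (q ^ n - 1) / (q + 1) ∣ m → ∃ c : F, (D₀ : Matrix (Fin n) (Fin n) F) ^ m = c • 1) ∧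
      (∀ (m : ℕ) (c : F), (D₀ : Matrix (Fin n) (Fin n) F) ^ m = c • 1 → (q ^ n - 1) / (q + 1) ∣ m) ∧
      (∀ m : ℕ, q + 1 ∣ m ↔ ((D₀ : Matrix (Fin n) (Fin n) F) ^ m).det = 1) ∧
      (∀ G Y : GL (Fin n) F, (orderOf G).Coprime p →
        dg ρ (G : Matrix (Fin n) (Fin n) F) * (G : Matrix (Fin n) (Fin n) F) = 1 →
        dg ρ (Y : Matrix (Fin n) (Fin n) F) * (Y : Matrix (Fin n) (Fin n) F) = 1 →
        (∃ P : F[X], Irreducible P ∧ GoodP P ∧ dag ρ P ≠ P ∧ P.natDegree = l ∧
          minpoly F (G : Matrix (Fin n) (Fin n) F) = P * dag ρ P) →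
        Commute Y G → ∃ j : ℕ, IsConj Y (D₀ ^ j)) := by
  classical
  have hp : p.Prime := Fact.out
  obtain ⟨L, _, _, _, hLc, hLf⟩ := exists_field_ext (F := F) l hl
  haveI : Module.Finite F L := Module.finite_of_finrank_pos (by omega)
  haveI : CharP L p := charP_of_injective_algebraMap (algebraMap F L).injective p
  obtain ⟨ι, hιx⟩ := exists_frob_ext (K := L) (p := p) (a := a) 1
  rw [← hq, pow_one] at hιx
  have hιF : ∀ c : F, ι (algebraMap F L c) = algebraMap F L (ρ c) := by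
    intro c
    rw [hιx, ← map_pow, hρq]
  have hfin : finrank F (L × L) = n := by
    rw [Module.finrank_prod, hLf, hn]
    ring
  let b := Module.finBasisOfFinrankEq F (L × L) hfin
  let φ : L × L →ₐ[F] Matrix (Fin n) (Fin n) F := Algebra.leftMulMatrix b
  have hφ : Function.Injective φ := Algebra.leftMulMatrix_injective b
  let τ : Lˣ →* (L × L)ˣ := (MulEquiv.prodUnits.symm.toMonoidHom).comp
    ((MonoidHom.id _).prod ((invMonoidHom).comp (Units.map (ι : L →* L))))
  have hτv : ∀ u : Lˣ, ((τ u : (L × L)ˣ) : L × L) = ((u : L), (ι (u : L))⁻¹) := by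
    intro u
    change (((u : L), (((Units.map (ι : L →* L) u)⁻¹ : Lˣ) : L)) : L × L) = _
    rw [Units.val_inv_eq_inv_val]
    rfl
  obtain ⟨g, hg⟩ := IsCyclic.exists_generator (α := Lˣ)
  let D₀ : GL (Fin n) F := Units.map (φ : L × L →* Matrix (Fin n) (Fin n) F) (τ g)
  have hDk : ∀ k : ℕ, (D₀ : Matrix (Fin n) (Fin n) F) ^ k = φ ((g : L) ^ k, (ι ((g : L) ^ k))⁻¹) := by
    intro k
    have h1 : D₀ ^ k = Units.map (φ : L × L →* Matrix (Fin n) (Fin n) F) (τ (g ^ k)) := by
      simp only [D₀]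
      rw [map_pow, map_pow]
    rw [← Units.val_pow_eq_pow_val, h1]
    change φ ((τ (g ^ k) : (L × L)ˣ) : L × L) = _
    rw [hτv, Units.val_pow_eq_pow_val]
  -- orders and norms
  have hqn : q ^ n = Fintype.card L := by
    rw [hLc, hF, hn, pow_mul]
  have hqn1 : 1 < q ^ n := by
    rw [hqn]
    exact Fintype.one_lt_card
  have hord : orderOf g = q ^ n - 1 := by
    rw [orderOf_eq_card_of_forall_mem_zpowers hg, Nat.card_eq_fintype_card, Fintype.card_units, hqn]
  have hpow1 : ∀ m : ℕ, (g : L) ^ m = 1 ↔ q ^ n - 1 ∣ m := by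
    intro m
    rw [← hord, orderOf_dvd_iff_pow_eq_one, Units.ext_iff]
    simp
  have hdv : q ^ 2 - 1 ∣ q ^ n - 1 := by
    have := Nat.sub_dvd_pow_sub_pow (q ^ 2) 1 l
    rwa [one_pow, ← pow_mul, ← hn] at this
  set R' := (q ^ n - 1) / (q ^ 2 - 1) with hR'
  have hR'm : R' * (q ^ 2 - 1) = q ^ n - 1 := Nat.div_mul_cancel hdv
  have hq2 : q ^ 2 - 1 = (q + 1) * (q - 1) := by
    obtain ⟨u, rfl⟩ : ∃ u, q = u + 1 := ⟨q - 1, by omega⟩
    simp only [Nat.add_sub_cancel]
    have : (u + 1) ^ 2 = (u + 1 + 1) * u + 1 := by ring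
    omega
  have hRval : (q ^ n - 1) / (q + 1) = R' * (q - 1) := by
    apply Nat.div_eq_of_eq_mul_left (by omega)
    rw [← hR'm, hq2]
    ring
  rw [hRval]
  set R := R' * (q - 1) with hR
  have hRm : R * (q + 1) = q ^ n - 1 := by
    rw [← hR'm, hq2, hR]
    ring
  have hR0 : 0 < R := by
    rcases Nat.eq_zero_or_pos R with h | h
    · rw [h, zero_mul] at hRm
      omega
    · exact h
  have hnorm : ∀ x : L, algebraMap F L (Algebra.norm F x) = x ^ R' := by
    intro x
    have := FiniteField.algebraMap_norm_eq_pow (K := F) (K' := L) (x := x)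
    rw [Nat.card_eq_fintype_card, Nat.card_eq_fintype_card, hF, ← hqn] at this
    exact this
  have hφc : ∀ c : F, φ (algebraMap F L c, algebraMap F L c) = c • 1 := by
    intro c
    have : ((algebraMap F L c, algebraMap F L c) : L × L) = algebraMap F (L × L) c := rfl
    rw [this, AlgHom.commutes, Algebra.algebraMap_eq_smul_one]
  have hcard : Fintype.card F = q ^ 2 := hF
  have hF1 : ∀ c : F, c ≠ 0 → c ^ (q ^ 2 - 1) = 1 := by
    intro c hc
    rw [← hF]
    exact FiniteField.pow_card_sub_one_eq_one c hc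
  have hcop : (orderOf D₀).Coprime p := by
    apply coprime_of_pow_eq_one hp _ (Fintype.card L - 1) _ (not_dvd_card_sub_one hp)
    have : g ^ (Fintype.card L - 1) = 1 := by
      apply Units.ext
      simp only [Units.val_pow_eq_pow_val, Units.val_one]
      exact FiniteField.pow_card_sub_one_eq_one _ (Units.ne_zero g)
    simp only [D₀]
    rw [← map_pow, ← map_pow, this, map_one, map_one]
  have hcp : ∀ u c : L, (φ (u, c)).charpoly = (LinearMap.mulLeft F u).charpoly * (LinearMap.mulLeft F c).charpoly := by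
    intro u c
    change (Algebra.leftMulMatrix b (u, c)).charpoly = _
    rw [Algebra.leftMulMatrix_apply, LinearMap.charpoly_toMatrix, ← LinearMap.charpoly_prodMap]
    congr 1
  have hcp2 : ∀ u : L, u ≠ 0 → GoodP (minpoly F u) ∧ ∃ k, k * (minpoly F u).natDegree = l ∧
      (φ (u, (ι u)⁻¹)).charpoly = (minpoly F u) ^ k * (dag ρ (minpoly F u)) ^ k := by
    intro u hu
    obtain ⟨hgu, hd⟩ := minpoly_dag (F := F) hρ ι hιF u hu
    refine ⟨hgu, ?_⟩
    obtain ⟨k₁, hk₁, hk₁'⟩ := lmul_charpoly (F := F) u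
    obtain ⟨k₂, hk₂, hk₂'⟩ := lmul_charpoly (F := F) (ι u)⁻¹
    rw [hd] at hk₂ hk₂'
    rw [dag_natDegree hgu] at hk₂'
    rw [hLf] at hk₁' hk₂'
    have hPd : 0 < (minpoly F u).natDegree := (minpoly.irreducible (Algebra.IsIntegral.isIntegral u)).natDegree_pos
    have hkk : k₁ = k₂ := Nat.eq_of_mul_eq_mul_right hPd (by omega)
    refine ⟨k₁, hk₁', ?_⟩
    rw [hcp, hk₁, hk₂, hkk]
  have hdetφ : ∀ u v : L, (φ (u, v)).det = Algebra.norm F u * Algebra.norm F v := by
    intro u v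
    change (Algebra.leftMulMatrix b (u, v)).det = _
    rw [Algebra.leftMulMatrix_apply, LinearMap.det_toMatrix, Algebra.norm_apply, Algebra.norm_apply, ← LinearMap.det_prodMap]
    congr 1
  have hnormι : ∀ x : L, Algebra.norm F (ι x) = ρ (Algebra.norm F x) := by
    intro x
    apply (algebraMap F L).injective
    rw [hnorm, ← hιF, hnorm, map_pow]
  refine ⟨D₀, hcop, ?_, ?_, ?_, ?_, ?_⟩
  · have h1 := hDk 1
    rw [pow_one, pow_one] at h1
    obtain ⟨hgg, k, -, hk⟩ := hcp2 (g : L) (Units.ne_zero g)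
    rw [h1, hk, dag_mul, dag_pow, dag_pow, dag_dag hρ hgg, mul_comm]
  · rintro m ⟨s, rfl⟩
    -- `g ^ R` lies in `F`
    set x₀ : L := (g : L) ^ R with hx₀
    have hx1 : x₀ ^ (q + 1) = 1 := by
      rw [hx₀, ← pow_mul, hRm, hqn]
      exact FiniteField.pow_card_sub_one_eq_one _ (Units.ne_zero g)
    have hx0 : x₀ ≠ 0 := pow_ne_zero _ (Units.ne_zero g)
    have hx2 : (ι x₀)⁻¹ = x₀ := by
      apply inv_eq_of_mul_eq_one_right
      rw [hιx, ← pow_succ]
      exact hx1
    have hx3 : x₀ = algebraMap F L ((Algebra.norm F (g : L)) ^ (q - 1)) := by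
      rw [map_pow, hnorm, hx₀, hR, pow_mul]
    refine ⟨((Algebra.norm F (g : L)) ^ (q - 1)) ^ s, ?_⟩
    have hDR : (D₀ : Matrix (Fin n) (Fin n) F) ^ R = ((Algebra.norm F (g : L)) ^ (q - 1)) • 1 := by
      have h1 : (D₀ : Matrix (Fin n) (Fin n) F) ^ R = φ (x₀, (ι x₀)⁻¹) := hDk R
      have h2 : φ (x₀, x₀) = φ (algebraMap F L ((Algebra.norm F (g : L)) ^ (q - 1)), algebraMap F L ((Algebra.norm F (g : L)) ^ (q - 1))) := by
        rw [← hx3]
      rw [h1, hx2, h2, hφc]
    rw [pow_mul, hDR, _root_.smul_pow, one_pow]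
  · intro m c hc
    rw [hDk] at hc
    have h1 : φ ((g : L) ^ m, (ι ((g : L) ^ m))⁻¹) = φ (algebraMap F L c, algebraMap F L c) := by
      rw [hc, hφc]
    have h2 := hφ h1
    have h3 : (g : L) ^ m = algebraMap F L c := congrArg Prod.fst h2
    have h4 : (ι ((g : L) ^ m))⁻¹ = algebraMap F L c := congrArg Prod.snd h2
    have hg0 : (g : L) ^ m ≠ 0 := pow_ne_zero _ (Units.ne_zero g)
    have h5 : (g : L) ^ (m * (q + 1)) = 1 := by
      have h6 : (ι ((g : L) ^ m))⁻¹ = (g : L) ^ m := by rw [h4, h3]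
      have h7 : ι ((g : L) ^ m) * (g : L) ^ m = 1 := by
        have h8 : ι ((g : L) ^ m) ≠ 0 := (map_ne_zero ι).2 hg0
        nth_rewrite 2 [← h6]
        exact mul_inv_cancel₀ h8
      rw [hιx] at h7
      rw [pow_mul, pow_succ]
      exact h7
    have h6 := (hpow1 _).1 h5
    rw [← hRm] at h6
    exact Nat.dvd_of_mul_dvd_mul_right (by omega) h6
  · intro m
    rw [hDk, hdetφ]
    set x : L := (g : L) ^ m with hx
    have hx0 : x ≠ 0 := pow_ne_zero _ (Units.ne_zero g)
    set d := Algebra.norm F x with hd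
    have hd0 : d ≠ 0 := by
      intro h0
      rw [hd, Algebra.norm_eq_zero_iff] at h0
      exact hx0 h0
    have hinv : Algebra.norm F (ι x)⁻¹ * ρ d = 1 := by
      rw [← hnormι, ← map_mul, inv_mul_cancel₀ ((map_ne_zero ι).2 hx0), map_one]
    have h1 : d * Algebra.norm F (ι x)⁻¹ = 1 ↔ ρ d = d := by
      constructor
      · intro h
        have : (d * Algebra.norm F (ι x)⁻¹) * ρ d = d := by
          rw [mul_assoc, hinv, mul_one]
        rwa [h, one_mul] at this
      · intro h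
        rw [← h, mul_comm]
        exact hinv
    rw [h1, hρq]
    have h2 : d ^ q = d ↔ d ^ (q - 1) = 1 := by
      have hq' : d ^ q = d ^ (q - 1) * d := by
        rw [← pow_succ]
        congr 1
        omega
      rw [hq']
      constructor
      · intro h
        exact mul_right_cancel₀ hd0 (by rw [h, one_mul])
      · intro h
        rw [h, one_mul]
    rw [h2]
    have h3 : d ^ (q - 1) = 1 ↔ (g : L) ^ (m * R) = 1 := by
      have e : algebraMap F L d = x ^ R' := hnorm x
      have e2 : (g : L) ^ (m * R) = algebraMap F L (d ^ (q - 1)) := by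
        rw [map_pow, e, hx, ← pow_mul, ← pow_mul, hR]
      rw [e2, ← map_one (algebraMap F L)]
      exact ((algebraMap F L).injective.eq_iff).symm
    rw [h3, hpow1, ← hRm, mul_comm m]
    exact ⟨fun h => Nat.mul_dvd_mul_left R h, fun h => Nat.dvd_of_mul_dvd_mul_left hR0 h⟩
  · rintro G Y hGo hG hY ⟨P, hP, hgP, hPne, hPd, hM⟩ hcomm
    obtain ⟨t, ht⟩ := exists_root_ext (K := L) hP (by rw [hPd, hLf])
    have hPm : P.Monic := hgP.1
    have htmin : minpoly F t = P := (minpoly.eq_of_irreducible_of_monic hP ht hPm).symm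
    have ht0 : t ≠ 0 := by
      intro h0
      apply hgP.2
      have := Polynomial.coeff_zero_eq_aeval_zero' (A := L) P
      rw [← h0, ht] at this
      exact (map_eq_zero _).1 this
    obtain ⟨-, k, hk1, hk2⟩ := hcp2 t ht0
    rw [htmin] at hk1 hk2
    have hk : k = 1 := by
      rw [hPd] at hk1
      exact Nat.eq_of_mul_eq_mul_right (by omega : 0 < l) (by omega)
    rw [hk, pow_one, pow_one] at hk2
    have hss := Cfsg.Agent.H10.isSemisimple_of_coprime p G hGo
    obtain ⟨c', hc'⟩ := charpoly_pair ρ hρ (G : Matrix (Fin n) (Fin n) F) hG hss hP hgP hPne hM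
    have hc'1 : c' = 1 := by
      have h1 := Matrix.charpoly_natDegree_eq_dim (G : Matrix (Fin n) (Fin n) F)
      rw [hc', natDegree_pow, hgP.1.natDegree_mul (dag_monic hgP), dag_natDegree hgP, Fintype.card_fin, hPd] at h1
      have h2 : c' * (l + l) = 1 * (l + l) := by omega
      exact Nat.eq_of_mul_eq_mul_right (by omega) h2
    rw [hc'1, pow_one] at hc'
    let tu : Lˣ := Units.mk0 t ht0
    let Dt : GL (Fin n) F := Units.map (φ : L × L →* Matrix (Fin n) (Fin n) F) (τ tu)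
    have hDt : (Dt : Matrix (Fin n) (Fin n) F) = φ (t, (ι t)⁻¹) := by
      change φ ((τ tu : (L × L)ˣ) : L × L) = _
      rw [hτv]
      rfl
    have hDtinv : ((Dt⁻¹ : GL (Fin n) F) : Matrix (Fin n) (Fin n) F) = φ (t⁻¹, ι t) := by
      have h1 : Dt⁻¹ = Units.map (φ : L × L →* Matrix (Fin n) (Fin n) F) (τ tu⁻¹) := by
        simp only [Dt]
        rw [map_inv, map_inv]
      rw [h1]
      change φ ((τ tu⁻¹ : (L × L)ˣ) : L × L) = _
      rw [hτv, Units.val_inv_eq_inv_val]
      simp [tu]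
    have hDto : (orderOf Dt).Coprime p := by
      apply coprime_of_pow_eq_one hp _ (Fintype.card L - 1) _ (not_dvd_card_sub_one hp)
      have : tu ^ (Fintype.card L - 1) = 1 := by
        apply Units.ext
        simp only [Units.val_pow_eq_pow_val, Units.val_one]
        exact FiniteField.pow_card_sub_one_eq_one _ (Units.ne_zero tu)
      simp only [Dt]
      rw [← map_pow, ← map_pow, this, map_one, map_one]
    have hcc : (G : Matrix (Fin n) (Fin n) F).charpoly = (Dt : Matrix (Fin n) (Fin n) F).charpoly := by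
      rw [hDt, hk2, hc']
    obtain ⟨c, hc⟩ := isConj_iff.1 (Cfsg.Agent.H10.isConj_of_charpoly_eq p G Dt hGo hDto hcc)
    have hPne' : ¬ P ∣ dag ρ P := by
      intro hd
      have h1 : Associated P (dag ρ P) := hP.associated_of_dvd (dag_irreducible hρ hP hgP) hd
      exact hPne (eq_of_monic_of_associated hPm (dag_monic hgP) h1).symm
    obtain ⟨v, hv⟩ := cyclic_of_pair (G : Matrix (Fin n) (Fin n) F) hP (dag_irreducible hρ hP hgP)
      ((hP.coprime_iff_not_dvd).2 hPne') hM
    have hMd : (minpoly F (G : Matrix (Fin n) (Fin n) F)).natDegree = n := by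
      rw [hM, hgP.1.natDegree_mul (dag_monic hgP), dag_natDegree hgP, hPd, hn]
      ring
    obtain ⟨f, hf⟩ := commutant_of_cyclic (G : Matrix (Fin n) (Fin n) F) (Y : Matrix (Fin n) (Fin n) F) v hMd hv
      (by
        have := congrArg (fun u : GL (Fin n) F => (u : Matrix (Fin n) (Fin n) F)) hcomm.eq
        exact this)
    have hcG : (c : Matrix (Fin n) (Fin n) F) * (G : Matrix (Fin n) (Fin n) F) * ((c⁻¹ : GL (Fin n) F) : Matrix (Fin n) (Fin n) F) =
        φ (t, (ι t)⁻¹) := by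
      rw [← hDt, ← hc]
      simp only [Units.val_mul]
    have hYc : (c : Matrix (Fin n) (Fin n) F) * (Y : Matrix (Fin n) (Fin n) F) * ((c⁻¹ : GL (Fin n) F) : Matrix (Fin n) (Fin n) F) =
        φ (aeval t f, aeval (ι t)⁻¹ f) := by
      rw [hf, ← aeval_conj_gl, hcG, Polynomial.aeval_algHom_apply, aeval_prod_mk]
    have hGi : dg ρ (G : Matrix (Fin n) (Fin n) F) = ((G⁻¹ : GL (Fin n) F) : Matrix (Fin n) (Fin n) F) := by
      calc dg ρ (G : Matrix (Fin n) (Fin n) F) = dg ρ (G : Matrix (Fin n) (Fin n) F) * ((G : Matrix (Fin n) (Fin n) F) * ((G⁻¹ : GL (Fin n) F) : Matrix (Fin n) (Fin n) F)) := by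
            rw [← Units.val_mul, mul_inv_cancel, Units.val_one, mul_one]
        _ = _ := by rw [← mul_assoc, hG, one_mul]
    have hcGi : (c : Matrix (Fin n) (Fin n) F) * ((G⁻¹ : GL (Fin n) F) : Matrix (Fin n) (Fin n) F) * ((c⁻¹ : GL (Fin n) F) : Matrix (Fin n) (Fin n) F) =
        φ (t⁻¹, ι t) := by
      rw [← hDtinv, ← hc]
      simp only [← Units.val_mul]
      congr 1
      group
    have hdY : (c : Matrix (Fin n) (Fin n) F) * dg ρ (Y : Matrix (Fin n) (Fin n) F) * ((c⁻¹ : GL (Fin n) F) : Matrix (Fin n) (Fin n) F) =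
        φ (aeval t⁻¹ (f.map ρ), ι (aeval t f)) := by
      rw [hf, dg_aeval, hGi, ← aeval_conj_gl, hcGi, Polynomial.aeval_algHom_apply, aeval_prod_mk, aeval_map_frob ι hιF]
    have hcc1 : ((c⁻¹ : GL (Fin n) F) : Matrix (Fin n) (Fin n) F) * (c : Matrix (Fin n) (Fin n) F) = 1 := by
      rw [← Units.val_mul, inv_mul_cancel, Units.val_one]
    have hcc2 : (c : Matrix (Fin n) (Fin n) F) * ((c⁻¹ : GL (Fin n) F) : Matrix (Fin n) (Fin n) F) = 1 := by
      rw [← Units.val_mul, mul_inv_cancel, Units.val_one]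
    have hprod : φ (aeval t⁻¹ (f.map ρ), ι (aeval t f)) * φ (aeval t f, aeval (ι t)⁻¹ f) = 1 := by
      rw [← hdY, ← hYc]
      calc _ = (c : Matrix (Fin n) (Fin n) F) * dg ρ (Y : Matrix (Fin n) (Fin n) F) * (((c⁻¹ : GL (Fin n) F) : Matrix (Fin n) (Fin n) F) * (c : Matrix (Fin n) (Fin n) F)) * (Y : Matrix (Fin n) (Fin n) F) * ((c⁻¹ : GL (Fin n) F) : Matrix (Fin n) (Fin n) F) := by
            simp only [mul_assoc]
        _ = (c : Matrix (Fin n) (Fin n) F) * (dg ρ (Y : Matrix (Fin n) (Fin n) F) * (Y : Matrix (Fin n) (Fin n) F)) * ((c⁻¹ : GL (Fin n) F) : Matrix (Fin n) (Fin n) F) := by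
            rw [hcc1, mul_one]
            simp only [mul_assoc]
        _ = 1 := by
            rw [hY, mul_one, hcc2]
    have hrel : ι (aeval t f) * aeval (ι t)⁻¹ f = 1 := by
      rw [← map_mul] at hprod
      have h1 : φ ((aeval t⁻¹ (f.map ρ), ι (aeval t f)) * (aeval t f, aeval (ι t)⁻¹ f)) = φ 1 := by
        rw [hprod, map_one]
      exact congrArg Prod.snd (hφ h1)
    have ha0 : aeval t f ≠ 0 := by
      intro h0
      rw [h0, map_zero, zero_mul] at hrel
      exact zero_ne_one hrel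
    have hb : aeval (ι t)⁻¹ f = (ι (aeval t f))⁻¹ := by
      rw [inv_eq_of_mul_eq_one_right hrel]
    have hmem : Units.mk0 (aeval t f) ha0 ∈ Submonoid.powers g := mem_powers_iff_mem_zpowers.2 (hg _)
    obtain ⟨j, hj⟩ := hmem
    have hj' : (g : L) ^ j = aeval t f := by
      have := congrArg (fun u : Lˣ => (u : L)) hj
      simpa using this
    refine ⟨j, isConj_iff.2 ⟨c, ?_⟩⟩
    apply Units.ext
    rw [Units.val_mul, Units.val_mul, hYc, Units.val_pow_eq_pow_val, hDk, hj', hb]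

end Cfsg.Agent.H11.Spec
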