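import Cfsg.Agent.Lib.H11.Spec22

/-! The elements of order `q^(n/2) + (-1)^(n/2)` in `PSU_n(q)`, `n` even. -/

set_option autoImplicit false
set_option linter.unusedSectionVars false
set_option linter.unusedVariables false

namespace Cfsg.Agent.H11.Spec

open Polynomial Matrix Module Cfsg.Agent.H11.GUC

variable {F : Type*} [Field F] [Fintype F]

theorem scalar_of_conj {n : ℕ} {X Y : GL (Fin n) F} (h : IsConj X Y) (e : F)
    (hY : (Y : Matrix (Fin n) (Fin n) F) = e • 1) : (X : Matrix (Fin n) (Fin n) F) = e • 1 := by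
  obtain ⟨c, hc⟩ := isConj_iff.1 h
  have hX : X = c⁻¹ * Y * c := by
    rw [← hc]
    group
  rw [hX, Units.val_mul, Units.val_mul, hY, mul_smul_comm, mul_one, smul_mul_assoc, ← Units.val_mul, inv_mul_cancel, Units.val_one]

/-- the main statement -/
theorem psu_even_order {q : ℕ} (hF : Fintype.card F = q ^ 2) (hodd : Odd q) {n : ℕ} (hn : 4 ≤ n) (heven : Even n) :
    (∃ g : Cfsg.PSU n F q, orderOf g = if Even (n / 2) then q ^ (n / 2) + 1 else q ^ (n / 2) - 1) ↔
      padicValNat 2 (q + 1) < padicValNat 2 n := by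
  classical
  obtain ⟨p, hpc⟩ := CharP.exists F
  obtain ⟨k, hp, hqk⟩ := FiniteField.card F p
  haveI : Fact p.Prime := ⟨hp⟩
  have hcardF : 1 < Fintype.card F := Fintype.one_lt_card
  have hq1 : 1 < q := by
    by_contra hlt
    push Not at hlt
    have : q ^ 2 ≤ 1 := by
      calc q ^ 2 ≤ 1 ^ 2 := Nat.pow_le_pow_left hlt 2
        _ = 1 := by norm_num
    omega
  obtain ⟨a, -, hq⟩ : ∃ a, a ≤ (k : ℕ) ∧ q = p ^ a := by
    have h1 : q ∣ p ^ (k : ℕ) := by
      rw [← hqk, hF]
      exact dvd_pow_self _ (by norm_num)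
    exact (Nat.dvd_prime_pow hp).1 h1
  have ha : 1 ≤ a := by
    rcases Nat.eq_zero_or_pos a with h | h
    · rw [h, pow_zero] at hq
      omega
    · exact h
  obtain ⟨ρ, hρq, hρ, hne⟩ := Cfsg.Agent.H11.GUC.setup (q := q) hF
  obtain ⟨l, hl⟩ := heven
  have hl2 : n / 2 = l := by omega
  rw [hl2]
  have hn' : n = 2 * l := by omega
  have hl0 : 1 ≤ l := by omega
  obtain ⟨D₀, hcop, hdag, h1, h2, h3, h4⟩ := torus_even_all hρq hρ hne hF hq ha hq1 hl0 hn'
  obtain ⟨S, B, hB, hSB, hB0, hS, hcopB⟩ := su_geom hq1 hl0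
  rw [← hB]
  have hR : (q ^ n - 1) / (q + 1) = S * B := by
    have : q ^ n - 1 = (q + 1) * (S * B) := by
      rw [hn', ← hSB]
      simp
    rw [this]
    exact Nat.mul_div_cancel_left _ (by omega)
  rw [hR] at h1 h2
  have hBe : Even B := by
    rw [hB]
    split_ifs with he
    · exact hodd.pow.add_one
    · exact Nat.Odd.sub_odd hodd.pow odd_one
  have hn2 : 2 ≤ n := by omega
  constructor
  · rintro ⟨x, hx⟩
    by_contra hvw
    push Not at hvw
    obtain ⟨M, hM1, hM2⟩ := arith_neg (by omega : 0 < q + 1) hn' hl0 hB0 hBe hS hvw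
    obtain ⟨g, rfl⟩ := QuotientGroup.mk'_surjective _ x
    change orderOf (piU n F q g) = B at hx
    obtain ⟨r, hr, hr1, hr2, hr3, hr4⟩ := exists_ppd_su hq1 hodd (by omega : 2 ≤ l)
    rw [← hB] at hr1
    obtain ⟨B', hB'⟩ := hr1
    have hB'0 : 0 < B' := by
      rcases Nat.eq_zero_or_pos B' with h | h
      · rw [h] at hB'
        omega
      · exact h
    have hrp : ¬ p ∣ r := by
      intro h
      have h1 : p = r := (Nat.prime_dvd_prime_iff_eq hp hr).1 h
      subst h1
      apply hr2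
      rw [hq]
      exact dvd_pow_self _ (by omega)
    have hrF : (r : F) ≠ 0 := by
      intro h0
      exact hrp ((CharP.cast_eq_zero_iff F p r).1 h0)
    have hgB : piU n F q (g ^ B) = 1 := by
      rw [map_pow, ← hx, pow_orderOf_eq_one]
    obtain ⟨c, hc⟩ := (piU_eq_one_iff hF hn2 _).1 hgB
    rw [matS_pow] at hc
    have hcq : c ^ (q + 1) = 1 := by
      have h5 := su_dg ρ hρq hρ (g ^ B)
      rw [matS_pow, hc, dg_smul, dg_one, smul_mul_smul_comm, mul_one] at h5
      have h6 : (ρ c * c) • (1 : Matrix (Fin n) (Fin n) F) = (1 : F) • 1 := by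
        rw [h5, one_smul]
      have h7 : ρ c * c = 1 := by
        have h8 := congrFun (congrFun h6 ⟨0, by omega⟩) ⟨0, by omega⟩
        simpa using h8
      rw [pow_succ, ← hρq, h7]
    let t₀ : Cfsg.SU n F q := g ^ (B' * (q + 1))
    have ht₀ : matS t₀ = matS g ^ (B' * (q + 1)) := matS_pow g _
    have ht1 : matS t₀ ^ r = 1 := by
      rw [ht₀, ← pow_mul]
      have : B' * (q + 1) * r = B * (q + 1) := by
        rw [hB']
        ring
      rw [this, pow_mul, hc, _root_.smul_pow, one_pow, hcq, one_smul]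
    have ht2 : matS t₀ ≠ 1 := by
      intro h
      have h5 : t₀ = 1 := by
        apply Subtype.ext
        apply Subtype.ext
        exact h
      have h6 : piU n F q g ^ (B' * (q + 1)) = 1 := by
        rw [← map_pow]
        change piU n F q t₀ = 1
        rw [h5, map_one]
      have h7 := orderOf_dvd_of_pow_eq_one h6
      rw [hx, hB', mul_comm r] at h7
      have h8 : r ∣ q + 1 := Nat.dvd_of_mul_dvd_mul_left hB'0 h7
      have h9 : r ∣ q ^ (2 * 1) - 1 := by
        have h10 : q ^ (2 * 1) - 1 = (q + 1) * (q - 1) := by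
          obtain ⟨u, rfl⟩ : ∃ u, q = u + 1 := ⟨q - 1, by omega⟩
          simp only [Nat.add_sub_cancel]
          have : (u + 1) ^ (2 * 1) = (u + 1 + 1) * u + 1 := by ring
          omega
        rw [h10]
        exact h8.mul_right _
      have := hr3 1 (by omega) h9
      omega
    obtain ⟨R, hRm, hRi, hRd, hRr, hRN⟩ := exists_irr_factor_monic hr hrF _ ht1 ht2
    set b := matS t₀ with hb
    have hbdg : dg ρ b * b = 1 := su_dg ρ hρq hρ t₀
    rw [hF, ← pow_mul] at hRr
    have hlR : l ≤ R.natDegree := hr3 _ hRi.natDegree_pos hRr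
    -- the minimal polynomial
    haveI : Nonempty (Fin n) := ⟨⟨0, by omega⟩⟩
    have hint : IsIntegral F b := Algebra.IsIntegral.isIntegral b
    set M₀ := minpoly F b with hM₀
    have hMm : M₀.Monic := minpoly.monic hint
    have hMa : aeval b M₀ = 0 := minpoly.aeval F b
    have hM0 : M₀.coeff 0 ≠ 0 := by
      intro h0
      obtain ⟨g', hg'⟩ := Polynomial.X_dvd_iff.2 h0
      have hg0 : g' ≠ 0 := by
        rintro rfl
        rw [mul_zero] at hg'
        exact hMm.ne_zero hg'
      have h3' : aeval b g' = 0 := by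
        rw [hg', map_mul, aeval_X] at hMa
        have := congrArg (fun m => dg ρ b * m) hMa
        simpa only [← mul_assoc, hbdg, one_mul, mul_zero] using this
      have h4' : M₀ ∣ g' := minpoly.dvd F _ h3'
      have h5 := natDegree_le_of_dvd h4' hg0
      rw [hg', natDegree_X_mul hg0] at h5
      omega
    have hMg : GoodP M₀ := ⟨hMm, hM0⟩
    have hdM : dag ρ M₀ = M₀ := by
      have h5 : M₀ ∣ dag ρ M₀ := minpoly.dvd F _ (aeval_dag hρ b hbdg hMa)
      exact (eq_of_monic_of_dvd_of_natDegree_le hMm (dag_monic hMg) h5 (dag_natDegree hMg).le)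
    have hRg : GoodP R := good_of_dvd hMg hRm hRd
    have hRdag : dag ρ R ≠ R := by
      intro hd
      obtain ⟨h5, h6⟩ := selfdual_facts hρq hρ hne hF hq ha hRi hRg hd
      exact hr4 _ h5 (hRN _ h6)
    have hRi' : Irreducible (dag ρ R) := dag_irreducible hρ hRi hRg
    have hRnd : ¬ R ∣ dag ρ R := by
      intro hd
      have h5 : Associated R (dag ρ R) := hRi.associated_of_dvd hRi' hd
      exact hRdag (eq_of_monic_of_associated hRm (dag_monic hRg) h5).symm
    have hco : IsCoprime R (dag ρ R) := (hRi.coprime_iff_not_dvd).2 hRnd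
    have hd2 : dag ρ R ∣ M₀ := by
      obtain ⟨Q, hQ⟩ := hRd
      have h5 : dag ρ M₀ = dag ρ R * dag ρ Q := by rw [hQ, dag_mul]
      rw [← hdM, h5]
      exact Dvd.intro _ rfl
    have hdvd : R * dag ρ R ∣ M₀ := hco.mul_dvd hRd hd2
    have hMn : M₀.natDegree ≤ n := by
      have h5 := natDegree_le_of_dvd (Matrix.minpoly_dvd_charpoly b) (Matrix.charpoly_monic _).ne_zero
      rwa [Matrix.charpoly_natDegree_eq_dim, Fintype.card_fin] at h5
    have hdeg : (R * dag ρ R).natDegree = R.natDegree + R.natDegree := by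
      rw [hRg.1.natDegree_mul (dag_monic hRg), dag_natDegree hRg]
    have hMeq : M₀ = R * dag ρ R := by
      apply eq_of_monic_of_dvd_of_natDegree_le (hRm.mul (dag_monic hRg)) hMm hdvd _
      rw [hdeg]
      omega
    have hRl : R.natDegree = l := by
      have h5 : (R * dag ρ R).natDegree ≤ M₀.natDegree := by rw [hMeq]
      omega
    let G : GL (Fin n) F := Matrix.SpecialLinearGroup.toGL t₀.1
    let Y : GL (Fin n) F := Matrix.SpecialLinearGroup.toGL g.1
    have hGo : (orderOf G).Coprime p := by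
      apply coprime_of_pow_eq_one hp _ r _ hrp
      apply Units.ext
      rw [Units.val_pow_eq_pow_val]
      exact ht1
    have hcomm : Commute Y G := by
      have h5 : Commute g t₀ := (Commute.refl g).pow_right _
      have h6 : Commute g.1 t₀.1 := congrArg Subtype.val h5
      exact Commute.map h6 Matrix.SpecialLinearGroup.toGL
    obtain ⟨j, hj⟩ := h4 G Y hGo hbdg (su_dg ρ hρq hρ g) ⟨R, hRi, hRg, hRdag, hRl, hMeq⟩ hcomm
    have hdetc : (((D₀ ^ j : GL (Fin n) F)) : Matrix (Fin n) (Fin n) F).det = 1 := by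
      obtain ⟨c₁, hc₁⟩ := isConj_iff.1 hj
      rw [← hc₁, Units.val_mul, Units.val_mul, Matrix.det_units_conj]
      exact g.1.2
    rw [Units.val_pow_eq_pow_val] at hdetc
    obtain ⟨j', rfl⟩ := (h3 j).2 hdetc
    obtain ⟨d₁, hd₁⟩ := h1 ((q + 1) * M) hM2
    apply hM1
    rw [← hx]
    apply orderOf_dvd_of_pow_eq_one
    rw [← map_pow, piU_eq_one_iff hF hn2, matS_pow]
    refine ⟨d₁ ^ j', ?_⟩
    have hconj : IsConj (Y ^ M) ((D₀ ^ ((q + 1) * j')) ^ M) := IsConj.pow M hj
    have h5 := scalar_of_conj hconj (d₁ ^ j') (by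
      rw [Units.val_pow_eq_pow_val, Units.val_pow_eq_pow_val, ← pow_mul]
      have : (q + 1) * j' * M = (q + 1) * M * j' := by ring
      rw [this, pow_mul, hd₁, _root_.smul_pow, one_pow])
    rw [Units.val_pow_eq_pow_val] at h5
    exact h5
  · intro hvw
    obtain ⟨B₁, hB₁⟩ := conj_into_gu ρ hρq hρ hF D₀ hcop hdag
    let B₀ : GL (Fin n) F := B₁
    have hdet1 : ((B₀ ^ (q + 1) : GL (Fin n) F) : Matrix (Fin n) (Fin n) F).det = 1 := by
      obtain ⟨c₁, hc₁⟩ := isConj_iff.1 (IsConj.pow (q + 1) hB₁)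
      rw [show B₀ ^ (q + 1) = (B₁ : GL (Fin n) F) ^ (q + 1) from rfl, ← hc₁, Units.val_mul, Units.val_mul, Matrix.det_units_conj,
        Units.val_pow_eq_pow_val]
      exact (h3 (q + 1)).1 dvd_rfl
    let y : Matrix (Fin n) (Fin n) F := ((B₀ ^ (q + 1) : GL (Fin n) F) : Matrix (Fin n) (Fin n) F)
    have hydg : dg ρ y * y = 1 := by
      have h5 := (mem_gu_iff ρ hρq hρ ((B₁ ^ (q + 1) : ↥(Cfsg.GU n F q)) : GL (Fin n) F)).1 (B₁ ^ (q + 1)).2
      exact h5
    obtain ⟨w₀, hw₀⟩ := su_of_mat ρ hρq hρ y hdet1 hydg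
    have hdvd : B ∣ orderOf (piU n F q w₀) := by
      have h5 : piU n F q (w₀ ^ orderOf (piU n F q w₀)) = 1 := by
        rw [map_pow, pow_orderOf_eq_one]
      obtain ⟨c, hc⟩ := (piU_eq_one_iff hF hn2 _).1 h5
      rw [matS_pow, hw₀] at hc
      have h6 : IsConj (D₀ ^ ((q + 1) * orderOf (piU n F q w₀))) ((B₀ ^ (q + 1)) ^ orderOf (piU n F q w₀)) := by
        rw [pow_mul]
        exact IsConj.pow _ (IsConj.pow _ hB₁)
      have h7 := scalar_of_conj h6 c (by
        rw [Units.val_pow_eq_pow_val]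
        exact hc)
      rw [Units.val_pow_eq_pow_val] at h7
      exact arith_pos (by omega : 0 < q + 1) hn' hl0 hS hcopB hvw (h2 _ _ h7)
    exact exists_order_of_dvd _ hdvd

end Cfsg.Agent.H11.Spec
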