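import Mathlib
import Cfsg.Prelude.Def_Classical

set_option autoImplicit false

namespace Cfsg.Agent.H11

open Cfsg Matrix Module

lemma finrank_add_le_of_dotProduct_zero {F : Type*} [Field F] {k : ℕ} (K R : Submodule F (Fin k → F))
    (h : ∀ a ∈ K, ∀ b ∈ R, a ⬝ᵥ b = 0) : finrank F K + finrank F R ≤ k := by
  let e := dotProductEquiv F (Fin k)
  have h1 : R.map (e : (Fin k → F) →ₗ[F] Module.Dual F (Fin k → F)) ≤ K.dualAnnihilator := by
    rintro _ ⟨b, hb, rfl⟩
    rw [Submodule.mem_dualAnnihilator]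
    intro a ha
    change b ⬝ᵥ a = 0
    rw [dotProduct_comm]
    exact h a ha b hb
  have h2 := Submodule.finrank_mono h1
  have h3 : finrank F (R.map (e : (Fin k → F) →ₗ[F] Module.Dual F (Fin k → F))) = finrank F R :=
    LinearEquiv.finrank_map_eq e R
  have h4 := Subspace.finrank_add_finrank_dualAnnihilator_eq K
  simp only [finrank_fintype_fun_eq_card, Fintype.card_fin] at h4
  omega

/-- the key linear algebra: a totally singular subspace has dimension at most the number of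
hyperbolic pairs. -/
lemma finrank_le_of_perp {F U : Type*} [Field F] [AddCommGroup U] [Module F U] [FiniteDimensional F U]
    {k : ℕ} (x y : U →ₗ[F] (Fin k → F)) (hperp : ∀ u v, y v = 0 → x v ⬝ᵥ y u = 0)
    (hinj : ∀ v, y v = 0 → x v = 0 → v = 0) : finrank F U ≤ k := by
  have h1 := LinearMap.finrank_range_add_finrank_ker y
  let f := x.domRestrict (LinearMap.ker y)
  have h2 : finrank F (LinearMap.range f) = finrank F (LinearMap.ker y) := by
    apply LinearMap.finrank_range_of_inj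
    intro a b hab
    have hab' : x a = x b := hab
    have h5 : ((a : U) - b) = 0 := by
      apply hinj
      · rw [map_sub, LinearMap.mem_ker.1 a.2, LinearMap.mem_ker.1 b.2, sub_zero]
      · rw [map_sub, hab', sub_self]
    exact Subtype.ext (sub_eq_zero.1 h5)
  have h3 := finrank_add_le_of_dotProduct_zero (LinearMap.range f) (LinearMap.range y) (by
    rintro _ ⟨v, rfl⟩ _ ⟨u, rfl⟩
    exact hperp u v v.2)
  omega

/-- A totally singular subspace for `Σ x_i y_i + h(z)` (h anisotropic) has dimension at most `k`. -/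
lemma finrank_ts_le_minus {F : Type*} [Field F] {k : ℕ} (a c : F)
    (hac : ∀ z₁ z₂ : F, z₁ ^ 2 + a * z₁ * z₂ + c * z₂ ^ 2 = 0 → z₁ = 0 ∧ z₂ = 0)
    (U : Submodule F ((Fin k ⊕ Fin k) ⊕ Fin 2 → F))
    (hU : ∀ u ∈ U, Cfsg.quadFormMinus k F a c u = 0) : finrank F U ≤ k := by
  let x : U →ₗ[F] (Fin k → F) :=
    (LinearMap.funLeft F F (fun i : Fin k => (Sum.inl (Sum.inl i) : (Fin k ⊕ Fin k) ⊕ Fin 2))).comp U.subtype
  let y : U →ₗ[F] (Fin k → F) :=
    (LinearMap.funLeft F F (fun i : Fin k => (Sum.inl (Sum.inr i) : (Fin k ⊕ Fin k) ⊕ Fin 2))).comp U.subtype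
  have hx : ∀ u i, x u i = (u : (Fin k ⊕ Fin k) ⊕ Fin 2 → F) (Sum.inl (Sum.inl i)) := fun _ _ => rfl
  have hy : ∀ u i, y u i = (u : (Fin k ⊕ Fin k) ⊕ Fin 2 → F) (Sum.inl (Sum.inr i)) := fun _ _ => rfl
  have hz : ∀ v : U, y v = 0 → (v : (Fin k ⊕ Fin k) ⊕ Fin 2 → F) (Sum.inr 0) = 0 ∧
      (v : (Fin k ⊕ Fin k) ⊕ Fin 2 → F) (Sum.inr 1) = 0 := by
    intro v hv
    have h0 := hU v v.2
    simp only [Cfsg.quadFormMinus] at h0
    have : ∀ i, (v : (Fin k ⊕ Fin k) ⊕ Fin 2 → F) (Sum.inl (Sum.inr i)) = 0 := fun i => by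
      rw [← hy, hv]; rfl
    simp only [this, mul_zero, Finset.sum_const_zero, zero_add] at h0
    exact hac _ _ h0
  apply finrank_le_of_perp x y
  · intro u v hv
    obtain ⟨hz0, hz1⟩ := hz v hv
    have h1 := hU u u.2
    have h2 := hU v v.2
    have h3 := hU (u + v) (u + v).2
    simp only [Cfsg.quadFormMinus, Submodule.coe_add, Pi.add_apply] at h1 h2 h3
    have hy0 : ∀ i, (v : (Fin k ⊕ Fin k) ⊕ Fin 2 → F) (Sum.inl (Sum.inr i)) = 0 := fun i => by
      rw [← hy, hv]; rfl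
    simp only [hz0, hz1, hy0, add_zero, mul_zero] at h2 h3
    simp only [dotProduct, hx, hy]
    have : ∑ i, (u : (Fin k ⊕ Fin k) ⊕ Fin 2 → F) (Sum.inl (Sum.inl i)) * (u : (Fin k ⊕ Fin k) ⊕ Fin 2 → F) (Sum.inl (Sum.inr i)) + ∑ i, (v : (Fin k ⊕ Fin k) ⊕ Fin 2 → F) (Sum.inl (Sum.inl i)) * (u : (Fin k ⊕ Fin k) ⊕ Fin 2 → F) (Sum.inl (Sum.inr i))  = ∑ i, ((u : (Fin k ⊕ Fin k) ⊕ Fin 2 → F) (Sum.inl (Sum.inl i)) + (v : (Fin k ⊕ Fin k) ⊕ Fin 2 → F) (Sum.inl (Sum.inl i))) * (u : (Fin k ⊕ Fin k) ⊕ Fin 2 → F) (Sum.inl (Sum.inr i)) := by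
      rw [← Finset.sum_add_distrib]
      apply Finset.sum_congr rfl
      intros; ring
    rw [← this] at h3
    linear_combination h3 - h1
  · intro v hv hxv
    obtain ⟨hz0, hz1⟩ := hz v hv
    apply Subtype.ext
    funext i
    rcases i with (i | i) | i
    · rw [← hx, hxv]; rfl
    · rw [← hy, hv]; rfl
    · fin_cases i
      · exact hz0
      · exact hz1

/-- A totally singular subspace for `Σ x_i y_i` has dimension at most `k`. -/
lemma finrank_ts_le_plus {F : Type*} [Field F] {k : ℕ}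
    (U : Submodule F (Fin k ⊕ Fin k → F))
    (hU : ∀ u ∈ U, Cfsg.quadFormPlus k F u = 0) : finrank F U ≤ k := by
  let x : U →ₗ[F] (Fin k → F) :=
    (LinearMap.funLeft F F (fun i : Fin k => (Sum.inl i : Fin k ⊕ Fin k))).comp U.subtype
  let y : U →ₗ[F] (Fin k → F) :=
    (LinearMap.funLeft F F (fun i : Fin k => (Sum.inr i : Fin k ⊕ Fin k))).comp U.subtype
  have hx : ∀ u i, x u i = (u : Fin k ⊕ Fin k → F) (Sum.inl i) := fun _ _ => rfl
  have hy : ∀ u i, y u i = (u : Fin k ⊕ Fin k → F) (Sum.inr i) := fun _ _ => rfl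
  apply finrank_le_of_perp x y
  · intro u v hv
    have h1 := hU u u.2
    have h3 := hU (u + v) (u + v).2
    simp only [Cfsg.quadFormPlus, Submodule.coe_add, Pi.add_apply] at h1 h3
    have hy0 : ∀ i, (v : Fin k ⊕ Fin k → F) (Sum.inr i) = 0 := fun i => by
      rw [← hy, hv]; rfl
    simp only [hy0, add_zero] at h3
    simp only [dotProduct, hx, hy]
    have : ∑ i, (u : Fin k ⊕ Fin k → F) (Sum.inl i) * (u : Fin k ⊕ Fin k → F) (Sum.inr i) + ∑ i, (v : Fin k ⊕ Fin k → F) (Sum.inl i) * (u : Fin k ⊕ Fin k → F) (Sum.inr i)  = ∑ i, ((u : Fin k ⊕ Fin k → F) (Sum.inl i) + (v : Fin k ⊕ Fin k → F) (Sum.inl i)) * (u : Fin k ⊕ Fin k → F) (Sum.inr i) := by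
      rw [← Finset.sum_add_distrib]
      apply Finset.sum_congr rfl
      intros; ring
    rw [← this] at h3
    linear_combination h3 - h1
  · intro v hv hxv
    apply Subtype.ext
    funext i
    rcases i with i | i
    · rw [← hx, hxv]; rfl
    · rw [← hy, hv]; rfl

lemma exists_ts_plus (F : Type*) [Field F] (m : ℕ) :
    ∃ U : Submodule F (Fin m ⊕ Fin m → F), (∀ u ∈ U, Cfsg.quadFormPlus m F u = 0) ∧ finrank F U = m := by
  let f : (Fin m → F) →ₗ[F] (Fin m ⊕ Fin m → F) :=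
    { toFun := fun v => Sum.elim v 0
      map_add' := fun a b => by ext i; cases i <;> simp
      map_smul' := fun a b => by ext i; cases i <;> simp }
  refine ⟨LinearMap.range f, ?_, ?_⟩
  · rintro _ ⟨v, rfl⟩
    simp [Cfsg.quadFormPlus, f]
  · rw [LinearMap.finrank_range_of_inj]
    · simp
    · intro a b hab
      funext i
      exact congrFun hab (Sum.inl i)

lemma exists_ts_minus (F : Type*) [Field F] (m : ℕ) (a c : F) :
    ∃ U : Submodule F ((Fin m ⊕ Fin m) ⊕ Fin 2 → F), (∀ u ∈ U, Cfsg.quadFormMinus m F a c u = 0) ∧ finrank F U = m := by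
  let f : (Fin m → F) →ₗ[F] ((Fin m ⊕ Fin m) ⊕ Fin 2 → F) :=
    { toFun := fun v => Sum.elim (Sum.elim v 0) 0
      map_add' := fun a b => by ext i; rcases i with (i | i) | i <;> simp
      map_smul' := fun a b => by ext i; rcases i with (i | i) | i <;> simp }
  refine ⟨LinearMap.range f, ?_, ?_⟩
  · rintro _ ⟨v, rfl⟩
    simp [Cfsg.quadFormMinus, f]
  · rw [LinearMap.finrank_range_of_inj]
    · simp
    · intro a b hab
      funext i
      exact congrFun hab (Sum.inl (Sum.inl i))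

end Cfsg.Agent.H11
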